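import Cfsg.Agent.H79.R3Defs

/-!
# Counting the points over a subspace
-/

set_option autoImplicit false
set_option linter.unusedSectionVars false

namespace Cfsg.Agent.H38.R3Cov
open Cfsg.Agent.H79.R3 Module

universe u

theorem br_zero (q : ℕ) : br q 0 = 0 := by simp [br]
theorem br_one (q : ℕ) : br q 1 = 1 := by simp [br]
theorem br_two (q : ℕ) : br q 2 = q + 1 := by simp [br, Finset.sum_range_succ, add_comm]
theorem br_three (q : ℕ) : br q 3 = q ^ 2 + q + 1 := by
  simp [br, Finset.sum_range_succ]; ring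
theorem br_succ (q k : ℕ) : br q (k + 1) = br q k + q ^ k := Finset.sum_range_succ _ _
theorem br_succ' (q k : ℕ) : br q (k + 1) = q * br q k + 1 := by
  simp [br, Finset.sum_range_succ', Finset.mul_sum, pow_succ']

/-- `br q k * (q - 1) + 1 = q ^ k`, without subtraction -/
theorem br_mul (p k : ℕ) : br (p + 1) k * p + 1 = (p + 1) ^ k := by
  induction k with
  | zero => simp [br]
  | succ k ih => rw [br_succ, add_mul, add_right_comm, ih]; ring

theorem br_mul' {q : ℕ} (hq : 1 ≤ q) (k : ℕ) : br q k * (q - 1) + 1 = q ^ k := by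
  obtain ⟨p, rfl⟩ := Nat.exists_eq_add_of_le' hq
  simpa using br_mul p k

section
variable {F V : Type u} [Field F] [AddCommGroup V] [Module F V]

theorem finSub [Finite V] : Finite (Submodule F V) :=
  Finite.of_injective _ SetLike.coe_injective

theorem finEquiv [Finite V] : Finite (V ≃ₗ[F] V) :=
  Finite.of_injective _ DFunLike.coe_injective

theorem two_le_card (F : Type u) [Field F] [Finite F] : 2 ≤ Nat.card F :=
  Finite.one_lt_card

theorem ncard_sub [Finite F] [Finite V] (A : Submodule F V) :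
    (A : Set V).ncard = Nat.card F ^ dm A := by
  rw [← Nat.card_coe_set_eq]
  exact Module.natCard_eq_pow_finrank (K := F) (V := A)

variable [FiniteDimensional F V]

theorem dm_sup_span {A : Submodule F V} {v : V} (hv : v ∉ A) : dm (A ⊔ F ∙ v) = dm A + 1 :=
  Submodule.finrank_sup_span_singleton hv

theorem dm_mono {A B : Submodule F V} (h : A ≤ B) : dm A ≤ dm B := Submodule.finrank_mono h

theorem dm_lt {A B : Submodule F V} (h : A < B) : dm A < dm B :=
  Submodule.finrank_lt_finrank_of_lt h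

theorem eq_of_dm {A B : Submodule F V} (h : A ≤ B) (e : dm B ≤ dm A) : A = B :=
  Submodule.eq_of_le_of_finrank_le h e

theorem dm_sup_inf (A B : Submodule F V) : dm (A ⊔ B) + dm (A ⊓ B) = dm A + dm B :=
  Submodule.finrank_sup_add_finrank_inf_eq A B

theorem sup_span_mem {A D : Submodule F V} (h : A ≤ D) {v : V} (hD : v ∈ D) (hA : v ∉ A) :
    A ⊔ F ∙ v ∈ Cov A D :=
  ⟨le_sup_left, sup_le h ((Submodule.span_singleton_le_iff_mem _ _).2 hD), dm_sup_span hA⟩

/-- a point over `A` is spanned over `A` by any of its vectors outside `A` -/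
theorem eq_sup_span {A P : Submodule F V} (h : A ≤ P) (e : dm P = dm A + 1) {v : V} (hP : v ∈ P)
    (hA : v ∉ A) : A ⊔ F ∙ v = P :=
  eq_of_dm (sup_span_mem h hP hA).2.1 (by rw [e, dm_sup_span hA])

theorem exists_vec {A D : Submodule F V} (h : dm A < dm D) : ∃ v ∈ D, v ∉ A := by
  by_contra hn
  push Not at hn
  exact absurd (dm_mono (A := D) (B := A) hn) (by omega)

/-- a point over `A` inside `D` -/
theorem exists_cov {A D : Submodule F V} (h : A ≤ D) (e : dm A < dm D) : ∃ P, P ∈ Cov A D := by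
  obtain ⟨v, hD, hA⟩ := exists_vec e
  exact ⟨_, sup_span_mem h hD hA⟩

theorem exists_cov' {A D : Submodule F V} (h : A < D) : ∃ P, P ∈ Cov A D :=
  exists_cov h.le (dm_lt h)

/-- a point over `A` inside `D` and not inside `B` -/
theorem exists_cov_not {A D B : Submodule F V} (h : A ≤ D) (hB : A ≤ B) (e : dm B < dm D) :
    ∃ P ∈ Cov A D, ¬ P ≤ B := by
  obtain ⟨v, hD, hA⟩ := exists_vec e
  exact ⟨_, sup_span_mem h hD (fun k => hA (hB k)), fun k =>
    hA (k (Submodule.mem_sup_right (Submodule.mem_span_singleton_self v)))⟩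

/-- subspaces of every dimension between `A` and `D` -/
theorem exists_between {A D : Submodule F V} (h : A ≤ D) {k : ℕ} (h1 : dm A ≤ k) (h2 : k ≤ dm D) :
    ∃ B, A ≤ B ∧ B ≤ D ∧ dm B = k := by
  obtain ⟨j, rfl⟩ := Nat.exists_eq_add_of_le h1
  induction j with
  | zero => exact ⟨A, le_rfl, h, rfl⟩
  | succ j ih =>
    obtain ⟨B, b1, b2, b3⟩ := ih (by omega) (by omega)
    obtain ⟨P, p1, p2, p3⟩ := exists_cov b2 (by omega)
    exact ⟨P, b1.trans p1, p2, by omega⟩

/-- a point over `A` meets a subspace over `A` that does not contain it in `A` -/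
theorem inf_eq_of_not_le {A P B : Submodule F V} (h : A ≤ P) (e : dm P = dm A + 1) (hB : A ≤ B)
    (hn : ¬ P ≤ B) : P ⊓ B = A := by
  have h1 : P ⊓ B < P := lt_of_le_of_ne inf_le_left fun k => hn (inf_eq_left.1 k)
  have := dm_lt h1
  exact (eq_of_dm (le_inf h hB) (by omega)).symm

theorem dm_sup_of_not_le {A P B : Submodule F V} (h : A ≤ P) (e : dm P = dm A + 1) (hB : A ≤ B)
    (hn : ¬ P ≤ B) : dm (P ⊔ B) = dm B + 1 := by
  have := dm_sup_inf P B
  rw [inf_eq_of_not_le h e hB hn] at this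
  omega

theorem not_le_of_ne {P Q : Submodule F V} (e : dm P = dm Q) (hn : P ≠ Q) : ¬ P ≤ Q :=
  fun k => hn (eq_of_dm k e.ge)

/-- two different points over `A` meet in `A` -/
theorem inf_eq_of_ne {A P Q : Submodule F V} (hP : A ≤ P) (eP : dm P = dm A + 1) (hQ : A ≤ Q)
    (eQ : dm Q = dm A + 1) (hn : P ≠ Q) : P ⊓ Q = A :=
  inf_eq_of_not_le hP eP hQ (not_le_of_ne (eP.trans eQ.symm) hn)

/-- two different points over `A` span a line over `A` -/
theorem dm_sup_of_ne {A P Q : Submodule F V} (hP : A ≤ P) (eP : dm P = dm A + 1) (hQ : A ≤ Q)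
    (eQ : dm Q = dm A + 1) (hn : P ≠ Q) : dm (P ⊔ Q) = dm A + 2 := by
  rw [dm_sup_of_not_le hP eP hQ (not_le_of_ne (eP.trans eQ.symm) hn), eQ]

/-- a line over `A` through two different points over `A` is their join -/
theorem sup_eq_line {A P Q L : Submodule F V} (hP : A ≤ P) (eP : dm P = dm A + 1) (hQ : A ≤ Q)
    (eQ : dm Q = dm A + 1) (hn : P ≠ Q) (h1 : P ≤ L) (h2 : Q ≤ L) (eL : dm L = dm A + 2) :
    P ⊔ Q = L :=
  eq_of_dm (sup_le h1 h2) (by rw [eL, dm_sup_of_ne hP eP hQ eQ hn])

/-- two different hyperplanes of `E` meet in codimension two -/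
theorem dm_inf_of_ne {L M E : Submodule F V} (hL : L ≤ E) (hM : M ≤ E) (eL : dm L + 1 = dm E)
    (eM : dm M + 1 = dm E) (hn : L ≠ M) : dm (L ⊓ M) + 2 = dm E := by
  have h1 : M < L ⊔ M := lt_of_le_of_ne le_sup_right fun k =>
    not_le_of_ne (by omega) hn (k ▸ le_sup_left)
  have h2 := dm_lt h1
  have h3 := dm_mono (sup_le hL hM)
  have := dm_sup_inf L M
  omega

end

theorem cov : CovStmt.{u} := by
  intro F V _ _ _ _ _ A D h
  classical
  have : Finite (Submodule F V) := finSub
  have : FiniteDimensional F V := Module.Finite.of_finite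
  have := Fintype.ofFinite V
  obtain ⟨k, hk⟩ := Nat.exists_eq_add_of_le (dm_mono h)
  obtain ⟨p, hp⟩ := Nat.exists_eq_add_of_le' (two_le_card F)
  have cd : ∀ B : Submodule F V, A ≤ B → (Finset.univ.filter fun v => v ∈ B ∧ v ∉ A).card +
      Nat.card F ^ dm A = Nat.card F ^ dm B := by
    intro B hB
    rw [← ncard_sub, ← ncard_sub, ← Set.ncard_sdiff_add_ncard_of_subset (s := (A : Set V))
      (t := (B : Set V)) hB, ← Set.ncard_coe_finset]
    congr 2
    ext v
    simp
  have h1 : (Finset.univ.filter fun v => v ∈ D ∧ v ∉ A).card =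
      ∑ P ∈ (Cov A D).toFinite.toFinset,
        ((Finset.univ.filter fun v => v ∈ D ∧ v ∉ A).filter fun v => A ⊔ F ∙ v = P).card := by
    refine Finset.card_eq_sum_card_fiberwise fun v hv => ?_
    simp only [Finset.coe_filter, Finset.mem_univ, true_and, Set.mem_ofPred_eq] at hv
    simpa using sup_span_mem h hv.1 hv.2
  have h2 : ∀ P ∈ (Cov A D).toFinite.toFinset,
      ((Finset.univ.filter fun v => v ∈ D ∧ v ∉ A).filter fun v => A ⊔ F ∙ v = P).card =
        Nat.card F ^ dm A * (p + 1) := by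
    intro P hP
    obtain ⟨p1, p2, p3⟩ := (Set.Finite.mem_toFinset _).1 hP
    have e : ((Finset.univ.filter fun v => v ∈ D ∧ v ∉ A).filter fun v => A ⊔ F ∙ v = P) =
        Finset.univ.filter fun v => v ∈ P ∧ v ∉ A := by
      ext v
      simp only [Finset.mem_filter, Finset.mem_univ, true_and]
      exact ⟨fun ⟨⟨_, a⟩, b⟩ => ⟨b ▸ Submodule.mem_sup_right (Submodule.mem_span_singleton_self v), a⟩,
        fun ⟨a, b⟩ => ⟨⟨p2 a, b⟩, eq_sup_span p1 p3 a b⟩⟩
    have := cd P p1
    rw [p3, pow_succ] at this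
    rw [e]
    have e2 : Nat.card F ^ dm A * Nat.card F = Nat.card F ^ dm A * (p + 1) + Nat.card F ^ dm A := by
      rw [hp]; ring
    omega
  rw [Finset.sum_congr rfl h2, Finset.sum_const, smul_eq_mul, ← Set.ncard_eq_toFinset_card] at h1
  have h3 := cd D h
  rw [h1, hk, pow_add] at h3
  rw [hk, Nat.add_sub_cancel_left]
  have h4 := br_mul (p + 1) k
  rw [show p + 1 + 1 = Nat.card F by omega] at h4
  rw [← h4] at h3
  have h5 : 0 < Nat.card F ^ dm A * (p + 1) := by rw [hp]; positivity
  refine Nat.eq_of_mul_eq_mul_right h5 ?_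
  linarith

section
variable {F V : Type u} [Field F] [Finite F] [AddCommGroup V] [Module F V] [Finite V]

theorem ncard_cov {A D : Submodule F V} (h : A ≤ D) {k : ℕ} (e : dm D = dm A + k) :
    (Cov A D).ncard = br (Nat.card F) k := by
  rw [cov F V A D h, e, Nat.add_sub_cancel_left]

/-- a line has `q + 1` points -/
theorem ncard_line {A L : Submodule F V} (h : A ≤ L) (e : dm L = dm A + 2) :
    (Cov A L).ncard = Nat.card F + 1 := by rw [ncard_cov h e, br_two]

/-- a plane has `q² + q + 1` points -/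
theorem ncard_plane {A E : Submodule F V} (h : A ≤ E) (e : dm E = dm A + 3) :
    (Cov A E).ncard = Nat.card F ^ 2 + Nat.card F + 1 := by rw [ncard_cov h e, br_three]

theorem cnt_add_not (s : Submodule F V → Prop) (A D : Submodule F V) :
    cnt s A D + cnt (fun P => ¬ s P) A D = (Cov A D).ncard := by
  have : Finite (Submodule F V) := finSub
  unfold cnt
  rw [← Set.ncard_union_eq]
  · congr 1
    ext P
    simp only [Set.mem_union, Set.mem_ofPred_eq]
    tauto
  · exact Set.disjoint_left.2 fun P a b => b.2 a.2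

theorem cnt_le (s : Submodule F V → Prop) (A D : Submodule F V) : cnt s A D ≤ (Cov A D).ncard := by
  rw [← cnt_add_not s]; omega

theorem cnt_eq_zero {s : Submodule F V → Prop} {A D : Submodule F V} :
    cnt s A D = 0 ↔ ∀ P ∈ Cov A D, ¬ s P := by
  have : Finite (Submodule F V) := finSub
  unfold cnt
  rw [Set.ncard_eq_zero, Set.eq_empty_iff_forall_notMem]
  exact ⟨fun h P a b => h P ⟨a, b⟩, fun h P a => h P a.1 a.2⟩

theorem cnt_eq_all {s : Submodule F V → Prop} {A D : Submodule F V} :
    cnt s A D = (Cov A D).ncard ↔ ∀ P ∈ Cov A D, s P := by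
  have := cnt_add_not s A D
  have e := cnt_eq_zero (s := fun P => ¬ s P) (A := A) (D := D)
  simp only [not_not] at e
  rw [← e]
  omega

end

end Cfsg.Agent.H38.R3Cov
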