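import Cfsg.Agent.H42.PcDefs
import Cfsg.Agent.S0205

/-! Project PC: the local configuration in the normalizer of a Sylow subgroup. -/

set_option autoImplicit false
set_option linter.unusedVariables false

namespace Cfsg.Agent.H38.PcLoc

open Subgroup Cfsg.Agent.H42.Pc
open scoped commutatorElement

universe u

theorem mem_of_sq {G : Type u} [Group G] {S T : Subgroup G} (h : Syl S T) {y : G}
    (hN : y ∈ normalizer (T : Set G)) (hS : y ∈ S) (h2 : y * y ∈ T) : y ∈ T := by
  let M : Subgroup G := normalizer (T : Set G) ⊓ S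
  have hTM : T ≤ M := le_inf le_normalizer h.1
  have : (T.subgroupOf M).Normal := normal_subgroupOf_of_le_normalizer inf_le_left
  have h1 : ((⟨y, hN, hS⟩ : M) ^ (T.subgroupOf M).index) ∈ T.subgroupOf M := pow_index_mem _ _
  have h3 : Odd (T.relIndex M) := by
    have h4 := h.2.2
    rw [← relIndex_mul_relIndex T M S hTM inf_le_right] at h4
    exact (Nat.odd_mul.1 h4).1
  obtain ⟨k, hk⟩ := h3
  have h5 : y ^ (2 * k + 1) ∈ T := by
    rw [← hk]
    exact h1
  rw [pow_succ, pow_mul, pow_two] at h5
  exact (T.mul_mem_cancel_left (T.pow_mem h2 k)).1 h5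

theorem loc (ord : OrdStmt.{u}) (nc : NcStmt.{u}) (tr : TrStmt.{u}) : LocStmt.{u} := by
  intro G _ _ pp S _ T hs na syl
  obtain ⟨h1, h2⟩ := ord G pp S
  have ev : Even (Nat.card S) := by
    by_contra h
    have := Cfsg.Agent.S0205.result (Nat.not_even_iff_odd.1 h)
    exact na ⟨⟨IsSimpleGroup.comm_iff_isSolvable.2 this⟩⟩
  have pf : ⁅S, S⁆ = S := by
    rcases (inferInstance : (commutator S).Normal).eq_bot_or_eq_top with e | e
    · refine absurd ⟨⟨fun a b => ?_⟩⟩ na
      have : ⁅a, b⁆ ∈ commutator S := commutator_mem_commutator (mem_top a) (mem_top b)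
      rw [e, mem_bot] at this
      exact commutatorElement_eq_one_iff_mul_comm.1 this
    · rw [← map_subtype_commutator, e, ← MonoidHom.range_eq_map, range_subtype]
  have nS : ∀ y : normalizer (T : Set G), y ∉ T.subgroupOf (normalizer (T : Set G)) →
      y * y ∈ T.subgroupOf (normalizer (T : Set G)) → (y : G) ∉ S := fun y a b c =>
    a (mem_of_sq syl y.2 c b)
  refine ⟨normal_in_normalizer, syl.2.1.of_equiv (subgroupOfEquivOfLe le_normalizer).symm,
    ?_, ?_, ?_⟩
  · intro y y' a a' b b'
    obtain ⟨n, hn, e⟩ := nc G S T h1 syl y y.2 y' y'.2 (nS y a b) (nS y' a' b') b b'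
    refine ⟨⟨n, hn⟩, map_injective (normalizer (T : Set G)).subtype_injective ?_⟩
    rw [MonoidHom.map_zpowers, MonoidHom.map_zpowers]
    exact e
  · intro y e
    have e' : (y : G) * y = 1 := congrArg Subtype.val e
    exact mem_of_sq syl y.2 (h2 ev y e') (e' ▸ one_mem T)
  · intro y a b
    obtain ⟨w, hw, e⟩ := tr G S T y pf syl y.2 (nS y a b) b
    refine ⟨⟨w, le_normalizer hw⟩, hw, ?_⟩
    have m : (Dr (T.subgroupOf (normalizer (T : Set G))) y).map (normalizer (T : Set G)).subtype =
        Dr T y := by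
      rw [Dr, Dr, map_commutator, H42.Pc.Ext, H42.Pc.Ext, Subgroup.map_sup, MonoidHom.map_zpowers,
        map_subgroupOf_eq_of_le le_normalizer]
      rfl
    rw [← mem_map_iff_mem (normalizer (T : Set G)).subtype_injective, m]
    exact e

end Cfsg.Agent.H38.PcLoc
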