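import Mathlib

/-! Binary affine groups, part 1: reflections (elements with maximal fixed space). -/

set_option autoImplicit false
set_option linter.unusedSectionVars false

namespace Cfsg.Agent.H38.Bin

open Module

section Defs
variable (K V : Type*) {H : Type*} [Field K] [AddCommGroup V] [Module K V] [Group H]
  [DistribMulAction H V] [SMulCommClass H K V]

/-- `g - 1` as a linear map. -/
def dl (g : H) : V →ₗ[K] V := DistribSMul.toLinearMap K V g - LinearMap.id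

/-- fixed space -/
def Fx (g : H) : Submodule K V := LinearMap.ker (dl K V g)

/-- commutator space -/
def Dv (g : H) : Submodule K V := LinearMap.range (dl K V g)

/-- a reflection: nonidentity element with maximal fixed space -/
def Refl (r : H) : Prop := r ≠ 1 ∧ ∀ g : H, g ≠ 1 → Fx K V r ≤ Fx K V g → Fx K V g ≤ Fx K V r

end Defs

/-- the binary property of the affine group -/
def BinP (H V : Type*) [AddCommGroup V] [Group H] [DistribMulAction H V] : Prop :=
  ∀ (X : Set V) (f : V → V), (∀ x ∈ X, ∀ y ∈ X, ∃ h : H, h • (x - y) = f x - f y) →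
    ∃ (h : H) (b : V), ∀ x ∈ X, f x = h • x + b

variable {K V H : Type*} [Field K] [AddCommGroup V] [Module K V] [Group H]
  [DistribMulAction H V] [SMulCommClass H K V]

theorem dl_apply (g : H) (v : V) : dl K V g v = g • v - v := rfl

theorem mem_Fx {g : H} {v : V} : v ∈ Fx K V g ↔ g • v = v := by
  simp [Fx, LinearMap.mem_ker, dl_apply, sub_eq_zero]

theorem mem_Dv {g : H} {v : V} : v ∈ Dv K V g ↔ ∃ x, g • x - x = v := by
  simp [Dv, LinearMap.mem_range, dl_apply]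

theorem sub_mem_Dv (g : H) (x : V) : g • x - x ∈ Dv K V g := mem_Dv.2 ⟨x, rfl⟩

theorem rank_DF [FiniteDimensional K V] (g : H) :
    finrank K (Dv K V g) + finrank K (Fx K V g) = finrank K V :=
  LinearMap.finrank_range_add_finrank_ker _

theorem smul_ne_zero_of {g : H} {v : V} (hv : v ≠ 0) : g • v ≠ 0 := fun h =>
  hv (by rw [← inv_smul_smul g v, h, smul_zero])

theorem Fx_one : Fx K V (1 : H) = ⊤ := by
  ext v; simp [mem_Fx]

theorem Fx_inv (g : H) : Fx K V g⁻¹ = Fx K V g := by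
  ext v; simp only [mem_Fx]
  exact ⟨fun h => by rw [inv_smul_eq_iff] at h; exact h.symm, fun h => by rw [inv_smul_eq_iff]; exact h.symm⟩

theorem Dv_inv_le (g : H) : Dv K V g⁻¹ ≤ Dv K V g := by
  intro v hv
  obtain ⟨x, rfl⟩ := mem_Dv.1 hv
  exact mem_Dv.2 ⟨-(g⁻¹ • x), by simp [smul_neg]; abel⟩

theorem Dv_inv (g : H) : Dv K V g⁻¹ = Dv K V g :=
  le_antisymm (Dv_inv_le g) (by simpa using Dv_inv_le (K := K) (V := V) g⁻¹)

theorem smul_mem_Fx_conj {g r : H} {v : V} (hv : v ∈ Fx K V r) : g • v ∈ Fx K V (g * r * g⁻¹) := by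
  rw [mem_Fx] at *; simp [mul_smul, hv]

theorem smul_mem_Dv_conj {g r : H} {v : V} (hv : v ∈ Dv K V r) : g • v ∈ Dv K V (g * r * g⁻¹) := by
  obtain ⟨x, rfl⟩ := mem_Dv.1 hv
  exact mem_Dv.2 ⟨g • x, by simp [mul_smul, smul_sub]⟩

theorem mem_Fx_conj {g r : H} {v : V} : v ∈ Fx K V (g * r * g⁻¹) ↔ g⁻¹ • v ∈ Fx K V r := by
  refine ⟨fun h => ?_, fun h => by simpa using smul_mem_Fx_conj (g := g) h⟩
  simpa [mul_assoc] using smul_mem_Fx_conj (g := g⁻¹) h

theorem mem_Dv_conj {g r : H} {v : V} : v ∈ Dv K V (g * r * g⁻¹) ↔ g⁻¹ • v ∈ Dv K V r := by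
  refine ⟨fun h => ?_, fun h => by simpa using smul_mem_Dv_conj (g := g) h⟩
  simpa [mul_assoc] using smul_mem_Dv_conj (g := g⁻¹) h

theorem Fx_mul_le (a b : H) : Fx K V a ⊓ Fx K V b ≤ Fx K V (a * b) := by
  intro v hv
  have h1 := mem_Fx.1 hv.1
  have h2 := mem_Fx.1 hv.2
  rw [mem_Fx, mul_smul, h2, h1]

theorem Refl.conj {r : H} (hr : Refl K V r) (g : H) : Refl K V (g * r * g⁻¹) := by
  refine ⟨fun h => hr.1 (by simpa using h), fun k hk hle v hv => ?_⟩
  rw [mem_Fx_conj]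
  refine hr.2 (g⁻¹ * k * g⁻¹⁻¹) (fun h => hk (conj_eq_one_iff.1 h)) (fun w hw => ?_) ?_
  · rw [mem_Fx_conj]; simpa using hle (smul_mem_Fx_conj hw)
  · exact smul_mem_Fx_conj hv

theorem one_point_aff (hB : BinP H V) (X : Set V) (u u' : V)
    (hp : ∀ x ∈ X, ∃ h : H, h • (u - x) = u' - x) :
    ∃ (g : H) (b : V), (∀ x ∈ X, g • x + b = x) ∧ g • u + b = u' := by
  classical
  by_cases hu : u ∈ X
  · obtain ⟨h, hh⟩ := hp u hu
    refine ⟨1, 0, fun x _ => by simp, ?_⟩
    simp only [sub_self, smul_zero] at hh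
    simp [(sub_eq_zero.1 hh.symm)]
  obtain ⟨g, b, hg⟩ := hB (insert u X) (fun x => if x = u then u' else x) (by
    intro x hx y hy
    by_cases hxu : x = u <;> by_cases hyu : y = u
    · exact ⟨1, by simp [hxu, hyu]⟩
    · obtain ⟨h, hh⟩ := hp y (hy.resolve_left hyu)
      exact ⟨h, by simp [hxu, hyu, hh]⟩
    · obtain ⟨h, hh⟩ := hp x (hx.resolve_left hxu)
      refine ⟨h, ?_⟩
      simp only [hxu, hyu, if_true, if_false]
      rw [← neg_sub u x, smul_neg, hh, neg_sub]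
    · exact ⟨1, by simp [hxu, hyu]⟩)
  refine ⟨g, b, fun x hx => ?_, ?_⟩
  · have := hg x (Or.inr hx)
    have hxu : x ≠ u := fun h => hu (h ▸ hx)
    simpa [hxu] using this.symm
  · simpa using (hg u (Or.inl rfl)).symm

theorem one_point (hB : BinP H V) (X : Set V) (h0 : (0 : V) ∈ X) (u u' : V)
    (hp : ∀ x ∈ X, ∃ h : H, h • (u - x) = u' - x) :
    ∃ g : H, (∀ x ∈ X, g • x = x) ∧ g • u = u' := by
  obtain ⟨g, b, h1, h2⟩ := one_point_aff hB X u u' hp
  have hb : b = 0 := by simpa using h1 0 h0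
  subst hb
  exact ⟨g, fun x hx => by simpa using h1 x hx, by simpa using h2⟩

theorem swap (hB : BinP H V) (h : H) (u : V) :
    ∃ g : H, Fx K V h ≤ Fx K V g ∧ g • u = h • u ∧ g • h • u = u := by
  obtain ⟨g, h1, h2⟩ := one_point hB (insert (u + h • u) (Fx K V h : Set V))
    (Or.inr (Submodule.zero_mem _)) u (h • u) (by
      rintro x (rfl | hx)
      · exact ⟨h⁻¹, by simp [smul_neg]⟩
      · exact ⟨h, by rw [smul_sub, mem_Fx.1 hx]⟩)
  refine ⟨g, fun c hc => mem_Fx.2 (h1 c (Or.inr hc)), h2, ?_⟩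
  have := h1 _ (Or.inl rfl)
  rw [smul_add, h2] at this
  have e : g • h • u = (h • u + g • h • u) - h • u := by abel
  rw [e, this]; abel

theorem inversion (hB : BinP H V) (h : H) (u : V) :
    ∃ g : H, Fx K V h ≤ Fx K V g ∧ g • u = u ∧ g • h • u = h⁻¹ • u := by
  obtain ⟨g, h1, h2, h3⟩ := swap (K := K) hB h u
  refine ⟨h⁻¹ * g, fun c hc => ?_, by simp [mul_smul, h2], by simp [mul_smul, h3]⟩
  exact Fx_mul_le _ _ ⟨by rwa [Fx_inv], h1 hc⟩

variable [FaithfulSMul H V]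

theorem eq_one_of_fix {g : H} (h : ∀ v : V, g • v = v) : g = 1 :=
  eq_of_smul_eq_smul (α := V) (fun v => by simp [h v])

theorem Fx_ne_top {g : H} (hg : g ≠ 1) : Fx K V g ≠ ⊤ := fun h =>
  hg (eq_one_of_fix (V := V) fun v => mem_Fx.1 (h ▸ Submodule.mem_top : v ∈ Fx K V g))

theorem exists_Dv_ne {g : H} (hg : g ≠ 1) : ∃ v ∈ Dv K V g, v ≠ 0 := by
  by_contra hc
  push Not at hc
  exact hg (eq_one_of_fix (V := V) fun v => sub_eq_zero.1 (hc _ (sub_mem_Dv g v)))

theorem Refl.eq_one {r g : H} (hr : Refl K V r) (hle : Fx K V r ≤ Fx K V g) {u : V}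
    (hu : u ∉ Fx K V r) (hg : g • u = u) : g = 1 := by
  by_contra h1
  exact hu (hr.2 g h1 hle (mem_Fx.2 hg))

theorem Refl.sq_of_le (hB : BinP H V) {r k : H} (hr : Refl K V r) (hle : Fx K V r ≤ Fx K V k) :
    k * k = 1 := by
  refine eq_one_of_fix (V := V) fun u => ?_
  by_cases hu : u ∈ Fx K V r
  · have := mem_Fx.1 (hle hu); rw [mul_smul, this, this]
  · obtain ⟨g, h1, h2, h3⟩ := inversion (K := K) hB k u
    have hg : g = 1 := hr.eq_one (hle.trans h1) hu h2
    rw [hg, one_smul] at h3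
    rw [mul_smul, h3, smul_inv_smul]

theorem Refl.sq (hB : BinP H V) {r : H} (hr : Refl K V r) : r * r = 1 := hr.sq_of_le hB le_rfl

theorem Refl.inv (hB : BinP H V) {r : H} (hr : Refl K V r) : r⁻¹ = r :=
  inv_eq_of_mul_eq_one_right (hr.sq hB)

theorem Refl.smul_smul (hB : BinP H V) {r : H} (hr : Refl K V r) (v : V) : r • r • v = v := by
  rw [← mul_smul, hr.sq hB, one_smul]

theorem Refl.of_le {r k : H} (hr : Refl K V r) (hk : k ≠ 1) (hle : Fx K V r ≤ Fx K V k) :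
    Refl K V k :=
  ⟨hk, fun g hg h => (hr.2 g hg (hle.trans h)).trans hle⟩

theorem Refl.Fx_eq {r k : H} (hr : Refl K V r) (hk : k ≠ 1) (hle : Fx K V r ≤ Fx K V k) :
    Fx K V k = Fx K V r := le_antisymm (hr.2 k hk hle) hle

theorem neg_of_sq {r : H} (hr : r * r = 1) {v : V} (hv : v ∈ Dv K V r) : r • v = -v := by
  obtain ⟨x, rfl⟩ := mem_Dv.1 hv
  rw [smul_sub, ← mul_smul, hr, one_smul, neg_sub]

theorem Refl.neg (hB : BinP H V) {r : H} (hr : Refl K V r) {v : V} (hv : v ∈ Dv K V r) :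
    r • v = -v := neg_of_sq (hr.sq hB) hv

/-- commutator spaces of distinct reflections are disjoint -/
theorem Refl.eq_of_mem (hB : BinP H V) {r s : H} (hr : Refl K V r) (hs : Refl K V s) {v : V}
    (hv0 : v ≠ 0) (hvr : v ∈ Dv K V r) (hvs : v ∈ Dv K V s) : r = s := by
  obtain ⟨x, hx⟩ := mem_Dv.1 hvr
  obtain ⟨y, hy⟩ := mem_Dv.1 hvs
  obtain ⟨g, b, h1, h2⟩ := one_point_aff hB
    ({z | z - x ∈ Fx K V r} ∪ {z | z - y ∈ Fx K V s}) 0 (-v) (by
      rintro z (hz | hz)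
      · refine ⟨r, ?_⟩
        have := mem_Fx.1 hz
        rw [smul_sub] at this
        rw [zero_sub, smul_neg, ← hx, eq_add_of_sub_eq this]; abel
      · refine ⟨s, ?_⟩
        have := mem_Fx.1 hz
        rw [smul_sub] at this
        rw [zero_sub, smul_neg, ← hy, eq_add_of_sub_eq this]; abel)
  have hb : b = -v := by simpa using h2
  subst hb
  have key : ∀ (t : H) (z : V), Refl K V t → t • z - z = v →
      (∀ c ∈ Fx K V t, g • (z + c) + -v = z + c) → g = t := by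
    intro t z ht hz hc
    have h0 : g • z + -v = z := by simpa using hc 0 (Submodule.zero_mem _)
    have hle : Fx K V t ≤ Fx K V g := fun c hcc => by
      have := hc c hcc
      rw [smul_add, add_right_comm, h0] at this
      exact mem_Fx.2 (add_left_cancel this)
    have hz' : z ∉ Fx K V t := fun h => hv0 (by rw [← hz, mem_Fx.1 h, sub_self])
    have : t⁻¹ * g = 1 := ht.eq_one (fun c hcc => Fx_mul_le _ _ ⟨by rwa [Fx_inv], hle hcc⟩) hz' (by
      rw [mul_smul, inv_smul_eq_iff, ← sub_left_inj (a := z), hz]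
      rw [eq_sub_of_add_eq h0]; abel)
    exact (inv_mul_eq_one.1 this).symm
  rw [← key r x hr hx (fun c hc => h1 _ (Or.inl (by simpa using hc))),
    ← key s y hs hy (fun c hc => h1 _ (Or.inr (by simpa using hc)))]

theorem Refl.disj (hB : BinP H V) {r s : H} (hr : Refl K V r) (hs : Refl K V s) (hne : r ≠ s)
    {v : V} (hvr : v ∈ Dv K V r) (hvs : v ∈ Dv K V s) : v = 0 := by
  by_contra h
  exact hne (hr.eq_of_mem hB hs h hvr hvs)

theorem Refl.Fx_mul (hB : BinP H V) {r s : H} (hr : Refl K V r) (hs : Refl K V s) (hne : r ≠ s) :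
    Fx K V (r * s) = Fx K V r ⊓ Fx K V s := by
  refine le_antisymm (fun x hx => ?_) (Fx_mul_le _ _)
  have h1 : s • x = r • x := by
    have := mem_Fx.1 hx
    rw [mul_smul] at this
    rw [← hr.smul_smul hB (s • x), this]
  have h2 : r • x - x = 0 := hr.disj hB hs hne (sub_mem_Dv r x) (h1 ▸ sub_mem_Dv s x)
  exact ⟨mem_Fx.2 (sub_eq_zero.1 h2), mem_Fx.2 (h1 ▸ sub_eq_zero.1 h2)⟩

theorem Refl.comm_of_mem (hB : BinP H V) {r : H} (hr : Refl K V r) {g : H} {v : V} (hv0 : v ≠ 0)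
    (hv : v ∈ Dv K V r) (hgv : g • v ∈ Dv K V r) : g * r = r * g := by
  have := (hr.conj g).eq_of_mem hB hr (v := g • v) (smul_ne_zero_of hv0) (smul_mem_Dv_conj hv) hgv
  rw [← mul_inv_eq_iff_eq_mul, this]

theorem smul_mem_Dv_of_comm {g r : H} (h : g * r = r * g) {v : V} (hv : v ∈ Dv K V r) :
    g • v ∈ Dv K V r := by
  have := smul_mem_Dv_conj (g := g) hv
  rwa [h, mul_inv_cancel_right] at this

theorem smul_mem_Fx_of_comm {g r : H} (h : g * r = r * g) {v : V} (hv : v ∈ Fx K V r) :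
    g • v ∈ Fx K V r := by
  have := smul_mem_Fx_conj (g := g) hv
  rwa [h, mul_inv_cancel_right] at this

theorem Refl.Dv_le_Fx (hB : BinP H V) {r s : H} (hr : Refl K V r) (hs : Refl K V s) (hne : r ≠ s)
    (hc : r * s = s * r) : Dv K V r ≤ Fx K V s := fun v hv =>
  mem_Fx.2 (sub_eq_zero.1 (hr.disj hB hs hne
    (Submodule.sub_mem _ (smul_mem_Dv_of_comm hc.symm hv) hv) (sub_mem_Dv s v)))

theorem Refl.eq_zero_of_nc (hB : BinP H V) {r s : H} (hr : Refl K V r) (hnc : r * s ≠ s * r)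
    {v : V} (hv : v ∈ Dv K V r) (hs : v ∈ Fx K V s) : v = 0 := by
  by_contra h0
  exact hnc (hr.comm_of_mem hB h0 hv (by rw [mem_Fx.1 hs]; exact hv)).symm

variable [FiniteDimensional K V]

theorem exists_refl {g : H} (hg : g ≠ 1) : ∃ r : H, Refl K V r ∧ Fx K V g ≤ Fx K V r := by
  classical
  have hP : ∃ n, ∃ r : H, r ≠ 1 ∧ Fx K V g ≤ Fx K V r ∧ finrank K (Dv K V r) = n :=
    ⟨_, g, hg, le_rfl, rfl⟩
  obtain ⟨r, h1, h2, h3⟩ := Nat.find_spec hP
  refine ⟨r, ⟨h1, fun k hk hle => ?_⟩, h2⟩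
  have hmin : Nat.find hP ≤ finrank K (Dv K V k) := Nat.find_min' hP ⟨k, hk, h2.trans hle, rfl⟩
  have e1 := rank_DF (K := K) (V := V) r
  have e2 := rank_DF (K := K) (V := V) k
  exact (Submodule.eq_of_le_of_finrank_le hle (by omega)).ge

/-- unipotent quadratic elements do not exist in odd characteristic -/
theorem fix_of_odd (hB : BinP H V) (h2 : (2 : K) ≠ 0) {g : H} {u : V}
    (hu : g • u - u ∈ Fx K V g) : g • u = u := by
  obtain ⟨k, h1, h3, h4⟩ := inversion (K := K) hB g u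
  set z := g • u - u with hz
  have e1 : g • u = u + z := by rw [hz]; abel
  have e2 : g⁻¹ • u = u - z := by
    rw [inv_smul_eq_iff, smul_sub, e1, mem_Fx.1 hu]; abel
  rw [e1, e2, smul_add, h3, mem_Fx.1 (h1 hu)] at h4
  have : (2 : K) • z = 0 := by
    rw [two_smul]
    have := congrArg (fun w => w - u + z) h4
    simpa using this
  have hz0 : z = 0 := (smul_eq_zero.1 this).resolve_left h2
  rw [e1, hz0, add_zero]

end Cfsg.Agent.H38.Bin
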