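import Cfsg.Agent.H38.Bin1

/-! Binary affine groups, part 2: a non-commuting pair of reflections. -/

set_option autoImplicit false
set_option linter.unusedSectionVars false

namespace Cfsg.Agent.H38.Bin

open Module

variable {K V H : Type*} [Field K] [AddCommGroup V] [Module K V] [Group H]
  [DistribMulAction H V] [SMulCommClass H K V] [FaithfulSMul H V] [FiniteDimensional K V]

theorem neg2 (h2 : (2 : K) = 0) (v : V) : -v = v := by
  have : v + v = 0 := by rw [← two_smul K v, h2, zero_smul]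
  exact neg_eq_of_add_eq_zero_left this

theorem zero_of_neg (h2 : (2 : K) ≠ 0) {v : V} (h : -v = v) : v = 0 := by
  have : (2 : K) • v = 0 := by rw [two_smul]; nth_rewrite 1 [← h]; exact neg_add_cancel v
  exact (smul_eq_zero.1 this).resolve_left h2

theorem Dv_le_Fx2 (h2 : (2 : K) = 0) {g : H} (hg : g * g = 1) : Dv K V g ≤ Fx K V g := fun v hv =>
  mem_Fx.2 (by rw [neg_of_sq hg hv, neg2 h2])

theorem DF_zero (h2 : (2 : K) ≠ 0) {g : H} (hg : g * g = 1) {v : V} (h1 : v ∈ Dv K V g)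
    (h3 : v ∈ Fx K V g) : v = 0 :=
  zero_of_neg h2 (by rw [← neg_of_sq hg h1, mem_Fx.1 h3])

theorem mem_Dv_of_neg (h2 : (2 : K) ≠ 0) {g : H} {v : V} (h : g • v = -v) : v ∈ Dv K V g := by
  refine mem_Dv.2 ⟨-((2 : K)⁻¹ • v), ?_⟩
  rw [smul_neg, smul_comm, h, smul_neg, neg_neg, sub_neg_eq_add, ← add_smul, ← two_mul,
    mul_inv_cancel₀ h2, one_smul]

theorem DF_top (h2 : (2 : K) ≠ 0) {g : H} (hg : g * g = 1) : Dv K V g ⊔ Fx K V g = ⊤ := by
  have h1 := Submodule.finrank_sup_add_finrank_inf_eq (Dv K V g) (Fx K V g)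
  have h3 : Dv K V g ⊓ Fx K V g = ⊥ := by
    rw [eq_bot_iff]; intro v hv; exact DF_zero h2 hg hv.1 hv.2
  rw [h3, finrank_bot, rank_DF] at h1
  exact Submodule.eq_top_of_finrank_eq (by omega)

theorem comm_of_sq {a b : H} (ha : a * a = 1) (hb : b * b = 1) (hab : a * b * (a * b) = 1) :
    a * b = b * a := by
  have h1 : a⁻¹ = a := inv_eq_of_mul_eq_one_right ha
  have h2 : b⁻¹ = b := inv_eq_of_mul_eq_one_right hb
  have h3 : (a * b)⁻¹ = a * b := inv_eq_of_mul_eq_one_right hab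
  rw [← h3, mul_inv_rev, h1, h2]

theorem Refl.comm_of_le (hB : BinP H V) {t k : H} (ht : Refl K V t) (hle : Fx K V t ≤ Fx K V k) :
    t * k = k * t :=
  comm_of_sq (ht.sq hB) (ht.sq_of_le hB hle)
    (ht.sq_of_le hB (fun v hv => Fx_mul_le _ _ ⟨hv, hle hv⟩))

theorem Refl.eq_of_axis_odd (hB : BinP H V) (h2 : (2 : K) ≠ 0) {t k : H} (ht : Refl K V t)
    (hk : Refl K V k) (h : Fx K V t = Fx K V k) : t = k := by
  by_contra hne
  obtain ⟨v, hv, hv0⟩ := exists_Dv_ne (K := K) (V := V) ht.1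
  have := ht.Dv_le_Fx hB hk hne (ht.comm_of_le hB h.le) hv
  exact hv0 (DF_zero h2 (ht.sq hB) hv (h ▸ this))

variable (K V) in
/-- a non-commuting pair of reflections -/
structure NC (r s : H) : Prop where
  hB : BinP H V
  hr : Refl K V r
  hs : Refl K V s
  nc : r * s ≠ s * r

variable (K V) in
/-- common fixed space -/
def WW (r s : H) : Submodule K V := Fx K V r ⊓ Fx K V s

variable (K V) in
/-- span of the two commutator spaces -/
def UU (r s : H) : Submodule K V := Dv K V r ⊔ Dv K V s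

theorem WW_comm (r s : H) : WW K V r s = WW K V s r := inf_comm _ _
theorem UU_comm (r s : H) : UU K V r s = UU K V s r := sup_comm _ _

theorem mem_UU {r s : H} {v : V} :
    v ∈ UU K V r s ↔ ∃ a ∈ Dv K V r, ∃ b ∈ Dv K V s, a + b = v := Submodule.mem_sup

namespace NC
variable {r s : H} (n : NC K V r s)
include n

theorem symm : NC K V s r := ⟨n.hB, n.hs, n.hr, n.nc.symm⟩

theorem ne : r ≠ s := fun h => n.nc (by rw [h])

theorem z1 {v : V} (hv : v ∈ Dv K V r) (hs : v ∈ Fx K V s) : v = 0 :=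
  n.hr.eq_zero_of_nc n.hB n.nc hv hs

theorem rank_le : finrank K (Dv K V r) ≤ finrank K (Dv K V s) := by
  have h1 := Submodule.finrank_sup_add_finrank_inf_eq (Dv K V r) (Fx K V s)
  have h3 : Dv K V r ⊓ Fx K V s = ⊥ := by
    rw [eq_bot_iff]; intro v hv; exact n.z1 hv.1 hv.2
  rw [h3, finrank_bot] at h1
  have h4 := Submodule.finrank_le (Dv K V r ⊔ Fx K V s)
  have h5 := rank_DF (K := K) (V := V) s
  omega

theorem rank_eq : finrank K (Dv K V r) = finrank K (Dv K V s) :=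
  le_antisymm n.rank_le n.symm.rank_le

theorem FxRS : Fx K V (r * s) = WW K V r s := n.hr.Fx_mul n.hB n.hs n.ne

theorem UW {v : V} (hU : v ∈ UU K V r s) (hW : v ∈ WW K V r s) : v = 0 := by
  obtain ⟨a, ha, b, hb, rfl⟩ := mem_UU.1 hU
  by_cases h2 : (2 : K) = 0
  · have hb0 : b = 0 := n.symm.z1 hb (by
      have := Submodule.sub_mem _ hW.1 (Dv_le_Fx2 h2 (n.hr.sq n.hB) ha)
      simpa using this)
    subst hb0
    simpa using n.z1 ha (by simpa using hW.2)
  · have e1 : s • a = (a + b) + (a + b) - a := by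
      have h1 := mem_Fx.1 hW.2
      rw [smul_add, n.hs.neg n.hB hb] at h1
      rw [eq_sub_of_add_eq h1]; abel
    have e2 : (r * s) • a - a = (a + b) + (a + b) := by
      rw [mul_smul, e1, smul_sub, smul_add, mem_Fx.1 hW.1, n.hr.neg n.hB ha]; abel
    have e3 := fix_of_odd n.hB h2 (g := r * s) (u := a) (by
      rw [e2, n.FxRS]; exact Submodule.add_mem _ hW hW)
    rw [e3, sub_self] at e2
    exact zero_of_neg h2 (neg_eq_of_add_eq_zero_left e2.symm)

theorem rank_U : finrank K (UU K V r s) = 2 * finrank K (Dv K V r) := by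
  have h1 := Submodule.finrank_sup_add_finrank_inf_eq (Dv K V r) (Dv K V s)
  have h3 : Dv K V r ⊓ Dv K V s = ⊥ := by
    rw [eq_bot_iff]; intro v hv; exact n.hr.disj n.hB n.hs n.ne hv.1 hv.2
  rw [h3, finrank_bot, ← n.rank_eq] at h1
  unfold UU; omega

theorem rank_aux : finrank K (WW K V r s) + 2 * finrank K (Dv K V r) = finrank K V ∧
    UU K V r s ⊔ WW K V r s = ⊤ := by
  have h1 := Submodule.finrank_sup_add_finrank_inf_eq (UU K V r s) (WW K V r s)
  have h3 : UU K V r s ⊓ WW K V r s = ⊥ := by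
    rw [eq_bot_iff]; intro v hv; exact n.UW hv.1 hv.2
  rw [h3, finrank_bot, n.rank_U] at h1
  have h4 := Submodule.finrank_le (UU K V r s ⊔ WW K V r s)
  have h5 := Submodule.finrank_sup_add_finrank_inf_eq (Fx K V r) (Fx K V s)
  have h6 := Submodule.finrank_le (Fx K V r ⊔ Fx K V s)
  have h7 := rank_DF (K := K) (V := V) s
  have h8 := rank_DF (K := K) (V := V) r
  have h9 := n.rank_eq
  have h10 : finrank K (WW K V r s) = finrank K ↥(Fx K V r ⊓ Fx K V s) := rfl
  exact ⟨by omega, Submodule.eq_top_of_finrank_eq (by omega)⟩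

theorem rank_W : finrank K (WW K V r s) + 2 * finrank K (Dv K V r) = finrank K V := n.rank_aux.1

theorem dec (v : V) : ∃ u ∈ UU K V r s, ∃ w ∈ WW K V r s, u + w = v :=
  Submodule.mem_sup.1 (n.rank_aux.2 ▸ Submodule.mem_top)

theorem Fx_le2 (h2 : (2 : K) = 0) : Fx K V r ≤ Dv K V r ⊔ WW K V r s := by
  intro v hv
  obtain ⟨u, hu, w, hw, rfl⟩ := n.dec v
  obtain ⟨a, ha, b, hb, rfl⟩ := mem_UU.1 hu
  have hb0 : b = 0 := n.symm.z1 hb (by
    have := Submodule.sub_mem _ (Submodule.sub_mem _ hv hw.1) (Dv_le_Fx2 h2 (n.hr.sq n.hB) ha)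
    simpa using this)
  subst hb0
  exact Submodule.add_mem _ (Submodule.mem_sup_left (by simpa using ha)) (Submodule.mem_sup_right hw)

theorem eq_one_of_UW {g : H} (hW : WW K V r s ≤ Fx K V g) (h1 : Dv K V r ≤ Fx K V g)
    (h2 : Dv K V s ≤ Fx K V g) : g = 1 := by
  by_contra hg
  refine Fx_ne_top (K := K) (V := V) hg (eq_top_iff.2 ?_)
  rw [← n.rank_aux.2]
  exact sup_le (sup_le h1 h2) hW

theorem rL : WW K V r s ≤ Fx K V r := inf_le_left
theorem sL : WW K V r s ≤ Fx K V s := inf_le_right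

omit n in
theorem mulL {W : Submodule K V} {a b : H} (ha : W ≤ Fx K V a) (hb : W ≤ Fx K V b) :
    W ≤ Fx K V (a * b) := fun _ hv => Fx_mul_le _ _ ⟨ha hv, hb hv⟩

omit n in
theorem invL {W : Submodule K V} {a : H} (ha : W ≤ Fx K V a) : W ≤ Fx K V a⁻¹ := by
  rwa [Fx_inv]

omit n in
theorem powL {W : Submodule K V} {a : H} (ha : W ≤ Fx K V a) (k : ℕ) : W ≤ Fx K V (a ^ k) := by
  induction k with
  | zero => simp [Fx_one]
  | succ k ih => rw [pow_succ]; exact mulL ih ha

/-- elements of `L` trivial on `V/W` are trivial -/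
theorem Q_triv {g : H} (hW : WW K V r s ≤ Fx K V g) (hD : ∀ v : V, g • v - v ∈ WW K V r s) :
    g = 1 := by
  by_cases h2 : (2 : K) = 0
  swap
  · exact eq_one_of_fix (V := V) fun v => fix_of_odd n.hB h2 (hW (hD v))
  -- any element of `Q` commuting with `s` is trivial
  have key : ∀ k : H, WW K V r s ≤ Fx K V k → (∀ v : V, k • v - v ∈ WW K V r s) →
      k * s = s * k → k = 1 := by
    intro k hkW hkD hks
    by_contra hk1
    have h1 : Dv K V s ≤ Fx K V k := by
      intro v hv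
      obtain ⟨x, rfl⟩ := mem_Dv.1 hv
      rw [mem_Fx, smul_sub, ← mul_smul, hks, mul_smul]
      have := mem_Fx.1 (hkD x).2
      rw [smul_sub] at this
      rw [eq_add_of_sub_eq this]; abel
    have h3 : Fx K V s ≤ Fx K V k :=
      (n.symm.Fx_le2 h2).trans (sup_le h1 (by rw [← WW_comm]; exact hkW))
    have hk : Refl K V k := n.hs.of_le hk1 h3
    obtain ⟨v, hv, hv0⟩ := exists_Dv_ne (K := K) (V := V) hk1
    have hvW : v ∈ WW K V r s := by obtain ⟨x, rfl⟩ := mem_Dv.1 hv; exact hkD x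
    have hc : r * k = k * r := hk.comm_of_mem n.hB hv0 hv (by rw [mem_Fx.1 hvW.1]; exact hv)
    have h4 : Dv K V r ≤ Fx K V k := by
      intro v hv
      obtain ⟨x, rfl⟩ := mem_Dv.1 hv
      rw [mem_Fx, smul_sub, ← mul_smul, ← hc, mul_smul]
      have := mem_Fx.1 (hkD x).1
      rw [smul_sub] at this
      rw [eq_add_of_sub_eq this]; abel
    exact hk1 (n.eq_one_of_UW hkW h4 h1)
  have hss := n.hs.sq n.hB
  have hD' : ∀ v : V, (s * g * s) • v - v ∈ WW K V r s := by
    intro v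
    have h1 := hD (s • v)
    have h3 := mem_Fx.1 h1.2
    rw [smul_sub, n.hs.smul_smul n.hB] at h3
    rw [mul_smul, mul_smul, h3]; exact h1
  have hW' : WW K V r s ≤ Fx K V (s * g * s) := mulL (mulL n.sL hW) n.sL
  -- elements of `Q` act as `1 + φ`
  have hmul : ∀ a b : H, WW K V r s ≤ Fx K V a → (∀ v : V, b • v - v ∈ WW K V r s) →
      ∀ v : V, (a * b) • v = a • v + (b • v - v) := by
    intro a b ha hb v
    have := mem_Fx.1 (ha (hb v))
    rw [smul_sub] at this
    rw [mul_smul, ← this]; abel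
  have hcomm : g * (s * g * s) = s * g * s * g := by
    refine eq_of_smul_eq_smul (α := V) fun v => ?_
    rw [hmul g _ hW hD', hmul _ g hW' hD]; abel
  have hgg : g * g = 1 := eq_one_of_fix (V := V) fun v => by
    rw [hmul g g hW hD, sub_eq_add_neg, ← add_assoc, neg2 h2 v]
    have := neg2 h2 (g • v)
    nth_rewrite 1 [← this]; simp
  have h1 : g * (s * g * s) = 1 := by
    refine key _ (mulL hW hW') (fun v => ?_) ?_
    · rw [hmul g _ hW hD', add_sub_right_comm]; exact Submodule.add_mem _ (hD v) (hD' v)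
    · calc g * (s * g * s) * s = g * s * g * (s * s) := by group
        _ = (s * s) * (g * s * g) := by rw [hss]; group
        _ = s * (s * g * s * g) := by group
        _ = s * (g * (s * g * s)) := by rw [hcomm]
  refine key g hW hD (comm_of_sq hgg hss ?_)
  rw [← h1]; group

theorem not_both {t : H} (ht : Refl K V t) (hL : WW K V r s ≤ Fx K V t) (h1 : t * r = r * t)
    (h2 : t * s = s * t) : False := by
  have hr : t ≠ r := fun h => n.nc (by rw [← h]; exact h2)
  have hs : t ≠ s := fun h => n.nc (by rw [← h]; exact h1.symm)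
  exact ht.1 (n.eq_one_of_UW hL (n.hr.Dv_le_Fx n.hB ht hr.symm h1.symm)
    (n.hs.Dv_le_Fx n.hB ht hs.symm h2.symm))

theorem W_eq {t t' : H} (m : NC K V t t') (hd : finrank K (Dv K V t) = finrank K (Dv K V r))
    (hL : WW K V r s ≤ Fx K V t) (hL' : WW K V r s ≤ Fx K V t') : WW K V t t' = WW K V r s := by
  have h1 := n.rank_W
  have h2 := m.rank_W
  exact (Submodule.eq_of_le_of_finrank_le (le_inf hL hL') (by
    change finrank K (WW K V t t') ≤ _; omega)).symm

theorem partner {t : H} (ht : Refl K V t) (hL : WW K V r s ≤ Fx K V t) :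
    ∃ y : H, NC K V t y ∧ WW K V t y = WW K V r s ∧
      finrank K (Dv K V t) = finrank K (Dv K V r) := by
  by_cases h1 : t * r = r * t
  · have m : NC K V t s := ⟨n.hB, ht, n.hs, fun h => n.not_both ht hL h1 h⟩
    have hd := m.rank_eq.trans n.rank_eq.symm
    exact ⟨s, m, n.W_eq m hd hL n.sL, hd⟩
  · have m : NC K V t r := ⟨n.hB, ht, n.hr, h1⟩
    exact ⟨r, m, n.W_eq m m.rank_eq hL n.rL, m.rank_eq⟩

theorem DW {t : H} (ht : Refl K V t) (hL : WW K V r s ≤ Fx K V t) {v : V} (hv : v ∈ Dv K V t)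
    (hW : v ∈ WW K V r s) : v = 0 := by
  obtain ⟨y, m, h1, -⟩ := n.partner ht hL
  exact m.UW (Submodule.mem_sup_left hv) (h1 ▸ hW)

theorem axis2 (h2 : (2 : K) = 0) {t k : H} (ht : Refl K V t) (hL : WW K V r s ≤ Fx K V t)
    (hk : Refl K V k) (hkL : WW K V r s ≤ Fx K V k) (hc : t * k = k * t) :
    Fx K V t = Fx K V k := by
  by_cases hne : t = k
  · rw [hne]
  obtain ⟨y, m, h1, -⟩ := n.partner ht hL
  exact (ht.Fx_eq hk.1 ((m.Fx_le2 h2).trans (sup_le (ht.Dv_le_Fx n.hB hk hne hc) (h1 ▸ hkL)))).symm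

theorem axes {t k : H} (ht : Refl K V t) (hL : WW K V r s ≤ Fx K V t)
    (hk : Refl K V k) (hkL : WW K V r s ≤ Fx K V k) :
    Fx K V t = Fx K V k ∨ WW K V t k = WW K V r s := by
  obtain ⟨y, -, -, hd⟩ := n.partner ht hL
  by_cases hc : t * k = k * t
  swap
  · exact Or.inr (n.W_eq ⟨n.hB, ht, hk, hc⟩ hd hL hkL)
  by_cases h2 : (2 : K) = 0
  · exact Or.inl (n.axis2 h2 ht hL hk hkL hc)
  by_cases hne : t = k
  · exact Or.inl (by rw [hne])
  right
  obtain ⟨y, -, -, hd'⟩ := n.partner hk hkL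
  have h1 : Fx K V t ⊔ Fx K V k = ⊤ := by
    rw [eq_top_iff, ← DF_top h2 (hk.sq n.hB)]
    exact sup_le_sup_right (hk.Dv_le_Fx n.hB ht (Ne.symm hne) hc.symm) _
  have h3 := Submodule.finrank_sup_add_finrank_inf_eq (Fx K V t) (Fx K V k)
  rw [h1, finrank_top] at h3
  have h4 := rank_DF (K := K) (V := V) t
  have h5 := rank_DF (K := K) (V := V) k
  have h6 := n.rank_W
  exact (Submodule.eq_of_le_of_finrank_le (le_inf hL hkL) (by omega)).symm

theorem axis_unique {t k : H} (ht : Refl K V t) (hL : WW K V r s ≤ Fx K V t)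
    (hk : Refl K V k) (hkL : WW K V r s ≤ Fx K V k) {u : V} (hu : u ∉ WW K V r s)
    (h1 : u ∈ Fx K V t) (h2 : u ∈ Fx K V k) : Fx K V t = Fx K V k :=
  (n.axes ht hL hk hkL).resolve_right fun h => hu (h ▸ ⟨h1, h2⟩)

theorem exists_axis {t : H} (ht : Refl K V t) (hL : WW K V r s ≤ Fx K V t) :
    ∃ u ∈ Fx K V t, u ∉ WW K V r s := by
  by_contra hc
  push Not at hc
  obtain ⟨y, -, -, hd⟩ := n.partner ht hL
  have h1 := Submodule.finrank_mono (show Fx K V t ≤ WW K V r s from hc)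
  have h4 := rank_DF (K := K) (V := V) t
  have h6 := n.rank_W
  have h7 : finrank K (Dv K V t) = 0 := by omega
  obtain ⟨v, hv, hv0⟩ := exists_Dv_ne (K := K) (V := V) ht.1
  rw [Submodule.finrank_eq_zero.1 h7] at hv
  exact hv0 hv

end NC

end Cfsg.Agent.H38.Bin
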