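import Cfsg.Agent.H38.Bin2

/-! Binary affine groups, part 3: the rank two parabolic subgroups are dihedral. -/

set_option autoImplicit false
set_option linter.unusedSectionVars false
set_option linter.unusedVariables false

namespace Cfsg.Agent.H38.Bin

open Module

variable {K V H : Type*} [Field K] [AddCommGroup V] [Module K V] [Group H]
  [DistribMulAction H V] [SMulCommClass H K V] [FaithfulSMul H V] [FiniteDimensional K V]

theorem rank_lt {a b : H} (hle : Fx K V a ≤ Fx K V b) {x : V} (hx : x ∈ Fx K V b)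
    (hxa : x ∉ Fx K V a) : finrank K (Dv K V b) < finrank K (Dv K V a) := by
  have h1 : Fx K V a < Fx K V b := lt_of_le_of_ne hle (fun h => hxa (h ▸ hx))
  have h2 := Submodule.finrank_lt_finrank_of_lt h1
  have h3 := rank_DF (K := K) (V := V) a
  have h4 := rank_DF (K := K) (V := V) b
  omega

/-- factorisation of a non-involution -/
theorem factor (hB : BinP H V) {g : H} (hg : g * g ≠ 1) : ∃ a b : H, g = a⁻¹ * b ∧
    Fx K V g ≤ Fx K V a ∧ Fx K V g ≤ Fx K V b ∧ finrank K (Dv K V a) < finrank K (Dv K V g) ∧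
    finrank K (Dv K V b) < finrank K (Dv K V g) := by
  obtain ⟨x, hx⟩ : ∃ x : V, (g * g) • x ≠ x := by
    by_contra hc; push Not at hc; exact hg (eq_one_of_fix (V := V) hc)
  obtain ⟨a, h1, h2, h3⟩ := swap (K := K) hB g x
  have hb : Fx K V g ≤ Fx K V (a * g) := NC.mulL h1 le_rfl
  refine ⟨a, a * g, by group, h1, hb, rank_lt h1 (x := x + g • x) ?_ ?_, rank_lt hb (x := x) ?_ ?_⟩
  · rw [mem_Fx, smul_add, h2, h3, add_comm]
  · rw [mem_Fx, smul_add, ← mul_smul, add_comm]
    exact fun h => hx (add_right_cancel h)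
  · rw [mem_Fx, mul_smul, h3]
  · rw [mem_Fx]; intro h; exact hx (by rw [mul_smul, h, h])

/-- an involution commuting with a reflection whose axis contains its fixed space (odd case) -/
theorem Dv_le_mul (hB : BinP H V) (h2 : (2 : K) ≠ 0) {g t : H} (hg : g * g = 1) (ht : Refl K V t)
    (hle : Fx K V g ≤ Fx K V t) (hc : g * t = t * g) : Dv K V t ≤ Fx K V (g * t) := by
  intro v hv
  have h1 : v + g • v = 0 := DF_zero h2 (ht.sq hB)
    (Submodule.add_mem _ hv (smul_mem_Dv_of_comm hc hv))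
    (hle (by rw [mem_Fx, smul_add, ← mul_smul, hg, one_smul, add_comm]))
  rw [mem_Fx, mul_smul, ht.neg hB hv, smul_neg, eq_neg_of_add_eq_zero_right h1, neg_neg]

namespace NC
variable {r s : H} (n : NC K V r s)
include n

theorem refl_of_fix {u : V} (hu : u ∉ WW K V r s) : ∀ (m : ℕ) (g : H),
    finrank K (Dv K V g) = m → WW K V r s ≤ Fx K V g → g • u = u → g ≠ 1 → Refl K V g := by
  intro m
  induction m using Nat.strong_induction_on with
  | _ m ih =>
  intro g hm hL hgu hg1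
  obtain ⟨t, ht, hgt⟩ := exists_refl (K := K) (V := V) hg1
  have htL := hL.trans hgt
  have hut : u ∈ Fx K V t := hgt (mem_Fx.2 hgu)
  have ih' : ∀ k : H, Fx K V g ≤ Fx K V k → finrank K (Dv K V k) < finrank K (Dv K V g) →
      Fx K V t ≤ Fx K V k := by
    intro k hk hlt
    by_cases hk1 : k = 1
    · rw [hk1, Fx_one]; exact le_top
    have hku := hk (mem_Fx.2 hgu)
    have := ih _ (hm ▸ hlt) k rfl (hL.trans hk) (mem_Fx.1 hku) hk1
    exact (n.axis_unique ht htL this (hL.trans hk) hu hut hku).le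
  refine ht.of_le hg1 ?_
  by_cases hgg : g * g = 1
  swap
  · obtain ⟨a, b, rfl, ha, hb, ha', hb'⟩ := factor (K := K) n.hB hgg
    exact mulL (invL (ih' a ha ha')) (ih' b hb hb')
  have ht' := ht.conj g
  have ht'L : WW K V r s ≤ Fx K V (g * t * g⁻¹) := mulL (mulL hL htL) (invL hL)
  have hax : Fx K V t = Fx K V (g * t * g⁻¹) := n.axis_unique ht htL ht' ht'L hu hut
    (by have := smul_mem_Fx_conj (g := g) hut; rwa [hgu] at this)
  by_cases h2 : (2 : K) = 0
  · obtain ⟨k, hk1, hk2, hk3⟩ : ∃ k : H, k ≠ 1 ∧ Fx K V t ≤ Fx K V k ∧ g * k = k * g := by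
      by_cases he : g * t * g⁻¹ = t
      · exact ⟨t, ht.1, le_rfl, by rw [← mul_inv_eq_iff_eq_mul, he]⟩
      · refine ⟨t * (g * t * g⁻¹), fun h => he ?_, mulL le_rfl hax.le, ?_⟩
        · exact (eq_inv_of_mul_eq_one_right h).trans (ht.inv n.hB)
        · have hc := ht.comm_of_le n.hB hax.le
          have hgi : g⁻¹ = g := inv_eq_of_mul_eq_one_right hgg
          rw [hgi] at hc ⊢
          calc g * (t * (g * t * g)) = g * (g * t * g * t) := by rw [hc]
            _ = (g * g) * (t * g * t) := by group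
            _ = t * g * t * (g * g) := by rw [hgg]; group
            _ = t * (g * t * g) * g := by group
    have hk := ht.of_le hk1 hk2
    have hkL := htL.trans hk2
    obtain ⟨y, mm, h1, -⟩ := n.partner hk hkL
    refine hk2.trans ((mm.Fx_le2 h2).trans (sup_le ?_ (h1 ▸ hL)))
    intro v hv
    obtain ⟨x, rfl⟩ := mem_Dv.1 hv
    have := mem_Fx.1 (hk2 (hgt (Dv_le_Fx2 h2 hgg (sub_mem_Dv g x))))
    rw [smul_sub] at this
    rw [mem_Fx, smul_sub, ← mul_smul, hk3, mul_smul, eq_add_of_sub_eq this]; abel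
  · have he := ht.eq_of_axis_odd n.hB h2 ht' hax
    have hc : g * t = t * g := by rw [← mul_inv_eq_iff_eq_mul, ← he]
    have hD := Dv_le_mul n.hB h2 hgg ht hgt hc
    obtain ⟨v, hv, hv0⟩ := exists_Dv_ne (K := K) (V := V) ht.1
    have h3 := ih' (g * t) (mulL le_rfl hgt) (rank_lt (mulL le_rfl hgt) (hD hv)
      (fun h => hv0 (DF_zero h2 (ht.sq n.hB) hv (hgt h))))
    have h4 : g * t = 1 := by
      by_contra h
      exact Fx_ne_top (K := K) (V := V) h (by
        rw [eq_top_iff, ← DF_top h2 (ht.sq n.hB)]; exact sup_le hD h3)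
    rw [eq_inv_of_mul_eq_one_left h4, Fx_inv]

theorem refl_of {g : H} (hL : WW K V r s ≤ Fx K V g) (hg : g ≠ 1) {u : V} (hu : u ∉ WW K V r s)
    (hgu : g • u = u) : Refl K V g := n.refl_of_fix hu _ g rfl hL hgu hg

theorem axis_le {t g : H} (ht : Refl K V t) (htL : WW K V r s ≤ Fx K V t)
    (hL : WW K V r s ≤ Fx K V g) {u : V} (hu : u ∉ WW K V r s) (htu : t • u = u)
    (hgu : g • u = u) : Fx K V t ≤ Fx K V g := by
  by_cases hg : g = 1
  · rw [hg, Fx_one]; exact le_top
  exact (n.axis_unique ht htL (n.refl_of hL hg hu hgu) hL hu (mem_Fx.2 htu) (mem_Fx.2 hgu)).le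

theorem mem_W_of {c : H} (hL : WW K V r s ≤ Fx K V c) (hc1 : c ≠ 1) (hc : ¬ Refl K V c) {u : V}
    (hcu : c • u = u) : u ∈ WW K V r s := by
  by_contra hu
  exact hc (n.refl_of hL hc1 hu hcu)

theorem hsq {u : V} (h : (r * s * (r * s)) • u = u) : u ∈ WW K V r s := by
  have e : r * s * (r * s) = r * (s * r * s⁻¹) := by rw [n.hs.inv n.hB]; group
  have hne : r ≠ s * r * s⁻¹ := fun h => n.nc (by rw [eq_mul_inv_iff_mul_eq] at h; exact h)
  have h1 : u ∈ Fx K V r ⊓ Fx K V (s * r * s⁻¹) := by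
    rw [← n.hr.Fx_mul n.hB (n.hr.conj s) hne, ← e]; exact mem_Fx.2 h
  by_contra hu
  have hax := n.axis_unique n.hr n.rL (n.hr.conj s) (mulL (mulL n.sL n.rL) (invL n.sL)) hu h1.1 h1.2
  refine n.nc (n.hr.comm_of_le n.hB fun v hv => mem_Fx.2 (sub_eq_zero.1 ?_))
  refine n.symm.z1 (sub_mem_Dv s v) (Submodule.sub_mem _ ?_ hv)
  rw [hax]; exact smul_mem_Fx_conj hv

theorem cover {u : V} (hu : u ∉ WW K V r s) :
    ∃ t : H, Refl K V t ∧ WW K V r s ≤ Fx K V t ∧ t • u = u := by
  obtain ⟨g, h1, h2, h3⟩ := inversion (K := K) n.hB (r * s) u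
  rw [n.FxRS] at h1
  refine ⟨g, n.refl_of h1 (fun hg => hu (n.hsq ?_)) hu h2, h1, h2⟩
  rw [hg, one_smul] at h3
  rw [mul_smul, h3, smul_inv_smul]

theorem sq_fix {t g : H} (ht : Refl K V t) (htL : WW K V r s ≤ Fx K V t)
    (hL : WW K V r s ≤ Fx K V g) (hn : ∀ v ∈ Fx K V t, g • v ∈ Fx K V t) :
    Fx K V t ≤ Fx K V (g * g) := by
  intro u hut
  by_cases hu : u ∈ WW K V r s
  · exact mulL hL hL hu
  obtain ⟨k, h1, h2, h3⟩ := inversion (K := K) n.hB g u
  have := n.axis_le ht htL (hL.trans h1) hu (mem_Fx.1 hut) h2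
  rw [mem_Fx.1 (this (hn u hut))] at h3
  rw [mem_Fx, mul_smul, h3, smul_inv_smul]

theorem inv_refl2 (h2 : (2 : K) = 0) {g : H} (hL : WW K V r s ≤ Fx K V g) (hg1 : g ≠ 1)
    (hgg : g * g = 1) : Refl K V g := by
  by_contra hc
  exact hg1 (n.Q_triv hL fun v =>
    n.mem_W_of hL hg1 hc (mem_Fx.1 (Dv_le_Fx2 h2 hgg (sub_mem_Dv g v))))

theorem norm2 (h2 : (2 : K) = 0) {t g : H} (ht : Refl K V t) (htL : WW K V r s ≤ Fx K V t)
    (hL : WW K V r s ≤ Fx K V g) (hn : ∀ v ∈ Fx K V t, g • v ∈ Fx K V t) :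
    Fx K V t ≤ Fx K V g := by
  by_cases hgg : g * g = 1
  · by_cases hg1 : g = 1
    · rw [hg1, Fx_one]; exact le_top
    have hg := n.inv_refl2 h2 hL hg1 hgg
    rcases n.axes ht htL hg hL with h | h
    · exact h.le
    intro v hv
    refine mem_Fx.2 (sub_eq_zero.1 (n.DW hg hL (sub_mem_Dv g v) ?_))
    rw [← h]
    exact ⟨Submodule.sub_mem _ (hn v hv) hv, Dv_le_Fx2 h2 hgg (sub_mem_Dv g v)⟩
  exfalso
  have h1 := n.sq_fix ht htL hL hn
  have hk := ht.of_le hgg h1
  have hkax := ht.Fx_eq hgg h1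
  obtain ⟨y, m, hW, -⟩ := n.partner ht htL
  have hyL : WW K V r s ≤ Fx K V y := hW ▸ m.sL
  obtain ⟨u, huy, hu⟩ := n.exists_axis m.hs hyL
  have hut : u ∉ Fx K V t := fun h => hu (hW ▸ ⟨h, huy⟩)
  have hgu : (g * g) • u ≠ u := fun h => hut (hkax ▸ mem_Fx.2 h)
  obtain ⟨k, h3, h4, h5⟩ := inversion (K := K) n.hB g u
  have hkL := hL.trans h3
  have hk1 : k ≠ 1 := fun h => hgu (by
    rw [h, one_smul] at h5; rw [mul_smul, h5, smul_inv_smul])
  have hkr := n.refl_of hkL hk1 hu h4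
  have hkax' : Fx K V y = Fx K V k :=
    n.axis_unique m.hs hyL hkr hkL hu huy (mem_Fx.2 h4)
  have hyy : (k * g * (k * g)) • u = u := by
    rw [mul_smul, mul_smul k g u, h5, mul_smul, smul_inv_smul, h4]
  have hyL' : WW K V r s ≤ Fx K V (k * g * (k * g)) := mulL (mulL hkL hL) (mulL hkL hL)
  by_cases hy1 : k * g * (k * g) = 1
  · have hkk := hkr.sq n.hB
    have e : k * g * k = g⁻¹ := by
      rw [eq_inv_iff_mul_eq_one, ← hy1]; group
    have hc : g * g * k = k * (g * g) := by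
      have : k * (g * g) * k = g * g := by
        calc k * (g * g) * k = (k * g * k) * (k * g * k) := by
              rw [show (k * g * k) * (k * g * k) = k * g * (k * k) * g * k by group, hkk]; group
          _ = (g * g)⁻¹ := by rw [e]; group
          _ = g * g := hk.inv n.hB
      calc g * g * k = k * (g * g) * k * k := by rw [this]
        _ = k * (g * g) * (k * k) := by group
        _ = k * (g * g) := by rw [hkk, mul_one]
    have := n.axis2 h2 hk (mulL hL hL) hkr hkL hc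
    exact hut (hkax ▸ this ▸ mem_Fx.2 h4)
  · have hax : Fx K V y = Fx K V (k * g * (k * g)) :=
      n.axis_unique m.hs hyL (n.refl_of hyL' hy1 hu hyy) hyL' hu huy (mem_Fx.2 hyy)
    refine hgu (mem_Fx.1 (n.sq_fix m.hs hyL hL (fun v hv => ?_) huy))
    have h6 : (k * g) • v ∈ Fx K V y := by
      rw [hax] at hv ⊢
      exact smul_mem_Fx_of_comm (by group) hv
    have h7 := mem_Fx.1 (hkax' ▸ h6)
    rw [mul_smul, hkr.smul_smul n.hB] at h7
    rw [h7, ← mul_smul]; exact h6

variable [Finite H]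

theorem conj2 (h2 : (2 : K) = 0) : ∃ g : H, WW K V r s ≤ Fx K V g ∧ g * r * g⁻¹ = s := by
  have hrr := n.hr.sq n.hB
  have hss := n.hs.sq n.hB
  have hL : WW K V r s ≤ Fx K V (r * s) := mulL n.rL n.sL
  have hinv : r * (r * s) * r⁻¹ = (r * s)⁻¹ := by
    rw [mul_inv_rev, n.hr.inv n.hB, n.hs.inv n.hB, ← mul_assoc, hrr, one_mul]
  have hinvk : ∀ k : ℕ, r * (r * s) ^ k * r⁻¹ = ((r * s) ^ k)⁻¹ := by
    intro k; rw [← conj_pow, hinv, inv_pow]
  have hpos := orderOf_pos (r * s)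
  rcases Nat.even_or_odd' (orderOf (r * s)) with ⟨k, hk | hk⟩
  · exfalso
    set z := (r * s) ^ k with hz
    have hzz : z * z = 1 := by rw [hz, ← pow_add, ← two_mul, ← hk, pow_orderOf_eq_one]
    have hz1 : z ≠ 1 := pow_ne_one_of_lt_orderOf (by omega) (by omega)
    have hzi : z⁻¹ = z := inv_eq_of_mul_eq_one_right hzz
    have hzr := n.inv_refl2 h2 (powL hL k) hz1 hzz
    have c1 : z * r = r * z := by
      have := hinvk k
      rw [← hz, hzi, mul_inv_eq_iff_eq_mul] at this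
      exact this.symm
    have c2 : z * s = s * z := by
      have c3 : z * (r * s) = r * s * z := by rw [hz, ← pow_succ, ← pow_succ']
      calc z * s = z * (r * r) * s := by rw [hrr, mul_one]
        _ = (z * r) * (r * s) := by group
        _ = r * (z * (r * s)) := by rw [c1]; group
        _ = (r * r) * s * z := by rw [c3]; group
        _ = s * z := by rw [hrr, one_mul]
    exact n.not_both hzr (powL hL k) c1 c2
  · refine ⟨(r * s) ^ k, powL hL k, ?_⟩
    have h1 : (r * s) ^ k * (r * s) ^ k * (r * s) = 1 := by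
      rw [← pow_add, ← pow_succ, ← two_mul, ← hk, pow_orderOf_eq_one]
    rw [← hinvk k]
    generalize (r * s) ^ k = z at h1 ⊢
    calc z * r * (r * z * r⁻¹) = z * (r * r) * z * r⁻¹ := by group
      _ = z * z * r⁻¹ := by rw [hrr, mul_one]
      _ = (z * z * (r * s)) * s⁻¹ * (r * r)⁻¹ := by group
      _ = s := by rw [h1, hrr, n.hs.inv n.hB]; group

theorem eq_of_axis {t k : H} (ht : Refl K V t) (htL : WW K V r s ≤ Fx K V t) (hk : Refl K V k)
    (h : Fx K V t = Fx K V k) : t = k := by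
  by_cases h2 : (2 : K) = 0
  swap
  · exact ht.eq_of_axis_odd n.hB h2 hk h
  have hkL : WW K V r s ≤ Fx K V k := h ▸ htL
  obtain ⟨y, m, hW, -⟩ := n.partner ht htL
  have hyL : WW K V r s ≤ Fx K V y := hW ▸ m.sL
  have m' : NC K V k y := ⟨n.hB, hk, m.hs, fun hc =>
    m.nc (ht.comm_of_le n.hB (h.trans (n.axis2 h2 hk hkL m.hs hyL hc)).le)⟩
  have hW' : WW K V k y = WW K V r s := by rw [← hW]; unfold WW; rw [h]
  obtain ⟨a, ha, ha'⟩ := m.conj2 h2
  obtain ⟨b, hb, hb'⟩ := m'.conj2 h2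
  rw [hW] at ha; rw [hW'] at hb
  have e : (b⁻¹ * a) * t * (b⁻¹ * a)⁻¹ = k := by
    rw [show (b⁻¹ * a) * t * (b⁻¹ * a)⁻¹ = b⁻¹ * (a * t * a⁻¹) * b by group, ha', ← hb']; group
  have h3 := n.norm2 h2 ht htL (mulL (invL hb) ha) (fun v hv => by
    have := smul_mem_Fx_conj (g := b⁻¹ * a) hv
    rwa [e, ← h] at this)
  rw [← e, ← ht.comm_of_le n.hB h3, mul_inv_cancel_right]

theorem stab {t g : H} (ht : Refl K V t) (htL : WW K V r s ≤ Fx K V t)
    (hL : WW K V r s ≤ Fx K V g) {u : V} (hu : u ∉ WW K V r s) (htu : t • u = u)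
    (hgu : g • u = u) : g = 1 ∨ g = t := by
  by_cases hg : g = 1
  · exact Or.inl hg
  have := n.axis_le ht htL hL hu htu hgu
  exact Or.inr (n.eq_of_axis ht htL (ht.of_le hg this) (ht.Fx_eq hg this).symm).symm

theorem inv_step {t c : H} (ht : Refl K V t) (htL : WW K V r s ≤ Fx K V t)
    (hL : WW K V r s ≤ Fx K V c) {u : V} (hu : u ∉ WW K V r s) (htu : t • u = u)
    (hcu : (c * c) • u ≠ u) : t * c * (t * c) = 1 ∨ t = c * c := by
  obtain ⟨g, h3, h4, h5⟩ := inversion (K := K) n.hB c u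
  have hg : g = t := (n.stab ht htL (hL.trans h3) hu htu h4).resolve_left fun h => hcu (by
    rw [h, one_smul] at h5; rw [mul_smul, h5, smul_inv_smul])
  subst hg
  have hyy : (g * c * (g * c)) • u = u := by
    rw [mul_smul, mul_smul g c u, h5, mul_smul, smul_inv_smul, h4]
  rcases n.stab ht htL (mulL (mulL htL hL) (mulL htL hL)) hu htu hyy with h | h
  · exact Or.inl h
  · right
    have : g⁻¹ = c * c := by
      calc g⁻¹ = c * (g⁻¹ * (g * c * (g * c)))⁻¹ * c := by group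
        _ = c * c := by rw [h, inv_mul_cancel, inv_one, mul_one]
    rw [← ht.inv n.hB, this]

theorem sq_not_refl {c : H} (hL : WW K V r s ≤ Fx K V c) : ¬ Refl K V (c * c) := by
  intro hk
  have hkL := mulL hL hL
  have key : ∀ t : H, Refl K V t → WW K V r s ≤ Fx K V t → c * c * t = t * (c * c) := by
    intro t ht htL
    by_cases he : t = c * c
    · rw [he]
    obtain ⟨u, hut, hu⟩ := n.exists_axis ht htL
    have hcu : (c * c) • u ≠ u := fun h =>
      (n.stab ht htL hkL hu (mem_Fx.1 hut) h).elim hk.1 (fun h => he h.symm)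
    have h1 := (n.inv_step ht htL hL hu (mem_Fx.1 hut) hcu).resolve_right he
    have htt := ht.sq n.hB
    have e : t * c * t = c⁻¹ := by rw [eq_inv_iff_mul_eq_one, ← h1]; group
    have : t * (c * c) * t = c * c := by
      calc t * (c * c) * t = (t * c * t) * (t * c * t) := by
            rw [show (t * c * t) * (t * c * t) = t * c * (t * t) * c * t by group, htt]; group
        _ = (c * c)⁻¹ := by rw [e]; group
        _ = c * c := hk.inv n.hB
    calc c * c * t = t * (c * c) * t * t := by rw [this]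
      _ = t * (c * c) * (t * t) := by group
      _ = t * (c * c) := by rw [htt, mul_one]
  exact n.not_both hk hkL (key r n.hr n.rL) (key s n.hs n.sL)

theorem neg_mod {c : H} (hL : WW K V r s ≤ Fx K V c) (hc1 : c ≠ 1) (hc : ¬ Refl K V c)
    (hcc : c * c = 1) (v : V) : c • v + v ∈ WW K V r s :=
  n.mem_W_of hL hc1 hc (by rw [smul_add, ← mul_smul, hcc, one_smul, add_comm])

theorem inverts {t c : H} (ht : Refl K V t) (htL : WW K V r s ≤ Fx K V t)
    (hL : WW K V r s ≤ Fx K V c) (hc : ¬ Refl K V c) : t * c * (t * c) = 1 := by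
  by_cases hcc : c * c = 1
  · by_cases hc1 : c = 1
    · rw [hc1, mul_one, ht.sq n.hB]
    refine n.Q_triv (mulL (mulL htL hL) (mulL htL hL)) fun v => ?_
    have h1 := n.neg_mod hL hc1 hc hcc v
    have h2 := n.neg_mod hL hc1 hc hcc (t • v)
    have e1 : c • v = (c • v + v) - v := by abel
    have e2 : c • t • v = (c • t • v + t • v) - t • v := by abel
    have : (t * c * (t * c)) • v - v = (c • v + v) - (c • t • v + t • v) := by
      rw [mul_smul, mul_smul, mul_smul, e1, smul_sub, mem_Fx.1 (htL h1), smul_sub, mem_Fx.1 (hL h1),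
        e2, smul_sub, smul_sub, mem_Fx.1 (htL h1), mem_Fx.1 (htL h2), ht.smul_smul n.hB]
      abel
    rw [this]; exact Submodule.sub_mem _ h1 h2
  obtain ⟨u, hut, hu⟩ := n.exists_axis ht htL
  have hcu : (c * c) • u ≠ u := fun h => hu (n.mem_W_of (mulL hL hL) hcc (n.sq_not_refl hL) h)
  exact (n.inv_step ht htL hL hu (mem_Fx.1 hut) hcu).resolve_right
    fun h => n.sq_not_refl hL (h ▸ ht)

theorem conj_inv {t c : H} (ht : Refl K V t) (htL : WW K V r s ≤ Fx K V t)
    (hL : WW K V r s ≤ Fx K V c) (hc : ¬ Refl K V c) : t * c * t = c⁻¹ := by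
  rw [eq_inv_iff_mul_eq_one, ← n.inverts ht htL hL hc]; group

theorem refl_mul {t c : H} (ht : Refl K V t) (htL : WW K V r s ≤ Fx K V t)
    (hL : WW K V r s ≤ Fx K V c) (hc : ¬ Refl K V c) : Refl K V (t * c) := by
  by_contra hc'
  have hsq := n.inverts ht htL hL hc
  have hL' := mulL htL hL
  have h1 : t * c ≠ 1 := fun h => hc (by
    rw [eq_inv_of_mul_eq_one_right h, ht.inv n.hB]; exact ht)
  have hc1 : c ≠ 1 := fun h => hc' (by rw [h, mul_one]; exact ht)
  obtain ⟨v, hv, hv0⟩ := exists_Dv_ne (K := K) (V := V) ht.1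
  have hcm : t * c * t = t * (t * c) :=
    (comm_of_sq (ht.sq n.hB) hsq (n.inverts ht htL hL' hc')).symm
  have h2 : (t * c) • v + v = 0 := n.DW ht htL
    (Submodule.add_mem _ (smul_mem_Dv_of_comm hcm hv) hv) (n.neg_mod hL' h1 hc' hsq v)
  have h3 : c • v = v := by
    have := eq_neg_of_add_eq_zero_left h2
    rw [mul_smul, ← ht.neg n.hB hv] at this
    exact MulAction.injective t this
  exact hv0 (n.DW ht htL hv (n.mem_W_of hL hc1 hc h3))

theorem not_refl_mul {t k : H} (ht : Refl K V t) (htL : WW K V r s ≤ Fx K V t)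
    (hk : Refl K V k) (hkL : WW K V r s ≤ Fx K V k) : ¬ Refl K V (t * k) := by
  intro h
  by_cases he : t = k
  · exact h.1 (by rw [← he, ht.sq n.hB])
  obtain ⟨u, hu1, hu⟩ := n.exists_axis h (mulL htL hkL)
  rw [ht.Fx_mul n.hB hk he] at hu1
  exact he (n.eq_of_axis ht htL hk (n.axis_unique ht htL hk hkL hu hu1.1 hu1.2))

theorem not_refl_inv {c : H} (hc : ¬ Refl K V c) : ¬ Refl K V c⁻¹ := fun h =>
  hc (by rw [← inv_inv c, h.inv n.hB]; exact h)

theorem rot_mul {c d : H} (hL : WW K V r s ≤ Fx K V c) (hc : ¬ Refl K V c)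
    (hL' : WW K V r s ≤ Fx K V d) (hd : ¬ Refl K V d) : ¬ Refl K V (c * d) := by
  have e : c * d = (r * c⁻¹) * (r * d) := by
    have := n.conj_inv n.hr n.rL (invL hL) (n.not_refl_inv hc)
    rw [inv_inv] at this
    rw [← mul_assoc, this]
  rw [e]
  exact n.not_refl_mul (n.refl_mul n.hr n.rL (invL hL) (n.not_refl_inv hc)) (mulL n.rL (invL hL))
    (n.refl_mul n.hr n.rL hL' hd) (mulL n.rL hL')

theorem rot_comm {c d : H} (hL : WW K V r s ≤ Fx K V c) (hc : ¬ Refl K V c)
    (hL' : WW K V r s ≤ Fx K V d) (hd : ¬ Refl K V d) : c * d = d * c := by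
  have h1 := n.conj_inv n.hr n.rL hL hc
  have h2 := n.conj_inv n.hr n.rL hL' hd
  have h3 := n.conj_inv n.hr n.rL (mulL hL hL') (n.rot_mul hL hc hL' hd)
  have h4 : r * (c * d) * r = (r * c * r) * (r * d * r) := by
    rw [show (r * c * r) * (r * d * r) = r * c * (r * r) * d * r by group, n.hr.sq n.hB]; group
  rw [h4, h1, h2, ← mul_inv_rev, inv_inj] at h3
  exact h3.symm

theorem h_rot : ¬ Refl K V (r * s) := n.not_refl_mul n.hr n.rL n.hs n.sL

end NC

end Cfsg.Agent.H38.Bin
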