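import Cfsg.Agent.H38.Bin3

/-! Binary affine groups, part 4: spreads, exclusion of rank three, global structure. -/

set_option autoImplicit false
set_option linter.unusedSectionVars false
set_option linter.unusedVariables false

namespace Cfsg.Agent.H38.Bin

open Module

variable {K V H : Type*} [Field K] [AddCommGroup V] [Module K V] [Group H]
  [DistribMulAction H V] [SMulCommClass H K V] [FaithfulSMul H V] [FiniteDimensional K V]
  [Finite H]

open Classical in
variable (H) in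
/-- reflections with commutator space inside `M` -/
noncomputable def RM (M : Submodule K V) : Finset H :=
  (Set.toFinite {t : H | Refl K V t ∧ Dv K V t ≤ M}).toFinset

theorem mem_RM {M : Submodule K V} {t : H} : t ∈ RM H M ↔ Refl K V t ∧ Dv K V t ≤ M := by
  simp [RM]

theorem smul_mem_of_Dv_le {M : Submodule K V} {t : H} (h : Dv K V t ≤ M) {v : V} (hv : v ∈ M) :
    t • v ∈ M := by
  have := Submodule.add_mem _ (h (sub_mem_Dv t v)) hv
  simpa using this

theorem cast_card_sub [Finite V] (S : Submodule K V) {a : V} (ha : a ∈ S) (ha0 : a ≠ 0) :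
    ((Set.ncard ((S : Set V) \ {0}) : ℕ) : K) = -1 := by
  have h1 : Nat.card S • (⟨a, ha⟩ : S) = 0 := card_nsmul_eq_zero'
  have h2 : (Nat.card S : K) • a = 0 := by
    rw [Nat.cast_smul_eq_nsmul]; exact congrArg Subtype.val h1
  have h3 : (Nat.card S : K) = 0 := (smul_eq_zero.1 h2).resolve_right ha0
  have h4 : Set.ncard ((S : Set V) \ {0}) + 1 = Nat.card S :=
    Set.ncard_sdiff_singleton_add_one (Submodule.zero_mem S)
  rw [← h4] at h3
  push_cast at h3
  exact eq_neg_of_add_eq_zero_left h3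

namespace NC
variable {r s : H} (n : NC K V r s)
include n

theorem Dh : Dv K V (r * s) = UU K V r s := by
  refine Submodule.eq_of_le_of_finrank_le (fun v hv => ?_) ?_
  · obtain ⟨x, rfl⟩ := mem_Dv.1 hv
    have : (r * s) • x - x = r • (s • x - x) + (r • x - x) := by rw [mul_smul, smul_sub]; abel
    rw [this]
    exact Submodule.add_mem _ (smul_mem_of_Dv_le le_sup_left (Submodule.mem_sup_right (sub_mem_Dv s x)))
      (Submodule.mem_sup_left (sub_mem_Dv r x))
  · have h1 := rank_DF (K := K) (V := V) (r * s)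
    rw [n.FxRS] at h1
    have h2 := n.rank_W
    have h3 := n.rank_U
    omega

theorem smul_U {g : H} (hL : WW K V r s ≤ Fx K V g) {u : V} (hu : u ∈ UU K V r s) :
    g • u ∈ UU K V r s := by
  rw [← n.Dh] at hu ⊢
  have hhL : WW K V r s ≤ Fx K V (r * s) := mulL n.rL n.sL
  by_cases hg : Refl K V g
  · have := smul_mem_Dv_conj (g := g) hu
    rwa [hg.inv n.hB, n.conj_inv hg hL hhL n.h_rot, Dv_inv] at this
  · exact smul_mem_Dv_of_comm (n.rot_comm hL hg hhL n.h_rot) hu

theorem Dv_le_U {g : H} (hL : WW K V r s ≤ Fx K V g) : Dv K V g ≤ UU K V r s := by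
  intro v hv
  obtain ⟨x, rfl⟩ := mem_Dv.1 hv
  obtain ⟨u, hu, w, hw, rfl⟩ := n.dec x
  rw [smul_add, mem_Fx.1 (hL hw), add_sub_add_right_eq_sub]
  exact Submodule.sub_mem _ (n.smul_U hL hu) hu

theorem neg_U {c : H} (hL : WW K V r s ≤ Fx K V c) (hc1 : c ≠ 1) (hc : ¬ Refl K V c)
    (hcc : c * c = 1) {u : V} (hu : u ∈ UU K V r s) : c • u = -u :=
  eq_neg_of_add_eq_zero_left
    (n.UW (Submodule.add_mem _ (n.smul_U hL hu) hu) (n.neg_mod hL hc1 hc hcc u))

theorem neg_U2 {a b : H} (ha : Refl K V a) (haL : WW K V r s ≤ Fx K V a) (hb : Refl K V b)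
    (hbL : WW K V r s ≤ Fx K V b) (hne : a ≠ b) (hc : a * b = b * a) {u : V}
    (hu : u ∈ UU K V r s) : (a * b) • u = -u := by
  refine n.neg_U (mulL haL hbL) (fun h => hne ?_) (n.not_refl_mul ha haL hb hbL) ?_ hu
  · rw [eq_inv_of_mul_eq_one_left h, hb.inv n.hB]
  · calc a * b * (a * b) = a * (b * a) * b := by group
      _ = (a * a) * (b * b) := by rw [← hc]; group
      _ = 1 := by rw [ha.sq n.hB, hb.sq n.hB, one_mul]

theorem exists_z (h2 : (2 : K) ≠ 0) : ∃ z : H, WW K V r s ≤ Fx K V z ∧ ¬ Refl K V z ∧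
    ∀ u ∈ UU K V r s, z • u = -u := by
  obtain ⟨v, hv, hv0⟩ := exists_Dv_ne (K := K) (V := V) n.hr.1
  obtain ⟨t, ht, htL, htv⟩ := n.cover (u := v) fun h => hv0 (n.DW n.hr n.rL hv h)
  have hc := n.hr.comm_of_mem n.hB hv0 hv (by rw [htv]; exact hv)
  have hne : r ≠ t := fun h => hv0 (DF_zero h2 (n.hr.sq n.hB) hv (by rw [h]; exact mem_Fx.2 htv))
  exact ⟨r * t, mulL n.rL htL, n.not_refl_mul n.hr n.rL ht htL,
    fun u hu => n.neg_U2 n.hr n.rL ht htL hne hc.symm hu⟩

theorem dcover {u : V} (hu : u ∈ UU K V r s) (hu0 : u ≠ 0) :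
    ∃ t : H, Refl K V t ∧ WW K V r s ≤ Fx K V t ∧ u ∈ Dv K V t := by
  obtain ⟨t, ht, htL, htu⟩ := n.cover (u := u) fun h => hu0 (n.UW hu h)
  by_cases h2 : (2 : K) = 0
  · refine ⟨t, ht, htL, ?_⟩
    obtain ⟨y, m, h1, -⟩ := n.partner ht htL
    obtain ⟨a, ha, w, hw, rfl⟩ := Submodule.mem_sup.1 (m.Fx_le2 h2 (mem_Fx.2 htu))
    have : w = 0 := n.UW (by simpa using Submodule.sub_mem _ hu (n.Dv_le_U htL ha)) (h1 ▸ hw)
    simpa [this] using ha
  · obtain ⟨z, hzL, hz, hzu⟩ := n.exists_z h2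
    exact ⟨t * z, n.refl_mul ht htL hzL hz, mulL htL hzL,
      mem_Dv_of_neg h2 (by rw [mul_smul, hzu u hu, smul_neg, htu])⟩

theorem inL_of_mem {x : H} (hx : Refl K V x) {v : V} (hv0 : v ≠ 0) (hv : v ∈ Dv K V x)
    (hU : v ∈ UU K V r s) : WW K V r s ≤ Fx K V x := by
  obtain ⟨t, ht, htL, htv⟩ := n.dcover hU hv0
  rwa [hx.eq_of_mem n.hB ht hv0 hv htv]

theorem mem_RU {t : H} : t ∈ RM H (UU K V r s) ↔ Refl K V t ∧ WW K V r s ≤ Fx K V t := by
  rw [mem_RM]
  refine ⟨fun h => ⟨h.1, ?_⟩, fun h => ⟨h.1, n.Dv_le_U h.2⟩⟩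
  obtain ⟨v, hv, hv0⟩ := exists_Dv_ne (K := K) (V := V) h.1.1
  exact n.inL_of_mem h.1 hv0 hv (h.2 hv)

theorem span_two {a b : H} (ha : Refl K V a) (haL : WW K V r s ≤ Fx K V a) (hb : Refl K V b)
    (hbL : WW K V r s ≤ Fx K V b) (hne : a ≠ b) : UU K V r s = Dv K V a ⊔ Dv K V b := by
  refine (Submodule.eq_of_le_of_finrank_le (sup_le (n.Dv_le_U haL) (n.Dv_le_U hbL)) ?_).symm
  have h1 := Submodule.finrank_sup_add_finrank_inf_eq (Dv K V a) (Dv K V b)
  have h3 : Dv K V a ⊓ Dv K V b = ⊥ := by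
    rw [eq_bot_iff]; intro v hv; exact ha.disj n.hB hb hne hv.1 hv.2
  obtain ⟨-, -, -, h4⟩ := n.partner ha haL
  obtain ⟨-, -, -, h5⟩ := n.partner hb hbL
  rw [h3, finrank_bot] at h1
  rw [n.rank_U]; omega

theorem card_RU [Finite V] : (((RM H (UU K V r s)).card : ℕ) : K) = 1 := by
  classical
  obtain ⟨v, hv, hv0⟩ := exists_Dv_ne (K := K) (V := V) n.hr.1
  have h1 := cast_card_sub (UU K V r s) (Submodule.mem_sup_left hv) hv0
  have e : (Set.toFinite ((UU K V r s : Set V) \ {0})).toFinset =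
      (RM H (UU K V r s)).biUnion (fun t => (Set.toFinite ((Dv K V t : Set V) \ {0})).toFinset) := by
    ext u
    simp only [Set.Finite.mem_toFinset, Set.mem_sdiff, SetLike.mem_coe, Set.mem_singleton_iff,
      Finset.mem_biUnion]
    constructor
    · rintro ⟨hu, hu0⟩
      obtain ⟨t, ht, htL, htu⟩ := n.dcover hu hu0
      exact ⟨t, n.mem_RU.2 ⟨ht, htL⟩, htu, hu0⟩
    · rintro ⟨t, ht, htu, hu0⟩
      exact ⟨(mem_RM.1 ht).2 htu, hu0⟩
  rw [Set.ncard_eq_toFinset_card _ (Set.toFinite _), e, Finset.card_biUnion] at h1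
  · push_cast at h1
    rw [Finset.sum_congr rfl (g := fun _ => (-1 : K))] at h1
    · simpa using h1
    · intro t ht
      obtain ⟨a, ha, ha0⟩ := exists_Dv_ne (K := K) (V := V) (mem_RM.1 ht).1.1
      rw [← Set.ncard_eq_toFinset_card _ (Set.toFinite _)]
      exact cast_card_sub _ ha ha0
  · intro a ha b hb hab
    rw [Function.onFun, Finset.disjoint_left]
    intro u h1 h2
    simp only [Set.Finite.mem_toFinset, Set.mem_sdiff, SetLike.mem_coe, Set.mem_singleton_iff] at h1 h2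
    exact h1.2 ((mem_RM.1 ha).1.disj n.hB (mem_RM.1 hb).1 hab h1.1 h2.1)

theorem sum_RU [Finite V] {u w : V} (hu : u ∈ UU K V r s) (hw : w ∈ WW K V r s) :
    ∑ t ∈ RM H (UU K V r s), t • (u + w) = w := by
  have hhL : WW K V r s ≤ Fx K V (r * s) := mulL n.rL n.sL
  have h1 : ∑ t ∈ RM H (UU K V r s), t • w = w := by
    rw [Finset.sum_congr rfl (g := fun _ => w) (fun t ht => mem_Fx.1 ((n.mem_RU.1 ht).2 hw)),
      Finset.sum_const, ← Nat.cast_smul_eq_nsmul K, n.card_RU, one_smul]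
  have hm : ∀ c : H, WW K V r s ≤ Fx K V c → ¬ Refl K V c → ∀ t ∈ RM H (UU K V r s),
      c * t ∈ RM H (UU K V r s) := by
    intro c hL hc t ht
    obtain ⟨ht, htL⟩ := n.mem_RU.1 ht
    refine n.mem_RU.2 ⟨?_, mulL hL htL⟩
    have : c * t = t * c⁻¹ := by
      rw [← n.conj_inv ht htL hL hc, ← mul_assoc, ← mul_assoc, ht.sq n.hB, one_mul]
    rw [this]
    exact n.refl_mul ht htL (invL hL) (n.not_refl_inv hc)
  have h2 : ∑ t ∈ RM H (UU K V r s), t • u = 0 := by
    refine n.UW (Submodule.sum_mem _ fun t ht => n.smul_U (n.mem_RU.1 ht).2 hu) ?_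
    rw [← n.FxRS, mem_Fx, Finset.smul_sum]
    refine Finset.sum_nbij' (fun t => r * s * t) (fun t => (r * s)⁻¹ * t) (hm _ hhL n.h_rot)
      (hm _ (invL hhL) (n.not_refl_inv n.h_rot)) (fun t _ => by group) (fun t _ => by group)
      (fun t _ => (mul_smul _ _ _).symm)
  simp only [smul_add, Finset.sum_add_distrib, h1, h2, zero_add]

theorem sum_RU2 [Finite V] {a b : H} (ha : Refl K V a) (haL : WW K V r s ≤ Fx K V a)
    (hb : Refl K V b) (hbL : WW K V r s ≤ Fx K V b) (hne : a ≠ b) (hc : a * b = b * a) (v : V) :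
    (2 : K) • ∑ t ∈ RM H (UU K V r s), t • v = v + a • b • v := by
  obtain ⟨u, hu, w, hw, rfl⟩ := n.dec v
  rw [n.sum_RU hu hw, ← mul_smul, smul_add, n.neg_U2 ha haL hb hbL hne hc hu,
    mem_Fx.1 (mulL haL hbL hw), two_smul]
  abel

theorem exists_comm {t : H} (hd : finrank K (Dv K V t) = finrank K (Dv K V r)) :
    ∃ x : H, Refl K V x ∧ WW K V r s ≤ Fx K V x ∧ t * x = x * t := by
  obtain ⟨v, hv, hv0⟩ : ∃ v ∈ UU K V r s ⊓ Fx K V t, v ≠ 0 := by
    by_contra hc
    push Not at hc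
    have h3 : UU K V r s ⊓ Fx K V t = ⊥ := eq_bot_iff.2 hc
    have h1 := Submodule.finrank_sup_add_finrank_inf_eq (UU K V r s) (Fx K V t)
    rw [h3, finrank_bot, n.rank_U] at h1
    have h4 := Submodule.finrank_le (UU K V r s ⊔ Fx K V t)
    have h5 := rank_DF (K := K) (V := V) t
    have h7 : finrank K (Dv K V r) = 0 := by omega
    obtain ⟨v, hv, hv0⟩ := exists_Dv_ne (K := K) (V := V) n.hr.1
    rw [Submodule.finrank_eq_zero.1 h7] at hv
    exact hv0 hv
  obtain ⟨x, hx, hxL, hxv⟩ := n.dcover hv.1 hv0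
  exact ⟨x, hx, hxL, hx.comm_of_mem n.hB hv0 hxv (by rw [mem_Fx.1 hv.2]; exact hxv)⟩

/-- exclusion of rank three in odd characteristic -/
theorem rank3 [Finite V] (h2 : (2 : K) ≠ 0) {t r1 : H} (ht : Refl K V t)
    (htL : ¬ WW K V r s ≤ Fx K V t) (h1 : Refl K V r1) (h1L : WW K V r s ≤ Fx K V r1) :
    t * r1 = r1 * t := by
  classical
  by_contra hnc
  have m1 : NC K V t r1 := ⟨n.hB, ht, h1, hnc⟩
  obtain ⟨-, -, -, hd1⟩ := n.partner h1 h1L
  obtain ⟨r0, h0, h0L, hc0⟩ := n.exists_comm (m1.rank_eq.trans hd1)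
  have hne : ∀ x : H, WW K V r s ≤ Fx K V x → x ≠ t := fun x hx h => htL (h ▸ hx)
  have uniq : ∀ x : H, Refl K V x → WW K V r s ≤ Fx K V x → x ≠ r0 → NC K V x t := by
    intro x hx hxL hx0
    refine ⟨n.hB, hx, ht, fun hc => ?_⟩
    have hU : UU K V r s ≤ Fx K V t := by
      rw [n.span_two hx hxL h0 h0L hx0]
      exact sup_le (hx.Dv_le_Fx n.hB ht (hne x hxL) hc) (h0.Dv_le_Fx n.hB ht (hne r0 h0L) hc0.symm)
    obtain ⟨v, hv, hv0⟩ := exists_Dv_ne (K := K) (V := V) h1.1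
    exact hv0 (m1.symm.z1 hv (hU (n.Dv_le_U h1L hv)))
  obtain ⟨z, hzL, hz, hzu⟩ := n.exists_z h2
  have h0' := n.refl_mul h0 h0L hzL hz
  have h0L' := mulL h0L hzL
  have hne0 : r0 * z ≠ r0 := by
    intro h
    obtain ⟨v, hv, hv0⟩ := exists_Dv_ne (K := K) (V := V) n.hr.1
    have := hzu v (Submodule.mem_sup_left hv)
    rw [mul_eq_left.1 h, one_smul] at this
    exact hv0 (zero_of_neg h2 this.symm)
  have m' := uniq _ h0' h0L' hne0
  obtain ⟨b, hb, hb0⟩ := exists_Dv_ne (K := K) (V := V) ht.1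
  obtain ⟨ub, hub, a, ha, hab⟩ := n.dec b
  have hub' : ub ∈ Dv K V (r0 * z) := by
    refine mem_Dv_of_neg h2 ?_
    have := mem_Fx.1 (ht.Dv_le_Fx n.hB h0 (hne r0 h0L).symm hc0 hb)
    rw [← hab, smul_add, mem_Fx.1 (h0L ha), add_left_inj] at this
    rw [mul_smul, hzu ub hub, smul_neg, this]
  have ha0 : a ≠ 0 := fun h => htL (n.inL_of_mem ht hb0 hb (by rw [← hab, h, add_zero]; exact hub))
  have haU : a ∉ UU K V r s := fun h => ha0 (n.UW h ha)
  have hub0 : ub ≠ 0 := fun h => hb0 (m1.z1 hb (h1L (by rw [← hab, h, zero_add]; exact ha)))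
  obtain ⟨y, hy, hyL, hay⟩ := m'.dcover (u := a) (by
    rw [eq_sub_of_add_eq' hab]
    exact Submodule.sub_mem _ (Submodule.mem_sup_right hb) (Submodule.mem_sup_left hub')) ha0
  have hyc : ∀ x : H, WW K V r s ≤ Fx K V x → x * y = y * x := fun x hxL =>
    hy.comm_of_mem n.hB ha0 hay (by rw [mem_Fx.1 (hxL ha)]; exact hay)
  have hyne : ∀ x : H, WW K V r s ≤ Fx K V x → x ≠ y := fun x hxL h =>
    haU (n.Dv_le_U hxL (h ▸ hay))
  have hUy : UU K V r s ≤ Fx K V y := sup_le
    (n.hr.Dv_le_Fx n.hB hy (hyne r n.rL) (hyc r n.rL)) (n.hs.Dv_le_Fx n.hB hy (hyne s n.sL) (hyc s n.sL))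
  have hyW : Dv K V y ≤ WW K V r s := le_inf
    (hy.Dv_le_Fx n.hB n.hr (hyne r n.rL).symm (hyc r n.rL).symm)
    (hy.Dv_le_Fx n.hB n.hs (hyne s n.sL).symm (hyc s n.sL).symm)
  have hyt : y * t ≠ t * y := m'.not_both hy hyL (hyc _ h0L').symm
  have htM : Dv K V t ≤ UU K V r s ⊔ Dv K V y := by
    have : Dv K V t ≤ UU K V (r0 * z) t := le_sup_right
    rw [m'.span_two h0' m'.rL hy hyL (hyne _ h0L')] at this
    exact this.trans (sup_le_sup_right (n.Dv_le_U h0L') _)
  have lines : ∀ x : H, Refl K V x → WW K V r s ≤ Fx K V x → ∃ x' : H, NC K V x x' ∧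
      WW K V x x' ≤ Fx K V y ∧ UU K V x x' = Dv K V x ⊔ Dv K V y := by
    intro x hx hxL
    obtain ⟨u, hu, hu0, hur⟩ : ∃ u ∈ Dv K V x, u ≠ 0 ∧ u - ub ∉ Dv K V r0 := by
      obtain ⟨u, hu, hu0⟩ := exists_Dv_ne (K := K) (V := V) hx.1
      by_cases h : u - ub ∈ Dv K V r0
      · refine ⟨-u, Submodule.neg_mem _ hu, neg_ne_zero.2 hu0, fun h' => hub0 ?_⟩
        refine h0.disj n.hB h0' hne0.symm ?_ hub'
        have h3 := Submodule.smul_mem _ (-(2 : K)⁻¹) (Submodule.add_mem _ h h')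
        have : u - ub + (-u - ub) = (-2 : K) • ub := by rw [neg_smul, two_smul]; abel
        rwa [this, smul_smul, neg_mul_neg, inv_mul_cancel₀ h2, one_smul] at h3
      · exact ⟨u, hu, hu0, h⟩
    have huU := n.Dv_le_U hxL hu
    obtain ⟨r2, h3, h3L, h3u⟩ := n.dcover (Submodule.sub_mem _ huU hub)
      (fun h => hur (h ▸ Submodule.zero_mem _))
    have m2 := uniq r2 h3 h3L (fun h => hur (h ▸ h3u))
    have hv0 : a + u ≠ 0 := fun h =>
      haU (by rw [eq_neg_of_add_eq_zero_left h]; exact Submodule.neg_mem _ huU)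
    obtain ⟨x', hx', -, hx'v⟩ := m2.dcover (u := a + u) (by
      have : a + u = (u - ub) + b := by rw [← hab]; abel
      rw [this]
      exact Submodule.add_mem _ (Submodule.mem_sup_left h3u) (Submodule.mem_sup_right hb)) hv0
    have m3 : NC K V x x' := by
      refine ⟨n.hB, hx, hx', fun hc => ?_⟩
      by_cases he : x = x'
      · subst he
        exact haU (by simpa using Submodule.sub_mem _ (n.Dv_le_U hxL hx'v) huU)
      · have := mem_Fx.1 (hx'.Dv_le_Fx n.hB hx (Ne.symm he) hc.symm hx'v)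
        rw [smul_add, mem_Fx.1 (hxL ha), hx.neg n.hB hu, add_right_inj] at this
        exact hu0 (zero_of_neg h2 this)
    have hy3 := m3.inL_of_mem hy ha0 hay (by
      simpa using Submodule.sub_mem (UU K V x x') (Submodule.mem_sup_right hx'v)
        (Submodule.mem_sup_left hu))
    exact ⟨x', m3, hy3, m3.span_two hx m3.rL hy hy3 (hyne x hxL)⟩
  set M := UU K V r s ⊔ Dv K V y with hM
  have part : (RM H M).erase y =
      (RM H (UU K V r s)).biUnion (fun x => (RM H (Dv K V x ⊔ Dv K V y)).erase y) := by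
    ext k
    simp only [Finset.mem_erase, Finset.mem_biUnion, mem_RM]
    constructor
    · rintro ⟨hky, hk, hkM⟩
      obtain ⟨v, hv, hv0⟩ := exists_Dv_ne (K := K) (V := V) hk.1
      obtain ⟨u, hu, a', ha', rfl⟩ := Submodule.mem_sup.1 (hkM hv)
      have hu0 : u ≠ 0 := fun h => hky (hk.eq_of_mem n.hB hy hv0 hv (by rw [h, zero_add]; exact ha'))
      obtain ⟨x, hx, hxL, hxu⟩ := n.dcover hu hu0
      obtain ⟨x', m3, -, h4⟩ := lines x hx hxL
      refine ⟨x, ⟨hx, n.Dv_le_U hxL⟩, hky, hk, ?_⟩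
      rw [← h4]
      refine m3.Dv_le_U (m3.inL_of_mem hk hv0 hv ?_)
      rw [h4]; exact Submodule.add_mem _ (Submodule.mem_sup_left hxu) (Submodule.mem_sup_right ha')
    · rintro ⟨x, ⟨hx, hxU⟩, hky, hk, hkM⟩
      exact ⟨hky, hk, hkM.trans (sup_le_sup_right hxU _)⟩
  have hyM : ∀ N : Submodule K V, y ∈ RM H (N ⊔ Dv K V y) := fun N => mem_RM.2 ⟨hy, le_sup_right⟩
  have hS : ∀ u ∈ UU K V r s, ∀ a' ∈ Dv K V y, (2 : K) • ∑ k ∈ RM H M, k • (u + a') = u := by
    intro u hu a' ha'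
    have hyv : y • (u + a') = u + -a' := by rw [smul_add, mem_Fx.1 (hUy hu), hy.neg n.hB ha']
    rw [← Finset.add_sum_erase _ _ (hyM _), part, Finset.sum_biUnion, smul_add, Finset.smul_sum,
      Finset.sum_congr rfl (g := fun x => x • (u + -a') + ((u + a') - (2 : K) • (u + -a')))]
    · rw [Finset.sum_add_distrib, n.sum_RU hu (Submodule.neg_mem _ (hyW ha')), Finset.sum_const,
        ← Nat.cast_smul_eq_nsmul K, n.card_RU, one_smul, hyv]
      abel
    · intro x hx
      obtain ⟨hx, hxL⟩ := n.mem_RU.1 hx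
      obtain ⟨x', m3, h5, h4⟩ := lines x hx hxL
      have h6 := m3.sum_RU2 hx m3.rL hy h5 (hyne x hxL) (hyc x hxL) (u + a')
      rw [h4, ← Finset.add_sum_erase _ _ (hyM _), smul_add, hyv] at h6
      rw [eq_sub_of_add_eq' h6]; abel
    · intro x hx x' hx' hxx
      rw [Function.onFun, Finset.disjoint_left]
      intro k hk hk'
      simp only [Finset.mem_erase, mem_RM] at hk hk'
      obtain ⟨hx, hxU⟩ := mem_RM.1 hx
      obtain ⟨hx', hxU'⟩ := mem_RM.1 hx'
      obtain ⟨v, hv, hv0⟩ := exists_Dv_ne (K := K) (V := V) hk.2.1.1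
      obtain ⟨u1, hu1, a1, ha1, e1⟩ := Submodule.mem_sup.1 (hk.2.2 hv)
      obtain ⟨u2, hu2, a2, ha2, e2⟩ := Submodule.mem_sup.1 (hk'.2.2 hv)
      have e3 : u1 - u2 = a2 - a1 := by rw [eq_sub_of_add_eq e1, eq_sub_of_add_eq e2]; abel
      have e4 : u1 - u2 = 0 := n.UW (Submodule.sub_mem _ (hxU hu1) (hxU' hu2))
        (e3 ▸ hyW (Submodule.sub_mem _ ha2 ha1))
      have e5 : u1 = 0 := hx.disj n.hB hx' hxx hu1 (sub_eq_zero.1 e4 ▸ hu2)
      exact hk.1 (hk.2.1.eq_of_mem n.hB hy hv0 hv (by rw [← e1, e5, zero_add]; exact ha1))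
  have hconj : ∀ k ∈ RM H M, t * k * t⁻¹ ∈ RM H M := by
    intro k hk
    obtain ⟨hk, hkM⟩ := mem_RM.1 hk
    refine mem_RM.2 ⟨hk.conj t, fun v hv => ?_⟩
    have := smul_mem_of_Dv_le htM (hkM (mem_Dv_conj.1 hv))
    rwa [smul_inv_smul] at this
  have hti := ht.inv n.hB
  have heq : ∑ k ∈ RM H M, k • t • a = t • ∑ k ∈ RM H M, k • a := by
    rw [Finset.smul_sum]
    refine Finset.sum_nbij' (fun k => t * k * t⁻¹) (fun k => t * k * t⁻¹) hconj hconj
      (fun k _ => ?_) (fun k _ => ?_) (fun k _ => ?_)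
    · rw [hti, show t * (t * k * t) * t = (t * t) * k * (t * t) by group, ht.sq n.hB]; group
    · rw [hti, show t * (t * k * t) * t = (t * t) * k * (t * t) by group, ht.sq n.hB]; group
    · rw [hti, mul_smul, mul_smul, ht.smul_smul n.hB]
  have h7 : ∑ k ∈ RM H M, k • a = 0 := by
    have := hS 0 (Submodule.zero_mem _) a hay
    rw [zero_add] at this
    exact (smul_eq_zero.1 this).resolve_left h2
  obtain ⟨u, hu, a', ha', e⟩ := Submodule.mem_sup.1
    (smul_mem_of_Dv_le htM (Submodule.mem_sup_right hay : a ∈ M))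
  have h8 := hS u hu a' ha'
  rw [e, heq, h7, smul_zero, smul_zero] at h8
  exact hyt (hy.comm_of_mem n.hB ha0 hay (by rw [← e, ← h8, zero_add]; exact ha')).symm

end NC

/-- commuting conjugate reflections in characteristic two have the same axis -/
theorem com2 (hB : BinP H V) (h2 : (2 : K) = 0) {t g : H} (ht : Refl K V t)
    (hc : t * (g * t * g⁻¹) = g * t * g⁻¹ * t) : Fx K V t = Fx K V (g * t * g⁻¹) := by
  set t' := g * t * g⁻¹ with ht'def
  have ht' : Refl K V t' := ht.conj g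
  by_contra hne
  have htt : t ≠ t' := fun h => hne (by rw [← h])
  let ψ : V →ₗ[K] V := (DistribSMul.toLinearMap K V g) ∘ₗ dl K V t - dl K V t'
  have hψ : ∀ x, ψ x = g • (t • x - x) - (t' • x - x) := fun x => rfl
  have hr : LinearMap.range ψ ≤ Dv K V t' := by
    rintro _ ⟨x, rfl⟩
    rw [hψ]
    exact Submodule.sub_mem _ (smul_mem_Dv_conj (sub_mem_Dv t x)) (sub_mem_Dv t' x)
  obtain ⟨x, hx, hx'⟩ : ∃ x ∈ LinearMap.ker ψ, x ∉ Fx K V t ⊓ Fx K V t' := by
    by_contra hcon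
    push Not at hcon
    have h1 : Fx K V t ⊓ Fx K V t' < Fx K V t' :=
      lt_of_le_of_ne inf_le_right fun h => hne (ht'.Fx_eq ht.1 (inf_eq_right.1 h))
    have h3 := Submodule.finrank_lt_finrank_of_lt h1
    have h4 := Submodule.finrank_mono (show LinearMap.ker ψ ≤ _ from hcon)
    have h5 := Submodule.finrank_mono hr
    have h6 := LinearMap.finrank_range_add_finrank_ker ψ
    have h7 := rank_DF (K := K) (V := V) t'
    omega
  rw [LinearMap.mem_ker, hψ, sub_eq_zero] at hx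
  set u := t • x - x with hu
  set u' := t' • x - x with hu'
  have e1 : t • x = x + u := by rw [hu]; abel
  have e2 : t' • x = x + u' := by rw [hu']; abel
  obtain ⟨k, hk, hk'⟩ := one_point hB {0, u, x} (by simp) (x + u) (x + u') (by
    rintro z (rfl | rfl | rfl)
    · exact ⟨t' * t, by rw [sub_zero, sub_zero, ← e1, ← e2, mul_smul, ht.smul_smul hB]⟩
    · refine ⟨t * t', ?_⟩
      have e3 : t • u' = u' := mem_Fx.1 (ht'.Dv_le_Fx hB ht htt.symm hc.symm (sub_mem_Dv t' x))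
      rw [add_sub_cancel_right, mul_smul, e2, smul_add, e1, e3, sub_eq_add_neg (x + u'), neg2 h2 u]
      abel
    · exact ⟨g, by rw [add_sub_cancel_left, add_sub_cancel_left, hx]⟩)
  rw [smul_add, hk u (by simp), hk x (by simp), add_right_inj] at hk'
  have h0 : u = 0 := ht.disj hB ht' htt (sub_mem_Dv t x) (hk' ▸ sub_mem_Dv t' x)
  exact hx' ⟨mem_Fx.2 (by rw [e1, h0, add_zero]), mem_Fx.2 (by rw [e2, ← hk', h0, add_zero])⟩

/-- in odd characteristic the group is generated by reflections -/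
theorem gen_odd (hB : BinP H V) (h2 : (2 : K) ≠ 0) (N : Subgroup H)
    (hN : ∀ t : H, Refl K V t → t ∈ N) : ∀ (m : ℕ) (g : H), finrank K (Dv K V g) = m → g ∈ N := by
  intro m
  induction m using Nat.strong_induction_on with
  | _ m ih =>
  intro g hm
  by_cases hg1 : g = 1
  · rw [hg1]; exact N.one_mem
  by_cases hgg : g * g = 1
  swap
  · obtain ⟨a, b, rfl, -, -, ha', hb'⟩ := factor (K := K) hB hgg
    exact N.mul_mem (N.inv_mem (ih _ (hm ▸ ha') a rfl)) (ih _ (hm ▸ hb') b rfl)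
  obtain ⟨t, ht, hgt⟩ := exists_refl (K := K) (V := V) hg1
  have hplus : ∀ v : V, g • v + v ∈ Fx K V g := fun v => by
    rw [mem_Fx, smul_add, ← mul_smul, hgg, one_smul, add_comm]
  have hc : g * t = t * g := by
    refine comm_of_sq hgg (ht.sq hB) (eq_one_of_fix (V := V) fun v => fix_of_odd hB h2 ?_)
    refine NC.mulL (NC.mulL le_rfl hgt) (NC.mulL le_rfl hgt) ?_
    have h1 := hplus (t • v)
    have h3 := hplus v
    have e1 : g • t • v = (g • t • v + t • v) - t • v := by abel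
    have : (g * t * (g * t)) • v - v = (g • t • v + t • v) - (g • v + v) := by
      rw [mul_smul, mul_smul, mul_smul, e1, smul_sub, mem_Fx.1 (hgt h1), smul_sub, mem_Fx.1 h1,
        ht.smul_smul hB]
      abel
    rw [this]; exact Submodule.sub_mem _ h1 h3
  have hD := Dv_le_mul hB h2 hgg ht hgt hc
  obtain ⟨v, hv, hv0⟩ := exists_Dv_ne (K := K) (V := V) ht.1
  have h3 := ih _ (hm ▸ rank_lt (NC.mulL le_rfl hgt) (hD hv)
    (fun h => hv0 (DF_zero h2 (ht.sq hB) hv (hgt h)))) (g * t) rfl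
  simpa using N.mul_mem h3 (N.inv_mem (hN t ht))

theorem global [Finite V] (hB : BinP H V)
    (hirr : ∀ S : Submodule K V, (∀ g : H, ∀ v ∈ S, g • v ∈ S) → S = ⊥ ∨ S = ⊤) {g0 : H}
    (hg0 : g0 ≠ 1) : (∃ r s : H, NC K V r s ∧ WW K V r s = ⊥) ∨
      (∃ r : H, (∀ v : V, r • v = -v) ∧ ∀ g : H, g = 1 ∨ g = r) := by
  obtain ⟨r0, hr0, -⟩ := exists_refl (K := K) (V := V) hg0
  by_cases hA : ∃ r s : H, NC K V r s
  · left
    obtain ⟨r, s, n⟩ := hA
    refine ⟨r, s, n, ?_⟩
    have hU : UU K V r s = ⊤ := by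
      refine (hirr _ ?_).resolve_left fun h => ?_
      · by_cases h2 : (2 : K) = 0
        · have key : ∀ {r s : H}, NC K V r s → ∀ g : H, ∀ v ∈ Dv K V r, g • v ∈ UU K V r s := by
            intro r s n g v hv
            refine n.Dv_le_U ?_ (smul_mem_Dv_conj hv)
            have hd : finrank K (Dv K V (g * r * g⁻¹)) = finrank K (Dv K V r) := by
              have : Dv K V (g * r * g⁻¹) = (Dv K V r).map
                  (DistribMulAction.toLinearEquiv K V g : V →ₗ[K] V) := by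
                ext w
                rw [mem_Dv_conj, Submodule.mem_map]
                exact ⟨fun h => ⟨_, h, by simp⟩, fun ⟨y, hy, e⟩ => by rw [← e]; simpa using hy⟩
              rw [this, LinearEquiv.finrank_map_eq]
            obtain ⟨x, hx, hxL, hc⟩ := n.exists_comm hd
            obtain ⟨a, ha⟩ : ∃ a : H, a * x * a⁻¹ = r := by
              by_cases he : x = r
              · exact ⟨1, by simp [he]⟩
              · have m : NC K V x r := ⟨hB, hx, n.hr, fun h =>
                  he (n.eq_of_axis hx hxL n.hr (n.axis2 h2 hx hxL n.hr n.rL h))⟩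
                obtain ⟨a, -, ha⟩ := m.conj2 h2
                exact ⟨a, ha⟩
            have e : g * r * g⁻¹ = (g * a) * x * (g * a)⁻¹ := by rw [← ha]; group
            rw [e] at hc ⊢
            rw [← com2 hB h2 hx hc.symm]; exact hxL
          intro g v hv
          obtain ⟨a, ha, b, hb, rfl⟩ := mem_UU.1 hv
          rw [smul_add]
          exact Submodule.add_mem _ (key n g a ha) (by rw [UU_comm]; exact key n.symm g b hb)
        · let N : Subgroup H :=
            { carrier := {g | ∀ v, v ∈ UU K V r s ↔ g • v ∈ UU K V r s}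
              mul_mem' := fun {a b} ha hb v => by rw [mul_smul, ← ha, ← hb]
              one_mem' := fun v => by rw [one_smul]
              inv_mem' := fun {a} ha v => by rw [ha (a⁻¹ • v), smul_inv_smul] }
          have hN : ∀ t : H, Refl K V t → t ∈ N := by
            intro t ht
            have h1 : ∀ v ∈ UU K V r s, t • v ∈ UU K V r s := by
              by_cases htL : WW K V r s ≤ Fx K V t
              · exact fun v hv => n.smul_U htL hv
              · intro v hv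
                have : UU K V r s ≤ Fx K V t := sup_le
                  (n.hr.Dv_le_Fx hB ht (fun h => htL (h ▸ n.rL)) (n.rank3 h2 ht htL n.hr n.rL).symm)
                  (n.hs.Dv_le_Fx hB ht (fun h => htL (h ▸ n.sL)) (n.rank3 h2 ht htL n.hs n.sL).symm)
                rw [mem_Fx.1 (this hv)]; exact hv
            exact fun v => ⟨h1 v, fun h => by simpa [ht.smul_smul hB] using h1 _ h⟩
          exact fun g v hv => (gen_odd hB h2 N hN _ g rfl v).1 hv
      · obtain ⟨v, hv, hv0⟩ := exists_Dv_ne (K := K) (V := V) n.hr.1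
        have : v ∈ UU K V r s := Submodule.mem_sup_left hv
        rw [h] at this; exact hv0 this
    rw [eq_bot_iff]
    intro w hw
    exact n.UW (hU ▸ Submodule.mem_top) hw
  right
  have hcomm : ∀ a b : H, Refl K V a → Refl K V b → a * b = b * a := fun a b ha hb => by
    by_contra h; exact hA ⟨a, b, hB, ha, hb, h⟩
  obtain ⟨v, hv, hv0⟩ := exists_Dv_ne (K := K) (V := V) hr0.1
  by_cases h2 : (2 : K) = 0
  · exfalso
    rcases hirr (⨅ x : {x : H // Refl K V x}, Fx K V x.1) (fun g w hw => by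
      rw [Submodule.mem_iInf] at hw ⊢
      intro x
      have := smul_mem_Fx_conj (g := g) (hw ⟨g⁻¹ * x.1 * g⁻¹⁻¹, x.2.conj _⟩)
      simpa [mul_assoc] using this) with h | h
    · have : v ∈ ⨅ x : {x : H // Refl K V x}, Fx K V x.1 := by
        rw [Submodule.mem_iInf]
        intro x
        by_cases he : r0 = x.1
        · exact he ▸ Dv_le_Fx2 h2 (hr0.sq hB) hv
        · exact hr0.Dv_le_Fx hB x.2 he (hcomm _ _ hr0 x.2) hv
      rw [h] at this; exact hv0 this
    · refine Fx_ne_top (K := K) (V := V) hr0.1 (eq_top_iff.2 ?_)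
      rw [← h]
      exact iInf_le (fun x : {x : H // Refl K V x} => Fx K V x.1) ⟨r0, hr0⟩
  have hall : ∀ g : H, g * r0 = r0 * g := fun g =>
    (gen_odd hB h2 (Subgroup.centralizer {r0}) (fun t ht => by
      rw [Subgroup.mem_centralizer_singleton_iff]; exact hcomm _ _ ht hr0) _ g rfl |>
      Subgroup.mem_centralizer_singleton_iff.1)
  have hD : Dv K V r0 = ⊤ := (hirr _ fun g w hw => smul_mem_Dv_of_comm (hall g) hw).resolve_left
    fun h => hv0 (by rw [h] at hv; exact hv)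
  refine ⟨r0, fun w => hr0.neg hB (hD ▸ Submodule.mem_top), fun g => ?_⟩
  by_cases hg : g = 1
  · exact Or.inl hg
  have hle : Fx K V r0 ≤ Fx K V g := fun w hw => by
    rw [DF_zero h2 (hr0.sq hB) (hD ▸ Submodule.mem_top) hw]; exact Submodule.zero_mem _
  exact Or.inr (hr0.eq_of_axis_odd hB h2 (hr0.of_le hg hle) (hr0.Fx_eq hg hle).symm).symm

end Cfsg.Agent.H38.Bin
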