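import Cfsg.Agent.H38.Bin4

/-! Binary affine groups, part 5: the field structure. -/

set_option autoImplicit false
set_option linter.unusedSectionVars false
set_option linter.unusedVariables false

namespace Cfsg.Agent.H38.Bin

open Module

theorem quad_field (E : Type) [Field E] [Finite E] (σ : E ≃+* E) (h1 : ∃ x, σ x ≠ x)
    (h2 : ∀ x, σ (σ x) = x) : ∃ (F : Type) (_ : Field F) (_ : Fintype F) (_ : Algebra F E),
      finrank F E = 2 ∧ (∀ a : E, Algebra.norm F a = 1 ↔ a * σ a = 1) ∧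
      (∀ φ : E ≃ₐ[F] E, (∀ x, φ x = x) ∨ (∀ x, φ x = σ x)) ∧ ∃ φ : E ≃ₐ[F] E, ∀ x, φ x = σ x := by
  classical
  let G0 : Subgroup (RingAut E) := Subgroup.zpowers σ
  have : Finite (RingAut E) := Finite.of_injective (fun f : RingAut E => (f : E → E))
    DFunLike.coe_injective
  have : Fintype G0 := Fintype.ofFinite _
  let F := FixedPoints.subfield G0 E
  have hσ1 : (σ : RingAut E) ≠ 1 := fun h => by
    obtain ⟨x, hx⟩ := h1; exact hx (by rw [h]; rfl)
  have hord : orderOf (σ : RingAut E) = 2 :=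
    orderOf_eq_prime (by rw [pow_two]; ext x; exact h2 x) hσ1
  have hr : finrank F E = 2 := by
    rw [FixedPoints.finrank_eq_card G0 E, ← Nat.card_eq_fintype_card, Nat.card_zpowers, hord]
  let φσ : E ≃ₐ[F] E := { σ with
    commutes' := fun x => x.2 ⟨σ, Subgroup.mem_zpowers _⟩ }
  have hφ : ∀ x, φσ x = σ x := fun x => rfl
  have hne : φσ ≠ 1 := fun h => by
    obtain ⟨x, hx⟩ := h1; exact hx (by rw [← hφ, h]; rfl)
  have hc : Nat.card (E ≃ₐ[F] E) = 2 := by rw [IsGalois.card_aut_eq_finrank, hr]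
  have huniv : (Finset.univ : Finset (E ≃ₐ[F] E)) = {1, φσ} := by
    symm
    apply Finset.eq_univ_of_card
    rw [Finset.card_pair hne.symm, ← Nat.card_eq_fintype_card, hc]
  refine ⟨F, inferInstance, Fintype.ofFinite _, inferInstance, hr, fun a => ?_, fun φ => ?_, φσ, hφ⟩
  · have := Algebra.norm_eq_prod_automorphisms F a
    rw [huniv, Finset.prod_pair hne.symm] at this
    change _ = a * σ a at this
    rw [← this]
    exact ⟨fun h => by rw [h, map_one], fun h => (algebraMap F E).injective (by rw [h, map_one])⟩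
  · have : φ ∈ ({1, φσ} : Finset _) := huniv ▸ Finset.mem_univ φ
    rcases Finset.mem_insert.1 this with h | h
    · exact Or.inl fun x => by rw [h]; rfl
    · exact Or.inr fun x => by rw [Finset.mem_singleton.1 h]; rfl

universe u

/-- the semilinear model of `H` on `V` -/
def Model (H : Type*) {V : Type*} [AddCommGroup V] [Group H] [DistribMulAction H V]
    (A : Type*) [Field A] (σ : A ≃+* A) (e : V ≃+ A) : Prop :=
  (∃ x, σ x ≠ x) ∧ (∀ x, σ (σ x) = x) ∧
  (∀ g : H, ∃ a : A, a * σ a = 1 ∧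
    ((∀ v, e (g • v) = a * e v) ∨ (∀ v, e (g • v) = a * σ (e v)))) ∧
  (∀ a : A, a * σ a = 1 → ∃ c : H, ∀ v, e (c • v) = a * e v) ∧
  ∃ r : H, ∀ v, e (r • v) = σ (e v)

theorem Model.transport {H V : Type*} [AddCommGroup V] [Group H] [DistribMulAction H V]
    {A E : Type*} [Field A] [Field E] {σ : A ≃+* A} {e : V ≃+ A} (h : Model H A σ e)
    (ι : A ≃+* E) : Model H E (ι.symm.trans (σ.trans ι)) (e.trans ι.toAddEquiv) := by
  obtain ⟨⟨x, hx⟩, h2, h3, h4, r, h5⟩ := h
  refine ⟨⟨ι x, by simpa using hx⟩, fun x => by simp [h2], fun g => ?_, fun a ha => ?_,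
    r, fun v => by simp [h5]⟩
  · obtain ⟨a, ha, h⟩ := h3 g
    refine ⟨ι a, by simp [← map_mul, ha], h.imp (fun h v => ?_) (fun h v => ?_)⟩ <;> simp [h]
  · obtain ⟨c, hc⟩ := h4 (ι.symm a) (ι.injective (by simpa using ha))
    exact ⟨c, fun v => by simp [hc]⟩

variable {K H : Type*} {V : Type u} [Field K] [AddCommGroup V] [Module K V] [Group H]
  [DistribMulAction H V] [SMulCommClass H K V] [FaithfulSMul H V] [FiniteDimensional K V]
  [Finite H]

theorem NC.model {r s : H} (n : NC K V r s) (hW : WW K V r s = ⊥)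
    (hirr : ∀ S : Submodule K V, (∀ g : H, ∀ v ∈ S, g • v ∈ S) → S = ⊥ ∨ S = ⊤) :
    ∃ (A : Type u) (_ : Field A) (σ : A ≃+* A) (e : V ≃+ A), Model H A σ e := by
  have hL : ∀ g : H, WW K V r s ≤ Fx K V g := fun g => hW ▸ bot_le
  let ρ : H →* Module.End K V := DistribMulAction.toModuleEnd K V
  have hρ : ∀ g v, ρ g v = g • v := fun g v => rfl
  let A : Subalgebra K (Module.End K V) := Algebra.adjoin K (ρ '' {c | ¬ Refl K V c})
  have hmem : ∀ c, ¬ Refl K V c → ρ c ∈ A := fun c hc => Algebra.subset_adjoin ⟨c, hc, rfl⟩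
  have hcomm : ∀ a ∈ A, ∀ b ∈ A, a * b = b * a := by
    intro a ha b hb
    refine Algebra.commute_of_mem_adjoin_of_forall_mem_commute hb fun y hy => ?_
    refine (Algebra.commute_of_mem_adjoin_of_forall_mem_commute ha fun x hx => ?_).symm
    obtain ⟨c, hc, rfl⟩ := hx
    obtain ⟨d, hd, rfl⟩ := hy
    change _ * _ = _ * _
    rw [← map_mul, ← map_mul, n.rot_comm (hL _) hc (hL _) hd]
  have hconj : ∀ t, Refl K V t → ∀ a ∈ A, ρ t * a * ρ t ∈ A := by
    intro t ht a ha
    have htt : ρ t * ρ t = 1 := by rw [← map_mul, ht.sq n.hB, map_one]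
    induction ha using Algebra.adjoin_induction with
    | mem x hx =>
      obtain ⟨c, hc, rfl⟩ := hx
      rw [← map_mul, ← map_mul, n.conj_inv ht (hL _) (hL _) hc]
      exact hmem _ (n.not_refl_inv hc)
    | algebraMap k =>
      rw [← Algebra.commutes, mul_assoc, htt, mul_one]; exact A.algebraMap_mem k
    | add x y _ _ hx hy => rw [mul_add, add_mul]; exact A.add_mem hx hy
    | mul x y _ _ hx hy =>
      have : ρ t * (x * y) * ρ t = (ρ t * x * ρ t) * (ρ t * y * ρ t) := by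
        rw [show (ρ t * x * ρ t) * (ρ t * y * ρ t) = ρ t * x * (ρ t * ρ t) * y * ρ t by
          simp only [mul_assoc], htt]
        simp only [mul_assoc, mul_one]
      rw [this]; exact A.mul_mem hx hy
  have hcov : ∀ v : V, v ≠ 0 → ∃ t : H, Refl K V t ∧ t • v = v := fun v hv => by
    obtain ⟨t, ht, -, h⟩ := n.cover (u := v) (by rw [hW]; exact hv)
    exact ⟨t, ht, h⟩
  have hsurj : ∀ v : V, v ≠ 0 → ∀ w : V, ∃ a ∈ A, a v = w := by
    intro v hv w
    let S : Submodule K V := (Subalgebra.toSubmodule A).map (LinearMap.applyₗ v)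
    have hS : ∀ x, x ∈ S ↔ ∃ a ∈ A, a v = x := fun x => Submodule.mem_map
    have : S = ⊤ := by
      refine (hirr S fun g x hx => ?_).resolve_left fun h => hv ?_
      · obtain ⟨a, ha, rfl⟩ := (hS x).1 hx
        by_cases hg : Refl K V g
        · obtain ⟨t, ht, htv⟩ := hcov v hv
          refine (hS _).2 ⟨ρ (g * t) * (ρ t * a * ρ t), A.mul_mem
            (hmem _ (n.not_refl_mul hg (hL _) ht (hL _))) (hconj t ht a ha), ?_⟩
          simp only [Module.End.mul_apply, hρ, htv, mul_smul, ht.smul_smul n.hB]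
        · exact (hS _).2 ⟨ρ g * a, A.mul_mem (hmem g hg) ha, rfl⟩
      · have : v ∈ S := (hS v).2 ⟨1, A.one_mem, rfl⟩
        rw [h] at this; exact this
    exact (hS w).1 (this ▸ Submodule.mem_top)
  have hinj : ∀ v : V, v ≠ 0 → ∀ a ∈ A, a v = 0 → a = 0 := by
    intro v hv a ha h
    ext w
    obtain ⟨b, hb, rfl⟩ := hsurj v hv w
    rw [← Module.End.mul_apply, hcomm a ha b hb, Module.End.mul_apply, h, map_zero]; rfl
  obtain ⟨v0, hv0r, hv0⟩ := n.exists_axis n.hr n.rL
  replace hv0 : v0 ≠ 0 := fun h => hv0 (h ▸ Submodule.zero_mem _)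
  have hA : IsField A := by
    refine ⟨⟨0, 1, fun h => hv0 ?_⟩, fun a b => Subtype.ext (hcomm a a.2 b b.2), fun {a} ha => ?_⟩
    · have := congrArg (fun x : A => (x : Module.End K V) v0) h
      simpa using this.symm
    · have h1 : a.1 v0 ≠ 0 := fun h => ha (Subtype.ext (hinj v0 hv0 a a.2 h))
      obtain ⟨b, hb, hb'⟩ := hsurj _ h1 v0
      refine ⟨⟨b, hb⟩, Subtype.ext (sub_eq_zero.1 (hinj v0 hv0 _
        (A.sub_mem (A.mul_mem a.2 hb) A.one_mem) ?_))⟩
      change (a.1 * b - 1) v0 = 0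
      rw [hcomm a a.2 b hb, LinearMap.sub_apply, Module.End.mul_apply, hb']; simp
  let _ : Field A := hA.toField
  have hrr : ρ r * ρ r = 1 := by rw [← map_mul, n.hr.sq n.hB, map_one]
  let f : A → A := fun a => ⟨ρ r * a * ρ r, hconj r n.hr a a.2⟩
  have hff : ∀ a, f (f a) = a := fun a => Subtype.ext (by
    change ρ r * (ρ r * a * ρ r) * ρ r = a
    rw [show ρ r * (ρ r * a * ρ r) * ρ r = (ρ r * ρ r) * a * (ρ r * ρ r) by simp only [mul_assoc],
      hrr, one_mul, mul_one])
  let σ : A ≃+* A :=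
    { toFun := f, invFun := f, left_inv := hff, right_inv := hff
      map_mul' := fun a b => Subtype.ext (by
        change ρ r * (a * b) * ρ r = (ρ r * a * ρ r) * (ρ r * b * ρ r)
        rw [show (ρ r * a * ρ r) * (ρ r * b * ρ r) = ρ r * a * (ρ r * ρ r) * b * ρ r by
          simp only [mul_assoc], hrr]
        simp only [mul_assoc, mul_one])
      map_add' := fun a b => Subtype.ext (by
        change ρ r * (a + b) * ρ r = (ρ r * a * ρ r) + (ρ r * b * ρ r)
        rw [mul_add, add_mul]) }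
  have hσ : ∀ a : A, (σ a).1 = ρ r * a * ρ r := fun a => rfl
  let e0 : A →+ V := { toFun := fun a => a.1 v0, map_zero' := rfl, map_add' := fun a b => rfl }
  have he0 : Function.Bijective e0 := by
    refine ⟨(injective_iff_map_eq_zero e0).2 fun a ha => Subtype.ext (hinj v0 hv0 a a.2 ha),
      fun w => ?_⟩
    obtain ⟨a, ha, h⟩ := hsurj v0 hv0 w
    exact ⟨⟨a, ha⟩, h⟩
  let e : V ≃+ A := (AddEquiv.ofBijective e0 he0).symm
  have he : ∀ v, (e v).1 v0 = v := fun v => (AddEquiv.ofBijective e0 he0).apply_symm_apply v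
  have hext : ∀ (v : V) (a : A), a.1 v0 = v → e v = a := fun v a h =>
    he0.1 (show (e v).1 v0 = a.1 v0 by rw [he, h])
  have hrot : ∀ (c : H) (hc : ¬ Refl K V c) (v : V), e (c • v) = ⟨ρ c, hmem c hc⟩ * e v :=
    fun c hc v => hext _ _ (by change ρ c ((e v).1 v0) = _; rw [he, hρ])
  have hr : ∀ v, e (r • v) = σ (e v) := fun v => hext _ _ (by
    rw [hσ, Module.End.mul_apply, Module.End.mul_apply, hρ, hρ, mem_Fx.1 hv0r, he])
  have hnorm : ∀ (c : H) (hc : ¬ Refl K V c), (⟨ρ c, hmem c hc⟩ : A) * σ ⟨ρ c, hmem c hc⟩ = 1 :=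
    fun c hc => Subtype.ext (by
      change ρ c * (ρ r * ρ c * ρ r) = 1
      rw [← map_mul, ← map_mul, ← map_mul, n.conj_inv n.hr n.rL (hL _) hc, mul_inv_cancel, map_one])
  have hσ1 : ∃ x, σ x ≠ x := by
    refine ⟨⟨ρ (r * s), hmem _ n.h_rot⟩, fun h => hv0 ?_⟩
    have h1 := hnorm _ n.h_rot
    rw [h] at h1
    have h2 : (r * s * (r * s)) • v0 = v0 := by
      have := congrArg (fun x : A => (x : Module.End K V) v0) h1
      rw [mul_smul]; exact this
    have := n.hsq h2
    rwa [hW] at this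
  refine ⟨A, inferInstance, σ, e, hσ1, hff, fun g => ?_, fun a ha => ?_, r, hr⟩
  · by_cases hg : Refl K V g
    · have hc := n.not_refl_mul hg (hL _) n.hr n.rL
      refine ⟨_, hnorm _ hc, Or.inr fun v => ?_⟩
      rw [← hr, ← hrot _ hc, mul_smul, n.hr.smul_smul n.hB]
    · exact ⟨_, hnorm _ hg, Or.inl (hrot g hg)⟩
  · obtain ⟨b, hb0, hb⟩ : ∃ b : A, b ≠ 0 ∧ a * σ b = b := by
      have key : ∀ θ : A, a * σ (θ + a * σ θ) = θ + a * σ θ := fun θ => by
        have : σ (σ θ) = θ := hff θ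
        rw [map_add, map_mul, this, mul_add, ← mul_assoc, ha, one_mul, add_comm]
      by_cases h1 : 1 + a * σ 1 = 0
      · obtain ⟨x, hx⟩ := hσ1
        refine ⟨x + a * σ x, fun h => hx ?_, key x⟩
        rw [map_one, mul_one] at h1
        rw [eq_neg_of_add_eq_zero_right h1, neg_one_mul, ← sub_eq_add_neg, sub_eq_zero] at h
        exact h.symm
      · exact ⟨_, h1, key 1⟩
    have hv : e.symm b ≠ 0 := fun h => hb0 (by rw [← e.apply_symm_apply b, h, map_zero])
    obtain ⟨t, ht, htv⟩ := hcov _ hv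
    have hc := n.not_refl_mul ht (hL _) n.hr n.rL
    refine ⟨t * r, fun v => ?_⟩
    have h1 := hrot _ hc (r • e.symm b)
    rw [mul_smul, n.hr.smul_smul n.hB, htv, hr, e.apply_symm_apply] at h1
    have h2 : σ b ≠ 0 := (map_ne_zero σ).2 hb0
    rw [hrot _ hc, mul_right_cancel₀ h2 (h1.symm.trans hb.symm)]

theorem linear_main [Finite V] [Nontrivial V] (hB : BinP H V)
    (hirr : ∀ S : Submodule K V, (∀ g : H, ∀ v ∈ S, g • v ∈ S) → S = ⊥ ∨ S = ⊤) :
    (finrank K V = 1 ∧ Nat.card H ≤ 2) ∨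
    ∃ (F E : Type) (_ : Field F) (_ : Fintype F) (_ : Field E) (_ : Fintype E) (_ : Algebra F E)
      (e : V ≃+ E), finrank F E = 2 ∧
      (∀ g : H, ∃ (a : E) (φ : E ≃ₐ[F] E), Algebra.norm F a = 1 ∧ ∀ v, e (g • v) = a * φ (e v)) ∧
      (∀ (a : E) (φ : E ≃ₐ[F] E), Algebra.norm F a = 1 → ∃ g : H, ∀ v, e (g • v) = a * φ (e v)) := by
  have hline : ∀ r : H, (∀ v : V, r • v = v ∨ r • v = -v) → (∀ g : H, g = 1 ∨ g = r) →
      finrank K V = 1 ∧ Nat.card H ≤ 2 := by
    intro r hr hg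
    obtain ⟨v, hv⟩ := exists_ne (0 : V)
    constructor
    · have : (K ∙ v) = ⊤ := by
        refine (hirr _ fun g w hw => ?_).resolve_left (by simpa using hv)
        rcases hg g with h | h
        · rw [h, one_smul]; exact hw
        · rcases hr w with h' | h'
          · rw [h, h']; exact hw
          · rw [h, h']; exact Submodule.neg_mem _ hw
      rw [← finrank_top, ← this, finrank_span_singleton hv]
    · have : Function.Surjective (fun b : Bool => if b then (1 : H) else r) := fun g => by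
        rcases hg g with h | h
        · exact ⟨true, by simp [h]⟩
        · exact ⟨false, by simp [h]⟩
      simpa using Nat.card_le_card_of_surjective _ this
  by_cases h1 : ∀ g : H, g = 1
  · exact Or.inl (hline 1 (fun v => Or.inl (one_smul _ _)) fun g => Or.inl (h1 g))
  push Not at h1
  obtain ⟨g0, hg0⟩ := h1
  rcases global hB hirr hg0 with ⟨r, s, n, hW⟩ | ⟨r, hr, hg⟩
  swap
  · exact Or.inl (hline r (fun v => Or.inr (hr v)) hg)
  right
  obtain ⟨A, _, σ0, e0, hM⟩ := n.model hW hirr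
  have : Finite A := Finite.of_equiv V e0.toEquiv
  obtain ⟨E, _, σ, e, hM⟩ : ∃ (E : Type) (_ : Field E) (σ : E ≃+* E) (e : V ≃+ E), Model H E σ e :=
    ⟨Shrink.{0} A, inferInstance, _, _, hM.transport (Shrink.ringEquiv.{0} A).symm⟩
  have : Finite E := Finite.of_equiv V e.toEquiv
  obtain ⟨h1, h2, h3, h4, r, h5⟩ := hM
  obtain ⟨F, _, _, _, hF, hN, hφ, φσ, hφσ⟩ := quad_field E σ h1 h2
  refine ⟨F, E, inferInstance, inferInstance, inferInstance, Fintype.ofFinite _, inferInstance, e, hF,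
    fun g => ?_, fun a φ ha => ?_⟩
  · obtain ⟨a, ha, h | h⟩ := h3 g
    · exact ⟨a, 1, (hN a).2 ha, h⟩
    · exact ⟨a, φσ, (hN a).2 ha, fun v => by rw [h, hφσ]⟩
  · obtain ⟨c, hc⟩ := h4 a ((hN a).1 ha)
    rcases hφ φ with h | h
    · exact ⟨c, fun v => by rw [hc, h]⟩
    · exact ⟨c * r, fun v => by rw [mul_smul, hc, h5, h]⟩

end Cfsg.Agent.H38.Bin
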