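import Cfsg.Agent.H44.CkDefs
import Cfsg.Agent.H77.Weyl
import Cfsg.Agent.H39.SzTable
import Cfsg.Agent.H39.SzOvoid

/-!
Class numbers of `L₂(q)` and `Sz(q)` (project CK, piece K2).
-/

set_option autoImplicit false
set_option linter.unusedSectionVars false

namespace Cfsg.Agent.H38.CkK2

open Cfsg Cfsg.Agent.H44.CK Matrix

/-- Counting the orbits of an involution given through a surjection. -/
theorem two_mul_card_of_fibres {X Y : Type*} [Finite X] [Finite Y] (π : X → Y)
    (hπ : Function.Surjective π) (σ : X → X) (h : ∀ a b, π a = π b ↔ b = a ∨ b = σ a) :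
    2 * Nat.card Y = Nat.card X + Nat.card {a // σ a = a} := by
  classical
  cases nonempty_fintype X
  cases nonempty_fintype Y
  have e1 : Nat.card X + Nat.card {a // σ a = a} = ∑ a : X, (1 + if σ a = a then 1 else 0) := by
    rw [Finset.sum_add_distrib, Nat.card_eq_fintype_card, Nat.card_eq_fintype_card,
      Fintype.card_subtype, Finset.card_filter]
    simp
  rw [e1, ← Finset.sum_fiberwise (s := Finset.univ) (g := π), Nat.card_eq_fintype_card,
    mul_comm, ← Finset.card_univ, ← smul_eq_mul, ← Finset.sum_const]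
  refine Finset.sum_congr rfl fun y _ => ?_
  obtain ⟨a, rfl⟩ := hπ y
  have e2 : Finset.univ.filter (fun b => π b = π a) = {a, σ a} := by
    ext b
    simp only [Finset.mem_filter, Finset.mem_univ, true_and, Finset.mem_insert,
      Finset.mem_singleton]
    rw [eq_comm, h]
  rw [e2]
  by_cases ha : σ a = a
  · rw [ha]
    simp [ha]
  · have hs : σ (σ a) ≠ σ a := by
      intro e
      rcases (h (σ a) a).1 ((h a (σ a)).2 (Or.inr rfl)).symm with e' | e'
      · exact ha e'.symm
      · exact ha (e.symm.trans e'.symm)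
    rw [Finset.sum_pair (Ne.symm ha)]
    simp [ha, hs]

/-- Multiplication of conjugacy classes by a central element. -/
def shift {G : Type*} [Group G] {z : G} (hz : z ∈ Subgroup.center G) :
    ConjClasses G → ConjClasses G :=
  Quotient.map (fun g => z * g) fun a b hab => by
    obtain ⟨c, rfl⟩ := isConj_iff.1 hab
    refine isConj_iff.2 ⟨c, ?_⟩
    rw [← mul_assoc, Subgroup.mem_center_iff.1 hz c]
    simp only [mul_assoc]

theorem shift_mk {G : Type*} [Group G] {z : G} (hz : z ∈ Subgroup.center G) (g : G) :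
    shift hz (ConjClasses.mk g) = ConjClasses.mk (z * g) := rfl

/-- The class number of `G / Z(G)` when the centre is `{1, z}`. -/
theorem two_mul_kk_quot {G : Type*} [Group G] [Finite G] {z : G} (hz : z ∈ Subgroup.center G)
    (hZ : ∀ x ∈ Subgroup.center G, x = 1 ∨ x = z) :
    2 * kk (G ⧸ Subgroup.center G) = kk G + Nat.card {C // shift hz C = C} := by
  refine two_mul_card_of_fibres (ConjClasses.map (QuotientGroup.mk' (Subgroup.center G)))
    (ConjClasses.map_surjective (QuotientGroup.mk'_surjective _)) _ fun A B => ?_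
  obtain ⟨a, rfl⟩ := ConjClasses.mk_surjective A
  obtain ⟨b, rfl⟩ := ConjClasses.mk_surjective B
  rw [shift_mk]
  change ConjClasses.mk (QuotientGroup.mk' _ a) = ConjClasses.mk (QuotientGroup.mk' _ b) ↔ _
  simp only [ConjClasses.mk_eq_mk_iff_isConj]
  constructor
  · intro h
    obtain ⟨c, hc⟩ := isConj_iff.1 h
    obtain ⟨c, rfl⟩ := QuotientGroup.mk'_surjective _ c
    rw [← map_inv, ← map_mul, ← map_mul, QuotientGroup.mk'_apply, QuotientGroup.mk'_apply,
      QuotientGroup.eq] at hc
    rcases hZ _ hc with e | e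
    · left
      rw [inv_mul_eq_one] at e
      exact (isConj_iff.2 ⟨c, e⟩).symm
    · right
      rw [inv_mul_eq_iff_eq_mul] at e
      refine (isConj_iff.2 ⟨c, ?_⟩).symm
      rw [e, Subgroup.mem_center_iff.1 hz (c * a * c⁻¹), ← mul_assoc c z,
        Subgroup.mem_center_iff.1 hz c]
      simp only [mul_assoc]
  · rintro (h | h)
    · exact (QuotientGroup.mk' _).map_isConj h.symm
    · have h1 := (QuotientGroup.mk' (Subgroup.center G)).map_isConj h.symm
      rwa [map_mul, QuotientGroup.mk'_apply _ z, (QuotientGroup.eq_one_iff z).2 hz, one_mul] at h1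

variable {F : Type} [Field F] [Fintype F]

theorem center_cases (x : H77.SL2 F) (hx : x ∈ Subgroup.center (H77.SL2 F)) :
    x = 1 ∨ x = -1 := by
  obtain ⟨r, hr, e⟩ := Matrix.SpecialLinearGroup.mem_center_iff.1 hx
  rw [Fintype.card_fin, sq_eq_one_iff] at hr
  rcases hr with rfl | rfl
  · left
    ext i j
    rw [← e]
    simp
  · right
    ext i j
    rw [← e, map_neg, map_one]
    simp

theorem neg_one_mem_center : (-1 : H77.SL2 F) ∈ Subgroup.center (H77.SL2 F) :=
  Subgroup.mem_center_iff.2 fun g => by simp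

theorem isConj_of_trace_zero (h2 : (2 : F) ≠ 0) {g h : H77.SL2 F} (hg : (g : H77.M2 F).trace = 0)
    (hh : (h : H77.M2 F).trace = 0) : IsConj g h := by
  have key : ∀ a : F, (g : H77.M2 F).trace = a + a → (g : H77.M2 F).det = a * a → False := by
    intro a h1 h3
    rw [hg, ← two_mul, eq_comm, mul_eq_zero, or_iff_right h2] at h1
    rw [g.det_coe, h1, mul_zero] at h3
    exact one_ne_zero h3
  rcases H77.type_cases (g : H77.M2 F) with h1 | h1 | h1 | h1
  · exact (key _ h1.trace_det.1 h1.trace_det.2).elim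
  · obtain ⟨-, a, h3, h4⟩ := h1
    exact (key a h3 h4).elim
  · exact H77.sl_isConj_of_isSplit h1 (hg.trans hh.symm)
  · exact H77.sl_isConj_of_noEig h1 (hg.trans hh.symm)

theorem card_fixed (h2 : (2 : F) ≠ 0) :
    Nat.card {C // shift (neg_one_mem_center (F := F)) C = C} = 1 := by
  let w : H77.SL2 F := ⟨!![0, 1; -1, 0], by simp [det_fin_two]⟩
  have hw : (w : H77.M2 F).trace = 0 := by simp [w, trace_fin_two]
  have hfix : ∀ g : H77.SL2 F, shift neg_one_mem_center (ConjClasses.mk g) = ConjClasses.mk g ↔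
      (g : H77.M2 F).trace = 0 := by
    intro g
    rw [shift_mk, ConjClasses.mk_eq_mk_iff_isConj, neg_one_mul]
    have ht : ((-g : H77.SL2 F) : H77.M2 F).trace = -(g : H77.M2 F).trace := by
      rw [SpecialLinearGroup.coe_neg, trace_neg]
    constructor
    · intro h
      have := H77.sl_trace_of_isConj h
      rw [ht, neg_eq_iff_add_eq_zero, ← two_mul, mul_eq_zero, or_iff_right h2] at this
      exact this
    · intro h
      exact isConj_of_trace_zero h2 (by rw [ht, h, neg_zero]) h
  rw [Nat.card_eq_one_iff_exists]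
  refine ⟨⟨ConjClasses.mk w, (hfix w).2 hw⟩, ?_⟩
  rintro ⟨C, hC⟩
  obtain ⟨g, rfl⟩ := ConjClasses.mk_surjective C
  exact Subtype.ext (ConjClasses.mk_eq_mk_iff_isConj.2
    (isConj_of_trace_zero h2 ((hfix g).1 hC) hw))

theorem kk_psl2_odd (h2 : (2 : F) ≠ 0) :
    2 * kk (ProjectiveSpecialLinearGroup (Fin 2) F) = Fintype.card F + 5 := by
  have := two_mul_kk_quot (neg_one_mem_center (F := F)) center_cases
  rw [card_fixed h2, kk, kk, H77.card_conjClasses_SL2_odd h2] at this
  exact this

theorem kk_psl2_even (h2 : (2 : F) = 0) :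
    kk (ProjectiveSpecialLinearGroup (Fin 2) F) = Fintype.card F + 1 := by
  have h1 : (1 : H77.SL2 F) ∈ Subgroup.center (H77.SL2 F) := one_mem _
  have hn : (-1 : H77.SL2 F) = 1 := by
    ext i j
    rw [SpecialLinearGroup.coe_neg, neg_apply, neg_eq_iff_add_eq_zero, ← two_mul, h2, zero_mul]
  have := two_mul_kk_quot h1 fun x hx => by
    have := center_cases x hx
    rwa [hn] at this
  have e : Nat.card {C // shift h1 C = C} = kk (H77.SL2 F) := by
    refine Nat.card_congr (Equiv.subtypeUnivEquiv fun C => ?_)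
    obtain ⟨g, rfl⟩ := ConjClasses.mk_surjective C
    rw [shift_mk, one_mul]
  rw [e, kk, kk, H77.card_conjClasses_SL2_even h2] at this
  change Nat.card (ConjClasses (H77.SL2 F ⧸ Subgroup.center (H77.SL2 F))) = _
  omega

theorem k2 : K2Stmt := fun F _ _ =>
  ⟨fun h => kk_psl2_odd (H77.two_ne_zero_of_odd h), fun h => kk_psl2_even (by
    by_contra h2
    exact Nat.not_odd_iff_even.2 h (H77.odd_of_two_ne_zero h2))⟩

/-- The class number of a group with a Suzuki model. -/
theorem kk_model {G : Type*} [Group G] [Finite G] {K : Type*} [Field K] [H39.SzField K]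
    (S : H39.Model G K) : kk G = Nat.card K + 3 := by
  cases nonempty_fintype G
  obtain ⟨m, hm, hK⟩ := H39.SzField.exists_card (F := K)
  obtain ⟨C, -⟩ := S.nonempty_ctx hm hK
  have : Fintype (IrrCharacter G) := Fintype.ofFinite _
  have h := C.sum_irr fun _ => 1
  simp only [Finset.sum_const, Finset.card_univ, Fintype.card_fin, nsmul_eq_mul, mul_one] at h
  rw [C.nX, C.nY, C.nZ, ← Nat.card_eq_fintype_card, H11.card_irr_eq_card_conjClasses] at h
  apply Nat.cast_injective (R := ℂ)
  push_cast
  rw [h, C.card_F]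
  ring

theorem ksz : KSzStmt := fun F _ _ m hm hF => by
  have := H39.szField_of_card hm hF
  rw [kk_model (H39.lieModel hF), Nat.card_eq_fintype_card]

end Cfsg.Agent.H38.CkK2
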