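import Cfsg.Agent.H56.SpDefs

/-! Project CY, chapter SP: the restricted system of step A. -/

set_option autoImplicit false
set_option linter.unusedVariables false

namespace Cfsg.Agent.H38.CySpA2

open Subgroup MulAction Cfsg.Agent.H11.Cy Cfsg.Agent.H56.Sp

theorem a2 : A2Stmt := by
  intro res G _ _ Ω _ _ p A h mc lf S Φ cf
  have hp : Fact p.Prime := ⟨h.pp⟩
  have inv : ∀ g ∈ normalizer (S : Set G), ∀ z ∈ Φ, g • z ∈ Φ := by
    intro g hg z hz
    refine (cf.fix _).2 fun s hs => ?_
    have h1 := (cf.fix _).1 hz _ ((mem_normalizer_iff''.1 hg s).1 hs)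
    calc s • g • z = g • (g⁻¹ * s * g) • z := by simp only [smul_smul]; congr 1; group
      _ = g • z := by rw [h1]
  have hAX : ∀ z ∈ Φ, A z ≤ normalizer (S : Set G) := fun z hz =>
    (cf.cen z hz).trans (centralizer_le_normalizer _)
  obtain ⟨Y, _, _, _, π, B, surj, act, hB, sB⟩ :=
    res G Ω p A h (normalizer (S : Set G)) Φ inv hAX cf.tr cf.nt
  have k1 : ∀ g : normalizer (S : Set G), π g = 1 ↔ ∀ w ∈ Φ, (g : G) • w = w := by
    intro g
    constructor
    · intro e w hw
      have := act g ⟨w, hw⟩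
      rw [e, one_smul] at this
      exact this.symm
    · intro e
      exact sB.faith _ fun w => Subtype.ext (by rw [act, e w w.2])
  have k2 : ∀ g : normalizer (S : Set G), (g : G) ∈ S → π g = 1 := fun g hg =>
    (k1 g).2 fun w hw => (cf.fix w).1 hw _ hg
  have hlt : Nat.card Y < Nat.card G := by
    obtain ⟨s, hs, s1⟩ : ∃ s ∈ S, s ≠ 1 := by
      by_contra e
      push Not at e
      exact cf.ne ((eq_bot_iff_forall S).2 e)
    have h1 : Nat.card Y < Nat.card (normalizer (S : Set G)) := by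
      have := Fintype.ofFinite Y
      have := Fintype.ofFinite (normalizer (S : Set G))
      rw [Nat.card_eq_fintype_card, Nat.card_eq_fintype_card]
      refine Fintype.card_lt_of_surjective_not_injective π surj fun hi => s1 ?_
      have := hi ((k2 ⟨s, le_normalizer hs⟩ hs).trans (map_one π).symm)
      exact congrArg Subtype.val this
    exact h1.trans_le (card_le_card_group _)
  have nz : ∀ c : Φ, ∃ b ∈ B c, b ≠ 1 := by
    intro c
    by_contra e
    push Not at e
    have h1 := sB.card c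
    rw [(eq_bot_iff_forall _).2 e, card_bot] at h1
    exact h.pp.one_lt.ne h1
  refine ⟨Y, inferInstance, inferInstance, Φ, inferInstance, inferInstance, B, sB,
    mc.ih Y Φ p B sB hlt, ?_, ?_⟩
  swap
  · obtain ⟨x, hx, y, hy, hxy⟩ := cf.nt
    rw [← (lf x y hxy).ln, Nat.card_coe_set_eq]
    exact Set.ncard_lt_ncard ((cf.sub x hx y hy hxy).ssubset_of_ne (cf.big x hx y hy hxy))
      (Set.toFinite _)
  intro x y hne
  have hxy : (x : Ω) ≠ y := fun e => hne (Subtype.ext e)
  have l := lf x y hxy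
  have lΦ : Ln A x y ⊆ Φ := cf.sub x x.2 y y.2 hxy
  have hFX : Fl A x y ≤ normalizer (S : Set G) := sup_le (hAX x x.2) (hAX y y.2)
  have eF : Fl B x y = ((Fl A x y).subgroupOf (normalizer (S : Set G))).map π := by
    rw [subgroupOf_sup (hAX x x.2) (hAX y y.2), Subgroup.map_sup, ← hB, ← hB]
  have memF : ∀ b : Y, b ∈ Fl B x y ↔
      ∃ f : normalizer (S : Set G), (f : G) ∈ Fl A x y ∧ π f = b := by
    intro b
    rw [eF]
    rfl
  obtain ⟨z, hz⟩ := l.ex
  have zS := cf.zs x x.2 y y.2 hxy z hz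
  have kF : ∀ f : normalizer (S : Set G), (f : G) ∈ Fl A x y →
      (∀ c ∈ Ln A x y, (f : G) • c = c) → (f : G) = 1 ∨ (f : G) = z := by
    intro f hf e
    have h1 := l.fk _ hf ((mc.ep.kfix x y hxy _).2 e)
    by_cases f1 : (f : G) = 1
    · exact Or.inl f1
    · exact Or.inr (l.uq _ _ ⟨hf, f1, h1⟩ hz)
  have kF1 : ∀ f : normalizer (S : Set G), (f : G) ∈ Fl A x y → π f = 1 →
      (f : G) = 1 ∨ (f : G) = z := fun f hf e => kF f hf fun c hc => (k1 f).1 e c (lΦ hc)
  have kF2 : ∀ f : normalizer (S : Set G), (f : G) = 1 ∨ (f : G) = z → π f = 1 := by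
    rintro f (e | e)
    · exact k2 f (e ▸ one_mem _)
    · exact k2 f (e ▸ zS)
  have lnB : ∀ c : Φ, (c : Ω) ∈ Ln A x y → B c ≤ Fl B x y := by
    intro c hc
    rw [hB, eF]
    exact map_mono fun g hg => hc hg
  have cL : ({w : Φ | (w : Ω) ∈ Ln A x y} : Set Φ).ncard = p + 1 := by
    rw [← l.ln, ← Set.ncard_image_of_injective _ Subtype.val_injective]
    congr 1
    ext w
    constructor
    · rintro ⟨c, hc, rfl⟩
      exact hc
    · intro hw
      exact ⟨⟨w, lΦ hw⟩, hw, rfl⟩
  refine ⟨?_, ?_, ?_, ?_⟩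
  · obtain ⟨a, ha, b, hb, aa, bb, ba⟩ := l.q8 z hz
    let a' : normalizer (S : Set G) := ⟨a, hFX ha⟩
    let b' : normalizer (S : Set G) := ⟨b, hFX hb⟩
    have pa : π a' * π a' = 1 := by
      rw [← map_mul]
      exact kF2 _ (Or.inr aa)
    have pb : π b' * π b' = 1 := by
      rw [← map_mul]
      exact kF2 _ (Or.inr bb)
    have pba : π b' * π a' * (π b')⁻¹ = π a' := by
      rw [← map_inv, ← map_mul, ← map_mul, show b' * a' * b'⁻¹ = a'⁻¹ from Subtype.ext ba, map_inv]
      exact inv_eq_of_mul_eq_one_right pa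
    refine ⟨π a', (memF _).2 ⟨a', ha, rfl⟩, π b', (memF _).2 ⟨b', hb, rfl⟩, pa, pb, ?_, ?_, ?_, ?_⟩
    · calc π a' * π b' = π b' * π a' * (π b')⁻¹ * π b' := by rw [pba]
        _ = π b' * π a' := by group
    · intro e
      rcases kF1 a' ha e with e | e
      · have e' : a = 1 := e
        rw [e', one_mul] at aa
        exact hz.2.1 aa.symm
      · have e' : a = z := e
        rw [e', hz.2.2] at aa
        exact hz.2.1 aa.symm
    · intro e
      rcases kF1 b' hb e with e | e
      · have e' : b = 1 := e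
        rw [e', one_mul] at bb
        exact hz.2.1 bb.symm
      · have e' : b = z := e
        rw [e', hz.2.2] at bb
        exact hz.2.1 bb.symm
    · intro e
      have h1 : π (a' * b'⁻¹) = 1 := by rw [map_mul, map_inv, e, mul_inv_cancel]
      have h2 : b * a * b⁻¹ = a := by
        rcases kF1 _ (mul_mem ha (inv_mem hb)) h1 with e | e
        · have e' : a * b⁻¹ = 1 := e
          rw [mul_inv_eq_one.1 e']
          group
        · have e' : a * b⁻¹ = z := e
          have e2 : a = b * b * b := by rw [bb, ← e']; group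
          rw [e2]
          group
      rw [h2] at ba
      apply hz.2.1
      rw [← aa]
      nth_rewrite 1 [ba]
      group
  · intro g hg hk
    obtain ⟨f, hf, rfl⟩ := (memF g).1 hg
    refine kF2 f (kF f hf fun c hc => ?_)
    obtain ⟨b, hb, b1⟩ := nz ⟨c, lΦ hc⟩
    have h1 := mem_centralizer_iff.1 hk b (lnB ⟨c, lΦ hc⟩ hc hb)
    have h2 : b • (π f • (⟨c, lΦ hc⟩ : Φ)) = π f • (⟨c, lΦ hc⟩ : Φ) := by
      rw [smul_smul, h1, mul_smul, sB.fix _ b hb]
    rcases sB.semi _ _ b hb h2 with e | e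
    · exact absurd e b1
    · have := act f ⟨c, lΦ hc⟩
      rw [e] at this
      exact this.symm
  · let φ : Fl A x y →* Y := π.comp (inclusion hFX)
    have r : φ.range = Fl B x y := by
      ext b
      rw [memF]
      constructor
      · rintro ⟨f, rfl⟩
        exact ⟨inclusion hFX f, f.2, rfl⟩
      · rintro ⟨f, hf, rfl⟩
        exact ⟨⟨f, hf⟩, rfl⟩
    have k : (φ.ker : Set (Fl A x y)) = {1, ⟨z, hz.1⟩} := by
      ext f
      constructor
      · intro e
        rcases kF1 (inclusion hFX f) f.2 e with e | e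
        · exact Or.inl (Subtype.ext e)
        · exact Or.inr (Subtype.ext e)
      · rintro (e | e)
        · exact kF2 (inclusion hFX f) (Or.inl (congrArg Subtype.val e))
        · exact kF2 (inclusion hFX f) (Or.inr (congrArg Subtype.val e))
    have c : Nat.card φ.ker = 2 := by
      have : Nat.card φ.ker = (φ.ker : Set (Fl A x y)).ncard := Nat.card_coe_set_eq _
      rw [this, k]
      exact Set.ncard_pair fun e => hz.2.1 (congrArg Subtype.val e).symm
    rw [← l.crd, ← φ.ker.index_mul_card, index_ker, r, c, mul_comm]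
  · rw [← cL]
    congr 1
    ext c
    refine ⟨fun hc => ?_, fun hc => lnB c hc⟩
    let T : SubMulAction (B c) Φ := ⟨{w : Φ | (w : Ω) ∈ Ln A x y}, by
      rintro ⟨b, hb⟩ w hw
      obtain ⟨f, hf, rfl⟩ := (memF b).1 (hc hb)
      show ((π f • w : Φ) : Ω) ∈ Ln A x y
      rw [act]
      exact (mc.ep.nrm x y hxy f).1 (le_normalizer hf) w hw⟩
    have hT : Nat.card T = p + 1 := by
      rw [← cL]
      exact Nat.card_coe_set_eq _
    have hP : IsPGroup p (B c) := IsPGroup.of_card (n := 1) (by rw [sB.card, pow_one])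
    obtain ⟨w, hw⟩ := hP.nonempty_fixed_point_of_prime_not_dvd_card T (by
      rw [hT]
      intro e
      exact h.pp.one_lt.ne' (Nat.dvd_one.1 ((Nat.dvd_add_right dvd_rfl).1 e)))
    obtain ⟨b, hb, b1⟩ := nz c
    have h1 : b • (w : Φ) = w := congrArg Subtype.val (hw ⟨b, hb⟩)
    rcases sB.semi c w b hb h1 with e | e
    · exact absurd e b1
    · exact e ▸ w.2

end Cfsg.Agent.H38.CySpA2
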