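import Mathlib

/-!
The Weyl group of type E8 in frame coordinates: rational orthogonal matrices preserving the lattice of the
integer vectors that reduce modulo two to an affine function on the eight points.
-/

set_option autoImplicit false
set_option maxRecDepth 100000
set_option linter.unusedVariables false

namespace Cfsg.Agent.H38.E8

open Matrix Equiv

abbrev I := Fin 8

/-- addition of points -/
def xr (a b : I) : I := ⟨(a.1 ^^^ b.1) % 8, Nat.mod_lt _ (by decide)⟩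

/-- the fourth point of a plane -/
def x3 (a b c : I) : I := xr (xr a b) c

/-- the lattice condition -/
def Cd (n : I → ℤ) : Prop := ∀ a b c, 2 ∣ n a + n b + n c + n (x3 a b c)

theorem cd2 : ∀ x0 x1 x2 x3' x4 x5 x6 x7 : ZMod 2, x0 + x1 + x2 + x3' = 0 → x0 + x1 + x4 + x5 = 0 →
    x0 + x2 + x4 + x6 = 0 → x1 + x2 + x4 + x7 = 0 → ∀ a b c : I,
    ![x0, x1, x2, x3', x4, x5, x6, x7] a + ![x0, x1, x2, x3', x4, x5, x6, x7] b +
      ![x0, x1, x2, x3', x4, x5, x6, x7] c + ![x0, x1, x2, x3', x4, x5, x6, x7] (x3 a b c) = 0 := by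
  decide +kernel

theorem cd_iff (n : I → ℤ) : Cd n ↔ 2 ∣ n 0 + n 1 + n 2 + n 3 ∧ 2 ∣ n 0 + n 1 + n 4 + n 5 ∧
    2 ∣ n 0 + n 2 + n 4 + n 6 ∧ 2 ∣ n 1 + n 2 + n 4 + n 7 := by
  refine ⟨fun h => ⟨h 0 1 2, h 0 1 4, h 0 2 4, h 1 2 4⟩, fun ⟨h1, h2, h3, h4⟩ a b c => ?_⟩
  have e : ∀ i, ((n i : ℤ) : ZMod 2) = ![(n 0 : ZMod 2), n 1, n 2, n 3, n 4, n 5, n 6, n 7] i := by
    intro i; fin_cases i <;> rfl
  have k : ∀ x : ℤ, (2 : ℤ) ∣ x ↔ (x : ZMod 2) = 0 := fun x =>
    (ZMod.intCast_zmod_eq_zero_iff_dvd x 2).symm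
  rw [k] at h1 h2 h3 h4 ⊢
  push_cast at h1 h2 h3 h4 ⊢
  rw [e a, e b, e c, e (x3 a b c)]
  exact cd2 _ _ _ _ _ _ _ _ h1 h2 h3 h4 a b c

instance (n : I → ℤ) : Decidable (Cd n) := decidable_of_iff _ (cd_iff n).symm

theorem dot8 {R : Type*} [CommRing R] (n m : I → R) : n ⬝ᵥ m = n 0 * m 0 + n 1 * m 1 + n 2 * m 2 + n 3 * m 3 +
    n 4 * m 4 + n 5 * m 5 + n 6 * m 6 + n 7 * m 7 := by
  simp [dotProduct, Fin.sum_univ_eight]

theorem Cd.dot_even {n m : I → ℤ} (hn : Cd n) (hm : Cd m) : 2 ∣ n ⬝ᵥ m := by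
  obtain ⟨⟨a, h1⟩, ⟨b, h2⟩, ⟨c, h3⟩, ⟨d, h4⟩⟩ := (cd_iff n).1 hn
  obtain ⟨⟨a', k1⟩, ⟨b', k2⟩, ⟨c', k3⟩, ⟨d', k4⟩⟩ := (cd_iff m).1 hm
  rw [dot8, show n 3 = 2 * a - n 0 - n 1 - n 2 by omega, show n 5 = 2 * b - n 0 - n 1 - n 4 by omega,
    show n 6 = 2 * c - n 0 - n 2 - n 4 by omega, show n 7 = 2 * d - n 1 - n 2 - n 4 by omega,
    show m 3 = 2 * a' - m 0 - m 1 - m 2 by omega, show m 5 = 2 * b' - m 0 - m 1 - m 4 by omega,
    show m 6 = 2 * c' - m 0 - m 2 - m 4 by omega, show m 7 = 2 * d' - m 1 - m 2 - m 4 by omega]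
  ring_nf
  omega

theorem Cd.norm_four {n : I → ℤ} (hn : Cd n) : 4 ∣ n ⬝ᵥ n := by
  obtain ⟨⟨a, h1⟩, ⟨b, h2⟩, ⟨c, h3⟩, ⟨d, h4⟩⟩ := (cd_iff n).1 hn
  rw [dot8, show n 3 = 2 * a - n 0 - n 1 - n 2 by omega, show n 5 = 2 * b - n 0 - n 1 - n 4 by omega,
    show n 6 = 2 * c - n 0 - n 2 - n 4 by omega, show n 7 = 2 * d - n 1 - n 2 - n 4 by omega]
  ring_nf
  omega

theorem Cd.add {n m : I → ℤ} (hn : Cd n) (hm : Cd m) : Cd (n + m) := fun a b c => by
  have := hn a b c; have := hm a b c; simp only [Pi.add_apply]; omega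

theorem Cd.smul {n : I → ℤ} (hn : Cd n) (k : ℤ) : Cd (k • n) := fun a b c => by
  have := (hn a b c).mul_left k
  simp only [Pi.smul_apply, smul_eq_mul]
  rwa [mul_add, mul_add, mul_add] at this

theorem Cd.neg {n : I → ℤ} (hn : Cd n) : Cd (-n) := by simpa using hn.smul (-1)

theorem Cd.sub {n m : I → ℤ} (hn : Cd n) (hm : Cd m) : Cd (n - m) := by
  rw [sub_eq_add_neg]; exact hn.add hm.neg

theorem cd_zero : Cd 0 := fun _ _ _ => by simp

theorem cd_two (n : I → ℤ) : Cd ((2 : ℤ) • n) := fun a b c => by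
  simp only [Pi.smul_apply, smul_eq_mul]; omega

theorem Cd.sum {ι : Type*} (s : Finset ι) {f : ι → I → ℤ} (h : ∀ j ∈ s, Cd (f j)) : Cd (∑ j ∈ s, f j) :=
  Finset.sum_induction f Cd (fun _ _ => Cd.add) cd_zero h

/-- the rational vector of an integer vector -/
def cv (n : I → ℤ) : I → ℚ := fun i => (n i : ℚ)

theorem cv_inj {n m : I → ℤ} (h : cv n = cv m) : n = m :=
  funext fun i => Int.cast_injective (α := ℚ) (congrFun h i)

theorem cv_add (n m : I → ℤ) : cv (n + m) = cv n + cv m := by ext i; simp [cv]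

theorem cv_sub (n m : I → ℤ) : cv (n - m) = cv n - cv m := by ext i; simp [cv]

theorem cv_neg (n : I → ℤ) : cv (-n) = -cv n := by ext i; simp [cv]

theorem cv_smul (k : ℤ) (n : I → ℤ) : cv (k • n) = (k : ℚ) • cv n := by ext i; simp [cv]

theorem cv_dot (n m : I → ℤ) : cv n ⬝ᵥ cv m = ((n ⬝ᵥ m : ℤ) : ℚ) := by simp [cv, dotProduct]

theorem cv_sum {ι : Type*} (s : Finset ι) (f : ι → I → ℤ) : cv (∑ j ∈ s, f j) = ∑ j ∈ s, cv (f j) := by
  ext i; simp [cv, Finset.sum_apply]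

/-- twice a unit vector -/
def e2 (i : I) : I → ℤ := fun j => if j = i then 2 else 0

theorem cd_e2 : ∀ i, Cd (e2 i) := by decide +kernel

theorem dot_e2 (y : I → ℚ) (i : I) : y ⬝ᵥ cv (e2 i) = 2 * y i := by
  simp [cv, e2, dotProduct, apply_ite, mul_comm]

theorem mulVec_e2 (m : Matrix I I ℚ) (i k : I) : (m *ᵥ cv (e2 i)) k = 2 * m k i := dot_e2 _ _

/-- the lattice is self-dual -/
theorem lat_of_dual {y : I → ℚ} (h : ∀ n, Cd n → ∃ k : ℤ, y ⬝ᵥ cv n = 2 * k) : ∃ n, Cd n ∧ y = cv n := by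
  choose k hk using fun i => h _ (cd_e2 i)
  have e : y = cv k := funext fun i => by
    have := hk i
    rw [dot_e2] at this
    simp only [cv]; linarith
  refine ⟨k, (cd_iff k).2 ?_, e⟩
  have t : ∀ n, Cd n → 2 ∣ k ⬝ᵥ n := fun n hn => by
    obtain ⟨j, hj⟩ := h n hn
    rw [e, cv_dot] at hj
    exact ⟨j, by exact_mod_cast hj⟩
  have t1 := t ![1, 1, 1, 1, 0, 0, 0, 0] (by decide)
  have t2 := t ![1, 1, 0, 0, 1, 1, 0, 0] (by decide)
  have t3 := t ![1, 0, 1, 0, 1, 0, 1, 0] (by decide)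
  have t4 := t ![0, 1, 1, 0, 1, 0, 0, 1] (by decide)
  rw [dot8] at t1 t2 t3 t4
  simp at t1 t2 t3 t4
  exact ⟨t1, t2, t3, t4⟩

/-- The Weyl group of type E8. -/
@[ext] structure WE where
  m : Matrix I I ℚ
  o : mᵀ * m = 1
  l : ∀ n, Cd n → ∃ n', Cd n' ∧ m *ᵥ cv n = cv n'

namespace WE

theorem o' (w : WE) : w.m * w.mᵀ = 1 := mul_eq_one_comm.1 w.o

instance : Mul WE := ⟨fun a b => ⟨a.m * b.m, by
  rw [transpose_mul, Matrix.mul_assoc, ← Matrix.mul_assoc a.mᵀ, a.o, Matrix.one_mul, b.o], fun n hn => by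
  obtain ⟨n', h1, h2⟩ := b.l n hn
  rw [← mulVec_mulVec, h2]
  exact a.l n' h1⟩⟩

instance : One WE := ⟨⟨1, by simp, fun n hn => ⟨n, hn, one_mulVec _⟩⟩⟩

instance : Inv WE := ⟨fun a => ⟨a.mᵀ, by rw [transpose_transpose, a.o'], fun n hn => lat_of_dual fun n' hn' => by
  obtain ⟨k, h1, h2⟩ := a.l n' hn'
  obtain ⟨j, hj⟩ := hn.dot_even h1
  refine ⟨j, ?_⟩
  rw [mulVec_transpose, ← dotProduct_mulVec, h2, cv_dot, hj]
  push_cast; rfl⟩⟩

@[simp] theorem mul_m (a b : WE) : (a * b).m = a.m * b.m := rfl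
@[simp] theorem one_m : (1 : WE).m = 1 := rfl
@[simp] theorem inv_m (a : WE) : (a⁻¹).m = a.mᵀ := rfl

instance : Group WE := Group.ofLeftAxioms (fun a b c => WE.ext (Matrix.mul_assoc _ _ _))
  (fun a => WE.ext (Matrix.one_mul _)) (fun a => WE.ext a.o)

theorem dot (w : WE) (x y : I → ℚ) : (w.m *ᵥ x) ⬝ᵥ (w.m *ᵥ y) = x ⬝ᵥ y := by
  rw [dotProduct_mulVec, ← mulVec_transpose, mulVec_mulVec, w.o, one_mulVec]

/-- the matrix as a homomorphism -/
def mHom : WE →* Matrix I I ℚ := ⟨⟨WE.m, rfl⟩, fun _ _ => rfl⟩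

/-- the determinant -/
def dt : WE →* ℚ where
  toFun w := w.m.det
  map_one' := det_one
  map_mul' a b := det_mul _ _

theorem dt_apply (w : WE) : dt w = w.m.det := by
  simp only [dt, MonoidHom.coe_mk, OneHom.coe_mk]

theorem dt_sq (w : WE) : dt w * dt w = 1 := by
  have := congrArg Matrix.det w.o
  rwa [det_mul, det_transpose, det_one, ← dt_apply] at this

theorem dt_cases (w : WE) : dt w = 1 ∨ dt w = -1 := mul_self_eq_one_iff.1 (dt_sq w)

theorem trace_conj (w a : WE) : (w * a * w⁻¹).m.trace = a.m.trace := by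
  rw [mul_m, trace_mul_comm, ← mul_m, inv_mul_cancel_left]

/-- image of a lattice vector, with the norm -/
theorem img (w : WE) {n : I → ℤ} (hn : Cd n) : ∃ n', Cd n' ∧ w.m *ᵥ cv n = cv n' ∧ n' ⬝ᵥ n' = n ⬝ᵥ n := by
  obtain ⟨n', h1, h2⟩ := w.l n hn
  refine ⟨n', h1, h2, ?_⟩
  have := w.dot (cv n) (cv n)
  rw [h2, cv_dot, cv_dot] at this
  exact_mod_cast this

end WE

open WE

/-- The subgroup of determinant one. -/
def W1 : Subgroup WE := dt.ker

theorem mem_W1 {w : WE} : w ∈ W1 ↔ dt w = 1 := Iff.rfl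

instance : W1.Normal := MonoidHom.normal_ker _

theorem mul_mem_W1 {a b : WE} (ha : a ∉ W1) (hb : b ∉ W1) : a * b ∈ W1 := by
  rw [mem_W1] at *
  rw [map_mul, (dt_cases a).resolve_left ha, (dt_cases b).resolve_left hb]; norm_num

/-! ### sign changes -/

/-- sign vectors -/
abbrev SV := I → ℤˣ

theorem sv_sq (s : SV) : s * s = 1 := funext fun i => Int.units_mul_self (s i)

theorem sv_inv (s : SV) : s⁻¹ = s := inv_eq_of_mul_eq_one_right (sv_sq s)

theorem unit_q (u : ℤˣ) : ((u : ℤ) : ℚ) * ((u : ℤ) : ℚ) = 1 := by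
  rcases Int.units_eq_one_or u with rfl | rfl <;> simp

theorem cd_sign {n : I → ℤ} (hn : Cd n) (s : SV) : Cd fun i => s i * n i := fun a b c => by
  have k : ∀ i, 2 ∣ (s i : ℤ) * n i - n i := fun i => by
    rcases Int.units_eq_one_or (s i) with h | h <;> rw [h] <;> simp only [Units.val_one, Units.val_neg] <;> omega
  have := hn a b c
  have := k a; have := k b; have := k c; have := k (x3 a b c)
  simp only
  omega

/-- sign changes -/
def sg : SV →* WE := MonoidHom.mk' (fun s => ⟨diagonal fun i => ((s i : ℤ) : ℚ), by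
    rw [diagonal_transpose, diagonal_mul_diagonal, ← diagonal_one]
    congr 1; funext i; exact unit_q _,
  fun n hn => ⟨_, cd_sign hn s, by ext i; simp [mulVec_diagonal, cv]⟩⟩)
  fun s t => WE.ext (by simp [diagonal_mul_diagonal])

theorem sg_m (s : SV) : (sg s).m = diagonal fun i => ((s i : ℤ) : ℚ) := rfl

theorem sg_mulVec (s : SV) (y : I → ℚ) (i : I) : ((sg s).m *ᵥ y) i = ((s i : ℤ) : ℚ) * y i := by
  rw [sg_m, mulVec_diagonal]

theorem sg_inj : Function.Injective sg := fun s t h => funext fun i => by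
  have := congrFun (congrFun (congrArg WE.m h) i) i
  simp only [sg_m, diagonal_apply_eq] at this
  exact Units.ext (by exact_mod_cast this)

theorem sg_sq (s : SV) : sg s * sg s = 1 := by rw [← map_mul, sv_sq, map_one]

theorem sg_comm (s t : SV) : sg s * sg t = sg t * sg s := by rw [← map_mul, mul_comm, map_mul]

/-- the product of the signs -/
def pr : SV →* ℤˣ := MonoidHom.mk' (fun s => ∏ i, s i) fun s t => Finset.prod_mul_distrib

theorem pr_apply (s : SV) : pr s = ∏ i, s i := rfl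

theorem dt_sg (s : SV) : dt (sg s) = ((pr s : ℤ) : ℚ) := by
  rw [dt_apply, sg_m, det_diagonal, pr_apply]; push_cast; rfl

theorem sg_mem_W1 {s : SV} : sg s ∈ W1 ↔ pr s = 1 := by
  rw [mem_W1, dt_sg]
  rcases Int.units_eq_one_or (pr s) with h | h <;> rw [h] <;> simp
  norm_num

/-- minus one -/
def ng : WE := sg (-1)

theorem ng_m : ng.m = -1 := by
  ext i j
  by_cases h : i = j
  · subst h; simp [ng, sg_m]
  · simp [ng, sg_m, h]

theorem ng_comm (w : WE) : ng * w = w * ng := WE.ext (by simp [ng_m])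

theorem ng_sq : ng * ng = 1 := sg_sq _

theorem ng_ne : ng ≠ 1 := fun h => by
  have := congrFun (sg_inj (h.trans (map_one sg).symm)) 0
  exact absurd this (by decide)

theorem ng_mem : ng ∈ W1 := sg_mem_W1.2 (by decide)

/-- the sign vector with one minus sign -/
def u1 (i : I) : SV := fun j => if j = i then -1 else 1

theorem pr_u1 : ∀ i, pr (u1 i) = -1 := by decide +kernel

theorem u1_notMem (i : I) : sg (u1 i) ∉ W1 := by rw [sg_mem_W1, pr_u1]; decide

theorem index_W1 : W1.index = 2 :=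
  Subgroup.index_eq_two_iff.2 ⟨sg (u1 0), fun b => by
    by_cases h : b ∈ W1
    · exact Or.inr ⟨h, fun h' => u1_notMem 0 ((W1.mul_mem_cancel_left h).1 h')⟩
    · exact Or.inl ⟨mul_mem_W1 h (u1_notMem 0), h⟩⟩

/-- A square root of minus one has determinant one. -/
theorem mem_W1_of_sq {w : WE} (h : w * w = ng) : w ∈ W1 := by
  have h1 : (1 + w.m) * (1 + w.m) = (2 : ℚ) • w.m := by
    have := congrArg WE.m h
    rw [mul_m, ng_m] at this
    rw [add_mul, mul_add, mul_add, this, two_smul, Matrix.one_mul, Matrix.one_mul, Matrix.mul_one]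
    abel
  have h2 := congrArg Matrix.det h1
  rw [det_mul, det_smul, ← dt_apply] at h2
  refine (dt_cases w).resolve_right fun e => ?_
  rw [e] at h2
  have := mul_self_nonneg (1 + w.m).det
  rw [h2] at this
  norm_num at this

/-! ### affine permutations -/

/-- the affine group of the eight points -/
def Aff : Subgroup (Perm I) where
  carrier := {σ | ∀ a b c, σ (x3 a b c) = x3 (σ a) (σ b) (σ c)}
  one_mem' := fun _ _ _ => rfl
  mul_mem' := fun {σ τ} hσ hτ a b c => by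
    simp only [Perm.coe_mul, Function.comp_apply]
    rw [hτ, hσ]
  inv_mem' := fun {σ} hσ a b c => σ.injective (by rw [hσ]; simp)

theorem perm_mulVec (σ : Perm I) (y : I → ℚ) : (permMatrixHom σ : Matrix I I ℚ) *ᵥ y = fun i => y (σ⁻¹ i) := by
  rw [permMatrixHom_apply, permMatrix_mulVec]; rfl

theorem perm_orth (σ : Perm I) : (permMatrixHom σ : Matrix I I ℚ)ᵀ * permMatrixHom σ = 1 := by
  rw [permMatrixHom_apply, transpose_permMatrix, ← permMatrix_mul]; simp

/-- permutation matrices -/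
def pm : Aff →* WE := MonoidHom.mk' (fun σ => ⟨permMatrixHom σ.1, perm_orth _, fun n hn =>
    ⟨fun i => n (σ.1⁻¹ i), fun a b c => by
      have := hn (σ.1⁻¹ a) (σ.1⁻¹ b) (σ.1⁻¹ c)
      rwa [← Aff.inv_mem σ.2] at this, by rw [perm_mulVec]; rfl⟩⟩)
  fun σ τ => WE.ext (map_mul (permMatrixHom (R := ℚ)) σ.1 τ.1)

theorem pm_m (σ : Aff) : (pm σ).m = permMatrixHom σ.1 := rfl

theorem pm_apply (σ : Aff) (i j : I) : (pm σ).m i j = if i = σ.1 j then 1 else 0 := by
  rw [pm_m, permMatrixHom_apply]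
  simp only [Perm.permMatrix, PEquiv.toMatrix_apply, Equiv.toPEquiv_apply, Option.mem_def, Option.some.injEq,
    Perm.inv_eq_iff_eq]

theorem dt_pm (σ : Aff) : dt (pm σ) = ((Perm.sign σ.1 : ℤ) : ℚ) := by
  rw [dt_apply, pm_m, permMatrixHom_apply, det_permutation, Perm.sign_inv]

/-- the action of a permutation on sign vectors -/
def ac (σ : Perm I) : SV ≃* SV where
  toFun s := fun i => s (σ⁻¹ i)
  invFun s := fun i => s (σ i)
  left_inv s := by ext i; simp
  right_inv s := by ext i; simp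
  map_mul' _ _ := rfl

theorem ac_apply (σ : Perm I) (s : SV) (i : I) : ac σ s i = s (σ⁻¹ i) := rfl

theorem ac_eq_iff {σ : Perm I} {s t : SV} : ac σ s = t ↔ ∀ i, t (σ i) = s i :=
  ⟨fun h i => by rw [← h, ac_apply]; simp, fun h => funext fun i => by rw [ac_apply, ← h]; simp⟩

theorem ac_mul (σ τ : Perm I) (s : SV) : ac (σ * τ) s = ac σ (ac τ s) := by
  ext i; simp [ac_apply]

theorem ac_one (s : SV) : ac 1 s = s := rfl

theorem ac_neg (σ : Perm I) : ac σ (-1) = -1 := rfl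

theorem pr_ac (σ : Perm I) (s : SV) : pr (ac σ s) = pr s := Equiv.prod_comp σ⁻¹ s

theorem ac_u1 (σ : Perm I) (i : I) : ac σ (u1 i) = u1 (σ i) :=
  ac_eq_iff.2 fun j => by simp [u1]

theorem diag_perm (σ : Perm I) (s : SV) :
    (permMatrixHom σ : Matrix I I ℚ) * (diagonal fun i => ((s i : ℤ) : ℚ)) =
      (diagonal fun i => ((ac σ s i : ℤ) : ℚ)) * permMatrixHom σ := by
  ext i j
  rw [mul_diagonal, diagonal_mul, permMatrixHom_apply, ac_apply]
  by_cases h : σ⁻¹ i = j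
  · rw [h, mul_comm]
  · simp only [Perm.permMatrix, PEquiv.toMatrix_apply, Equiv.toPEquiv_apply, Option.mem_def, Option.some.injEq,
      if_neg h, mul_zero, zero_mul]

theorem pm_sg (σ : Aff) (s : SV) : pm σ * sg s = sg (ac σ.1 s) * pm σ := WE.ext (diag_perm _ _)

theorem mono_conj (t : SV) (σ : Aff) (s : SV) : sg t * pm σ * sg s * (sg t * pm σ)⁻¹ = sg (ac σ.1 s) := by
  rw [mul_inv_eq_iff_eq_mul, mul_assoc, pm_sg, ← mul_assoc, sg_comm, mul_assoc]

theorem mono_mul (s t : SV) (σ τ : Aff) : sg s * pm σ * (sg t * pm τ) = sg (s * ac σ.1 t) * pm (σ * τ) := by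
  rw [mul_assoc, ← mul_assoc (pm σ), pm_sg, map_mul, map_mul]; group

theorem mono_apply (s : SV) (σ : Aff) (i j : I) :
    (sg s * pm σ).m i j = if i = σ.1 j then ((s i : ℤ) : ℚ) else 0 := by
  rw [mul_m, sg_m, diagonal_mul, pm_apply]; simp

theorem mono_inj {s t : SV} {σ τ : Aff} (h : sg s * pm σ = sg t * pm τ) : s = t ∧ σ = τ := by
  have h1 : σ = τ := Subtype.ext (Perm.ext fun j => by
    have := congrFun (congrFun (congrArg WE.m h) (σ.1 j)) j
    rw [mono_apply, mono_apply, if_pos rfl] at this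
    by_contra hne
    rw [if_neg hne] at this
    exact (s (σ.1 j)).ne_zero (by exact_mod_cast this))
  subst h1
  exact ⟨sg_inj (mul_right_cancel h), rfl⟩

end Cfsg.Agent.H38.E8
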