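import Cfsg.Agent.H38.E8A

/-!
Reflections and monomial elements of the Weyl group of type E8.
-/

set_option autoImplicit false
set_option maxRecDepth 100000
set_option linter.unusedVariables false

namespace Cfsg.Agent.H38.E8

open Matrix Equiv WE

/-- roots -/
def IsRt (ρ : I → ℤ) : Prop := Cd ρ ∧ ρ ⬝ᵥ ρ = 4

instance (ρ : I → ℤ) : Decidable (IsRt ρ) := inferInstanceAs (Decidable (_ ∧ _))

theorem isRt_e2 : ∀ i, IsRt (e2 i) := by decide +kernel

theorem IsRt.img {ρ : I → ℤ} (h : IsRt ρ) (w : WE) : ∃ ρ', IsRt ρ' ∧ w.m *ᵥ cv ρ = cv ρ' := by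
  obtain ⟨n, h1, h2, h3⟩ := w.img h.1
  exact ⟨n, ⟨h1, h3.trans h.2⟩, h2⟩

theorem mat_ext {A B : Matrix I I ℚ} (h : ∀ y, A *ᵥ y = B *ᵥ y) : A = B :=
  Matrix.mulVec_injective (funext h)

/-- matrix of a reflection -/
def rfm (ρ : I → ℤ) : Matrix I I ℚ := 1 - (1 / 2 : ℚ) • vecMulVec (cv ρ) (cv ρ)

theorem rfm_mulVec (ρ : I → ℤ) (y : I → ℚ) : rfm ρ *ᵥ y = y - ((1 / 2 : ℚ) * (cv ρ ⬝ᵥ y)) • cv ρ := by
  rw [rfm, sub_mulVec, one_mulVec, smul_mulVec, vecMulVec_mulVec, op_smul_eq_smul, smul_smul]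

theorem rfm_symm (ρ : I → ℤ) : (rfm ρ)ᵀ = rfm ρ := by
  rw [rfm, transpose_sub, transpose_one, transpose_smul, transpose_vecMulVec]

theorem rfm_cv {ρ n : I → ℤ} {k : ℤ} (hk : ρ ⬝ᵥ n = 2 * k) : rfm ρ *ᵥ cv n = cv (n - k • ρ) := by
  rw [rfm_mulVec, cv_dot, hk, cv_sub, cv_smul]
  congr 2
  push_cast; ring

/-- reflections -/
def rf (ρ : I → ℤ) (h : IsRt ρ) : WE where
  m := rfm ρ
  o := by
    rw [rfm_symm]
    refine mat_ext fun y => ?_
    rw [← mulVec_mulVec, rfm_mulVec, rfm_mulVec, dotProduct_sub, dotProduct_smul, cv_dot, h.2, one_mulVec]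
    ext i
    simp only [Pi.sub_apply, Pi.smul_apply, smul_eq_mul]
    push_cast; ring
  l := fun n hn => by
    obtain ⟨k, hk⟩ := h.1.dot_even hn
    exact ⟨_, hn.sub (h.1.smul k), rfm_cv hk⟩

theorem rf_m (ρ : I → ℤ) (h : IsRt ρ) : (rf ρ h).m = rfm ρ := rfl

theorem rf_sq (ρ : I → ℤ) (h : IsRt ρ) : rf ρ h * rf ρ h = 1 := WE.ext (by
  have := (rf ρ h).o
  rwa [rf_m, rfm_symm] at this)

theorem rf_e2 (i : I) : rf (e2 i) (isRt_e2 i) = sg (u1 i) := WE.ext (mat_ext fun y => by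
  rw [rf_m, rfm_mulVec, dotProduct_comm, dot_e2]
  ext j
  rw [sg_mulVec]
  by_cases h : j = i
  · subst h; simp [cv, e2, u1]; ring
  · simp [cv, e2, u1, h])

/-! ### monomial elements -/

/-- the monomial group -/
def Mon : Subgroup WE where
  carrier := {w | ∃ s σ, w = sg s * pm σ}
  one_mem' := ⟨1, 1, by simp⟩
  mul_mem' := by
    rintro _ _ ⟨s, σ, rfl⟩ ⟨t, τ, rfl⟩
    exact ⟨_, _, mono_mul _ _ _ _⟩
  inv_mem' := by
    rintro _ ⟨s, σ, rfl⟩
    refine ⟨ac σ⁻¹.1 s, σ⁻¹, ?_⟩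
    rw [← pm_sg, _root_.mul_inv_rev, ← map_inv, ← map_inv, sv_inv]

/-- the sum of four unit vectors -/
def pl (a b c d : I) : I → ℤ := fun k =>
  (if k = a then 1 else 0) + (if k = b then 1 else 0) + (if k = c then 1 else 0) + (if k = d then 1 else 0)

theorem cd_pl : ∀ a b c d, Cd (pl a b c d) ↔ d = x3 a b c := by decide +kernel

theorem mem_Mon_of_cols (w : WE) (h : ∀ i, ∃ j, ∀ k, k ≠ j → w.m k i = 0) : w ∈ Mon := by
  choose f hf using h
  have col : ∀ i i', w.m (f i) i * w.m (f i) i' = if i = i' then 1 else 0 := fun i i' => by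
    have := congrFun (congrFun w.o i) i'
    rw [mul_apply, Finset.sum_eq_single (f i) (fun k _ hk => by rw [transpose_apply, hf i k hk, zero_mul])
      (by simp), transpose_apply, one_apply] at this
    exact this
  have one : ∀ i, w.m (f i) i = 1 ∨ w.m (f i) i = -1 := fun i =>
    mul_self_eq_one_iff.1 (by simpa using col i i)
  have inj : Function.Injective f := fun i i' e => by
    by_contra hne
    have := col i i'
    rw [if_neg hne, mul_eq_zero] at this
    rcases this with h0 | h0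
    · rcases one i with h1 | h1 <;> rw [h0] at h1 <;> norm_num at h1
    · rw [e] at h0
      rcases one i' with h1 | h1 <;> rw [h0] at h1 <;> norm_num at h1
  let σ : Perm I := Equiv.ofBijective f (Finite.injective_iff_bijective.1 inj)
  have hσ : ∀ i, σ i = f i := fun _ => rfl
  let s : SV := fun k => if w.m k (σ⁻¹ k) = 1 then 1 else -1
  have e : (sg s * w).m = permMatrixHom σ := by
    ext k i
    rw [mul_m, sg_m, diagonal_mul, permMatrixHom_apply]
    simp only [Perm.permMatrix, PEquiv.toMatrix_apply, Equiv.toPEquiv_apply, Option.mem_def, Option.some.injEq,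
      Perm.inv_eq_iff_eq]
    by_cases hk : k = σ i
    · subst hk
      rw [if_pos rfl]
      have i1 : σ⁻¹ (σ i) = i := by simp
      simp only [s, i1]
      rw [hσ]
      rcases one i with h1 | h1 <;> rw [h1]
      · simp
      · rw [if_neg (by norm_num)]; simp
    · rw [if_neg hk, hf i k hk, mul_zero]
  have hA : σ ∈ Aff := fun a b c => by
    obtain ⟨n, h1, h2⟩ := (sg s * w).l _ ((cd_pl a b c _).2 rfl)
    rw [e, perm_mulVec] at h2
    refine (cd_pl _ _ _ _).1 ?_
    convert h1 using 1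
    refine cv_inj (Eq.trans ?_ h2)
    funext k
    simp only [cv, pl, Perm.inv_eq_iff_eq]
  refine ⟨s, ⟨σ, hA⟩, ?_⟩
  rw [← inv_mul_eq_iff_eq_mul, ← map_inv, sv_inv]
  exact WE.ext e

theorem sg_mul_apply (s : SV) (w : WE) (k i : I) : (sg s * w).m k i = ((s k : ℤ) : ℚ) * w.m k i := by
  rw [mul_m, sg_m, diagonal_mul]

theorem mul_sg_apply (s : SV) (w : WE) (k i : I) : (w * sg s).m k i = w.m k i * ((s i : ℤ) : ℚ) := by
  rw [mul_m, sg_m, mul_diagonal]

theorem eq_of_intertwine {s t : SV} {w : WE} (h : sg s * w = w * sg t) {k i : I} (h0 : w.m k i ≠ 0) :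
    s k = t i := by
  have := congrFun (congrFun (congrArg WE.m h) k) i
  rw [sg_mul_apply, mul_sg_apply, mul_comm] at this
  exact Units.ext (by exact_mod_cast mul_left_cancel₀ h0 this)

theorem exists_sep : ∀ k k' : I, k ≠ k' → ∃ l, (u1 k * u1 l) k ≠ (u1 k * u1 l) k' := by decide +kernel

theorem pr_pair (k l : I) : pr (u1 k * u1 l) = 1 := by rw [map_mul, pr_u1, pr_u1]; rfl

theorem exists_ne_zero (w : WE) (i : I) : ∃ k, w.m k i ≠ 0 := by
  by_contra! h
  have := congrFun (congrFun w.o i) i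
  rw [mul_apply, one_apply_eq] at this
  simp [h] at this

/-- The normaliser of the even sign changes is monomial. -/
theorem mem_Mon_of_norm {w : WE} (h : ∀ s, pr s = 1 → ∃ t, w * sg s * w⁻¹ = sg t) : w ∈ Mon := by
  refine (inv_mem_iff (x := w)).1 (mem_Mon_of_cols _ fun i => ?_)
  obtain ⟨j, hj⟩ := exists_ne_zero w⁻¹ i
  refine ⟨j, fun k hk => ?_⟩
  by_contra h0
  obtain ⟨l, hl⟩ := exists_sep k j hk
  obtain ⟨t, ht⟩ := h _ (pr_pair k l)
  have e : sg (u1 k * u1 l) * w⁻¹ = w⁻¹ * sg t := by rw [← ht]; group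
  exact hl ((eq_of_intertwine e h0).trans (eq_of_intertwine e hj).symm)

theorem perm_eq_one {σ : Perm I} (h : ∀ s, pr s = 1 → ac σ s = s) : σ = 1 := by
  refine Perm.ext fun i => ?_
  by_contra hne
  obtain ⟨l, hl⟩ := exists_sep (σ i) i hne
  exact hl (ac_eq_iff.1 (h _ (pr_pair _ _)) i)

/-- The centraliser of the even sign changes. -/
theorem eq_sg_of_cent {w : WE} (h : ∀ s, pr s = 1 → w * sg s * w⁻¹ = sg s) : ∃ t, w = sg t := by
  obtain ⟨t, σ, rfl⟩ := mem_Mon_of_norm fun s hs => ⟨s, h s hs⟩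
  have : σ = 1 := Subtype.ext (perm_eq_one fun s hs => sg_inj ((mono_conj t σ s).symm.trans (h s hs)))
  exact ⟨t, by rw [this, map_one, mul_one]⟩

theorem int_two_sq {a b : ℤ} (h : a * a + b * b = 4) : a = 0 ∨ b = 0 := by
  by_contra! h0
  have h1 : a ≤ 2 := by nlinarith
  have h2 : -2 ≤ a := by nlinarith
  have h3 : b ≤ 2 := by nlinarith
  have h4 : -2 ≤ b := by nlinarith
  obtain ⟨h5, h6⟩ := h0
  interval_cases a <;> interval_cases b <;> simp_all

/-- An element commuting with the sign changes on the pairs `{j, τ j}`. -/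
theorem mono_of_pairs {w : WE} (τ : I → I) (hτ : ∀ j, τ j ≠ j)
    (h : ∀ j, w * sg (u1 j * u1 (τ j)) * w⁻¹ = sg (u1 j * u1 (τ j))) :
    ∃ s σ, w = sg s * pm σ ∧ ∀ j, σ.1 j = j ∨ σ.1 j = τ j := by
  have key : ∀ j k, w.m k j ≠ 0 → k = j ∨ k = τ j := fun j k h0 => by
    have := eq_of_intertwine (mul_inv_eq_iff_eq_mul.1 (h j)).symm h0
    by_contra! hc
    simp [u1, hc.1, hc.2, (hτ j).symm] at this
  obtain ⟨s, σ, rfl⟩ := mem_Mon_of_cols w fun j => by
    obtain ⟨n, h1, h2⟩ := (isRt_e2 j).img w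
    have e : ∀ k, (n k : ℚ) = 2 * w.m k j := fun k => by rw [← mulVec_e2, h2]; rfl
    have z : ∀ k, k ≠ j → k ≠ τ j → n k = 0 := fun k a b => by
      have : w.m k j = 0 := by
        by_contra h0
        exact (key j k h0).elim a b
      have h5 := e k
      rw [this, mul_zero] at h5
      exact_mod_cast h5
    have h4 := h1.2
    rw [dotProduct, Finset.sum_eq_add_of_mem j (τ j) (Finset.mem_univ _) (Finset.mem_univ _) (hτ j).symm
      (fun k _ hk => by rw [z k hk.1 hk.2, mul_zero])] at h4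
    have z' : ∀ k, n k = 0 → w.m k j = 0 := fun k hk => by
      have := e k
      rw [hk] at this
      simpa using this
    rcases int_two_sq h4 with h0 | h0
    · refine ⟨τ j, fun k hk => z' k ?_⟩
      by_cases a : k = j
      · rw [a, h0]
      · exact z k a hk
    · refine ⟨j, fun k hk => z' k ?_⟩
      by_cases a : k = τ j
      · rw [a, h0]
      · exact z k hk a
  refine ⟨s, σ, rfl, fun j => key j _ ?_⟩
  rw [mono_apply, if_pos rfl]
  exact_mod_cast (s _).ne_zero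

end Cfsg.Agent.H38.E8
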