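import Cfsg.Agent.H38.E8C

/-!
Integral octonions and triality: the group of isotopies.
-/

set_option autoImplicit false
set_option maxRecDepth 100000
set_option linter.unusedVariables false
set_option linter.unusedSimpArgs false

namespace Cfsg.Agent.H38.E8

open Matrix Equiv WE Subgroup
open scoped commutatorElement

section
variable {R : Type*} [CommRing R]

/-- octonion multiplication -/
def om (x y : I → R) : I → R :=
  ![x 0 * y 0 - x 1 * y 1 - x 2 * y 2 - x 3 * y 3 - x 4 * y 4 - x 5 * y 5 - x 6 * y 6 - x 7 * y 7,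
    x 0 * y 1 + x 1 * y 0 + x 2 * y 4 + x 3 * y 5 - x 4 * y 2 - x 5 * y 3 + x 6 * y 7 - x 7 * y 6,
    x 0 * y 2 - x 1 * y 4 + x 2 * y 0 + x 3 * y 6 + x 4 * y 1 - x 5 * y 7 - x 6 * y 3 + x 7 * y 5,
    x 0 * y 3 - x 1 * y 5 - x 2 * y 6 + x 3 * y 0 + x 4 * y 7 + x 5 * y 1 + x 6 * y 2 - x 7 * y 4,
    x 0 * y 4 + x 1 * y 2 - x 2 * y 1 - x 3 * y 7 + x 4 * y 0 - x 5 * y 6 + x 6 * y 5 + x 7 * y 3,
    x 0 * y 5 + x 1 * y 3 + x 2 * y 7 - x 3 * y 1 + x 4 * y 6 + x 5 * y 0 - x 6 * y 4 - x 7 * y 2,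
    x 0 * y 6 - x 1 * y 7 + x 2 * y 3 - x 3 * y 2 - x 4 * y 5 + x 5 * y 4 + x 6 * y 0 + x 7 * y 1,
    x 0 * y 7 + x 1 * y 6 - x 2 * y 5 + x 3 * y 4 - x 4 * y 3 + x 5 * y 2 - x 6 * y 1 + x 7 * y 0]

/-- conjugation -/
def cj (x : I → R) : I → R := ![x 0, -x 1, -x 2, -x 3, -x 4, -x 5, -x 6, -x 7]

/-- bimultiplication -/
def bm (u x : I → R) : I → R := (2 * (u ⬝ᵥ cj x)) • u - (u ⬝ᵥ u) • cj x

theorem vec8 {α : Type*} {x y : I → α} (h0 : x 0 = y 0) (h1 : x 1 = y 1) (h2 : x 2 = y 2) (h3 : x 3 = y 3)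
    (h4 : x 4 = y 4) (h5 : x 5 = y 5) (h6 : x 6 = y 6) (h7 : x 7 = y 7) : x = y := by
  funext i; fin_cases i <;> assumption

theorem om0 (x y : I → R) : om x y 0 = x 0 * y 0 - x 1 * y 1 - x 2 * y 2 - x 3 * y 3 - x 4 * y 4 - x 5 * y 5 - x 6 * y 6 - x 7 * y 7 := rfl
theorem om1 (x y : I → R) : om x y 1 = x 0 * y 1 + x 1 * y 0 + x 2 * y 4 + x 3 * y 5 - x 4 * y 2 - x 5 * y 3 + x 6 * y 7 - x 7 * y 6 := rfl
theorem om2 (x y : I → R) : om x y 2 = x 0 * y 2 - x 1 * y 4 + x 2 * y 0 + x 3 * y 6 + x 4 * y 1 - x 5 * y 7 - x 6 * y 3 + x 7 * y 5 := rfl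
theorem om3 (x y : I → R) : om x y 3 = x 0 * y 3 - x 1 * y 5 - x 2 * y 6 + x 3 * y 0 + x 4 * y 7 + x 5 * y 1 + x 6 * y 2 - x 7 * y 4 := rfl
theorem om4 (x y : I → R) : om x y 4 = x 0 * y 4 + x 1 * y 2 - x 2 * y 1 - x 3 * y 7 + x 4 * y 0 - x 5 * y 6 + x 6 * y 5 + x 7 * y 3 := rfl
theorem om5 (x y : I → R) : om x y 5 = x 0 * y 5 + x 1 * y 3 + x 2 * y 7 - x 3 * y 1 + x 4 * y 6 + x 5 * y 0 - x 6 * y 4 - x 7 * y 2 := rfl
theorem om6 (x y : I → R) : om x y 6 = x 0 * y 6 - x 1 * y 7 + x 2 * y 3 - x 3 * y 2 - x 4 * y 5 + x 5 * y 4 + x 6 * y 0 + x 7 * y 1 := rfl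
theorem om7 (x y : I → R) : om x y 7 = x 0 * y 7 + x 1 * y 6 - x 2 * y 5 + x 3 * y 4 - x 4 * y 3 + x 5 * y 2 - x 6 * y 1 + x 7 * y 0 := rfl
theorem cj0 (x : I → R) : cj x 0 = x 0 := rfl
theorem cj1 (x : I → R) : cj x 1 = -x 1 := rfl
theorem cj2 (x : I → R) : cj x 2 = -x 2 := rfl
theorem cj3 (x : I → R) : cj x 3 = -x 3 := rfl
theorem cj4 (x : I → R) : cj x 4 = -x 4 := rfl
theorem cj5 (x : I → R) : cj x 5 = -x 5 := rfl
theorem cj6 (x : I → R) : cj x 6 = -x 6 := rfl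
theorem cj7 (x : I → R) : cj x 7 = -x 7 := rfl

theorem om_smul (a c : R) (x y : I → R) : om (a • x) (c • y) = (a * c) • om x y := by
  apply vec8 <;> (simp only [om0, om1, om2, om3, om4, om5, om6, om7, cj0, cj1, cj2, cj3, cj4, cj5, cj6, cj7, bm, dot8,
    Pi.smul_apply, Pi.sub_apply, Pi.neg_apply, smul_eq_mul]; ring)

theorem om_neg_left (x y : I → R) : om (-x) y = -om x y := by
  apply vec8 <;> (simp only [om0, om1, om2, om3, om4, om5, om6, om7, cj0, cj1, cj2, cj3, cj4, cj5, cj6, cj7, bm, dot8,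
    Pi.smul_apply, Pi.sub_apply, Pi.neg_apply, smul_eq_mul]; ring)

theorem om_neg_right (x y : I → R) : om x (-y) = -om x y := by
  apply vec8 <;> (simp only [om0, om1, om2, om3, om4, om5, om6, om7, cj0, cj1, cj2, cj3, cj4, cj5, cj6, cj7, bm, dot8,
    Pi.smul_apply, Pi.sub_apply, Pi.neg_apply, smul_eq_mul]; ring)

theorem dot_left (u x y : I → R) : om u x ⬝ᵥ om u y = (u ⬝ᵥ u) * (x ⬝ᵥ y) := by
  (simp only [om0, om1, om2, om3, om4, om5, om6, om7, cj0, cj1, cj2, cj3, cj4, cj5, cj6, cj7, bm, dot8,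
    Pi.smul_apply, Pi.sub_apply, Pi.neg_apply, smul_eq_mul]; ring)

theorem dot_right (u x y : I → R) : om x u ⬝ᵥ om y u = (u ⬝ᵥ u) * (x ⬝ᵥ y) := by
  (simp only [om0, om1, om2, om3, om4, om5, om6, om7, cj0, cj1, cj2, cj3, cj4, cj5, cj6, cj7, bm, dot8,
    Pi.smul_apply, Pi.sub_apply, Pi.neg_apply, smul_eq_mul]; ring)

theorem mou1 (u x y : I → R) : om (om u x) (om y u) = bm u (om x y) := by
  apply vec8 <;> (simp only [om0, om1, om2, om3, om4, om5, om6, om7, cj0, cj1, cj2, cj3, cj4, cj5, cj6, cj7, bm, dot8,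
    Pi.smul_apply, Pi.sub_apply, Pi.neg_apply, smul_eq_mul]; ring)

theorem mou2 (u x y : I → R) : om (bm u x) (om (cj u) y) = (u ⬝ᵥ u) • om u (om x y) := by
  apply vec8 <;> (simp only [om0, om1, om2, om3, om4, om5, om6, om7, cj0, cj1, cj2, cj3, cj4, cj5, cj6, cj7, bm, dot8,
    Pi.smul_apply, Pi.sub_apply, Pi.neg_apply, smul_eq_mul]; ring)

theorem mou3 (u x y : I → R) : om (om x (cj u)) (bm u y) = (u ⬝ᵥ u) • om (om x y) u := by
  apply vec8 <;> (simp only [om0, om1, om2, om3, om4, om5, om6, om7, cj0, cj1, cj2, cj3, cj4, cj5, cj6, cj7, bm, dot8,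
    Pi.smul_apply, Pi.sub_apply, Pi.neg_apply, smul_eq_mul]; ring)

/-- the unit -/
def o1 : I → R := ![1, 0, 0, 0, 0, 0, 0, 0]

theorem om_o1 (x : I → R) : om x o1 = x := by
  apply vec8 <;> simp [om0, om1, om2, om3, om4, om5, om6, om7, o1]

theorem o1_om (x : I → R) : om o1 x = x := by
  apply vec8 <;> simp [om0, om1, om2, om3, om4, om5, om6, om7, o1]

theorem cj_dot (u : I → R) : cj u ⬝ᵥ cj u = u ⬝ᵥ u := by
  (simp only [om0, om1, om2, om3, om4, om5, om6, om7, cj0, cj1, cj2, cj3, cj4, cj5, cj6, cj7, bm, dot8,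
    Pi.smul_apply, Pi.sub_apply, Pi.neg_apply, smul_eq_mul]; ring)

end

theorem cv_om (n m : I → ℤ) : cv (om n m) = om (cv n) (cv m) := by
  apply vec8 <;> simp only [cv, om0, om1, om2, om3, om4, om5, om6, om7] <;> push_cast <;> rfl

theorem cv_cj (n : I → ℤ) : cv (cj n) = cj (cv n) := by
  apply vec8 <;> simp only [cv, cj0, cj1, cj2, cj3, cj4, cj5, cj6, cj7] <;> push_cast <;> rfl

theorem IsRt.cj {u : I → ℤ} (h : IsRt u) : IsRt (cj u) := by
  refine ⟨(cd_iff _).2 ?_, (cj_dot u).trans h.2⟩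
  have := (cd_iff _).1 h.1
  simp only [cj0, cj1, cj2, cj3, cj4, cj5, cj6, cj7]
  omega

theorem om_lat {n m : I → ℤ} (hn : Cd n) (hm : Cd m) : ∃ k, Cd k ∧ om n m = (2 : ℤ) • k := by
  obtain ⟨⟨a, h1⟩, ⟨b, h2⟩, ⟨c, h3⟩, ⟨d, h4⟩⟩ := (cd_iff n).1 hn
  obtain ⟨⟨a', k1⟩, ⟨b', k2⟩, ⟨c', k3⟩, ⟨d', k4⟩⟩ := (cd_iff m).1 hm
  have e : (2 ∣ om n m 0 ∧ 2 ∣ om n m 1 ∧ 2 ∣ om n m 2 ∧ 2 ∣ om n m 4) ∧
      4 ∣ om n m 0 + om n m 1 + om n m 2 + om n m 3 ∧ 4 ∣ om n m 0 + om n m 1 + om n m 4 + om n m 5 ∧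
      4 ∣ om n m 0 + om n m 2 + om n m 4 + om n m 6 ∧ 4 ∣ om n m 1 + om n m 2 + om n m 4 + om n m 7 := by
    rw [om0, om1, om2, om3, om4, om5, om6, om7,
      show n 3 = 2 * a - n 0 - n 1 - n 2 by omega, show n 5 = 2 * b - n 0 - n 1 - n 4 by omega,
      show n 6 = 2 * c - n 0 - n 2 - n 4 by omega, show n 7 = 2 * d - n 1 - n 2 - n 4 by omega,
      show m 3 = 2 * a' - m 0 - m 1 - m 2 by omega, show m 5 = 2 * b' - m 0 - m 1 - m 4 by omega,
      show m 6 = 2 * c' - m 0 - m 2 - m 4 by omega, show m 7 = 2 * d' - m 1 - m 2 - m 4 by omega]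
    refine ⟨⟨?_, ?_, ?_, ?_⟩, ?_, ?_, ?_, ?_⟩ <;> ring_nf <;> omega
  generalize om n m = v at e
  refine ⟨fun i => v i / 2, (cd_iff _).2 (by omega), ?_⟩
  apply vec8 <;> simp only [Pi.smul_apply, smul_eq_mul] <;> omega

theorem orth_of_dot {A : Matrix I I ℚ} (h : ∀ x y, (A *ᵥ x) ⬝ᵥ (A *ᵥ y) = x ⬝ᵥ y) : Aᵀ * A = 1 := by
  ext i j
  have := h (Pi.single i 1) (Pi.single j 1)
  rw [mulVec_single_one, mulVec_single_one, single_one_dotProduct] at this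
  rw [one_apply, ← Pi.single_apply, ← this]
  rfl

/-- matrix of the left multiplication -/
def lM (u : I → ℚ) : Matrix I I ℚ := Matrix.of fun i j => (1 / 2 : ℚ) * om u (Pi.single j 1) i

/-- matrix of the right multiplication -/
def rM (u : I → ℚ) : Matrix I I ℚ := Matrix.of fun i j => (1 / 2 : ℚ) * om (Pi.single j 1) u i

theorem lM_mulVec (u y : I → ℚ) : lM u *ᵥ y = (1 / 2 : ℚ) • om u y := by
  apply vec8 <;> simp [lM, mulVec, dot8, om0, om1, om2, om3, om4, om5, om6, om7] <;> ring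

theorem rM_mulVec (u y : I → ℚ) : rM u *ᵥ y = (1 / 2 : ℚ) • om y u := by
  apply vec8 <;> simp [rM, mulVec, dot8, om0, om1, om2, om3, om4, om5, om6, om7] <;> ring

theorem IsRt.cv_dot {u : I → ℤ} (h : IsRt u) : cv u ⬝ᵥ cv u = 4 := by rw [E8.cv_dot, h.2]; rfl

/-- left multiplication by a unit -/
def lW (u : I → ℤ) (h : IsRt u) : WE where
  m := lM (cv u)
  o := orth_of_dot fun x y => by
    rw [lM_mulVec, lM_mulVec, smul_dotProduct, dotProduct_smul, dot_left, h.cv_dot]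
    simp only [smul_eq_mul]; ring
  l := fun n hn => by
    obtain ⟨k, h1, h2⟩ := om_lat h.1 hn
    refine ⟨k, h1, ?_⟩
    rw [lM_mulVec, ← cv_om, h2, cv_smul, smul_smul]; norm_num

/-- right multiplication by a unit -/
def rW (u : I → ℤ) (h : IsRt u) : WE where
  m := rM (cv u)
  o := orth_of_dot fun x y => by
    rw [rM_mulVec, rM_mulVec, smul_dotProduct, dotProduct_smul, dot_right, h.cv_dot]
    simp only [smul_eq_mul]; ring
  l := fun n hn => by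
    obtain ⟨k, h1, h2⟩ := om_lat hn h.1
    refine ⟨k, h1, ?_⟩
    rw [rM_mulVec, ← cv_om, h2, cv_smul, smul_smul]; norm_num

/-- bimultiplication by a unit -/
def bW (u : I → ℤ) (h : IsRt u) : WE := rf u h * sg (u1 0)

theorem bW_mulVec {u : I → ℤ} (h : IsRt u) (x : I → ℚ) : (bW u h).m *ᵥ x = (1 / 4 : ℚ) • bm (cv u) x := by
  have e : (sg (u1 0)).m *ᵥ x = -cj x := by
    apply vec8 <;> simp [sg_mulVec, u1, cj0, cj1, cj2, cj3, cj4, cj5, cj6, cj7]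
  rw [bW, mul_m, ← mulVec_mulVec, e, rf_m, rfm_mulVec, bm, h.cv_dot, dotProduct_neg]
  ext i
  simp only [Pi.smul_apply, Pi.sub_apply, Pi.neg_apply, smul_eq_mul]
  ring

/-- triples -/
abbrev W3 := WE × WE × WE

/-- the isotopies -/
def Iso : Subgroup W3 where
  carrier := {t | ∀ x y, t.1.m *ᵥ om x y = om (t.2.1.m *ᵥ x) (t.2.2.m *ᵥ y)}
  one_mem' := fun x y => by simp
  mul_mem' := fun {s t} hs ht x y => by
    simp only [Prod.fst_mul, Prod.snd_mul, mul_m, ← mulVec_mulVec]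
    rw [ht, hs]
  inv_mem' := fun {t} ht x y => by
    have := ht (t.2.1⁻¹.m *ᵥ x) (t.2.2⁻¹.m *ᵥ y)
    rw [mulVec_mulVec, mulVec_mulVec, ← mul_m, ← mul_m, mul_inv_cancel, mul_inv_cancel, one_m, one_mulVec,
      one_mulVec] at this
    rw [← this, mulVec_mulVec, ← mul_m, Prod.fst_inv, inv_mul_cancel, one_m, one_mulVec]
    rfl

theorem iso1 {u : I → ℤ} (h : IsRt u) : (bW u h, lW u h, rW u h) ∈ Iso := fun x y => by
  show _ = om (lM _ *ᵥ x) (rM _ *ᵥ y)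
  rw [bW_mulVec, lM_mulVec, rM_mulVec, om_smul, mou1]; norm_num

theorem iso2 {u : I → ℤ} (h : IsRt u) : (lW u h, bW u h, lW _ h.cj) ∈ Iso := fun x y => by
  show lM _ *ᵥ _ = om _ (lM _ *ᵥ y)
  rw [bW_mulVec, lM_mulVec, lM_mulVec, om_smul, cv_cj, mou2, h.cv_dot, smul_smul]; norm_num

theorem iso3 {u : I → ℤ} (h : IsRt u) : (rW u h, rW _ h.cj, bW u h) ∈ Iso := fun x y => by
  show rM _ *ᵥ _ = om (rM _ *ᵥ x) _
  rw [bW_mulVec, rM_mulVec, rM_mulVec, om_smul, cv_cj, mou3, h.cv_dot, smul_smul]; norm_num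

theorem W1_le_of_bW {X : Subgroup WE} (hX : ∀ u h, bW u h ∈ X) : W1 ≤ X := by
  set r := sg (u1 0) with hr
  have rr : r * r = 1 := sg_sq _
  have ri : r⁻¹ = r := inv_eq_of_mul_eq_one_right rr
  let Y := closure {w | ∃ u h, w = bW u h}
  have hY : Y ≤ X := (closure_le _).2 (by rintro _ ⟨u, h, rfl⟩; exact hX u h)
  have nm : ∀ y ∈ Y, r * y * r ∈ Y := fun y hy => by
    induction hy using closure_induction with
    | mem x hx =>
      obtain ⟨u, h, rfl⟩ := hx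
      have : r * bW u h * r = (bW u h)⁻¹ := by
        rw [bW, ← hr, mul_assoc, mul_assoc, rr, mul_one, _root_.mul_inv_rev, ri,
          inv_eq_of_mul_eq_one_right (rf_sq u h)]
      rw [this]
      exact inv_mem (subset_closure ⟨u, h, rfl⟩)
    | one => rw [mul_one, rr]; exact one_mem _
    | mul x y _ _ hx hy =>
      have := mul_mem hx hy
      rwa [mul_assoc, ← mul_assoc r, ← mul_assoc r, rr, one_mul, ← mul_assoc, mul_assoc r] at this
    | inv x _ hx =>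
      have := inv_mem hx
      rwa [_root_.mul_inv_rev, _root_.mul_inv_rev, ri, ← mul_assoc] at this
  have key : ∀ w, w ∈ Y ∨ w * r ∈ Y := fun w => by
    have hw : w ∈ closure Rf := closure_Rf ▸ mem_top w
    induction hw using closure_induction with
    | mem x hx =>
      obtain ⟨u, h, rfl⟩ := hx
      exact Or.inr (subset_closure ⟨u, h, rfl⟩)
    | one => exact Or.inl (one_mem _)
    | mul x y _ _ hx hy =>
      rcases hx with hx | hx <;> rcases hy with hy | hy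
      · exact Or.inl (mul_mem hx hy)
      · exact Or.inr (by rw [mul_assoc]; exact mul_mem hx hy)
      · right
        have := mul_mem hx (nm y hy)
        rwa [mul_assoc, ← mul_assoc r, ← mul_assoc r, rr, one_mul, ← mul_assoc] at this
      · left
        have := mul_mem hx (nm _ hy)
        rwa [mul_assoc, ← mul_assoc r, ← mul_assoc r, rr, one_mul, mul_assoc, rr, mul_one] at this
    | inv x _ hx =>
      rcases hx with hx | hx
      · exact Or.inl (inv_mem hx)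
      · right
        have := nm _ (inv_mem hx)
        rwa [_root_.mul_inv_rev, ri, ← mul_assoc, rr, one_mul] at this
  by_cases h : r ∈ Y
  · exact fun w _ => hY ((key w).elim id fun e => (mul_mem_cancel_right h).1 e)
  · have hi : Y.index = 2 := index_eq_two_iff.2 ⟨r, fun w => by
      rcases key w with e | e
      · exact Or.inr ⟨e, fun e' => h ((mul_mem_cancel_left e).1 e')⟩
      · exact Or.inl ⟨e, fun e' => h ((mul_mem_cancel_left e').1 e)⟩⟩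
    rw [← commutator_eq_W1, commutator_def, commutator_le]
    intro a _ b _
    refine hY ?_
    rw [commutatorElement_def, mul_assoc, mul_mem_iff_of_index_two hi, mul_mem_iff_of_index_two hi,
      mul_mem_iff_of_index_two hi, inv_mem_iff, inv_mem_iff]

/-! ### nuclei -/

theorem eq_pm_of_scalar {w : WE} {c : ℚ} (h : ∀ y, w.m *ᵥ y = c • y) : (w = 1 ∧ c = 1) ∨ (w = ng ∧ c = -1) := by
  have h1 := w.dot o1 o1
  rw [h, smul_dotProduct, dotProduct_smul] at h1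
  simp [dot8, o1] at h1
  rcases mul_self_eq_one_iff.1 h1 with rfl | rfl
  · exact Or.inl ⟨WE.ext (mat_ext fun y => by rw [h]; simp), rfl⟩
  · exact Or.inr ⟨WE.ext (mat_ext fun y => by rw [h, ng_m, neg_mulVec]; simp), rfl⟩

theorem scalar_of {c : I → ℚ} (h1 : c 1 = 0) (h2 : c 2 = 0) (h3 : c 3 = 0) (h4 : c 4 = 0) (h5 : c 5 = 0)
    (h6 : c 6 = 0) (h7 : c 7 = 0) (y : I → ℚ) : om c y = c 0 • y ∧ om y c = c 0 • y := by
  constructor <;> apply vec8 <;>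
    simp [om0, om1, om2, om3, om4, om5, om6, om7, h1, h2, h3, h4, h5, h6, h7, mul_comm]

theorem nuc {c : I → ℚ} (h : (∀ x y, om x (om c y) = om (om x c) y) ∨ (∀ x y, om (om x y) c = om x (om y c)) ∨
    (∀ x y, om c (om x y) = om (om c x) y)) (y : I → ℚ) : om c y = c 0 • y ∧ om y c = c 0 • y := by
  rcases h with h | h | h
  all_goals
    have a := h ![0, 1, 0, 0, 0, 0, 0, 0] ![0, 0, 1, 0, 0, 0, 0, 0]
    have b := h ![0, 1, 0, 0, 0, 0, 0, 0] ![0, 0, 0, 1, 0, 0, 0, 0]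
    have d := h ![0, 0, 1, 0, 0, 0, 0, 0] ![0, 0, 0, 1, 0, 0, 0, 0]
    have a3 := congrFun a 3
    have a5 := congrFun a 5
    have a6 := congrFun a 6
    have a7 := congrFun a 7
    have b6 := congrFun b 6
    have b7 := congrFun b 7
    have d7 := congrFun d 7
    simp [om0, om1, om2, om3, om4, om5, om6, om7] at a3 a5 a6 a7 b6 b7 d7
    apply scalar_of <;> linarith

theorem iso_fst {t : W3} (ht : t ∈ Iso) (h : t.1 = 1) : t = 1 ∨ t = (1, ng, ng) := by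
  obtain ⟨α, β, γ⟩ := t
  simp only at h
  subst h
  have h0 : ∀ x y, om x y = om (β.m *ᵥ x) (γ.m *ᵥ y) := fun x y => by simpa using ht x y
  have h1 : ∀ x, β⁻¹.m *ᵥ x = om x (γ.m *ᵥ o1) := fun x => by
    have := h0 (β⁻¹.m *ᵥ x) o1
    rwa [om_o1, mulVec_mulVec, ← mul_m, mul_inv_cancel, one_m, one_mulVec] at this
  have h2 : ∀ x y, om x (γ.m *ᵥ y) = om (om x (γ.m *ᵥ o1)) y := fun x y => by
    rw [← h1, h0 (β⁻¹.m *ᵥ x), mulVec_mulVec, ← mul_m, mul_inv_cancel, one_m, one_mulVec]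
  have h3 : ∀ y, γ.m *ᵥ y = om (γ.m *ᵥ o1) y := fun y => by
    have := h2 o1 y
    rwa [o1_om, o1_om] at this
  have h4 := nuc (c := γ.m *ᵥ o1) (Or.inl fun x y => by rw [← h3, h2])
  rcases eq_pm_of_scalar (fun y => (h3 y).trans (h4 y).1) with ⟨e1, e2⟩ | ⟨e1, e2⟩ <;>
    rcases eq_pm_of_scalar (fun y => (h1 y).trans (h4 y).2) with ⟨e3, e4⟩ | ⟨e3, e4⟩
  · left; rw [e1, inv_eq_one.1 e3]; rfl
  · rw [e2] at e4; norm_num at e4
  · rw [e2] at e4; norm_num at e4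
  · right; rw [e1, ← inv_inv β, e3, inv_eq_of_mul_eq_one_right ng_sq]

theorem iso_snd {t : W3} (ht : t ∈ Iso) (h : t.2.1 = 1) : t = 1 ∨ t = (ng, 1, ng) := by
  obtain ⟨α, β, γ⟩ := t
  simp only at h
  subst h
  have h0 : ∀ x y, α.m *ᵥ om x y = om x (γ.m *ᵥ y) := fun x y => by simpa using ht x y
  have h1 : ∀ y, α.m *ᵥ y = γ.m *ᵥ y := fun y => by simpa [o1_om] using h0 o1 y
  have h2 : ∀ x, α.m *ᵥ x = om x (γ.m *ᵥ o1) := fun x => by simpa [om_o1] using h0 x o1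
  have h4 := nuc (c := γ.m *ᵥ o1) (Or.inr (Or.inl fun x y => by rw [← h2, ← h2, h0, h1]))
  have e : α = γ := WE.ext (mat_ext h1)
  rcases eq_pm_of_scalar (fun y => (h2 y).trans (h4 y).2) with ⟨e1, -⟩ | ⟨e1, -⟩
  · left; rw [← e, e1]; rfl
  · right; rw [← e, e1]

theorem iso_thd {t : W3} (ht : t ∈ Iso) (h : t.2.2 = 1) : t = 1 ∨ t = (ng, ng, 1) := by
  obtain ⟨α, β, γ⟩ := t
  simp only at h
  subst h
  have h0 : ∀ x y, α.m *ᵥ om x y = om (β.m *ᵥ x) y := fun x y => by simpa using ht x y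
  have h1 : ∀ y, α.m *ᵥ y = β.m *ᵥ y := fun y => by simpa [om_o1] using h0 y o1
  have h2 : ∀ x, α.m *ᵥ x = om (β.m *ᵥ o1) x := fun x => by simpa [o1_om] using h0 o1 x
  have h4 := nuc (c := β.m *ᵥ o1) (Or.inr (Or.inr fun x y => by rw [← h2, ← h2, h0, h1]))
  have e : α = β := WE.ext (mat_ext h1)
  rcases eq_pm_of_scalar (fun y => (h2 y).trans (h4 y).1) with ⟨e1, -⟩ | ⟨e1, -⟩
  · left; rw [← e, e1]; rfl
  · right; rw [← e, e1]

theorem m1_mem : ((1, ng, ng) : W3) ∈ Iso := fun x y => by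
  simp [ng_m, neg_mulVec, om_neg_left, om_neg_right]

theorem m2_mem : ((ng, 1, ng) : W3) ∈ Iso := fun x y => by
  simp [ng_m, neg_mulVec, om_neg_left, om_neg_right]

theorem m3_mem : ((ng, ng, 1) : W3) ∈ Iso := fun x y => by
  simp [ng_m, neg_mulVec, om_neg_left, om_neg_right]

end Cfsg.Agent.H38.E8
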