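import Cfsg.Agent.H38.E8D
import Cfsg.Agent.S2098

/-!
Every double cover of the simple orthogonal group is the rotation subgroup of the Weyl group of type E8, and
every automorphism of the latter is induced by the Weyl group.
-/

set_option autoImplicit false
set_option maxRecDepth 100000
set_option linter.unusedVariables false

namespace Cfsg.Agent.H38.E8

open Equiv WE Subgroup
open Cfsg.Agent.H45 (O8 nd8)
open scoped commutatorElement

/-- projections -/
def p1 : W3 →* WE := MonoidHom.fst _ _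
/-- projections -/
def p2 : W3 →* WE := (MonoidHom.fst _ _).comp (MonoidHom.snd _ _)
/-- projections -/
def p3 : W3 →* WE := (MonoidHom.snd _ _).comp (MonoidHom.snd _ _)

/-- subgroups of isotopies with full projections -/
def Full (V : Subgroup W3) : Prop := V ≤ Iso ∧ W1 ≤ V.map p1 ∧ W1 ≤ V.map p2 ∧ W1 ≤ V.map p3

theorem full_iso : Full Iso :=
  ⟨le_rfl, W1_le_of_bW fun u h => ⟨_, iso1 h, rfl⟩, W1_le_of_bW fun u h => ⟨_, iso2 h, rfl⟩,
    W1_le_of_bW fun u h => ⟨_, iso3 h, rfl⟩⟩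

theorem Full.comm {V : Subgroup W3} (h : Full V) : Full ⁅V, V⁆ := by
  have k : ∀ π : W3 →* WE, W1 ≤ V.map π → W1 ≤ ⁅V, V⁆.map π := fun π hπ => by
    rw [map_commutator, ← W1_perfect]; exact commutator_mono hπ hπ
  exact ⟨(commutator_le_self V).trans h.1, k _ h.2.1, k _ h.2.2.1, k _ h.2.2.2⟩

theorem mm12 : ((1, ng, ng) : W3) * (ng, 1, ng) = (ng, ng, 1) := by simp [ng_sq]
theorem mm13 : ((1, ng, ng) : W3) * (ng, ng, 1) = (ng, 1, ng) := by simp [ng_sq]
theorem mm23 : ((ng, 1, ng) : W3) * (ng, ng, 1) = (1, ng, ng) := by simp [ng_sq]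

theorem iso_fst' {t : W3} (ht : t ∈ Iso) (h : t.1 = ng) : t = (ng, 1, ng) ∨ t = (ng, ng, 1) := by
  rcases iso_fst (mul_mem ht (inv_mem m2_mem)) (by simp [h]) with e | e
  · exact Or.inl (mul_inv_eq_one.1 e)
  · exact Or.inr (by rw [mul_inv_eq_iff_eq_mul.1 e, mm12])

theorem iso_snd' {t : W3} (ht : t ∈ Iso) (h : t.2.1 = ng) : t = (1, ng, ng) ∨ t = (ng, ng, 1) := by
  rcases iso_snd (mul_mem ht (inv_mem m3_mem)) (by simp [h]) with e | e
  · exact Or.inr (mul_inv_eq_one.1 e)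
  · exact Or.inl (by rw [mul_inv_eq_iff_eq_mul.1 e, mm23])

theorem iso_thd' {t : W3} (ht : t ∈ Iso) (h : t.2.2 = ng) : t = (1, ng, ng) ∨ t = (ng, 1, ng) := by
  rcases iso_thd (mul_mem (inv_mem m1_mem) ht) (by simp [h]) with e | e
  · exact Or.inl (inv_mul_eq_one.1 e).symm
  · exact Or.inr (by rw [inv_mul_eq_iff_eq_mul.1 e, mm13])

theorem Full.mem {V : Subgroup W3} (h : Full V) : (1, ng, ng) ∈ V ∧ (ng, 1, ng) ∈ V ∧ (ng, ng, 1) ∈ V := by
  obtain ⟨a, ha, ea⟩ := h.2.1 ng_mem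
  obtain ⟨b, hb, eb⟩ := h.2.2.1 ng_mem
  obtain ⟨c, hc, ec⟩ := h.2.2.2 ng_mem
  have k12 : (1, ng, ng) ∈ V → (ng, 1, ng) ∈ V → (1, ng, ng) ∈ V ∧ (ng, 1, ng) ∈ V ∧ (ng, ng, 1) ∈ V :=
    fun x y => ⟨x, y, mm12 ▸ mul_mem x y⟩
  have k13 : (1, ng, ng) ∈ V → (ng, ng, 1) ∈ V → (1, ng, ng) ∈ V ∧ (ng, 1, ng) ∈ V ∧ (ng, ng, 1) ∈ V :=
    fun x y => ⟨x, mm13 ▸ mul_mem x y, y⟩
  have k23 : (ng, 1, ng) ∈ V → (ng, ng, 1) ∈ V → (1, ng, ng) ∈ V ∧ (ng, 1, ng) ∈ V ∧ (ng, ng, 1) ∈ V :=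
    fun x y => ⟨mm23 ▸ mul_mem x y, x, y⟩
  rcases iso_fst' (h.1 ha) ea with rfl | rfl
  · rcases iso_snd' (h.1 hb) eb with rfl | rfl
    exacts [k12 hb ha, k23 ha hb]
  · rcases iso_thd' (h.1 hc) ec with rfl | rfl
    exacts [k13 hc ha, k23 hc ha]

/-- the covering group -/
def U1 : Subgroup W3 := ⁅Iso, Iso⁆

theorem full_U1 : Full U1 := full_iso.comm

theorem U1_proj (π : W3 →* WE) {t : W3} (ht : t ∈ U1) : π t ∈ W1 := by
  have : U1.map π ≤ W1 := by
    rw [U1, map_commutator, ← commutator_eq_W1]; exact commutator_mono le_top le_top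
  exact this ⟨t, ht, rfl⟩

theorem U1_perfect : ⁅U1, U1⁆ = U1 := le_antisymm (commutator_le_self _) fun t ht => by
  obtain ⟨s, hs, e⟩ := full_U1.comm.2.1 (U1_proj p1 ht)
  refine (mul_mem_cancel_left (inv_mem hs)).1 ?_
  rcases iso_fst (mul_mem (inv_mem (full_U1.comm.1 hs)) (full_U1.1 ht)) (inv_mul_eq_one.2 e) with h | h <;> rw [h]
  exacts [one_mem _, full_U1.comm.mem.1]

theorem ng_comm' (w : WE) : w * ng = ng * w := (ng_comm w).symm

theorem iso_central {t : W3} (ht : t ∈ Iso) (h : th t.1 = 1) (s : W3) : s * t = t * s := by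
  rcases th_ker h with e | e
  · rcases iso_fst ht e with rfl | rfl
    · simp
    · ext1
      · simp
      · ext1 <;> exact ng_comm' _
  · rcases iso_fst' ht e with rfl | rfl <;> ext1
    · exact ng_comm' _
    · ext1
      · simp
      · exact ng_comm' _
    · exact ng_comm' _
    · ext1
      · exact ng_comm' _
      · simp

theorem card_W1 : Nat.card W1 = 348364800 := by
  have := W1.card_mul_index
  rw [index_W1, card_WE] at this
  omega

theorem mult_omega : HasSchurMultiplier (commutator O8) (Multiplicative (ZMod 2 × ZMod 2)) := by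
  obtain ⟨e⟩ := H45.omega_equiv nd8
  exact H80.hasSchurMultiplier_congr_left (S2098.result (ZMod.card 2)) e.symm

theorem exists_lift {X Y Z : Type*} [Group X] [Group Y] [Group Z] {f : X →* Y} (hf : Function.Surjective f)
    (g : X →* Z) (h : ∀ x, f x = 1 → g x = 1) : ∃ φ : Y →* Z, ∀ x, φ (f x) = g x :=
  ⟨f.liftOfSurjective hf ⟨g, h⟩, fun x => f.liftOfRightInverse_comp_apply _ _ ⟨g, h⟩ x⟩

theorem exists_iso {L : Type*} [Group L] [Finite L] (hp : Group.IsPerfect L) (σ : L →* O8)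
    (hr : σ.range = commutator O8) (hc : σ.ker ≤ center L) (hk : Nat.card σ.ker = 2) : Nonempty (W1 ≃* L) := by
  let P : Subgroup (W3 × L) := U1.comap (MonoidHom.fst _ _) ⊓
    (th.comp (p1.comp (MonoidHom.fst _ _))).eqLocus (σ.comp (MonoidHom.snd _ _))
  have hP : ∀ x, x ∈ P ↔ x.1 ∈ U1 ∧ th x.1.1 = σ x.2 := fun _ => Iff.rfl
  have s1 : P.map (MonoidHom.fst _ _) = U1 := le_antisymm (by rintro _ ⟨x, hx, rfl⟩; exact hx.1) fun t ht => by
    obtain ⟨l, hl⟩ := hr.ge (th_mem_iff.2 (U1_proj p1 ht))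
    exact ⟨(t, l), ⟨ht, hl.symm⟩, rfl⟩
  have s2 : P.map (MonoidHom.snd _ _) = ⊤ := eq_top_iff.2 fun l _ => by
    obtain ⟨w, hw, e⟩ := map_W1.ge (hr.le ⟨l, rfl⟩)
    obtain ⟨t, ht, rfl⟩ := full_U1.2.1 hw
    exact ⟨(t, l), ⟨ht, e⟩, rfl⟩
  have g1 : ⁅P, P⁆.map (MonoidHom.fst _ _) = U1 := by rw [map_commutator, s1, U1_perfect]
  have g2 : ⁅P, P⁆.map (MonoidHom.snd _ _) = ⊤ := by rw [map_commutator, s2]; exact hp.commutator_eq_top
  have gP : ⁅P, P⁆ ≤ P := commutator_le_self P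
  let ξ : P →* commutator O8 := (σ.comp ((MonoidHom.snd _ _).comp P.subtype)).codRestrict _
    fun x => hr.le ⟨_, rfl⟩
  have hξ : H80.IsCentralExt ξ := ⟨fun g => by
      obtain ⟨l, hl⟩ := hr.ge g.2
      obtain ⟨x, hx, rfl⟩ := s2.ge (mem_top l)
      exact ⟨⟨x, hx⟩, Subtype.ext hl⟩, fun x hx => by
      have h1 : σ x.1.2 = 1 := congrArg Subtype.val hx
      refine mem_center_iff.2 fun y => Subtype.ext (Prod.ext ?_ (mem_center_iff.1 (hc h1) _))
      exact iso_central (full_U1.1 x.2.1) (x.2.2.trans h1) _⟩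
  obtain ⟨f, hf⟩ := H80.exists_surjective_stemKer mult_omega hξ
  have c4 : Nat.card (H80.stemKer ξ) ≤ 4 := (Nat.card_le_card_of_surjective f hf).trans (by simp)
  have mk : ∀ x (hx : x ∈ ⁅P, P⁆), th x.1.1 = 1 → (⟨x, gP hx⟩ : P) ∈ H80.stemKer ξ := fun x hx h1 =>
    ⟨Subtype.ext ((gP hx).2.symm.trans h1), by
      rw [← map_subtype_commutator] at hx
      obtain ⟨y, hy, rfl⟩ := hx
      exact hy⟩
  obtain ⟨x1, hx1, e1⟩ := g1.ge full_U1.mem.1
  obtain ⟨x2, hx2, e2⟩ := g1.ge full_U1.mem.2.1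
  obtain ⟨x3, hx3, e3⟩ := g1.ge full_U1.mem.2.2
  simp only [MonoidHom.coe_fst] at e1 e2 e3
  have inj : ∀ l, (1, l) ∈ ⁅P, P⁆ → l = 1 := fun l hl => by
    let ψ : H80.stemKer ξ →* W3 := (MonoidHom.fst _ _).comp (P.subtype.comp (H80.stemKer ξ).subtype)
    have h4 : 4 ≤ Nat.card ψ.range := by
      have : ({1, (1, ng, ng), (ng, 1, ng), (ng, ng, 1)} : Set W3).ncard = 4 := by
        rw [Set.ncard_insert_of_notMem, Set.ncard_insert_of_notMem, Set.ncard_pair] <;>
          simp [Prod.ext_iff, ng_ne, ng_ne.symm]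
      refine this.ge.trans (Set.ncard_le_ncard (t := (ψ.range : Set W3)) ?_)
      rintro _ (rfl | rfl | rfl | rfl)
      · exact one_mem _
      · exact ⟨⟨_, mk x1 hx1 (by rw [e1, map_one])⟩, e1⟩
      · exact ⟨⟨_, mk x2 hx2 (by rw [e2, th_ng])⟩, e2⟩
      · exact ⟨⟨_, mk x3 hx3 (by rw [e3, th_ng])⟩, e3⟩
    have h5 := ψ.ker.card_mul_index
    rw [index_ker] at h5
    have h6 : Nat.card ψ.ker = 1 := by
      have : 0 < Nat.card ψ.ker := Nat.card_pos
      nlinarith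
    have h7 : (⟨_, mk _ hl (map_one th)⟩ : H80.stemKer ξ) ∈ ψ.ker := rfl
    rw [card_eq_one.1 h6] at h7
    exact congrArg (fun x : H80.stemKer ξ => x.1.1.2) h7
  have cL : Nat.card L = Nat.card W1 := by
    rw [← σ.ker.card_mul_index, index_ker, hr, hk, H45.card_Om8, card_W1]
  have fin : ∀ (π : W3 →* WE) (m : W3), W1 ≤ U1.map π → (∀ t ∈ Iso, π t = 1 → t = 1 ∨ t = m) →
      (m, 1) ∈ ⁅P, P⁆ → Nonempty (W1 ≃* L) := fun π m hs hker hm => by
    let F : ↥⁅P, P⁆ →* W1 := (π.comp ((MonoidHom.fst _ _).comp ⁅P, P⁆.subtype)).codRestrict _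
      fun x => U1_proj π (gP x.2).1
    have hF : Function.Surjective F := fun w => by
      obtain ⟨t, ht, e⟩ := hs w.2
      obtain ⟨x, hx, rfl⟩ := g1.ge ht
      exact ⟨⟨x, hx⟩, Subtype.ext e⟩
    obtain ⟨φ, hφ⟩ := exists_lift hF ((MonoidHom.snd _ _).comp ⁅P, P⁆.subtype) fun x hx => by
      obtain ⟨⟨t, l⟩, h⟩ := x
      rcases hker t (full_U1.1 (gP h).1) (congrArg Subtype.val hx) with rfl | rfl
      · exact inj l h
      · exact inj l (by simpa using mul_mem (inv_mem hm) h)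
    refine ⟨MulEquiv.ofBijective φ ((Nat.bijective_iff_surjective_and_card _).2 ⟨fun l => ?_, cL.symm⟩)⟩
    obtain ⟨x, hx, rfl⟩ := g2.ge (mem_top l)
    exact ⟨F ⟨x, hx⟩, hφ _⟩
  by_cases a1 : x1.2 = 1
  · exact fin p1 _ full_U1.2.1 (fun t => iso_fst) (by rw [← e1, ← a1]; exact hx1)
  by_cases a2 : x2.2 = 1
  · exact fin p2 _ full_U1.2.2.1 (fun t => iso_snd) (by rw [← e2, ← a2]; exact hx2)
  refine fin p3 _ full_U1.2.2.2 (fun t => iso_thd) ?_
  have k1 : x1.2 ∈ σ.ker := (gP hx1).2.symm.trans (show th x1.1.1 = 1 by rw [e1, map_one])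
  have k2 : x2.2 ∈ σ.ker := (gP hx2).2.symm.trans (show th x2.1.1 = 1 by rw [e2, th_ng])
  obtain ⟨y, -, hy⟩ := (Nat.card_eq_two_iff' (1 : σ.ker)).1 hk
  have k3 : x1.2⁻¹ = x2.2 := congrArg Subtype.val ((hy ⟨_, inv_mem k1⟩ fun e =>
    a1 (inv_eq_one.1 (congrArg Subtype.val e))).trans (hy ⟨_, k2⟩ fun e => a2 (congrArg Subtype.val e)).symm)
  have := mul_mem hx1 hx2
  rwa [show x1 * x2 = ((ng, ng, 1), 1) from Prod.ext (by rw [Prod.fst_mul, e1, e2, mm12])
    (by rw [Prod.snd_mul, ← k3, mul_inv_cancel])] at this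

/-! ### automorphisms -/

theorem hom_eq_of_central {X Y : Type*} [Group X] [Group Y] (hp : commutator X = ⊤) (f g : X →* Y)
    (h : ∀ x, ∃ c, (∀ y, c * y = y * c) ∧ f x = g x * c) (x : X) : f x = g x := by
  have : commutator X ≤ f.eqLocus g := by
    rw [commutator_def, commutator_le]
    intro a _ b _
    obtain ⟨c, hc, ea⟩ := h a
    obtain ⟨d, hd, eb⟩ := h b
    show f _ = g _
    rw [map_commutatorElement, map_commutatorElement, ea, eb, commutatorElement_def, commutatorElement_def]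
    calc g a * c * (g b * d) * (g a * c)⁻¹ * (g b * d)⁻¹
        = g a * (c * (g b * d)) * c⁻¹ * (g a)⁻¹ * d⁻¹ * (g b)⁻¹ := by group
      _ = g a * g b * (d * (g a)⁻¹) * d⁻¹ * (g b)⁻¹ := by rw [hc]; group
      _ = _ := by rw [hd]; group
  exact this (hp ▸ mem_top x)

theorem exists_induced {X Y : Type*} [Group X] [Group Y] {p q : X →* Y} (hp : Function.Surjective p)
    (hq : Function.Surjective q) (h : ∀ x, p x = 1 ↔ q x = 1) : ∃ γ : MulAut Y, ∀ x, γ (p x) = q x := by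
  obtain ⟨φ, hφ⟩ := exists_lift hp q fun x => (h x).1
  refine ⟨MulEquiv.ofBijective φ ⟨(injective_iff_map_eq_one φ).2 fun y hy => ?_, fun y => ?_⟩, hφ⟩
  · obtain ⟨x, rfl⟩ := hp y
    exact (h x).2 ((hφ x).symm.trans hy)
  · obtain ⟨x, rfl⟩ := hq y
    exact ⟨p x, hφ x⟩

/-- the projection of the rotation subgroup -/
noncomputable def pO : W1 →* commutator O8 := (th.comp W1.subtype).codRestrict _ fun a => th_mem_iff.2 a.2

theorem pO_surj : Function.Surjective pO := fun g => by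
  obtain ⟨w, hw, e⟩ := map_W1.ge g.2
  exact ⟨⟨w, hw⟩, Subtype.ext e⟩

theorem pO_eq_one {a : W1} : pO a = 1 ↔ a ∈ center W1 := by
  refine ⟨fun h => mem_center_iff.2 fun b => Subtype.ext ?_, fun h => Subtype.ext ?_⟩
  · rcases th_ker (congrArg Subtype.val h) with e | e
    · simp [show a.1 = 1 from e]
    · simp [show a.1 = ng from e, ng_comm]
  · rcases cent_W1 (c := a.1) fun b hb => (congrArg Subtype.val (mem_center_iff.1 h ⟨b, hb⟩)).symm with e | e
    · show th a.1 = 1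
      rw [e, map_one]
    · show th a.1 = 1
      rw [e, th_ng]

theorem central_of_pO {a b : W1} (h : pO a = pO b) : ∃ c : W1, (∀ y, c * y = y * c) ∧ a = b * c :=
  ⟨b⁻¹ * a, fun y => (mem_center_iff.1 (pO_eq_one.1 (by rw [map_mul, map_inv, h, inv_mul_cancel])) y).symm,
    by group⟩

theorem aut_W1 (α : MulAut W1) : ∃ w : WE, ∀ a : W1, (α a : WE) = w * a * w⁻¹ := by
  have pf : commutator W1 = ⊤ := (isPerfect_iff.2 W1_perfect).commutator_eq_top
  let S : Subgroup (MulAut (commutator O8)) :=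
    { carrier := {γ | ∃ α : MulAut W1, ∀ a, γ (pO a) = pO (α a)}
      one_mem' := ⟨1, fun _ => rfl⟩
      mul_mem' := by
        rintro γ δ ⟨α, hα⟩ ⟨β, hβ⟩
        exact ⟨α * β, fun a => by rw [MulAut.mul_apply, hβ, hα]; rfl⟩
      inv_mem' := by
        rintro γ ⟨α, hα⟩
        refine ⟨α⁻¹, fun a => γ.injective ?_⟩
        rw [hα, MulAut.apply_inv_self, MulAut.apply_inv_self] }
  let c : O8 →* MulAut (commutator O8) := MulAut.conjNormal
  have hc : ∀ w a, c (th w) (pO a) = pO (MulAut.conjNormal w a) := fun w a => Subtype.ext (by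
    show th w * th a * (th w)⁻¹ = th (w * a * w⁻¹)
    rw [map_mul, map_mul, map_inv])
  have hTS : c.range ≤ S := by
    rintro _ ⟨g, rfl⟩
    obtain ⟨w, rfl⟩ := th_surj g
    exact ⟨_, hc w⟩
  have cinj : Function.Injective c := (injective_iff_map_eq_one c).2 fun g hg =>
    mem_bot.1 ((H45.cent_Omega nd8).le fun k hk => by
      have := congrArg Subtype.val (DFunLike.congr_fun hg ⟨k, hk⟩)
      exact (mul_inv_eq_iff_eq_mul.1 this).symm)
  have hfin : Finite (MulAut (commutator O8)) := Nat.finite_of_card_ne_zero (by rw [H45.card_aut8]; decide)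
  have hi : c.range.index = 3 := by
    have h1 := (commutator O8).card_mul_index
    rw [H45.card_Om8, H45.index_Omega2 nd8] at h1
    have h2 := c.range.card_mul_index
    rw [← Nat.card_congr (MonoidHom.ofInjective cinj).toEquiv, ← h1, H45.card_aut8] at h2
    omega
  have hS : S ≠ ⊤ := fun hS => by
    let q : (W3 →* WE) → U1 →* W1 := fun π => (π.comp U1.subtype).codRestrict _ fun t => U1_proj π t.2
    have qs : ∀ π, W1 ≤ U1.map π → Function.Surjective (pO.comp (q π)) := fun π hπ => pO_surj.comp fun w => by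
      obtain ⟨t, ht, e⟩ := hπ w.2
      exact ⟨⟨t, ht⟩, Subtype.ext e⟩
    obtain ⟨γ, hγ⟩ := exists_induced (qs p1 full_U1.2.1) (qs p2 full_U1.2.2.1) fun t => by
      have ht := full_U1.1 t.2
      refine Subtype.ext_iff.trans (Iff.trans ?_ Subtype.ext_iff.symm)
      show th t.1.1 = 1 ↔ th t.1.2.1 = 1
      constructor <;> intro h <;> rcases th_ker h with e | e
      · rcases iso_fst ht e with e | e <;> rw [e]
        exacts [map_one th, th_ng]
      · rcases iso_fst' ht e with e | e <;> rw [e]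
        exacts [map_one th, th_ng]
      · rcases iso_snd ht e with e | e <;> rw [e]
        exacts [map_one th, th_ng]
      · rcases iso_snd' ht e with e | e <;> rw [e]
        exacts [map_one th, th_ng]
    obtain ⟨β, hβ⟩ : γ ∈ S := hS ▸ mem_top γ
    have := hom_eq_of_central (isPerfect_iff.2 U1_perfect).commutator_eq_top (q p2) (β.toMonoidHom.comp (q p1))
      (fun t => central_of_pO ((hγ t).symm.trans (hβ _))) ⟨_, full_U1.mem.1⟩
    have e1 : q p1 ⟨_, full_U1.mem.1⟩ = 1 := rfl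
    rw [MonoidHom.comp_apply, e1, map_one] at this
    exact ng_ne (congrArg Subtype.val this)
  have hST : S ≤ c.range := by
    have h1 := relIndex_mul_index hTS
    rw [hi] at h1
    rcases (Nat.dvd_prime Nat.prime_three).1 (Dvd.intro_left _ h1) with h | h
    · exact absurd (index_eq_one.1 h) hS
    · rw [h] at h1
      exact relIndex_eq_one.1 (by omega)
  obtain ⟨γ, hγ⟩ := exists_induced pO_surj (q := pO.comp α.toMonoidHom) (pO_surj.comp α.surjective) fun a => by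
    rw [MonoidHom.comp_apply, pO_eq_one, pO_eq_one]
    exact ⟨fun h => mem_center_iff.2 fun b => by
      obtain ⟨b, rfl⟩ := α.surjective b
      simp only [MulEquiv.coe_toMonoidHom]
      rw [← map_mul, ← map_mul, mem_center_iff.1 h b], fun h => mem_center_iff.2 fun b => α.injective (by
      rw [map_mul, map_mul]; exact mem_center_iff.1 h _)⟩
  obtain ⟨g, rfl⟩ := hST ⟨α, hγ⟩
  obtain ⟨w, rfl⟩ := th_surj g
  exact ⟨w, fun a => congrArg Subtype.val (hom_eq_of_central pf α.toMonoidHom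
    (MulAut.conjNormal w : MulAut W1).toMonoidHom (fun a => central_of_pO ((hγ a).symm.trans (hc w a))) a)⟩

/-- The model of a double cover inside a group. -/
theorem exists_model {G : Type*} [Group G] [Finite G] (L : Subgroup G) (hp : Group.IsPerfect L)
    {F : Type*} [Field F] [Fintype F] (hF : Fintype.card F = 2) (hZ : Nat.card (center L) = 2)
    (hLX : Nonempty ((L ⧸ center L) ≃* POmega F (quadFormPlus 4 F))) :
    ∃ φ : W1 →* G, Function.Injective φ ∧ φ.range = L ∧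
      ∀ h ∈ normalizer (L : Set G), ∃ w : WE, ∀ a : W1, h * φ a * h⁻¹ = φ (MulAut.conjNormal w a) := by
  obtain ⟨e1⟩ := hLX
  obtain ⟨e2⟩ := H74.MO8.equiv hF
  obtain ⟨e3⟩ := H74.MO8.equiv (ZMod.card 2)
  obtain ⟨e4⟩ := H45.omega_equiv nd8
  let e : (L ⧸ center L) ≃* commutator O8 := ((e1.trans e2.symm).trans e3).trans e4.symm
  let σ : L →* O8 := (commutator O8).subtype.comp (e.toMonoidHom.comp (QuotientGroup.mk' _))
  have hk : σ.ker = center L := by
    ext x
    rw [MonoidHom.mem_ker, ← QuotientGroup.eq_one_iff, ← e.map_eq_one_iff]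
    exact (Subtype.ext_iff (a1 := e x) (a2 := 1)).symm
  obtain ⟨ι⟩ := exists_iso hp σ (by
    rw [MonoidHom.range_comp, MonoidHom.range_eq_top.2 (e.surjective.comp (QuotientGroup.mk'_surjective _)),
      ← MonoidHom.range_eq_map, range_subtype]) hk.le (hk ▸ hZ)
  refine ⟨L.subtype.comp ι.toMonoidHom, L.subtype_injective.comp ι.injective, by
    rw [MonoidHom.range_comp, MonoidHom.range_eq_top.2 ι.surjective, ← MonoidHom.range_eq_map, range_subtype],
    fun h hh => ?_⟩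
  obtain ⟨w, hw⟩ := aut_W1 ((ι.trans (L.normalizerMonoidHom ⟨h, hh⟩)).trans ι.symm)
  refine ⟨w, fun a => ?_⟩
  have : MulAut.conjNormal w a = ι.symm (L.normalizerMonoidHom ⟨h, hh⟩ (ι a)) := Subtype.ext (hw a).symm
  rw [this]
  show _ = (ι (ι.symm _) : G)
  rw [ι.apply_symm_apply]
  rfl

end Cfsg.Agent.H38.E8
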