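import Cfsg.Agent.H38.E8C

/-!
The second coordinate system: the sign changes and permutations of a subsystem of type D8.
-/

set_option autoImplicit false
set_option maxRecDepth 100000
set_option linter.unusedVariables false

namespace Cfsg.Agent.H38.E8

open Matrix Equiv WE Subgroup

/-- the change of coordinates -/
def Tm : Matrix I I ℚ :=
  !![1, 1, 0, 0, 0, 0, 0, 0; 1, -1, 0, 0, 0, 0, 0, 0; 0, 0, 1, 1, 0, 0, 0, 0; 0, 0, 1, -1, 0, 0, 0, 0;
    0, 0, 0, 0, 1, 1, 0, 0; 0, 0, 0, 0, 1, -1, 0, 0; 0, 0, 0, 0, 0, 0, 1, 1; 0, 0, 0, 0, 0, 0, 1, -1]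

theorem Tm_symm : Tmᵀ = Tm := by decide +kernel

theorem Tm_sq : Tm * Tm = (2 : ℚ) • (1 : Matrix I I ℚ) := by decide +kernel

/-- conjugation by the change of coordinates -/
def tw (X : Matrix I I ℚ) : Matrix I I ℚ := (1 / 2 : ℚ) • (Tm * X * Tm)

theorem tw_mul (X Y : Matrix I I ℚ) : tw (X * Y) = tw X * tw Y := by
  simp only [tw, smul_mul_smul_comm, Matrix.mul_assoc]
  rw [← Matrix.mul_assoc Tm Tm, Tm_sq, Matrix.smul_mul, Matrix.one_mul, Matrix.mul_smul, Matrix.mul_smul, smul_smul]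
  norm_num

theorem tw_one : tw 1 = 1 := by rw [tw, Matrix.mul_one, Tm_sq, smul_smul]; norm_num

theorem tw_transpose (X : Matrix I I ℚ) : (tw X)ᵀ = tw Xᵀ := by
  rw [tw, tw, transpose_smul, transpose_mul, transpose_mul, Tm_symm, Matrix.mul_assoc]

theorem tw_tw (X : Matrix I I ℚ) : tw (tw X) = X := by
  simp only [tw, Matrix.mul_smul, Matrix.smul_mul, Matrix.mul_assoc]
  rw [Tm_sq, ← Matrix.mul_assoc Tm Tm, Tm_sq]
  simp [smul_smul]

theorem tw_trace (X : Matrix I I ℚ) : (tw X).trace = X.trace := by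
  rw [tw, trace_smul, trace_mul_comm, ← Matrix.mul_assoc, Tm_sq, Matrix.smul_mul, Matrix.one_mul, trace_smul,
    smul_smul]
  norm_num

theorem tw_det (X : Matrix I I ℚ) : (tw X).det = X.det := by
  have h := congrArg Matrix.det Tm_sq
  rw [det_mul, det_smul, det_one] at h
  rw [tw, det_smul, det_mul, det_mul, mul_right_comm, h]
  simp only [Fintype.card_fin]
  ring

theorem Tm_mulVec (y : I → ℚ) :
    Tm *ᵥ y = ![y 0 + y 1, y 0 - y 1, y 2 + y 3, y 2 - y 3, y 4 + y 5, y 4 - y 5, y 6 + y 7, y 6 - y 7] := by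
  ext i
  rw [mulVec, dot8]
  fin_cases i <;> simp [Tm, sub_eq_add_neg]

/-- the lattice in the second coordinates -/
def Dd (x : I → ℤ) : Prop := (∀ i j, 2 ∣ x i - x j) ∧ 4 ∣ ∑ i, x i

theorem tw_lat {X : Matrix I I ℚ} (h : ∀ x, Dd x → ∃ x', Dd x' ∧ X *ᵥ cv x = cv x') (n : I → ℤ) (hn : Cd n) :
    ∃ n', Cd n' ∧ tw X *ᵥ cv n = cv n' := by
  obtain ⟨h1, h2, h3, h4⟩ := (cd_iff n).1 hn
  obtain ⟨x, ⟨k1, k2⟩, e⟩ := h ![n 0 + n 1, n 0 - n 1, n 2 + n 3, n 2 - n 3, n 4 + n 5, n 4 - n 5, n 6 + n 7,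
      n 6 - n 7] ⟨fun i j => by
    have : ∀ i, 2 ∣ ![n 0 + n 1, n 0 - n 1, n 2 + n 3, n 2 - n 3, n 4 + n 5, n 4 - n 5, n 6 + n 7, n 6 - n 7] i -
        (n 0 + n 1) := fun i => by fin_cases i <;> simp <;> omega
    have a := this i
    have b := this j
    omega, by rw [Fin.sum_univ_eight]; simp; omega⟩
  rw [Fin.sum_univ_eight] at k2
  obtain ⟨a, ha⟩ := k1 0 1
  obtain ⟨b, hb⟩ := k1 2 3
  obtain ⟨c, hc⟩ := k1 4 5
  obtain ⟨d, hd⟩ := k1 6 7
  have t1 := k1 0 2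
  have t2 := k1 0 4
  have t3 := k1 1 7
  refine ⟨![x 1 + a, a, x 3 + b, b, x 5 + c, c, x 7 + d, d], (cd_iff _).2 (by simp; omega), ?_⟩
  have e1 : Tm *ᵥ cv n = cv ![n 0 + n 1, n 0 - n 1, n 2 + n 3, n 2 - n 3, n 4 + n 5, n 4 - n 5, n 6 + n 7,
      n 6 - n 7] := by
    rw [Tm_mulVec]; ext i; fin_cases i <;> simp [cv]
  rw [tw, smul_mulVec, ← mulVec_mulVec, ← mulVec_mulVec, e1, e, Tm_mulVec]
  have q : ∀ {u v w : ℤ}, u - v = 2 * w → (u : ℚ) = v + 2 * w := fun {u v w} h => by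
    rw [show u = v + 2 * w by omega]; push_cast; rfl
  ext i
  fin_cases i <;> simp [cv, q ha, q hb, q hc, q hd] <;> ring

/-- the even sign vectors -/
abbrev Ev : Subgroup SV := pr.ker

theorem four_dvd : ∀ c : SV, pr c = 1 → 4 ∣ ∑ i, (c i : ℤ) := by decide +kernel

theorem dd_sign {x : I → ℤ} (hx : Dd x) {c : SV} (hc : pr c = 1) : Dd fun i => c i * x i := by
  have k : ∀ i, 2 ∣ (c i : ℤ) * x i - x i ∧ 4 ∣ (c i : ℤ) * x i - x i - (c i * x 0 - x 0) := fun i => by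
    have := hx.1 i 0
    rcases Int.units_eq_one_or (c i) with h | h <;> rw [h] <;> simp only [Units.val_one, Units.val_neg] <;> omega
  refine ⟨fun i j => ?_, ?_⟩
  · have := hx.1 i j; have := (k i).1; have := (k j).1
    simp only; omega
  · have h1 := Finset.dvd_sum (s := Finset.univ) fun i _ => (k i).2
    have h2 := (four_dvd c hc).mul_right (x 0)
    have h3 := hx.2
    simp only [Finset.sum_sub_distrib, ← Finset.sum_mul, Finset.sum_const, Finset.card_univ, Fintype.card_fin,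
      nsmul_eq_mul] at h1
    push_cast at h1
    show 4 ∣ ∑ i, (c i : ℤ) * x i
    omega

/-- the sign changes in the second coordinates -/
def dl : Ev →* WE := MonoidHom.mk' (fun c => ⟨tw (sg c.1).m, by rw [tw_transpose, ← tw_mul, (sg c.1).o, tw_one],
    tw_lat fun x hx => ⟨_, dd_sign hx c.2, by ext i; simp [sg_mulVec, cv]⟩⟩)
  fun c d => WE.ext (by
    show tw (sg (c.1 * d.1)).m = tw _ * tw _
    rw [map_mul, mul_m, tw_mul])

theorem dl_m (c : Ev) : (dl c).m = tw (sg c.1).m := rfl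

/-- the permutations in the second coordinates -/
def tp : Perm I →* WE := MonoidHom.mk' (fun σ => ⟨tw (permMatrixHom σ), by
    rw [tw_transpose, ← tw_mul, perm_orth, tw_one],
    tw_lat fun x hx => ⟨fun i => x (σ⁻¹ i), ⟨fun i j => hx.1 _ _, by
      rw [Equiv.sum_comp σ⁻¹ x]; exact hx.2⟩, by rw [perm_mulVec]; rfl⟩⟩)
  fun σ τ => WE.ext (by
    show tw (permMatrixHom (σ * τ)) = tw _ * tw _
    rw [map_mul, tw_mul])

theorem tp_m (σ : Perm I) : (tp σ).m = tw (permMatrixHom σ) := rfl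

theorem dl_inj : Function.Injective dl := fun c d h => Subtype.ext (sg_inj (WE.ext (by
  rw [← tw_tw (sg c.1).m, ← dl_m, h, dl_m, tw_tw])))

theorem dl_mem (c : Ev) : dl c ∈ W1 := by
  rw [mem_W1, dt_apply, dl_m, tw_det, ← dt_apply]
  exact sg_mem_W1.2 c.2

theorem tp_mem {σ : Perm I} (h : Perm.sign σ = 1) : tp σ ∈ W1 := by
  rw [mem_W1, dt_apply, tp_m, tw_det, permMatrixHom_apply, det_permutation, Perm.sign_inv, h]; simp

/-- minus one as an even sign vector -/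
def mEv : Ev := ⟨-1, by show pr (-1) = 1; decide⟩

theorem dl_neg : dl mEv = ng := WE.ext (by
  show tw ng.m = ng.m
  rw [ng_m, tw, Matrix.mul_neg, Matrix.mul_one, Matrix.neg_mul, Tm_sq, smul_neg, smul_smul]; norm_num)

/-- the action on even sign vectors -/
def acE (σ : Perm I) (c : Ev) : Ev := ⟨ac σ c.1, (pr_ac σ c.1).trans c.2⟩

theorem tp_dl (σ : Perm I) (c : Ev) : tp σ * dl c * (tp σ)⁻¹ = dl (acE σ c) := by
  rw [mul_inv_eq_iff_eq_mul]
  exact WE.ext (by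
    rw [mul_m, mul_m, tp_m, dl_m, dl_m, ← tw_mul, ← tw_mul]
    exact congrArg tw (diag_perm _ _))

/-- the sum of the signs -/
def sm (s : SV) : ℤ := ∑ i, (s i : ℤ)

theorem trace_dl (c : Ev) : (dl c).m.trace = (sm c.1 : ℚ) := by
  rw [dl_m, tw_trace, sg_m, trace_diagonal, sm]; push_cast; rfl

theorem sm_eq_of_conj {w : WE} {c d : Ev} (h : w * dl c * w⁻¹ = dl d) : sm c.1 = sm d.1 := by
  have := trace_conj w (dl c)
  rw [h, trace_dl, trace_dl] at this
  exact_mod_cast this.symm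

/-- the even point of a pair -/
def ev (i : I) : I := ⟨i.1 / 2 * 2, by omega⟩

/-- the odd point of a pair -/
def od (i : I) : I := ⟨i.1 / 2 * 2 + 1, by omega⟩

/-- twice the entries -/
def dlz (c : SV) (i j : I) : ℤ :=
  if i = j then c (ev i) + c (od i) else if j = xr i 1 then c (ev i) - c (od i) else 0

theorem dl_apply (c : Ev) (i j : I) : 2 * (dl c).m i j = (dlz c.1 i j : ℚ) := by
  rw [dl_m, tw, sg_m, Matrix.smul_apply, Matrix.mul_apply, Fin.sum_univ_eight]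
  simp only [mul_diagonal]
  fin_cases i <;> fin_cases j <;> simp [Tm, dlz, ev, od, xr] <;> ring

end Cfsg.Agent.H38.E8
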