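import Mathlib
import Cfsg.Agent.H11.ElDefs

/-!
# A second fixed point of an involution of `J₁`
-/

set_option autoImplicit false

namespace Cfsg.Agent.H38.ElJY

open Subgroup Equiv Cfsg.Agent.H11.EL

universe u

theorem a5p : ∀ g : Perm (Fin 5), g ^ 5 = 1 →
    ∃ s : Perm (Fin 5), Perm.sign s = 1 ∧ s * g * s⁻¹ = g⁻¹ := by decide +kernel

theorem a5 (g : alternatingGroup (Fin 5)) (h : g ^ 5 = 1) : ∃ s, s * g * s⁻¹ = g⁻¹ := by
  obtain ⟨s, h1, h2⟩ := a5p g.1 (congrArg Subtype.val h)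
  exact ⟨⟨s, Perm.mem_alternatingGroup.2 h1⟩, Subtype.ext h2⟩

variable {G : Type u} [Group G] [Finite G] {A : Subgroup G}

theorem gen11 (h : Nat.card A = 11) : ∃ a : G, orderOf a = 11 ∧ A = zpowers a := by
  have := Fact.mk Nat.prime_eleven
  obtain ⟨⟨a, ha⟩, o⟩ := exists_prime_orderOf_dvd_card' (G := A) 11 h.symm.dvd
  rw [orderOf_mk] at o
  refine ⟨a, o, (eq_of_le_of_card_ge (zpowers_le.2 ha) ?_).symm⟩
  rw [Nat.card_zpowers, o, h]

omit [Finite G] in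
theorem pow11 (h : Nat.card A = 11) {a : G} (ha : a ∈ A) : a ^ 11 = 1 := by
  have := pow_card_eq_one' (x := (⟨a, ha⟩ : A))
  rw [h] at this
  exact congrArg Subtype.val this

theorem ex_of (h : Nat.card A = 11) {g : G} (hg : g ∈ Nm A) : ∃ i, Ex g A i := by
  obtain ⟨a, -, rfl⟩ := gen11 h
  obtain ⟨i, hi⟩ := mem_zpowers_iff.1 ((mem_normalizer_iff.1 hg a).1 (mem_zpowers a))
  refine ⟨i, fun b hb => ?_⟩
  obtain ⟨k, rfl⟩ := mem_zpowers_iff.1 hb
  rw [← conj_zpow, ← hi, ← zpow_mul, ← zpow_mul, mul_comm]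

theorem ab11 (h : Nat.card A = 11) {a b : G} (ha : a ∈ A) (hb : b ∈ A) : Commute a b := by
  obtain ⟨c, -, rfl⟩ := gen11 h
  obtain ⟨k, rfl⟩ := mem_zpowers_iff.1 ha
  obtain ⟨l, rfl⟩ := mem_zpowers_iff.1 hb
  exact Commute.zpow_zpow_self c k l

omit [Finite G] in
theorem ex_mul {g h : G} {i j : ℤ} (hg : Ex g A i) (hh : Ex h A j) : Ex (g * h) A (i * j) := by
  intro a ha
  calc g * h * a * (g * h)⁻¹ = g * (h * a * h⁻¹) * g⁻¹ := by group
    _ = a ^ (i * j) := by rw [hh a ha, ← conj_zpow, hg a ha, zpow_mul]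

omit [Finite G] in
theorem ex_pow {g : G} {i : ℤ} (hg : Ex g A i) (n : ℕ) : Ex (g ^ n) A (i ^ n) := by
  induction n with
  | zero => intro a _; simp
  | succ n ih => rw [pow_succ, pow_succ]; exact ex_mul ih hg

omit [Finite G] in
theorem ct_of {g : G} (h : ∀ a ∈ A, g * a * g⁻¹ = a) : g ∈ Ct A :=
  mem_centralizer_iff.2 fun a ha => (mul_inv_eq_iff_eq_mul.1 (h a ha)).symm

theorem comm_ct (h : Nat.card A = 11) {g k : G} (hg : g ∈ Nm A) (hk : k ∈ Nm A) :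
    g * k * g⁻¹ * k⁻¹ ∈ Ct A := by
  obtain ⟨i, hi⟩ := ex_of h hg
  obtain ⟨j, hj⟩ := ex_of h hk
  refine ct_of fun a ha => ?_
  have hb : (k * g)⁻¹ * a * (k * g) ∈ A := (mem_normalizer_iff''.1 (mul_mem hk hg) a).1 ha
  have e1 := ex_mul hi hj _ hb
  have e2 := ex_mul hj hi _ hb
  rw [mul_comm j i, ← e1] at e2
  calc _ = g * k * ((k * g)⁻¹ * a * (k * g)) * (g * k)⁻¹ := by group
    _ = a := by rw [← e2]; group

theorem jy (hJ : JAStmt.{u}) (hC : LC1Stmt.{u}) (hD : LDStmt.{u}) : JYStmt.{u} := by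
  intro G _ _ J A y iJ hA yJ yy yA
  have ja := hJ J iJ
  have cA := hA.2
  have yi : y⁻¹ = y := inv_eq_of_mul_eq_one_right yy
  have yN : y ∈ Nm A := mem_normalizer_iff.2 fun x => ⟨fun hx => by
    rw [yA x hx]; exact zpow_mem hx _, fun hx => by
      have := zpow_mem hx (-1)
      rw [← yA _ hx] at this
      convert this using 1
      calc x = (y * y) * x * (y * y)⁻¹ := by rw [yy]; group
        _ = _ := by group⟩
  have fix : ∀ a ∈ A, Commute a y → a = 1 := fun a ha hc => by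
    have e := yA a ha
    rw [← hc.eq, mul_inv_cancel_right, zpow_neg_one] at e
    have e2 : a ^ 2 = 1 := by rw [pow_two]; nth_rewrite 1 [e]; exact inv_mul_cancel a
    have := pow11 cA ha
    rwa [show 11 = 2 * 5 + 1 from rfl, pow_succ, pow_mul, e2, one_pow, one_mul] at this
  have y1 : y ≠ 1 := fun h => by
    obtain ⟨a, o, e⟩ := gen11 cA
    have := fix a (e ▸ mem_zpowers a) (h ▸ Commute.one_right a)
    rw [this, orderOf_one] at o
    omega
  have oy : orderOf y = 2 := orderOf_eq_prime (by rw [pow_two, yy]) y1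
  have five := Fact.mk Nat.prime_five
  obtain ⟨⟨f0, hf0⟩, o0⟩ := exists_prime_orderOf_dvd_card' (G := (J ⊓ Nm A : Subgroup G)) 5
    (by rw [ja.cN A hA]; norm_num)
  rw [orderOf_mk] at o0
  obtain ⟨f0J, f0N⟩ := mem_inf.1 hf0
  have p0 : f0 ^ 5 = 1 := o0 ▸ pow_orderOf_eq_one f0
  have hc : f0 * y * f0⁻¹ * y⁻¹ ∈ A := ja.cent A hA _
    (mul_mem (mul_mem (mul_mem f0J yJ) (inv_mem f0J)) (inv_mem yJ)) (comm_ct cA f0N yN)
  obtain ⟨b, hb, eb⟩ : ∃ b ∈ A, b * y * b⁻¹ = f0 * y * f0⁻¹ := by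
    refine ⟨(f0 * y * f0⁻¹ * y⁻¹) ^ 6, pow_mem hc 6, ?_⟩
    have e : f0 * y * f0⁻¹ = f0 * y * f0⁻¹ * y⁻¹ * y := by group
    rw [e]
    generalize f0 * y * f0⁻¹ * y⁻¹ = c at hc
    rw [mul_inv_cancel_right]
    have e1 := yA _ (inv_mem (pow_mem hc 6))
    rw [zpow_neg_one, inv_inv] at e1
    calc c ^ 6 * y * (c ^ 6)⁻¹ = c ^ 6 * (y * (c ^ 6)⁻¹ * y⁻¹) * y := by group
      _ = c ^ 11 * c * y := by rw [e1]; group
      _ = c * y := by rw [pow11 cA hc, one_mul]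
  obtain ⟨i, hi⟩ := ex_of cA f0N
  set f := b⁻¹ * f0 with hf
  have fJ : f ∈ J := mul_mem (inv_mem (hA.1 hb)) f0J
  have fN : f ∈ Nm A := mul_mem (inv_mem (le_normalizer hb)) f0N
  have fy : Commute f y := by
    change b⁻¹ * f0 * y = y * (b⁻¹ * f0)
    calc _ = b⁻¹ * (f0 * y * f0⁻¹) * f0 := by group
      _ = _ := by rw [← eb]; group
  have fi : Ex f A i := fun a ha => by
    calc _ = b⁻¹ * (f0 * a * f0⁻¹) * b := by rw [hf]; group
      _ = a ^ i := by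
        rw [hi a ha, mul_assoc, ← (ab11 cA hb (zpow_mem ha i)).eq, inv_mul_cancel_left]
  have f5 : f ^ 5 = 1 := by
    refine fix _ (ja.cent A hA _ (pow_mem fJ 5) (ct_of fun a ha => ?_)) (fy.pow_left 5)
    rw [ex_pow fi 5 a ha, ← ex_pow hi 5 a ha, p0]
    group
  have nA : ∀ g ∈ A, g ^ 5 = 1 → g = 1 := fun g hg h5 => by
    have := pow11 cA hg
    rwa [show 11 = 5 * 2 + 1 from rfl, pow_succ, pow_mul, h5, one_pow, one_mul] at this
  have f1 : f ≠ 1 := fun h => by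
    have e : f0 = b := (inv_mul_eq_one.1 h).symm
    rw [nA f0 (e ▸ hb) p0, orderOf_one] at o0
    omega
  have f2 : f * f ∉ A := fun h => by
    have e := nA _ h (by rw [← pow_two, ← pow_mul, mul_comm, pow_mul, f5, one_pow])
    apply f1
    calc f = f ^ 5 * (f * f)⁻¹ * (f * f)⁻¹ := by group
      _ = 1 := by rw [f5, e]; group
  have big : Big f A := ⟨i, fi, fun ⟨k, hk⟩ => f2 (ja.cent A hA _ (mul_mem fJ fJ)
    (ct_of fun a ha => by
      rw [ex_mul fi fi a ha, show i * i = 11 * k + 1 by rw [← hk]; ring, zpow_add_one, zpow_mul,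
        show a ^ (11 : ℤ) = 1 from (zpow_natCast a 11).trans (pow11 cA ha), one_zpow, one_mul]))⟩
  obtain ⟨U, UJ, Uy, ⟨e⟩, hU⟩ := ja.cy y yJ oy
  have fU : f ∈ U := (hU f fJ fy).elim id fun h => by
    have := pow_mem h 6
    rwa [fy.mul_pow, show 6 = 5 + 1 from rfl, pow_succ f, f5, one_mul, show 5 + 1 = 2 * 3 from rfl,
      pow_mul, pow_two, yy, one_pow, mul_one] at this
  obtain ⟨s, sU, hs⟩ : ∃ s ∈ U, s * f * s⁻¹ = f⁻¹ := by
    obtain ⟨s, hs⟩ := a5 (e ⟨f, fU⟩) (by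
      rw [← map_pow, show (⟨f, fU⟩ : U) ^ 5 = 1 from Subtype.ext f5, map_one])
    obtain ⟨s, rfl⟩ := e.surjective s
    rw [← map_inv, ← map_inv, ← map_mul, ← map_mul] at hs
    exact ⟨s, s.2, congrArg Subtype.val (e.injective hs)⟩
  have sJ := UJ sU
  have sy : s * y = y * s := mem_centralizer_singleton_iff.1 (Uy sU)
  have hB : cj s A ∈ Pts J := ⟨fun x hx => by
    have := mul_mem (mul_mem sJ (hA.1 (mem_cj.1 hx))) (inv_mem sJ)
    simpa [mul_assoc] using this, (card_cj s A).trans cA⟩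
  have ne : cj s A ≠ A := fun h => f2 (by
    have := inv_mem (ja.cent A hA _ (mul_mem (mul_mem (mul_mem sJ fJ) (inv_mem sJ)) (inv_mem fJ))
      (comm_ct cA (cj_eq_iff.1 h) fN))
    rwa [hs, mul_inv_rev, inv_inv] at this)
  have yB : y ∈ Nm (cj s A) := cj_eq_iff.1 (by rw [← cj_mul, ← sy, cj_mul, cj_eq_iff.2 yN])
  have fB : f ∈ Nm (cj s A) := cj_eq_iff.1 (by
    have e : f * s = s * f⁻¹ := by
      calc f * s = (s * f * s⁻¹)⁻¹ * s := by rw [hs, inv_inv]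
        _ = s * f⁻¹ := by group
    rw [← cj_mul, e, cj_mul, cj_eq_iff.2 (inv_mem fN)])
  refine ⟨f, fJ, _, hB, orderOf_eq_prime f5 f1, fy, fN, big, ne, yB, fB, fun iL => ?_⟩
  have lp : LP A (cj s A) := ⟨cA, hB.2, ne.symm, iL⟩
  obtain ⟨f', t, ht⟩ := hC _ _ lp
  obtain ⟨v, hv, ev⟩ := (hD _ _ y lp yN yB yA).sqs yy t ht.sL ht.so
  have vJ : v ∈ J := (sup_le (sup_le hA.1 hB.1) (zpowers_le.2 yJ)) hv
  have := ja.no4 v vJ (by
    rw [show 4 = 2 * 2 from rfl, pow_mul, pow_two v, ev, ← ht.so, pow_orderOf_eq_one])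
  have o := ht.so
  rw [← ev, ← pow_two, this, orderOf_one] at o
  omega

end Cfsg.Agent.H38.ElJY
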