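import Mathlib
import Cfsg.Agent.H11.ElDefs

/-!
# A diagonal involution centralising a second line
-/

set_option autoImplicit false

namespace Cfsg.Agent.H38.ElN42

open Subgroup Equiv Cfsg.Agent.H11.EL

universe u

variable {G : Type u} [Group G]

theorem nm_ct {L : Subgroup G} : Nm L ≤ Nm (Ct L) := fun g hg => by
  have k : ∀ g ∈ Nm L, ∀ x ∈ Ct L, g * x * g⁻¹ ∈ Ct L := fun g hg x hx =>
    mem_centralizer_iff.2 fun a ha => by
      have e := mem_centralizer_iff.1 hx _ ((mem_normalizer_iff''.1 hg a).1 ha)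
      calc a * (g * x * g⁻¹) = g * (g⁻¹ * a * g * x) * g⁻¹ := by group
        _ = _ := by rw [e]; group
  refine mem_normalizer_iff.2 fun x => ⟨k g hg x, fun hx => ?_⟩
  have := k _ (inv_mem hg) _ hx
  simpa [mul_assoc] using this

theorem cj_inj {g : G} {A B : Subgroup G} (h : cj g A = cj g B) : A = B := by
  have := congrArg (cj g⁻¹) h
  rwa [← cj_mul, ← cj_mul, inv_mul_cancel, cj_one, cj_one] at this

theorem second [Finite G] {L E : Subgroup G} {u : G} (hL : (Pts L).ncard = 12) (hu : u ∈ Nm L)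
    (uu : u * u = 1) (hE : E ∈ Pts L) (h : u ∈ Nm E) : ∃ E' ∈ Pts L, E' ≠ E ∧ u ∈ Nm E' := by
  classical
  have mem : ∀ X ∈ Pts L, cj u X ∈ Pts L := fun X hX =>
    ⟨(map_mono hX.1).trans (cj_eq_iff.2 hu).le, (card_cj u X).trans hX.2⟩
  let σ : Perm (Pts L) := Function.Involutive.toPerm (fun X => ⟨cj u X.1, mem _ X.2⟩) fun X =>
    Subtype.ext (by change cj u (cj u X.1) = X.1; rw [← cj_mul, uu, cj_one])
  have := Fintype.ofFinite (Pts L)
  have hc : 2 ∣ Fintype.card (Pts L) := by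
    rw [← Nat.card_eq_fintype_card, Nat.card_coe_set_eq, hL]; norm_num
  have hσ : σ ^ 2 ^ 1 = 1 := Equiv.ext fun X =>
    Subtype.ext (by change cj u (cj u X.1) = X.1; rw [← cj_mul, uu, cj_one])
  obtain ⟨⟨E', hE'⟩, e, ne⟩ := Perm.exists_fixed_point_of_prime' hc hσ (a := ⟨E, hE⟩)
    (Subtype.ext (cj_eq_iff.2 h))
  exact ⟨E', hE', fun k => ne (Subtype.ext k), cj_eq_iff.1 (congrArg Subtype.val e)⟩

theorem n42 (b : Base.{u}) (hT : TEStmt.{u}) : N42Stmt.{u} := by
  intro G _ _ D A B h ev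
  have N := h.ne
  have := N.simple
  have lp := N.lp A h.hA B h.hB h.AB
  have la := b.la _ lp.iso
  have pA : A ∈ Pts (A ⊔ B) := ⟨le_sup_left, lp.cA⟩
  have ntop : Ct (A ⊔ B) ≠ ⊤ := fun e => by
    have : A = ⊥ := eq_bot_iff.2 fun a ha => la.ctr a (mem_sup_left ha) (e ▸ mem_top a)
    have c := lp.cA
    rw [this, card_bot] at c
    omega
  obtain ⟨g, hg, u, ug, uK, ou⟩ := hT (Ct (A ⊔ B)) (A ⊔ B) ev ntop (fun g hg =>
    eq_bot_iff.2 fun x hx => by
      by_contra x1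
      refine hg (nm_ct (N.ti A h.hA B h.hB h.AB _ (mem_cj.1 hx.2) (fun e => x1 ?_) g ?_))
      · have : x = g * (g⁻¹ * x * g) * g⁻¹ := by group
        rw [this, e, mul_one, mul_inv_cancel]
        exact one_mem _
      · simpa [mul_assoc] using hx.1) (le_normalizer.trans nm_ct) (.inl lp.iso)
  have uu : u * u = 1 := by rw [← pow_two, ← ou, pow_orderOf_eq_one]
  have u1 : u ≠ 1 := fun e => by rw [e, orderOf_one] at ou; omega
  obtain ⟨k0, hk0, k1⟩ : ∃ k ∈ Ct (A ⊔ B), k ≠ 1 := by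
    by_contra! k
    rw [(eq_bot_iff_forall _).2 k, card_bot] at ev
    exact absurd ev (by decide)
  have uL : u ∈ Nm (A ⊔ B) :=
    N.ti A h.hA B h.hB h.AB k0 hk0 k1 u ((mem_normalizer_iff.1 uK k0).1 hk0)
  have hA' := N.conj A h.hA g
  have hB' := N.conj B h.hB g
  have ne' : cj g A ≠ cj g B := fun e => h.AB (cj_inj e)
  have neL : cj g A ⊔ cj g B ≠ A ⊔ B := fun e => hg (nm_ct (cj_eq_iff.1 ((cj_sup ..).trans e)))
  have uC : u ∈ Ct (cj g A ⊔ cj g B) := mem_centralizer_iff.2 fun a ha => by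
    rw [← cj_sup] at ha
    have e := mem_centralizer_iff.1 (mem_cj.1 ug) _ (mem_cj.1 ha)
    calc a * u = g * (g⁻¹ * a * g * (g⁻¹ * u * g)) * g⁻¹ := by group
      _ = _ := by rw [e]; group
  have nofix : ∀ E ∈ Pts (A ⊔ B), u ∉ Nm E := fun E hE hu => by
    obtain ⟨E', hE', ne, hu'⟩ := second la.npts uL uu hE hu
    have d := N.pts _ (.inl lp.iso) A h.hA le_sup_left E hE
    have d' := N.pts _ (.inl lp.iso) A h.hA le_sup_left E' hE'
    exact neL ((N.line _ hA' _ hB' E' d' E d ne (N.fix _ hA' _ hB' ne' u uC u1 E' d' hu')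
      (N.fix _ hA' _ hB' ne' u uC u1 E d hu)).symm.trans
      (N.line A h.hA B h.hB E' d' E d ne hE'.1 hE.1))
  obtain ⟨k, hk, s, hs, rfl⟩ := b.le _ u lp.iso uL uu nofix
  have c : s * k = k * s := mem_centralizer_iff.1 hk s hs
  have e : k * k * (s * s) = 1 := by
    calc k * k * (s * s) = k * (k * s) * s := by group
      _ = k * (s * k) * s := by rw [c]
      _ = k * s * (k * s) := by group
      _ = 1 := uu
  have ss : s * s = 1 := la.ctr _ (mul_mem hs hs) (by
    rw [eq_inv_of_mul_eq_one_right e]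
    exact inv_mem (mul_mem hk hk))
  have s1 : s ≠ 1 := fun e1 => nofix A pA (by
    rw [e1, mul_one]
    exact centralizer_le_normalizer _ (centralizer_le (by exact le_sup_left (a := A) (b := B)) hk))
  exact ⟨_, hA', _, hB', ne', neL, k, hk, s, hs, by rwa [ss, mul_one] at e,
    orderOf_eq_prime (by rw [pow_two, ss]) s1, uC⟩

end Cfsg.Agent.H38.ElN42
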