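import Cfsg.Agent.H42.FvDefs

/-! # Elements carrying one normal form to another -/

set_option autoImplicit false

namespace Cfsg.Agent.H38.FvCen

open Equiv Cfsg.Lie H37 H40 H34 H29 Module H50.E83 Cfsg.Agent.H42.Fv
open scoped Matrix

theorem clo_inv {w : Perm Rt} (hw : w ∈ C8.S.W) : Clo (C8.S.inv w) := fun r hr s hs t h =>
  ⟨clo_pos r hr.1 s hs.1 t h, (C8.R.not_pos_iff _).2 (by
    rw [show C8.R.rc (w t) = _ from h.W hw]
    exact add_nonpos ((C8.R.not_pos_iff _).1 hr.2) ((C8.R.not_pos_iff _).1 hs.2))⟩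

theorem cen (tri : TriStmt) (stab : StabStmt) (na : Nact2Stmt) : CenStmt := by
  intro x y y' hy hy' e
  obtain ⟨a, ha, n, hn, b, hb, rfl⟩ := P8.bruhat x
  obtain ⟨c, hc⟩ := na n hn
  have hz : act a⁻¹ y' = act n (act b y) := by rw [← e, act_mul, act_mul, act_inv_act]
  have s1 := stab K Pos subset_rfl clo_pos y' (fun r h => (hy' r h).1) a⁻¹ (inv_mem ha)
  have s2 := stab K Pos subset_rfl clo_pos y (fun r h => (hy r h).1) b (Split.Uinv_le_Up hb)
  rw [← act_eq_ac, hz] at s1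
  rw [← act_eq_ac] at s2
  have h1 : act n (cp y) = cp y' := by rw [← s2.2, ← (hc _).2.2, s1.2]
  have h2 : ∀ r, al (P8.ν n r) y' = al r y := fun r => by
    rw [← al_cp, ← s1.2, al_cp, (hc _).2.1, ← al_cp, s2.2, al_cp]
  have nz : ∀ r, act b y (Sum.inr r) ≠ 0 → act n (act b y) (Sum.inr (P8.ν n r)) ≠ 0 := fun r h => by
    rw [(hc _).1]
    exact mul_ne_zero (c r).ne_zero h
  have hb' : b ∈ P8.U (Pos ∩ Psi y) := Split.U_mono
    (Set.inter_subset_inter_left _ fun r h => h.1)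
    (tri _ (fun r h => h.1) (Psi y) (clo_inv (P8.ν_mem n hn)) (clo_psi y) y hy (fun _ _ h => h) b hb
      fun r hr _ => by_contra fun h => hr.2 (s1.1 _ (nz r h)))
  have s3 := (stab K _ Set.inter_subset_left (clo_pos.inter (clo_psi y)) y hy b hb').1
  rw [← act_eq_ac] at s3
  have ha' : a⁻¹ ∈ P8.U (Pos ∩ Psi y') := tri Pos subset_rfl (Psi y') clo_pos (clo_psi y') y' hy'
    (fun _ _ h => h) a⁻¹ (inv_mem ha) fun r _ hr => by
      obtain ⟨r, rfl⟩ := (P8.ν n).surjective r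
      rw [hz, (hc _).1]
      by_contra h
      exact hr ((h2 r).trans (s3 r (right_ne_zero_of_mul h)).2)
  exact ⟨a, (inv_mem_iff).1 ha', n, hn, b, hb', rfl, h1⟩

end Cfsg.Agent.H38.FvCen
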