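import Cfsg.Agent.H98.GbH

/-! Project GB (S4536): restriction at elements with coprime blocks; support of primitives. -/

set_option autoImplicit false
open Cfsg Finset Polynomial
open scoped ComplexConjugate MatrixGroups

namespace Cfsg.Agent.H38.GbCop
open Cfsg.Agent.H98.GB

universe u

variable {F : Type u} [Field F]

theorem aeval_intertwine {a b : ℕ} (u : Matrix (Fin a) (Fin a) F) (v : Matrix (Fin b) (Fin b) F)
    (s : Matrix (Fin a) (Fin b) F) (h : u * s = s * v) (r : F[X]) :
    aeval u r * s = s * aeval v r := by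
  have hp : ∀ k : ℕ, u ^ k * s = s * v ^ k := by
    intro k
    induction k with
    | zero => simp
    | succ k ih => rw [pow_succ, Matrix.mul_assoc, h, ← Matrix.mul_assoc, ih, Matrix.mul_assoc,
        pow_succ]
  induction r using Polynomial.induction_on' with
  | add p q hp' hq' => rw [map_add, map_add, Matrix.add_mul, Matrix.mul_add, hp', hq']
  | monomial k c =>
    rw [aeval_monomial, aeval_monomial, Algebra.algebraMap_eq_smul_one,
      Algebra.algebraMap_eq_smul_one, smul_mul_assoc, smul_mul_assoc, one_mul, one_mul,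
      Matrix.smul_mul, Matrix.mul_smul, hp]

theorem sylv [Finite F] {a b : ℕ} (u : Matrix (Fin a) (Fin a) F) (v : Matrix (Fin b) (Fin b) F)
    {p q : F[X]} (hp : aeval u p = 0) (hq : aeval v q = 0) (hc : IsCoprime p q)
    (c : Matrix (Fin a) (Fin b) F) : ∃ s : Matrix (Fin a) (Fin b) F, s * v = u * s + c := by
  have hinj : Function.Injective fun s : Matrix (Fin a) (Fin b) F => s * v - u * s := by
    intro s t hst
    have h1 : u * (s - t) = (s - t) * v := by
      simp only at hst
      rw [Matrix.mul_sub, Matrix.sub_mul]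
      have := sub_eq_sub_iff_sub_eq_sub.1 hst
      exact this.symm
    obtain ⟨A, B, hAB⟩ := hc
    have h2 : aeval u (A * p + B * q) * (s - t) = 0 := by
      rw [map_add, map_mul, map_mul, hp, mul_zero, zero_add, Matrix.mul_assoc,
        aeval_intertwine u v _ h1, hq, Matrix.mul_zero, Matrix.mul_zero]
    rw [hAB, map_one, Matrix.one_mul] at h2
    exact sub_eq_zero.1 h2
  obtain ⟨s, hs⟩ := Finite.surjective_of_injective hinj c
  exact ⟨s, by simp only at hs; rw [← hs]; abel⟩

theorem res_eq [Fintype F] [DecidableEq F] (η : Fˣ →* ℂˣ) {a b n : ℕ} (h : a + b = n)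
    (f : GL (Fin n) F → ℂ) (u : GL (Fin a) F) (v : GL (Fin b) F) (hf : Tw (dl η n) f)
    {p q : F[X]} (hp : aeval u.1 p = 0) (hq : aeval v.1 q = 0) (hc : IsCoprime p q) :
    res h f u v = f (tri h u 0 v) := by
  have key : ∀ c, f (tri h u c v) = f (tri h u 0 v) := by
    intro c
    obtain ⟨s, hs⟩ := sylv u.1 v.1 hp hq hc c
    have e : tri h u c v = tri h 1 s 1 * tri h u 0 v * (tri h 1 s 1)⁻¹ := by
      rw [eq_mul_inv_iff_mul_eq, tri_mul, tri_mul]
      simp [hs]
    rw [e, hf, dl_tri]
    simp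
  unfold res
  simp only [key, sum_const, card_univ, nsmul_eq_mul]
  have hcard : Fintype.card (Matrix (Fin a) (Fin b) F) = Fintype.card F ^ (a * b) := by
    change Fintype.card (Fin a → Fin b → F) = _
    simp [← pow_mul, mul_comm]
  rw [hcard, ← mul_assoc, inv_mul_cancel₀, one_mul]
  exact_mod_cast (pow_pos Fintype.card_pos _).ne'

/-- a polynomial killing `g` is not coprime to a nonconstant factor of the characteristic
polynomial -/
theorem not_kill {m : ℕ} (hm : 0 < m) (g : Matrix (Fin m) (Fin m) F) {p q : F[X]}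
    (hp : p ∣ g.charpoly) (hd : p.degree ≠ 0) (hc : IsCoprime p q) (hq : aeval g q = 0) :
    False := by
  classical
  have : Nonempty (Fin m) := ⟨⟨0, hm⟩⟩
  let K := AlgebraicClosure F
  obtain ⟨x, hx⟩ := IsAlgClosed.exists_aeval_eq_zero K p hd
  let g' : Matrix (Fin m) (Fin m) K := g.map (algebraMap F K)
  have h1 : x ∈ spectrum K g' := by
    rw [Matrix.mem_spectrum_iff_isRoot_charpoly, Matrix.charpoly_map, IsRoot.def,
      eval_map_algebraMap]
    obtain ⟨r, hr⟩ := hp
    rw [hr, map_mul, hx, zero_mul]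
  have h2 := spectrum.subset_polynomial_aeval g' (q.map (algebraMap F K)) ⟨x, h1, rfl⟩
  have h3 : aeval g' (q.map (algebraMap F K)) = 0 := by
    rw [aeval_map_algebraMap]
    have := Polynomial.aeval_algHom_apply
      ((Algebra.ofId F K).mapMatrix : Matrix (Fin m) (Fin m) F →ₐ[F] Matrix (Fin m) (Fin m) K) g q
    rw [hq, map_zero] at this
    exact this
  rw [h3, spectrum.zero_eq] at h2
  have h4 : aeval x q = 0 := by
    rw [← eval_map_algebraMap]; exact h2
  obtain ⟨A, B, hAB⟩ := hc
  have := congrArg (aeval x) hAB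
  simp [hx, h4] at this

theorem aeval_restrict {V : Type*} [AddCommGroup V] [Module F V] (T : V →ₗ[F] V)
    (W : Submodule F V) (hW : ∀ x ∈ W, T x ∈ W) (r : F[X]) (w : W) :
    ((aeval (T.restrict hW) r) w : V) = aeval T r w := by
  have hp : ∀ (k : ℕ) (w : W), (((T.restrict hW) ^ k) w : V) = (T ^ k) w := by
    intro k
    induction k with
    | zero => simp
    | succ k ih => intro w; rw [pow_succ, pow_succ, Module.End.mul_apply, Module.End.mul_apply, ih]; rfl
  induction r using Polynomial.induction_on' with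
  | add p q hp' hq' => simp [hp', hq']
  | monomial k c =>
    simp [aeval_monomial, hp]

theorem decomp {m : ℕ} (hm : 0 < m) (g : GL (Fin m) F) {p q : F[X]} (hpq : g.1.charpoly = p * q)
    (hp : p.degree ≠ 0) (hq : q.degree ≠ 0) (hc : IsCoprime p q) :
    ∃ (a b : ℕ) (h : a + b = m) (u : GL (Fin a) F) (v : GL (Fin b) F) (x : GL (Fin m) F),
      0 < a ∧ 0 < b ∧ aeval u.1 p = 0 ∧ aeval v.1 q = 0 ∧ g = x * tri h u 0 v * x⁻¹ := by
  classical
  let T : (Fin m → F) →ₗ[F] (Fin m → F) := Matrix.toLin' g.1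
  have hT : ∀ r : F[X], aeval T r = Matrix.toLin' (aeval g.1 r) := fun r =>
    Polynomial.aeval_algHom_apply (Matrix.toLinAlgEquiv' : Matrix (Fin m) (Fin m) F ≃ₐ[F] _) g.1 r
  let W1 := LinearMap.ker (aeval T p)
  let W2 := LinearMap.ker (aeval T q)
  have hcompl : IsCompl W1 W2 := by
    refine ⟨Polynomial.disjoint_ker_aeval_of_isCoprime T hc, codisjoint_iff.2 ?_⟩
    rw [Polynomial.sup_ker_aeval_eq_ker_aeval_mul_of_coprime T hc, ← hpq, hT,
      Matrix.aeval_self_charpoly]
    simp
  have hinv : ∀ r : F[X], ∀ x ∈ LinearMap.ker (aeval T r), T x ∈ LinearMap.ker (aeval T r) := by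
    intro r x hx
    rw [LinearMap.mem_ker] at hx ⊢
    have : aeval T r * T = T * aeval T r := by
      have h1 : aeval T (r * X) = aeval T (X * r) := by rw [mul_comm]
      simpa only [map_mul, aeval_X] using h1
    rw [← Module.End.mul_apply, this, Module.End.mul_apply, hx, map_zero]
  let T1 := T.restrict (hinv p)
  let T2 := T.restrict (hinv q)
  let b1 := Module.finBasis F W1
  let b2 := Module.finBasis F W2
  let e := Submodule.prodEquivOfIsCompl W1 W2 hcompl
  have h : Module.finrank F W1 + Module.finrank F W2 = m := by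
    rw [Submodule.finrank_add_eq_of_isCompl hcompl]; simp
  let B := Pi.basisFun F (Fin m)
  let X0 := LinearMap.toMatrix (b1.prod b2) B e.toLinearMap
  let Y0 := LinearMap.toMatrix B (b1.prod b2) e.symm.toLinearMap
  have hXY : X0 * Y0 = 1 := by
    rw [← LinearMap.toMatrix_comp]; simp
  have hYX : Y0 * X0 = 1 := by
    rw [← LinearMap.toMatrix_comp]; simp
  let u0 := LinearMap.toMatrix b1 b1 T1
  let v0 := LinearMap.toMatrix b2 b2 T2
  have hg : LinearMap.toMatrix B B T = g.1 := by
    rw [LinearMap.toMatrix_eq_toMatrix', LinearMap.toMatrix'_toLin']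
  have hgX : g.1 * X0 = X0 * Matrix.fromBlocks u0 0 0 v0 := by
    rw [← LinearMap.toMatrix_prodMap, ← hg, ← LinearMap.toMatrix_comp,
      ← LinearMap.toMatrix_comp]
    congr 1
    refine LinearMap.ext fun z => ?_
    simp [e, T1, T2]
  have hM : Matrix.fromBlocks u0 0 0 v0 = Y0 * g.1 * X0 := by
    rw [Matrix.mul_assoc, hgX, ← Matrix.mul_assoc, hYX, Matrix.one_mul]
  have hdet : u0.det * v0.det ≠ 0 := by
    rw [← Matrix.det_fromBlocks_zero₂₁ u0 0 v0]
    have : Matrix.fromBlocks u0 0 0 v0 * (Y0 * (g⁻¹).1 * X0) = 1 := by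
      rw [hM]
      calc Y0 * g.1 * X0 * (Y0 * (g⁻¹).1 * X0)
          = Y0 * (g.1 * ((X0 * Y0) * (g⁻¹).1)) * X0 := by simp only [Matrix.mul_assoc]
        _ = 1 := by
          rw [hXY, Matrix.one_mul, ← Units.val_mul, mul_inv_cancel, Units.val_one, Matrix.mul_one,
            hYX]
    intro h0
    have := congrArg Matrix.det this
    rw [Matrix.det_mul, h0, zero_mul, Matrix.det_one] at this
    exact zero_ne_one this
  have kill : ∀ (r : F[X]) (bb : Module.Basis (Fin (Module.finrank F (LinearMap.ker (aeval T r)))) F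
      (LinearMap.ker (aeval T r))),
      aeval (LinearMap.toMatrix bb bb (T.restrict (hinv r))) r = 0 := by
    intro r bb
    have h1 := Polynomial.aeval_algHom_apply (LinearMap.toMatrixAlgEquiv bb) (T.restrict (hinv r)) r
    have h2 : aeval (T.restrict (hinv r)) r = 0 := by
      refine LinearMap.ext fun w => Subtype.ext ?_
      rw [aeval_restrict]
      exact w.2
    rw [h2, map_zero] at h1
    exact h1
  have pos : ∀ r s : F[X], r ∣ g.1.charpoly → r.degree ≠ 0 → IsCoprime r s →
      IsCompl (LinearMap.ker (aeval T r)) (LinearMap.ker (aeval T s)) →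
      0 < Module.finrank F (LinearMap.ker (aeval T r)) := by
    intro r s hr hd hrs hcc
    by_contra h0
    have h1 : LinearMap.ker (aeval T r) = ⊥ := Submodule.finrank_eq_zero.1 (by omega)
    rw [h1] at hcc
    have h2 : LinearMap.ker (aeval T s) = ⊤ := eq_top_of_bot_isCompl hcc
    rw [LinearMap.ker_eq_top, hT] at h2
    exact not_kill hm g.1 hr hd hrs (Matrix.toLin'.map_eq_zero_iff.1 h2)
  let x : GL (Fin m) F := ⟨X0.submatrix id (eqv h).symm, Y0.submatrix (eqv h).symm id,
    by rw [Matrix.submatrix_mul_equiv, hXY]; rfl,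
    by
      rw [show Y0.submatrix (eqv h).symm id * X0.submatrix id (eqv h).symm =
        (Y0 * X0).submatrix (eqv h).symm (eqv h).symm from rfl, hYX, Matrix.submatrix_one_equiv]⟩
  refine ⟨_, _, h, Matrix.GeneralLinearGroup.mkOfDetNeZero u0 (left_ne_zero_of_mul hdet),
    Matrix.GeneralLinearGroup.mkOfDetNeZero v0 (right_ne_zero_of_mul hdet), x,
    pos p q ⟨q, hpq⟩ hp hc hcompl, pos q p ⟨p, by rw [hpq, mul_comm]⟩ hq hc.symm hcompl.symm,
    kill p b1, kill q b2, ?_⟩
  rw [eq_mul_inv_iff_mul_eq]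
  refine Units.ext ?_
  rw [Units.val_mul, Units.val_mul, coe_tri]
  change g.1 * X0.submatrix id (eqv h).symm = X0.submatrix id (eqv h).symm *
    (Matrix.fromBlocks u0 0 0 v0).submatrix (eqv h).symm (eqv h).symm
  rw [Matrix.submatrix_mul_equiv, ← hgX]
  rfl

theorem cop : COPStmt.{u} := by
  intro F _ _ _ η
  refine ⟨fun a b n h f u v hf hc => res_eq η h f u v hf (Matrix.aeval_self_charpoly _)
    (Matrix.aeval_self_charpoly _) hc, ?_⟩
  intro m P g hP hT hg
  classical
  have hm := hP.1
  have hmon : g.1.charpoly.Monic := Matrix.charpoly_monic _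
  have hdeg : g.1.charpoly.natDegree = m := by simp
  have hnu : ¬ IsUnit g.1.charpoly := by
    intro hu
    have := Polynomial.natDegree_eq_zero_of_isUnit hu
    omega
  obtain ⟨f0, hf0, hdvd⟩ := WfDvdMonoid.exists_irreducible_factor hnu hmon.ne_zero
  let f := normalize f0
  have hfm : f.Monic := Polynomial.monic_normalize hf0.ne_zero
  have hfi : Irreducible f := (associated_normalize f0).irreducible hf0
  have hfd : f ∣ g.1.charpoly := (normalize_associated f0).dvd.trans hdvd
  obtain ⟨k, q, hnd, hq⟩ := WfDvdMonoid.max_power_factor hmon.ne_zero hfi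
  have hqm : q.Monic := by
    rw [hq] at hmon
    exact (hfm.pow k).of_mul_monic_left hmon
  by_cases hq0 : q.degree = 0
  · refine ⟨f, k, hfm, hfi, ?_⟩
    rw [hq, (hqm.degree_le_zero_iff_eq_one).1 hq0.le, mul_one]
  · exfalso
    have hk : k ≠ 0 := by
      rintro rfl
      rw [pow_zero, one_mul] at hq
      exact hnd (hq ▸ hfd)
    have hpd : (f ^ k).degree ≠ 0 := by
      intro h0
      have hu : IsUnit (f ^ k) := Polynomial.isUnit_iff_degree_eq_zero.2 h0
      exact hfi.not_isUnit ((isUnit_pow_iff hk).1 hu)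
    have hc : IsCoprime (f ^ k) q := (hfi.coprime_iff_not_dvd.2 hnd).pow_left
    obtain ⟨a, b, h, u, v, x, ha, hb, hu, hv, e⟩ := decomp hm g hq hpd hq0 hc
    apply hg
    rw [e, hT, ← res_eq η h P u v hT hu hv hc, hP.2 a b h ha hb, mul_zero]

end Cfsg.Agent.H38.GbCop
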