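import Cfsg.Agent.H98.GbL
import Cfsg.Agent.H11.Irr

/-! Project GB (S4536): Green's functions are irreducible characters. -/

set_option autoImplicit false
open Cfsg Finset
open scoped ComplexConjugate MatrixGroups

namespace Cfsg.Agent.H38.GbIrr
open Cfsg.Agent.H98.GB

universe u

theorem nw_one {A : Type*} [CommRing A] [Algebra ℂ A] (P : ℕ → A) : nw P 1 = P 1 := by
  rw [nw]
  simp [nw]

section
variable {F : Type u} [Field F] [Fintype F] [DecidableEq F] {H : Hall (1 : Fˣ →* ℂˣ)}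

/-- homogeneous with a character as component -/
def Ch (H : Hall (1 : Fˣ →* ℂˣ)) (d : ℕ) (x : H.A) : Prop :=
  H.Hg d x ∧ IsCharacter _ (H.ev x d)

theorem ch_one (hF : H.Fock) : Ch H 0 1 := by
  refine ⟨hF.hg_one, ?_⟩
  rw [H.ev_one, one, Pi.single_eq_same]
  exact H11.isCharacter_one

theorem ch_mul (hF : H.Fock) (hG : GENStmt.{u}) {a b : ℕ} {x y : H.A} (hx : Ch H a x)
    (hy : Ch H b y) : Ch H (a + b) (x * y) := by
  refine ⟨hF.hg_mul hx.1 hy.1, ?_⟩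
  rw [hF.ev_mul_hg y rfl hx.1]
  exact (hG F).1 _ _ _ _ _ _ hx.2 hy.2

theorem ch_pow (hF : H.Fock) (hG : GENStmt.{u}) {a : ℕ} {x : H.A} (hx : Ch H a x) (k : ℕ) :
    Ch H (a * k) (x ^ k) := by
  induction k with
  | zero => simpa using ch_one hF
  | succ k ih => rw [pow_succ, Nat.mul_succ]; exact ch_mul hF hG ih hx

theorem ch_prod (hF : H.Fock) (hG : GENStmt.{u}) {ι : Type} (s : Finset ι) {a : ι → ℕ}
    {x : ι → H.A} (hx : ∀ i, Ch H (a i) (x i)) : Ch H (∑ i ∈ s, a i) (∏ i ∈ s, x i) := by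
  classical
  induction s using Finset.induction_on with
  | empty => simpa using ch_one hF
  | insert i s hi ih => rw [sum_insert hi, prod_insert hi]; exact ch_mul hF hG (hx i) ih

theorem ip_sum {ι : Type} (s : Finset ι) (c : ι → ℂ) (x : ι → H.A) (y : H.A) (n : ℕ) :
    H.ip n (∑ i ∈ s, c i • x i) y = ∑ i ∈ s, c i * H.ip n (x i) y := by
  unfold Hall.ip
  rw [map_sum, Finset.sum_apply, H11.classInner_sum_left]
  refine sum_congr rfl fun i _ => ?_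
  rw [map_smul, Pi.smul_apply, H11.classInner_smul_left]

end

theorem irr (hF : FOCKStmt.{u}) (_hN : NWEHStmt.{u}) (hJ : JTStmt.{u}) (hM : MONStmt.{u})
    (hO : MORTHStmt.{u})
    (hT : ORTHStmt.{u}) (hG : GENStmt.{u}) (hI : INTStmt.{u}) (hS : SYSStmt.{u})
    (hP : DELPStmt.{u}) (hD : DELCStmt.{u}) : IRRStmt.{u} := by
  intro F _ _ _ C n hn Λ hΛ
  have fk := hF F 1 C.H
  obtain ⟨hpr, hsys, hgram⟩ := hS F C
  have hN : C.n0 ≤ C.N := Nat.le_mul_of_pos_left _ (Nat.succ_pos _)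
  have lab : ∀ Λ', C.IsLab n Λ' → LabOn C.N (fun _ => True) Λ' := fun Λ' h φ =>
    ⟨h.1 φ, fun h' => (h' trivial).elim⟩
  have orth : ∀ Λ', C.IsLab n Λ' → C.H.Hg n (sL C.N C.pp Λ) ∧
      classInner (C.sC Λ n) (C.sC Λ' n) = if Λ = Λ' then 1 else 0 := fun Λ' h => by
    have := hT F 1 C.H C.Φ C.dg (fun _ => True) C.n0 C.N C.pp 0 1 hN (hsys _) (hgram _) Λ Λ'
      (lab Λ hΛ) (lab Λ' h) (hΛ.2 ▸ hn) (h.2 ▸ hn)
    rwa [hΛ.2, zero_add, one_mul, one_mul, fk.ip_one] at this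
  have hnorm : classInner (C.sC Λ n) (C.sC Λ n) = 1 := by simpa using (orth Λ hΛ).2
  refine ⟨(orth Λ hΛ).1, ?_, fun Λ' h e => ?_⟩
  swap
  · have := (orth Λ' h).2
    rw [← e, hnorm] at this
    by_contra hne
    rw [if_neg hne] at this
    exact one_ne_zero this
  obtain ⟨R, hR⟩ := (hG F).2.1 C.H
  have hgen : IsGeneralizedCharacter _ (C.sC Λ n) :=
    (hR _).1 (R.prod_mem fun φ _ => hJ _ _ R _ _ (hΛ.1 φ) fun j _ => (hR _).2 (hI F C φ j)) n
  refine (H11.irr_or_neg_of_classInner_self hgen hnorm).resolve_right fun hneg => ?_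
  have h1 : ∀ φ, Ch C.H (C.dg φ * 1) (C.pp φ 1) := fun φ => by
    refine ⟨(hpr φ 1 one_pos).1, ?_⟩
    have g1 : IsGeneralizedCharacter _ (C.H.ev (C.pp φ 1) (C.dg φ * 1)) := by
      have := hI F C φ 1 (C.dg φ * 1)
      rwa [nw_one] at this
    have g2 := hgram (C.dg φ * 1) φ 1 φ 1 trivial trivial one_pos one_pos le_rfl le_rfl
    rw [if_pos ⟨rfl, rfl⟩] at g2
    replace g2 := g2.trans Nat.cast_one
    rcases H11.irr_or_neg_of_classInner_self g1 g2 with h | h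
    · exact H11.isCharacter_of_irr h
    · exfalso
      obtain ⟨-, -, d3, -, -, -, d7⟩ := hD F C.ψ C.hψ
      obtain ⟨r, hr⟩ := d3 _ _ (H11.isCharacter_of_irr h)
      rw [← neg_one_smul ℂ, (d7 _ _ 0 _).2, hP F C φ 1 one_pos] at hr
      have : (-1 : ℝ) = r := by
        have := congrArg Complex.re hr
        simpa using this
      have h0 : (0 : ℝ) ≤ r := Nat.cast_nonneg r
      linarith
  let μ0 : C.Φ → Multiset ℕ := fun φ => Multiset.replicate (H19.wtS (Λ φ)) 1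
  have h2 : Ch C.H n (mon C.pp μ0) := by
    have := ch_prod fk hG univ fun φ => ch_pow fk hG (h1 φ) (H19.wtS (Λ φ))
    simp only [mul_one] at this
    rw [← hΛ.2]
    unfold mon wt
    simpa [μ0] using this
  have hμ : ∀ μ ∈ Fintype.piFinset fun φ => H19.Par (H19.wtS (Λ φ)),
      MonOn (fun _ => True) μ ∧ wm C.dg μ = n := fun μ h => by
    rw [Fintype.mem_piFinset] at h
    refine ⟨fun φ => ⟨(H19.mem_Par.1 (h φ)).2, fun h' => (h' trivial).elim⟩, ?_⟩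
    rw [← hΛ.2]
    exact sum_congr rfl fun φ _ => by rw [(H19.mem_Par.1 (h φ)).1]
  have hμ0 : μ0 ∈ Fintype.piFinset fun φ => H19.Par (H19.wtS (Λ φ)) := by
    rw [Fintype.mem_piFinset]
    intro φ
    rw [H19.mem_Par]
    exact ⟨by simp [μ0], fun r hr => by rw [Multiset.eq_of_mem_replicate hr]; exact one_pos⟩
  have h3 : C.H.ip n (sL C.N C.pp Λ) (mon C.pp μ0) =
      ((∏ φ, H19.chiS C.N (Λ φ) (μ0 φ) : ℤ) : ℂ) := by
    rw [(hM _ C.Φ C.N C.pp).1 Λ, ip_sum, sum_eq_single_of_mem μ0 hμ0]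
    · have := (hO F 1 C.H C.Φ C.dg (fun _ => True) n C.pp 0 1 0 1 _ (hsys _) (hsys _) (hgram _)
        μ0 μ0 (hμ _ hμ0).1 (hμ _ hμ0).1 (hμ _ hμ0).2.le (hμ _ hμ0).2.le).2
      rw [(hμ _ hμ0).2, zero_add, one_mul, if_pos rfl, fk.ip_one, one_mul] at this
      rw [this, ← prod_mul_distrib, Int.cast_prod]
      refine prod_congr rfl fun φ _ => ?_
      have hz : (H19.zM (μ0 φ) : ℂ) ≠ 0 := by
        exact_mod_cast (H19.zM_pos ((hμ _ hμ0).1 φ).1).ne'
      rw [div_mul_eq_mul_div, div_eq_iff hz, H19.zM]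
      push_cast
      rfl
    · intro μ h hne
      have := (hO F 1 C.H C.Φ C.dg (fun _ => True) n C.pp 0 1 0 1 _ (hsys _) (hsys _) (hgram _)
        μ μ0 (hμ _ h).1 (hμ _ hμ0).1 (hμ _ h).2.le (hμ _ hμ0).2.le).2
      rw [(hμ _ h).2, zero_add, one_mul, one_mul, if_neg hne] at this
      rw [this, mul_zero]
  have h4 : 0 < ∏ φ, H19.chiS C.N (Λ φ) (μ0 φ) := prod_pos fun φ _ =>
    H19.chiS_degree_pos (H19.mem_Lam.2 ⟨hΛ.1 φ, by rw [H19.sum_eq_wtS, hΛ.1 φ]⟩)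
  obtain ⟨r, hr⟩ := H11.exists_nat_classInner (H11.isCharacter_of_irr hneg) h2.2
  rw [H11.classInner_neg_left] at hr
  have h5 : -((∏ φ, H19.chiS C.N (Λ φ) (μ0 φ) : ℤ) : ℂ) = r := by rw [← h3]; exact hr
  have h6 : -(∏ φ, H19.chiS C.N (Λ φ) (μ0 φ)) = (r : ℤ) := by exact_mod_cast h5
  omega

end Cfsg.Agent.H38.GbIrr
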