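import Cfsg.Agent.H38.CkK2
import Cfsg.Agent.H9.KCDefs

/-!
The class number of `L₂(q)` (project KC, piece KL2).
-/

set_option autoImplicit false

namespace Cfsg.Agent.H38.KcL2

theorem kl2 : H9.KC.KL2Stmt := CkK2.k2

end Cfsg.Agent.H38.KcL2
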