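import Cfsg.Agent.Lead.KRDefs
import Cfsg.Agent.S4959
import Cfsg.Agent.H88.PNilTop
import Cfsg.Agent.H12.RO15
import Cfsg.Agent.H3.Fitting
import Cfsg.Agent.H3.Frattini

/-!
Project KR, pieces KV and KX: class numbers of solvable groups with trivial `p'`-core.
-/

set_option autoImplicit false
set_option linter.unusedSectionVars false

namespace Cfsg.Agent.H38.KrKV

open Cfsg Cfsg.Agent.Lead.KR Cfsg.Agent.H12.RO Subgroup

universe u

section
variable {X : Type u} [Group X] [Finite X] {p : ℕ} [hp : Fact p.Prime] {V : Subgroup X}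
  [V.Normal]

theorem exists_compl (hexp : ∀ v ∈ V, v ^ p = 1) (hidx : ¬ p ∣ V.index) :
    ∃ G : Subgroup X, V.IsComplement' G := by
  have h : IsPGroup p V := fun v => ⟨1, Subtype.ext (by simpa using hexp v v.2)⟩
  obtain ⟨k, hk⟩ := h.exists_card_eq
  refine exists_right_complement'_of_coprime ?_
  rw [hk]
  exact ((Nat.Prime.coprime_iff_not_dvd hp.out).2 hidx).pow_left k

theorem comm_le (hself : centralizer (V : Set X) = V) : ⁅V, V⁆ ≤ ⊥ := by
  rw [le_bot_iff, commutator_eq_bot_iff_le_centralizer, hself]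

theorem sec_smul {N : Type u} [AddCommGroup N] [DistribMulAction X N] {π : X → N}
    (h : IsSec ⊥ V π) (hexp : ∀ v ∈ V, v ^ p = 1) (n : N) : p • n = 0 := by
  obtain ⟨a, ha, rfl⟩ := h.surj n
  rw [← h.pow ha, hexp a ha, h.one]

theorem eq_one_of_cent (hself : centralizer (V : Set X) = V) {G : Subgroup X}
    (hG : V.IsComplement' G) {g : X} (hg : g ∈ G) (h : ∀ u ∈ V, g * u * g⁻¹ = u) : g = 1 := by
  have : g ∈ V := hself ▸ mem_centralizer_iff.2 fun u hu =>
    (mul_inv_eq_iff_eq_mul.1 (h u hu)).symm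
  exact disjoint_def.1 hG.disjoint this hg

theorem nil_case (hr : RealStmt.{u}) (hexp : ∀ v ∈ V, v ^ p = 1) (hidx : ¬ p ∣ V.index)
    (hself : centralizer (V : Set X) = V) {Y : Type*} [Group Y] [Group.IsNilpotent Y]
    (f : X →* Y) (hf : f.ker ≤ V) : Nat.card (ConjClasses X) ≤ Nat.card V := by
  obtain ⟨G, hG⟩ := exists_compl hexp hidx
  have hnil : Group.IsNilpotent G := by
    refine Subgroup.isNilpotent_of_ker_le_center (f.comp G.subtype) fun g hg => ?_
    have : g = 1 := Subtype.ext (disjoint_def.1 hG.disjoint (hf hg) g.2)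
    rw [this]
    exact one_mem _
  obtain ⟨N, _, _, π, h⟩ := exists_sec ⊥ V (comm_le hself)
  have := h.finite
  obtain ⟨v0, β, h1, h2, h3, h4⟩ := hr G N p hp.out (sec_smul h hexp)
    (by rwa [← hG.symm.index_eq_card])
  obtain ⟨v, hv, rfl⟩ := h.surj v0
  refine S4959.result p V hexp hidx hself G hG v hv V le_rfl
    (fun g _ _ u hu => Normal.conj_mem ‹_› u hu g) (fun g hg _ e => eq_one_of_cent hself hG hg e)
    (fun x y => β (π x) (π y)) (fun u hu u' hu' w _ => by rw [h.mul u hu u' hu', h1])
    (fun u _ w hw w' hw' => by rw [h.mul w hw w' hw', h2]) (fun g hg e u hu w hw => ?_)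
    fun u hu e => ?_
  · rw [h.conj g u hu, h.conj g w hw]
    refine h3 ⟨g, hg⟩ ?_ _ _
    change g • π v = π v
    rw [← h.conj g v hv, e]
  · refine mem_bot.1 ((h.ker u hu).1 (h4 _ fun y => ?_))
    obtain ⟨w, hw, rfl⟩ := h.surj y
    exact e w hw

end

theorem kv (hm : MainStmt.{u}) (hr : RealStmt.{u}) : KVStmt.{u} := by
  intro X _ _ _ p n hp V _ hexp hidx hself hn
  obtain ⟨G, hG⟩ := exists_compl hexp hidx
  obtain ⟨N, _, _, π, h⟩ := exists_sec ⊥ V (comm_le hself)
  have := h.finite
  have hFn : (fittingSubgroup G).Normal := H3.fitting_normal G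
  have hc : p.Coprime (Nat.card G) := by
    rw [← hG.symm.index_eq_card]
    exact (Nat.Prime.coprime_iff_not_dvd hp.out).2 hidx
  have hB := hm G N (cr_of_coprime hp.out hc (sec_smul h hexp))
    (fun g hg => Subtype.ext (eq_one_of_cent hself hG g.2 fun u hu => by
      have h1 : π (g * u * (g : X)⁻¹) = π u := (h.conj g u hu).trans (hg (π u))
      rw [h.eq_iff (Normal.conj_mem ‹_› u hu g) hu, mem_bot, inv_mul_eq_one] at h1
      exact h1)) p n hp.out (sec_smul h hexp) (by
      have := h.card
      rwa [bot_inf_eq, card_bot, mul_one, hn, eq_comm] at this)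
  let φ : X →* G := hG.symm.QuotientMulEquiv.toMonoidHom.comp (QuotientGroup.mk' V)
  have hφ : ∀ x, φ x = 1 ↔ x ∈ V := fun x => by
    rw [← QuotientGroup.eq_one_iff, ← map_eq_one_iff _ hG.symm.QuotientMulEquiv.injective]
    rfl
  let F := (fittingSubgroup G).comap φ
  have hVF : V ≤ F := fun x hx => by
    rw [mem_comap, (hφ x).2 hx]
    exact one_mem _
  have hnil := H3.fitting_isNilpotent G
  have h1 : Nat.card (ConjClasses F) ≤ Nat.card (V.subgroupOf F) :=
    nil_case (p := p) hr (fun v hv => Subtype.ext (hexp v hv))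
      (fun e => hidx (e.trans (relIndex_dvd_index_of_normal V F)))
      (by
        ext x
        rw [mem_subgroupOf, ← hself, mem_centralizer_iff, mem_centralizer_iff, hself]
        exact ⟨fun e y hy => congrArg Subtype.val (e ⟨y, hVF hy⟩ hy),
          fun e y hy => Subtype.ext (e y hy)⟩)
      ((φ.comp F.subtype).codRestrict (fittingSubgroup G) fun x => x.2)
      fun x hx => (hφ x).1 (congrArg Subtype.val hx)
  rw [H3.card_subgroupOf, inf_eq_left.2 hVF, hn] at h1
  calc _ ≤ _ := H93.card_conjClasses_le_normal_mul_quotient F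
    _ ≤ p ^ n * 3 ^ (n - 1) := Nat.mul_le_mul h1 (hB X φ)
    _ = _ := mul_comm _ _

theorem k_le_ker_mul {X Y : Type*} [Group X] [Finite X] [Group Y] (f : X →* Y)
    (hf : Function.Surjective f) :
    Nat.card (ConjClasses X) ≤ Nat.card (ConjClasses f.ker) * Nat.card (ConjClasses Y) := by
  have : Finite Y := Finite.of_surjective f hf
  exact (H93.card_conjClasses_le_normal_mul_quotient f.ker).trans (Nat.mul_le_mul_left _
    (k_le_of_surj (QuotientGroup.quotientKerEquivOfSurjective f hf).symm.toMonoidHom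
      (MulEquiv.surjective _)))

theorem card_eq_ker_mul {X Y : Type*} [Group X] [Group Y] (f : X →* Y)
    (hf : Function.Surjective f) : Nat.card X = Nat.card f.ker * Nat.card Y := by
  rw [← f.ker.card_mul_index, index_ker, MonoidHom.range_eq_top.2 hf, card_top]

theorem step {X Y : Type*} [Group X] [Finite X] [Group Y] (f : X →* Y)
    (hf : Function.Surjective f) {p : ℕ}
    (h1 : Nat.card (ConjClasses f.ker) ≤ 3 ^ ((Nat.card f.ker).factorization p - 1) *
      p ^ (Nat.card f.ker).factorization p)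
    (h2 : Nat.card (ConjClasses Y) ≤ 3 ^ ((Nat.card Y).factorization p - 1) *
      p ^ (Nat.card Y).factorization p) :
    Nat.card (ConjClasses X) ≤ 3 ^ ((Nat.card X).factorization p - 1) *
      p ^ (Nat.card X).factorization p := by
  have : Finite Y := Finite.of_surjective f hf
  rw [card_eq_ker_mul f hf, Nat.factorization_mul Nat.card_pos.ne' Nat.card_pos.ne',
    Finsupp.add_apply]
  refine (k_le_ker_mul f hf).trans ((Nat.mul_le_mul h1 h2).trans ?_)
  rw [mul_mul_mul_comm, ← pow_add, ← pow_add]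
  exact Nat.mul_le_mul_right _ (Nat.pow_le_pow_right (by norm_num) (by omega))

theorem card_lt_of_ker {X Y : Type*} [Group X] [Finite X] [Group Y] (f : X →* Y)
    (hf : Function.Surjective f) (h : f.ker ≠ ⊥) : Nat.card Y < Nat.card X := by
  have : Finite Y := Finite.of_surjective f hf
  rw [card_eq_ker_mul f hf]
  exact lt_mul_of_one_lt_left Nat.card_pos ((one_lt_card_iff_ne_bot _).2 h)

theorem kx (hv : KVStmt.{u}) : KXStmt.{u} := by
  intro X _ _ _ p hp h0
  induction hn : Nat.card X using Nat.strong_induction_on generalizing X with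
  | _ m ih =>
  subst hn
  have hP := H3.pCore_isPGroup p X
  have hPc := H3.pCore_characteristic p X
  have hC := H3.centralizer_pCore_le h0
  set P := pCore p X
  by_cases hb : P = ⊥
  · have : Subsingleton X := by
      rw [hb] at hC
      refine ⟨fun a b => ?_⟩
      have h : ∀ a : X, a = 1 := fun a => mem_bot.1 (hC (mem_centralizer_iff.2 fun y hy => by
        rw [mem_bot.1 hy, one_mul, mul_one]))
      rw [h a, h b]
    refine (k_le_card X).trans ?_
    rw [Nat.card_unique]
    simp
  by_cases hF : P ⊓ frattini X = ⊥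
  swap
  · have hk := QuotientGroup.ker_mk' (P ⊓ frattini X)
    have hs := QuotientGroup.mk'_surjective (P ⊓ frattini X)
    have hp' : IsPGroup p (P ⊓ frattini X : Subgroup X) := hP.to_inf_left
    refine step _ hs ?_ (ih _ (card_lt_of_ker _ hs (by rwa [hk])) _
      (H88.pPrimeCore_quotient_eq_bot_of_le_frattini hp' inf_le_right h0) rfl)
    refine (k_le_card _).trans ?_
    obtain ⟨k, e⟩ := hp'.exists_card_eq
    rw [hk, e, Nat.Prime.factorization_pow hp.out, Finsupp.single_eq_same]
    exact Nat.le_mul_of_pos_left _ (by positivity)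
  have hΦ : ∀ x ∈ (frattini P).map P.subtype, x = 1 := fun x hx => by
    rw [← mem_bot, ← hF]
    exact ⟨map_subtype_le _ hx, H3.map_frattini_le_frattini P hx⟩
  have hexp : ∀ v ∈ P, v ^ p = 1 := fun v hv => hΦ _ (H3.pow_mem_map_frattini hP hv)
  have hab : P ≤ centralizer (P : Set X) := by
    rw [← commutator_eq_bot_iff_le_centralizer, eq_bot_iff]
    intro x hx
    exact mem_bot.2 (hΦ x (H3.commutator_le_map_frattini hP hx))
  have hO := H3.pPrimeCore_characteristic p (X ⧸ P)
  let f := (QuotientGroup.mk' (pPrimeCore p (X ⧸ P))).comp (QuotientGroup.mk' P)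
  have hs : Function.Surjective f :=
    (QuotientGroup.mk'_surjective _).comp (QuotientGroup.mk'_surjective _)
  have hk : f.ker = (pPrimeCore p (X ⧸ P)).comap (QuotientGroup.mk' P) := by
    rw [← MonoidHom.comap_ker, QuotientGroup.ker_mk']
  have hPk : P ≤ f.ker := by
    rw [hk]
    intro x hx
    rw [mem_comap, QuotientGroup.mk'_apply, (QuotientGroup.eq_one_iff x).2 hx]
    exact one_mem _
  refine step f hs ?_ (ih _ (card_lt_of_ker f hs fun e => hb (le_bot_iff.1 (e ▸ hPk))) _
    (H3.pPrimeCore_quotient_pPrimeCore p _) rfl)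
  obtain ⟨n, e⟩ := hP.exists_card_eq
  have hc : Nat.card f.ker = p ^ n * Nat.card (pPrimeCore p (X ⧸ P)) := by
    rw [hk, H3.card_comap_mk', e]
  have hnd := H3.not_dvd_card_pPrimeCore p (X ⧸ P)
  have e' : Nat.card (P.subgroupOf f.ker) = p ^ n := by
    rw [H3.card_subgroupOf, inf_eq_left.2 hPk, e]
  have hd : (Nat.card f.ker).factorization p = n := by
    rw [hc, Nat.factorization_mul (pow_ne_zero _ hp.out.ne_zero) Nat.card_pos.ne',
      Finsupp.add_apply, Nat.Prime.factorization_pow hp.out, Finsupp.single_eq_same,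
      Nat.factorization_eq_zero_of_not_dvd hnd, add_zero]
  rw [hd]
  refine hv f.ker p n (P.subgroupOf f.ker) (fun v hv => Subtype.ext (hexp v hv)) ?_ ?_ e'
  · have := (P.subgroupOf f.ker).card_mul_index
    rw [e', hc] at this
    rwa [Nat.eq_of_mul_eq_mul_left (pow_pos hp.out.pos n) this]
  · ext x
    rw [mem_subgroupOf, mem_centralizer_iff]
    exact ⟨fun e => hC (mem_centralizer_iff.2 fun y hy =>
      congrArg Subtype.val (e ⟨y, hPk hy⟩ hy)),
      fun e y hy => Subtype.ext (mem_centralizer_iff.1 (hab e) y hy)⟩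

end Cfsg.Agent.H38.KrKV
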