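import Cfsg.Agent.H54.O84Defs
import Cfsg.Agent.S0293
import Cfsg.Agent.S0296
import Cfsg.Agent.S1065
import Cfsg.Agent.S1082

/-! Orders, simplicity and the centre of `Ω₈⁺(4)`. -/

set_option autoImplicit false

namespace Cfsg.Agent.H38.O84Om

open Cfsg Cfsg.Agent.H54.O84

universe u

theorem om : OmStmt.{u} := by
  have c := S1065.result (F := ZMod 2) (ZMod.card 2)
  refine ⟨⟨Nat.finite_of_card_ne_zero (by rw [c]; norm_num), by rw [c]; norm_num⟩,
    fun F _ _ hF => ?_⟩
  have h2 : (2 : F) = 0 := by
    by_contra h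
    have := H30.two_ne_zero_iff_odd_card.1 h
    rw [hF] at this
    exact absurd this (by decide)
  have hz : Subgroup.center (Om F) = ⊥ := by
    classical
    have hd : Module.finrank F (Fin 4 ⊕ Fin 4 → F) = 8 := by simp
    have := H30.card_center_Omega (H30.qPlus_nondegenerate (F := F) 4)
      (H30.not_isExc_of_finrank (by omega)) (by simp)
    rw [if_neg fun h => h.1 h2] at this
    exact Subgroup.card_eq_one.1 this
  let e : POmega F (quadFormPlus 4 F) ≃* Om F :=
    (QuotientGroup.quotientMulEquivOfEq hz).trans QuotientGroup.quotientBot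
  have := S0296.result (F := F) 4 le_rfl
  obtain ⟨e'⟩ := S1082.result (F := F)
  refine ⟨e.symm.isSimpleGroup, hz, ?_, ⟨e'.trans e⟩⟩
  have c := S0293.result hF 4 le_rfl
  rw [Nat.card_congr e.toEquiv] at c
  norm_num [Finset.prod_range_succ] at c
  rw [c]
  norm_num

end Cfsg.Agent.H38.O84Om
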