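import Cfsg.Agent.H71.P3Defs

/-!
# Rank three actions of the symplectic groups: the step `PAR`
-/

set_option autoImplicit false
set_option linter.unusedSectionVars false
set_option linter.unusedSimpArgs false

namespace Cfsg.Agent.H38.P3Par
open Cfsg.Agent.H71.P3 Cfsg.Agent.H27 Module
open scoped Pointwise

variable {F V : Type} [Field F] [Finite F] [AddCommGroup V] [Module F V] [Finite V] (S : Sp F V)

theorem mem_D {W : Submodule F V} {g : V ≃ₗ[F] V} {v : V} :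
    v ∈ W ⊓ g⁻¹ • W ↔ v ∈ W ∧ g v ∈ W := by
  rw [Submodule.mem_inf, mem_smul]
  rfl

/-- the invariant of a double coset -/
noncomputable def iv (W : Submodule F V) (g : V ≃ₗ[F] V) : ℕ × Prop :=
  (dm (W ⊓ g⁻¹ • W), ∀ u ∈ W, ∀ v ∈ W, S.B u (g v) = 0)

set_option linter.unusedTactic false in
set_option linter.unreachableTactic false in
theorem eqns_iv : True := by
  first | (have := @iv.eq_def) | skip
  first | (have := @iv.eq_1) | skip
  first | (have := @iv.eq_unfold) | skip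
  first | (have := @iv.congr_simp) | skip
  trivial

theorem iv_mul {K : Subgroup (V ≃ₗ[F] V)} (hK : K ≤ S.G) {W : Submodule F V}
    (hW : ∀ g ∈ K, g • W = W) {h h' : V ≃ₗ[F] V} (hh : h ∈ K) (hh' : h' ∈ K) (a : V ≃ₗ[F] V) :
    iv S W (h * a * h') = iv S W a := by
  have m : ∀ g ∈ K, ∀ v ∈ W, g v ∈ W := fun g hg v hv => by
    rw [← hW g hg]; exact smul_mem_smul.2 hv
  refine Prod.ext ?_ (propext ⟨fun k u hu v hv => ?_, fun k u hu v hv => ?_⟩)
  · show dm (W ⊓ (h * a * h')⁻¹ • W) = dm (W ⊓ a⁻¹ • W)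
    rw [← dm_smul h'⁻¹ (W ⊓ a⁻¹ • W), smul_inf, hW _ (inv_mem hh'), mul_inv_rev, mul_inv_rev,
      mul_smul, mul_smul, hW _ (inv_mem hh)]
  · have := k (h u) (m _ hh u hu) (h'⁻¹ v) (m _ (inv_mem hh') v hv)
    rw [LinearEquiv.mul_apply, LinearEquiv.mul_apply, hK hh,
      show h' (h'⁻¹ v) = v from h'.apply_symm_apply v] at this
    exact this
  · have := k (h⁻¹ u) (m _ (inv_mem hh) u hu) (h' v) (m _ hh' v hv)
    rw [← hK hh, show h (h⁻¹ u) = u from h.apply_symm_apply u] at this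
    exact this

theorem four {K : Subgroup (V ≃ₗ[F] V)} (hK : K ≤ S.G) (r : S.R3 K) {W : Submodule F V}
    (hW : ∀ g ∈ K, g • W = W) {g1 g2 g3 : V ≃ₗ[F] V} (h1 : g1 ∈ S.G) (h2 : g2 ∈ S.G)
    (h3 : g3 ∈ S.G) (n1 : iv S W g1 ≠ iv S W 1) (n2 : iv S W g2 ≠ iv S W 1)
    (n3 : iv S W g3 ≠ iv S W 1) (n12 : iv S W g1 ≠ iv S W g2) (n13 : iv S W g1 ≠ iv S W g3)
    (n23 : iv S W g2 ≠ iv S W g3) : False := by
  obtain ⟨a, b, r⟩ := r
  have k : ∀ g ∈ S.G, iv S W g ≠ iv S W 1 → iv S W g = iv S W a ∨ iv S W g = iv S W b := by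
    intro g hg n
    rcases r g hg with e | ⟨h, hh, h', hh', rfl⟩ | ⟨h, hh, h', hh', rfl⟩
    · refine absurd ?_ n
      simpa using iv_mul S hK hW e K.one_mem 1
    · exact Or.inl (iv_mul S hK hW hh hh' a)
    · exact Or.inr (iv_mul S hK hW hh hh' b)
  rcases k g1 h1 n1 with e1 | e1 <;> rcases k g2 h2 n2 with e2 | e2 <;>
    rcases k g3 h3 n3 with e3 | e3 <;> simp_all

theorem dual (X : Submodule F V) {x : V} (hx : x ∉ X) :
    ∃ f, (∀ y ∈ X, S.B y f = 0) ∧ S.B x f = 1 := by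
  have : FiniteDimensional F V := Module.Finite.of_finite
  obtain ⟨w, hw, e⟩ := exists_orth_ne_zero S.nd S.alt.isRefl X hx
  refine ⟨(S.B x w)⁻¹ • w, fun y hy => ?_, ?_⟩
  · rw [map_smul, show S.B y w = 0 from hw y hy, smul_zero]
  · rw [map_smul, smul_eq_mul, inv_mul_cancel₀ e]

theorem next {W : Submodule F V} {ι : Type} [Fintype ι] (f : ι → V) (h : Fintype.card ι < dm W) :
    ∃ e ∈ W, e ≠ 0 ∧ ∀ i, S.B e (f i) = 0 := by
  have : FiniteDimensional F V := Module.Finite.of_finite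
  let φ : W →ₗ[F] (ι → F) := (LinearMap.pi fun i => S.B.flip (f i)).comp W.subtype
  have h1 : LinearMap.ker φ ≠ ⊥ := LinearMap.ker_ne_bot_of_finrank_lt (by simpa using h)
  obtain ⟨e, he, e0⟩ := (Submodule.ne_bot_iff _).1 h1
  exact ⟨e, e.2, fun k => e0 (Subtype.ext k), fun i => congrFun (LinearMap.mem_ker.1 he) i⟩

theorem par : ParStmt := by
  intro F V _ _ _ _ _ S K hK r W w0 iso hW
  have : FiniteDimensional F V := Module.Finite.of_finite
  have sk : ∀ u v, S.B u v = - S.B v u := fun u v => (S.alt.neg_eq v u).symm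
  have al : ∀ u, S.B u u = 0 := S.alt
  by_contra hn
  have d0 : dm W ≠ 0 := fun e => w0 (Submodule.finrank_eq_zero.1 e)
  obtain ⟨e1, m1, z1⟩ := (Submodule.ne_bot_iff _).1 w0
  obtain ⟨f1, -, b11⟩ := dual S ⊥ (x := e1) (by simpa using z1)
  obtain ⟨e2, m2, z2, b21⟩ := next S (W := W) ![f1] (by simp; omega)
  replace b21 : S.B e2 f1 = 0 := b21 0
  obtain ⟨f2, hf2, b22⟩ := dual S (Submodule.span F {e1, f1}) (x := e2) (by
    intro k
    obtain ⟨a, b, rfl⟩ := Submodule.mem_span_pair.1 k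
    have := iso e1 m1 _ m2
    simp [al, b11] at this b21
    simp [this, b21] at z2)
  have b12 : S.B e1 f2 = 0 := hf2 _ (Submodule.subset_span (by simp))
  have c12 : S.B f1 f2 = 0 := hf2 _ (Submodule.subset_span (by simp))
  have tG : ∀ w c, S.t w c ∈ S.G := fun w c => altTv_mem_isomGroup S.alt w c
  have D1 : ∀ v, v ∈ W ⊓ (S.t f1 1)⁻¹ • W ↔ v ∈ W ∧ S.B v f1 = 0 := by
    intro v
    rw [mem_D, altTv_apply]
    refine and_congr_right fun hv => ⟨fun k => ?_, fun k => by simpa [k] using hv⟩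
    simpa [b11, iso e1 m1 v hv] using iso e1 m1 _ k
  have g2 : ∀ v, (S.t f1 1 * S.t f2 1) v = v + S.B v f1 • f1 + S.B v f2 • f2 := fun v => by
    simp only [LinearEquiv.mul_apply, altTv_apply, map_add, map_smul, LinearMap.add_apply,
      LinearMap.smul_apply, sk f2 f1, c12]
    module
  have D2 : ∀ v, v ∈ W ⊓ (S.t f1 1 * S.t f2 1)⁻¹ • W ↔ v ∈ W ∧ S.B v f1 = 0 ∧ S.B v f2 = 0 := by
    intro v
    rw [mem_D, g2]
    refine and_congr_right fun hv => ⟨fun k => ⟨?_, ?_⟩, fun k => by simpa [k.1, k.2] using hv⟩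
    · simpa [b11, b12, iso e1 m1 v hv] using iso e1 m1 _ k
    · simpa [b21, b22, iso e2 m2 v hv] using iso e2 m2 _ k
  have D0 : W ⊓ (1 : V ≃ₗ[F] V)⁻¹ • W = W := by simp
  have l1 : dm (W ⊓ (S.t f1 1)⁻¹ • W) < dm W :=
    Submodule.finrank_lt_finrank_of_lt (lt_of_le_of_ne inf_le_left fun k => by
      have := ((D1 e1).1 (k.symm ▸ m1)).2
      simp [b11] at this)
  have l2 : dm (W ⊓ (S.t f1 1 * S.t f2 1)⁻¹ • W) < dm (W ⊓ (S.t f1 1)⁻¹ • W) :=
    Submodule.finrank_lt_finrank_of_lt (lt_of_le_of_ne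
      (fun v hv => (D1 v).2 ⟨((D2 v).1 hv).1, ((D2 v).1 hv).2.1⟩) fun k => by
      have := ((D2 e2).1 (k.symm ▸ (D1 e2).2 ⟨m2, b21⟩)).2.2
      simp [b22] at this)
  have ne : ∀ g h, dm (W ⊓ g⁻¹ • W) ≠ dm (W ⊓ h⁻¹ • W) → iv S W g ≠ iv S W h :=
    fun g h k e => k (congrArg Prod.fst e)
  by_cases hx : ∃ e ∈ S.B.orthogonal W, e ∉ W
  · obtain ⟨e, he, he'⟩ := hx
    obtain ⟨e3, p3, n3, b31⟩ : ∃ e3, (∀ v ∈ W, S.B v e3 = 0) ∧ e3 ∉ W ∧ S.B e3 f1 = 0 := by
      refine ⟨e - S.B e f1 • e1, fun v hv => ?_, fun k => he' ?_, by simp [b11]⟩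
      · simp [show S.B v e = 0 from he v hv, iso v hv e1 m1]
      · simpa using W.add_mem k (W.smul_mem (S.B e f1) m1)
    have g3 : ∀ v ∈ W, (S.t f1 (-1) * S.t (f1 + e3) 1) v = v + S.B v f1 • e3 := fun v hv => by
      simp only [LinearEquiv.mul_apply, altTv_apply, map_add, map_smul, LinearMap.add_apply,
        LinearMap.smul_apply, al, b31, p3 v hv]
      module
    have pp : (iv S W (S.t f1 (-1) * S.t (f1 + e3) 1)).2 := fun u hu v hv => by
      simp [g3 v hv, iso u hu v hv, p3 u hu]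
    refine four S hK r hW (tG f1 1) (mul_mem (tG f1 1) (tG f2 1))
      (mul_mem (tG f1 (-1)) (tG (f1 + e3) 1)) (ne _ _ (by rw [D0]; omega))
      (ne _ _ (by rw [D0]; omega)) (ne _ _ ?_) (ne _ _ (by omega)) (fun k => ?_) fun k => ?_
    · rw [D0]
      refine (Submodule.finrank_lt_finrank_of_lt (lt_of_le_of_ne inf_le_left fun k => n3 ?_)).ne
      have := (mem_D.1 (k.symm ▸ m1)).2
      rw [g3 e1 m1, b11, one_smul] at this
      simpa using W.sub_mem this m1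
    · rw [← k] at pp
      simpa [altTv_apply, al, b11] using pp e1 m1 e1 m1
    · rw [← k] at pp
      simpa [g2, al, b11, b12] using pp e1 m1 e1 m1
  · push Not at hx
    have d1 := Submodule.finrank_mono (show S.B.orthogonal W ≤ W from hx)
    rw [LinearMap.BilinForm.finrank_orthogonal S.nd, S.dim] at d1
    have hk := S.hk
    change 2 * S.k - dm W ≤ dm W at d1
    obtain ⟨e3, m3, z3, b3⟩ := next S (W := W) ![f1, f2] (by simp; omega)
    have b31 : S.B e3 f1 = 0 := b3 0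
    have b32 : S.B e3 f2 = 0 := b3 1
    obtain ⟨f3, hf3, b33⟩ := dual S (Submodule.span F {e1, f1} ⊔ Submodule.span F {e2, f2})
      (x := e3) (by
      intro k
      obtain ⟨x, hx, y, hy, rfl⟩ := Submodule.mem_sup.1 k
      obtain ⟨a, b, rfl⟩ := Submodule.mem_span_pair.1 hx
      obtain ⟨c, d, rfl⟩ := Submodule.mem_span_pair.1 hy
      have h1 := iso e1 m1 _ m3
      have h2 := iso e2 m2 _ m3
      simp [al, b11, b12, b21, b22, c12, sk f2 f1, iso e1 m1 e2 m2, iso e2 m2 e1 m1] at h1 h2 b31 b32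
      simp [h1, h2, b31, b32] at z3)
    have b13 : S.B e1 f3 = 0 := hf3 _ (Submodule.mem_sup_left (Submodule.subset_span (by simp)))
    have c13 : S.B f1 f3 = 0 := hf3 _ (Submodule.mem_sup_left (Submodule.subset_span (by simp)))
    have b23 : S.B e2 f3 = 0 := hf3 _ (Submodule.mem_sup_right (Submodule.subset_span (by simp)))
    have c23 : S.B f2 f3 = 0 := hf3 _ (Submodule.mem_sup_right (Submodule.subset_span (by simp)))
    have g3 : ∀ v, (S.t f1 1 * S.t f2 1 * S.t f3 1) v =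
        v + S.B v f1 • f1 + S.B v f2 • f2 + S.B v f3 • f3 := fun v => by
      rw [LinearEquiv.mul_apply, g2]
      simp only [altTv_apply, map_add, map_smul, LinearMap.add_apply,
        LinearMap.smul_apply, sk f3 f1, sk f3 f2, c13, c23]
      module
    have D3 : ∀ v, v ∈ W ⊓ (S.t f1 1 * S.t f2 1 * S.t f3 1)⁻¹ • W →
        v ∈ W ∧ S.B v f1 = 0 ∧ S.B v f2 = 0 ∧ S.B v f3 = 0 := by
      intro v
      rw [mem_D, g3]
      rintro ⟨hv, k⟩
      refine ⟨hv, ?_, ?_, ?_⟩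
      · simpa [b11, b12, b13, iso e1 m1 v hv] using iso e1 m1 _ k
      · simpa [b21, b22, b23, iso e2 m2 v hv] using iso e2 m2 _ k
      · simpa [b31, b32, b33, iso e3 m3 v hv] using iso e3 m3 _ k
    have l3 : dm (W ⊓ (S.t f1 1 * S.t f2 1 * S.t f3 1)⁻¹ • W) <
        dm (W ⊓ (S.t f1 1 * S.t f2 1)⁻¹ • W) :=
      Submodule.finrank_lt_finrank_of_lt (lt_of_le_of_ne
        (fun v hv => (D2 v).2 ⟨(D3 v hv).1, (D3 v hv).2.1, (D3 v hv).2.2.1⟩) fun k => by
        have := (D3 e3 (k.symm ▸ (D2 e3).2 ⟨m3, b31, b32⟩)).2.2.2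
        simp [b33] at this)
    exact four S hK r hW (tG f1 1) (mul_mem (tG f1 1) (tG f2 1))
      (mul_mem (mul_mem (tG f1 1) (tG f2 1)) (tG f3 1)) (ne _ _ (by rw [D0]; omega))
      (ne _ _ (by rw [D0]; omega)) (ne _ _ (by rw [D0]; omega)) (ne _ _ (by omega))
      (ne _ _ (by omega)) (ne _ _ (by omega))

end Cfsg.Agent.H38.P3Par
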