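import Cfsg.Agent.H58.Q4Defs
import Cfsg.Agent.H83.Misc

/-! Project Q4 (S3404): a lemma on groups of order a power of two. -/

set_option autoImplicit false

namespace Cfsg.Agent.H38.Q4Two

open Subgroup Cfsg.Agent.H58.Q4
open scoped commutatorElement

universe u

theorem two : TwoStmt.{u} := by
  intro G _ _ R w c hR hne hw hc ww _ hC fpf
  have : Fact (Nat.Prime 2) := ⟨Nat.prime_two⟩
  let V : Subgroup G :=
    { carrier := {z | z ∈ R ∧ z * z = 1 ∧ ∀ r ∈ R, r * z = z * r}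
      one_mem' := ⟨R.one_mem, one_mul 1, fun r _ => by simp⟩
      mul_mem' := by
        rintro a b ⟨a1, a2, a3⟩ ⟨b1, b2, b3⟩
        refine ⟨mul_mem a1 b1, ?_, fun r hr => ?_⟩
        · rw [mul_assoc, ← mul_assoc b, a3 b b1, mul_assoc, b2, mul_one, a2]
        · rw [← mul_assoc, a3 r hr, mul_assoc, b3 r hr, mul_assoc]
      inv_mem' := by
        rintro a ⟨a1, a2, a3⟩
        rw [inv_eq_of_mul_eq_one_right a2]
        exact ⟨a1, a2, a3⟩ }
  have VR : V ≤ R := fun _ h => h.1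
  have nV : ∀ g ∈ Nm R, g ∈ Nm V := fun g hg => mem_normalizer_fintype fun z ⟨z1, z2, z3⟩ =>
    ⟨(mem_normalizer_iff.1 hg z).1 z1, by rw [conj_mul, z2]; simp, fun r hr => by
      calc _ = g * (g⁻¹ * r * g * z) * g⁻¹ := by group
        _ = _ := by rw [z3 _ ((mem_normalizer_iff''.1 hg r).1 hr)]; group⟩
  have h3 : 2 < Nat.card V := by
    obtain ⟨x, hx, x1, x2⟩ := H83.exists_central_mod (P := ⊥) (W := ⊥) IsPGroup.of_bot hR bot_le
      bot_le (by rw [normalizer_eq_top]; exact le_top) (bot_lt_iff_ne_bot.2 hne)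
    obtain ⟨z, hz, z1⟩ : ∃ z ∈ V, z ≠ 1 := by
      obtain ⟨n, hn⟩ := H83.isPGroup_iff.1 hR x hx
      have cx : ∀ r ∈ R, Commute r x := fun r hr =>
        commutatorElement_eq_one_iff_commute.1 (mem_bot.1 (x2 r (mem_sup_right hr)))
      classical
      have ex : ∃ n, x ^ 2 ^ n = 1 := ⟨n, hn⟩
      obtain ⟨m, hm⟩ := Nat.exists_eq_succ_of_ne_zero (n := Nat.find ex) fun e => x1 (by
        simpa [e] using Nat.find_spec ex)
      refine ⟨x ^ 2 ^ m, ⟨pow_mem hx _, ?_, fun r hr => (cx r hr).pow_right _⟩,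
        Nat.find_min ex (by omega)⟩
      have := Nat.find_spec ex
      rwa [hm, pow_succ, pow_mul, pow_two] at this
    have := Fintype.ofFinite V
    rw [Nat.card_eq_fintype_card]
    refine Fintype.two_lt_card_iff.2 ⟨1, ⟨z, hz⟩, ⟨_, (mem_normalizer_iff.1 (nV c hc) z).1 hz⟩,
      fun e => z1 (congrArg Subtype.val e).symm,
      fun e => z1 (conj_eq_one_iff.1 (congrArg Subtype.val e).symm), fun e => z1 (fpf z hz.1 ?_)⟩
    exact mul_inv_eq_iff_eq_mul.1 (congrArg Subtype.val e).symm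
  have cc : ∀ a ∈ R, ∀ b ∈ R, w * b * w⁻¹ * b⁻¹ ∈ V →
      w * (a * b) * w⁻¹ * (a * b)⁻¹ = w * a * w⁻¹ * a⁻¹ * (w * b * w⁻¹ * b⁻¹) := fun a ha b _ h => by
    rw [mul_assoc _ a⁻¹, h.2.2 _ (inv_mem ha)]; group
  let N : Subgroup G :=
    { carrier := {a | a ∈ R ∧ w * a * w⁻¹ * a⁻¹ ∈ V}
      one_mem' := ⟨R.one_mem, by simpa using V.one_mem⟩
      mul_mem' := fun {a b} ha hb => ⟨mul_mem ha.1 hb.1, cc a ha.1 b hb.1 hb.2 ▸ mul_mem ha.2 hb.2⟩
      inv_mem' := fun {a} ha => ⟨inv_mem ha.1, by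
        have := (mem_normalizer_iff.1 (nV _ (le_normalizer (inv_mem ha.1))) _).1 (inv_mem ha.2)
        convert this using 1
        group⟩ }
  have VN : V ≤ N := fun z hz =>
    ⟨hz.1, mul_mem ((mem_normalizer_iff.1 (nV w hw) z).1 hz) (inv_mem hz)⟩
  have h4 : Nat.card N ≤ 4 := by
    let φ : N →* G := MonoidHom.mk' (fun a => w * a * w⁻¹ * (a : G)⁻¹)
      fun a b => cc a a.2.1 b b.2.1 b.2.2
    have e1 := φ.ker.card_mul_index
    rw [index_ker] at e1
    have e2 : Nat.card φ.ker ≤ 2 := by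
      rw [← card_map_of_injective N.subtype_injective]
      refine (card_le_of_le ?_).trans hC
      rintro _ ⟨a, ha, rfl⟩
      have : w * a * w⁻¹ * (a : G)⁻¹ = 1 := ha
      rw [mul_inv_eq_one, mul_inv_eq_iff_eq_mul] at this
      exact ⟨a.2.1, mem_centralizer_singleton_iff.2 this.symm⟩
    have e3 : Nat.card φ.range ≤ 2 := by
      refine (card_le_of_le ?_).trans hC
      rintro _ ⟨a, rfl⟩
      refine ⟨a.2.2.1, mem_centralizer_singleton_iff.2 ?_⟩
      change w * a * w⁻¹ * (a : G)⁻¹ * w = w * (w * a * w⁻¹ * (a : G)⁻¹)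
      have wi : w⁻¹ = w := inv_eq_of_mul_eq_one_right ww
      calc w * a * w⁻¹ * (a : G)⁻¹ * w = (w * a * w⁻¹ * (a : G)⁻¹)⁻¹ * w := by
            rw [inv_eq_of_mul_eq_one_right a.2.2.2.1]
        _ = (w * w) * a * w * (a : G)⁻¹ * (w⁻¹ * w) := by rw [ww]; group
        _ = w * (w * a * w⁻¹ * (a : G)⁻¹) := by rw [inv_mul_cancel, wi]; group
    rw [← e1]
    exact Nat.mul_le_mul e2 e3
  have h5 : Nat.card V = 4 := by
    obtain ⟨n, hn⟩ := IsPGroup.iff_card.1 (hR.to_le VR)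
    have := card_le_of_le VN
    rw [hn] at h3 this ⊢
    have h6 : n < 3 := (Nat.pow_lt_pow_iff_right one_lt_two).1 (by omega)
    interval_cases n <;> simp_all
  have h6 : V = N := eq_of_le_of_card_ge VN (by omega)
  have h7 : V = R := by
    by_contra hlt
    have pw : IsPGroup 2 (zpowers w) := IsPGroup.iff_card.2 (by
      rw [Nat.card_zpowers]
      exact (Nat.dvd_prime_pow Nat.prime_two (m := 1)).1
        (orderOf_dvd_of_pow_eq_one (by rw [pow_one, pow_two, ww])) |>.imp fun _ h => h.2)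
    obtain ⟨x, hx, x1, x2⟩ := H83.exists_central_mod pw hR (zpowers_le.2 hw)
      (zpowers_le.2 (nV w hw)) (fun r hr => nV r (le_normalizer hr)) (lt_of_le_of_ne VR hlt)
    exact x1 (h6 ▸ ⟨hx, x2 w (mem_sup_left (mem_zpowers w))⟩)
  exact ⟨h7 ▸ h5, fun r hr => (h7 ▸ hr : r ∈ V).2.1⟩

end Cfsg.Agent.H38.Q4Two
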