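import Cfsg.Agent.H38.R3Cnt

/-!
# Rank three actions of `PSL_n(q)`: the step `Cc2`
-/

set_option autoImplicit false
set_option linter.unusedSectionVars false

namespace Cfsg.Agent.H38.R3Cc2
open Cfsg.Agent.H79.R3 Cfsg.Agent.H38.R3Cov Module
open scoped Pointwise

universe u

theorem arith {q a a' c c' m m' N : ℕ} (h1 : a + a' = q + 1) (h2 : c + c' = q + 1) (ha : 1 ≤ a)
    (ha' : 1 ≤ a') (hc : 1 ≤ c) (hc' : 1 ≤ c') (e1 : N + (q + 1) = 1 + (a * m + a' * m'))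
    (e2 : N = c * m + c' * m') :
    ∃ d, 1 < d ∧ d ∣ q ∧ (m' = m + d ∨ m = m' + d) := by
  have key : ((a : ℤ) - c) * ((m : ℤ) - m') = q := by
    have h1' : (a' : ℤ) = q + 1 - a := by omega
    have h2' : (c' : ℤ) = q + 1 - c := by omega
    zify at e1 e2
    rw [h1'] at e1
    rw [h2'] at e2
    linarith
  have k2 := congrArg Int.natAbs key
  rw [Int.natAbs_mul, Int.natAbs_natCast] at k2
  refine ⟨((m : ℤ) - m').natAbs, ?_, Dvd.intro_left _ k2, by omega⟩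
  by_contra hn
  have : ((m : ℤ) - m').natAbs = 0 ∨ ((m : ℤ) - m').natAbs = 1 := by omega
  rcases this with e | e <;> rw [e] at k2 <;> omega

theorem fin1 : ∀ (φ : Fin 2 → Fin 2 → Fin 2) (i j : Fin 2),
    (∀ i j j', φ i j = φ i j' → j = j') → φ 0 0 = φ 1 0 → φ i 0 = φ j 1 → False := by decide

theorem fin2 : ∀ (φ : Fin 2 → Fin 2 → Fin 2) (i j : Fin 2),
    (∀ i j j', φ i j = φ i j' → j = j') → φ 0 0 ≠ φ 1 0 → (φ i j = φ 0 0 ↔ i = j) := by decide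

theorem cc2 : Cc2Stmt.{u} := by
  intro F V _ _ _ _ _ K t2 t3 ⟨c12, s12, o12⟩ ⟨c13, s13, o13⟩ ⟨c23, s23, o23⟩ ⟨c4, s4, o4⟩ mx
  have : FiniteDimensional F V := Module.Finite.of_finite
  have i12 : ∀ g ∈ K, ∀ x L, x ≤ L → dm x = 1 → dm L = 2 → c12 (g • x) (g • L) = c12 x L :=
    fun g hg x L a b c => ((o12 _ _ _ _ a b c (smul_le_smul.2 a) ((dm_smul _ _).trans b)
      ((dm_smul _ _).trans c)).2 ⟨g, hg, rfl, rfl⟩).symm
  have i13 : ∀ g ∈ K, ∀ x L, x ≤ L → dm x = 1 → dm L = 3 → c13 (g • x) (g • L) = c13 x L :=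
    fun g hg x L a b c => ((o13 _ _ _ _ a b c (smul_le_smul.2 a) ((dm_smul _ _).trans b)
      ((dm_smul _ _).trans c)).2 ⟨g, hg, rfl, rfl⟩).symm
  have i23 : ∀ g ∈ K, ∀ x L, x ≤ L → dm x = 2 → dm L = 3 → c23 (g • x) (g • L) = c23 x L :=
    fun g hg x L a b c => ((o23 _ _ _ _ a b c (smul_le_smul.2 a) ((dm_smul _ _).trans b)
      ((dm_smul _ _).trans c)).2 ⟨g, hg, rfl, rfl⟩).symm
  have on12 : ∀ L, dm L = 2 → ∀ i, ∃ x, x ≤ L ∧ dm x = 1 ∧ c12 x L = i := by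
    intro L hL i
    obtain ⟨x, L', a, b, c, e⟩ := s12 i
    obtain ⟨g, hg, rfl⟩ := t2 L' L c hL
    exact ⟨g • x, smul_le_smul.2 a, (dm_smul _ _).trans b, (i12 g hg x L' a b c).trans e⟩
  have on13 : ∀ L, dm L = 3 → ∀ i, ∃ x, x ≤ L ∧ dm x = 1 ∧ c13 x L = i := by
    intro L hL i
    obtain ⟨x, L', a, b, c, e⟩ := s13 i
    obtain ⟨g, hg, rfl⟩ := t3 L' L c hL
    exact ⟨g • x, smul_le_smul.2 a, (dm_smul _ _).trans b, (i13 g hg x L' a b c).trans e⟩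
  have on23 : ∀ L, dm L = 3 → ∀ i, ∃ x, x ≤ L ∧ dm x = 2 ∧ c23 x L = i := by
    intro L hL i
    obtain ⟨x, L', a, b, c, e⟩ := s23 i
    obtain ⟨g, hg, rfl⟩ := t3 L' L c hL
    exact ⟨g • x, smul_le_smul.2 a, (dm_smul _ _).trans b, (i23 g hg x L' a b c).trans e⟩
  have mx' : ∀ x E, x ≤ E → dm x = 1 → dm E = 3 → ∀ i, ∃ L, x ≤ L ∧ L ≤ E ∧ dm L = 2 ∧
      c12 x L = i := by
    intro x E a b c i
    obtain ⟨x', L', a', b', c', e⟩ := s12 i
    obtain ⟨L, l1, l2, l3, g, hg, rfl, rfl⟩ := mx x E x' L' a b c a' b' c'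
    exact ⟨L, l1, l2, l3, (i12 g hg x L l1 b l3).symm.trans e⟩
  have all : ∀ x L E x' L' E', Fl 1 2 3 x L E → Fl 1 2 3 x' L' E' → c4 x L E = c4 x' L' E' →
      c12 x L = c12 x' L' ∧ c13 x E = c13 x' E' ∧ c23 L E = c23 L' E' := by
    intro x L E x' L' E' f f' e
    obtain ⟨g, hg, rfl, rfl, rfl⟩ := (o4 _ _ _ _ _ _ f f').1 e
    obtain ⟨a, b, c, d, e⟩ := f
    exact ⟨(i12 g hg _ _ a c d).symm, (i13 g hg _ _ (a.trans b) c e).symm, (i23 g hg _ _ b d e).symm⟩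
  have s4' : ∀ j, ∃ T : Submodule F V × Submodule F V × Submodule F V,
      Fl 1 2 3 T.1 T.2.1 T.2.2 ∧ c4 T.1 T.2.1 T.2.2 = j := fun j => by
    obtain ⟨x, L, E, f, e⟩ := s4 j
    exact ⟨(x, L, E), f, e⟩
  have onA : ∀ i j, ∃ x L E, Fl 1 2 3 x L E ∧ c12 x L = i ∧ c23 L E = j := by
    intro i j
    obtain ⟨L, E, a, b, c, e⟩ := s23 j
    obtain ⟨x, a', b', e'⟩ := on12 L b i
    exact ⟨x, L, E, ⟨a', a, b', b, c⟩, e', e⟩
  have P1 : ∀ x L E x' L' E', Fl 1 2 3 x L E → Fl 1 2 3 x' L' E' → c12 x L = c12 x' L' →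
      c23 L E = c23 L' E' → c13 x E = c13 x' E' := by
    intro x L E x' L' E' f f' e e'
    refine (all _ _ _ _ _ _ f f' (fine (α := Fin 4) (β := Fin 2 × Fin 2) (by simp) _ _
      (fun T => (c12 T.1 T.2.1, c23 T.2.1 T.2.2)) s4' ?_ ?_ (x, L, E) (x', L', E') f f'
      (Prod.ext e e'))).2.1
    · rintro ⟨i, j⟩
      obtain ⟨x, L, E, f, e, e'⟩ := onA i j
      exact ⟨(x, L, E), f, Prod.ext e e'⟩
    · intro T T' f f' e
      exact Prod.ext (all _ _ _ _ _ _ f f' e).1 (all _ _ _ _ _ _ f f' e).2.2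
  have P2 : ∀ x L E x' L' E', Fl 1 2 3 x L E → Fl 1 2 3 x' L' E' → c12 x L = c12 x' L' →
      c13 x E = c13 x' E' → c23 L E = c23 L' E' := by
    intro x L E x' L' E' f f' e e'
    refine (all _ _ _ _ _ _ f f' (fine (α := Fin 4) (β := Fin 2 × Fin 2) (by simp) _ _
      (fun T => (c12 T.1 T.2.1, c13 T.1 T.2.2)) s4' ?_ ?_ (x, L, E) (x', L', E') f f'
      (Prod.ext e e'))).2.2
    · rintro ⟨i, j⟩
      obtain ⟨x, E, a, b, c, e⟩ := s13 j
      obtain ⟨L, l1, l2, l3, e'⟩ := mx' x E a b c i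
      exact ⟨(x, L, E), ⟨l1, l2, b, l3, c⟩, Prod.ext e' e⟩
    · intro T T' f f' e
      exact Prod.ext (all _ _ _ _ _ _ f f' e).1 (all _ _ _ _ _ _ f f' e).2.1
  choose X Ls Es fl e12 e23 using onA
  obtain ⟨φ, hφ, inj⟩ : ∃ φ : Fin 2 → Fin 2 → Fin 2,
      (∀ x L E, Fl 1 2 3 x L E → c13 x E = φ (c12 x L) (c23 L E)) ∧
      ∀ i j j', φ i j = φ i j' → j = j' := by
    refine ⟨fun i j => c13 (X i j) (Es i j), fun x L E f =>
      P1 _ _ _ _ _ _ f (fl _ _) (e12 _ _).symm (e23 _ _).symm, fun i j j' e => ?_⟩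
    rw [← e23 i j, ← e23 i j']
    exact P2 _ _ _ _ _ _ (fl _ _) (fl _ _) ((e12 _ _).trans (e12 _ _).symm) e
  obtain ⟨-, E, -, -, hE, -⟩ := s13 0
  obtain ⟨L0, l0, d0, k0⟩ := on23 E hE 0
  obtain ⟨L1, l1, d1, k1⟩ := on23 E hE 1
  have ne : φ 0 0 ≠ φ 1 0 := by
    intro e
    have hn : L0 ≠ L1 := fun e => by rw [e, k1] at k0; exact absurd k0 (by decide)
    have dx := dm_inf_of_ne l0 l1 (by omega) (by omega) hn
    have a0 := hφ (L0 ⊓ L1) L0 E ⟨inf_le_left, l0, by omega, d0, hE⟩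
    have a1 := hφ (L0 ⊓ L1) L1 E ⟨inf_le_right, l1, by omega, d1, hE⟩
    rw [k0] at a0
    rw [k1, a0] at a1
    exact fin1 φ _ _ inj e a1
  have key : ∀ x L, x ≤ L → L ≤ E → dm x = 1 → dm L = 2 →
      (c13 x E = φ 0 0 ↔ c12 x L = c23 L E) := by
    intro x L a b c d
    rw [hφ x L E ⟨a, b, c, d, hE⟩]
    exact fin2 φ _ _ inj ne
  have mi : ∀ L, dm L = 2 → ∀ i, cnt (fun y => c12 y L = i) ⊥ L =
      cnt (fun y => c12 y L0 = i) ⊥ L0 := by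
    intro L hL i
    obtain ⟨g, hg, rfl⟩ := t2 L0 L d0 hL
    have := cnt_smul g (s := fun y => c12 y L0 = i) (s' := fun y => c12 y (g • L0) = i) (A := ⊥)
      (D := L0) fun P hP => by rw [i12 g hg P L0 (mem_cov_bot.1 hP).1 (mem_cov_bot.1 hP).2 d0]
    rwa [smul_bot] at this
  have cl : ∀ x L i, dm x = 1 → L ∈ Cov x E → c23 L E = i →
      cnt (fun y => c13 y E = φ 0 0) ⊥ L = cnt (fun y => c12 y L0 = i) ⊥ L0 := by
    intro x L i hx hL e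
    have dL : dm L = 2 := by rw [hL.2.2, hx]
    rw [← mi L dL]
    exact cnt_congr fun P hP => by
      rw [key P L (mem_cov_bot.1 hP).1 hL.2.1 (mem_cov_bot.1 hP).2 dL, e]
  have f2 : ∀ i : Fin 2, ¬ i = 0 → i = 1 := by decide
  have sm : ∀ x, dm x = 1 → ∑ L ∈ covF x E, cnt (fun y => c13 y E = φ 0 0) ⊥ L =
      cnt (fun L => c23 L E = 0) x E * cnt (fun y => c12 y L0 = 0) ⊥ L0 +
      cnt (fun L => ¬ c23 L E = 0) x E * cnt (fun y => c12 y L0 = 1) ⊥ L0 := fun x hx =>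
    sum_two (fun L hL e => cl x L 0 hx hL e) fun L hL e => cl x L 1 hx hL (f2 _ e)
  have tot : ∀ x, x ≤ E → dm x = 1 → cnt (fun L => c23 L E = 0) x E +
      cnt (fun L => ¬ c23 L E = 0) x E = Nat.card F + 1 := fun x a b => by
    rw [cnt_add_not, ncard_line a (by omega)]
  have pos : ∀ x, x ≤ E → dm x = 1 → 1 ≤ cnt (fun L => c23 L E = 0) x E ∧
      1 ≤ cnt (fun L => ¬ c23 L E = 0) x E := by
    intro x a b
    obtain ⟨M0, m1, m2, m3, m4⟩ := mx' x E a b hE 0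
    obtain ⟨M1, n1, n2, n3, n4⟩ := mx' x E a b hE 1
    have r0 := key x M0 m1 m2 b m3
    have r1 := key x M1 n1 n2 b n3
    rw [m4] at r0
    rw [n4, r0] at r1
    have c0 : M0 ∈ Cov x E := ⟨m1, m2, by omega⟩
    have c1 : M1 ∈ Cov x E := ⟨n1, n2, by omega⟩
    by_cases e : c23 M0 E = 0
    · refine ⟨cnt_pos c0 e, cnt_pos c1 ?_⟩
      rw [← r1.1 e.symm]
      decide
    · refine ⟨cnt_pos c1 ?_, cnt_pos c0 e⟩
      by_contra e'
      exact e (r1.2 (f2 _ e').symm).symm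
  obtain ⟨x, x1, x2, x3⟩ := on13 E hE (φ 0 0)
  obtain ⟨y, y1, y2, y3⟩ := on13 E hE (φ 1 0)
  have cx := cnt_sum (s := fun y => c13 y E = φ 0 0) (mem_cov_bot.2 ⟨x1, x2⟩) x3
  have cy := cnt_sum_not (s := fun y => c13 y E = φ 0 0) (mem_cov_bot.2 ⟨y1, y2⟩)
    (fun e => ne (e.symm.trans y3))
  rw [sm x x2, ncard_line x1 (by omega)] at cx
  rw [sm y y2] at cy
  obtain ⟨d, d1, d2, d3⟩ := arith (tot x x1 x2) (tot y y1 y2) (pos x x1 x2).1 (pos x x1 x2).2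
    (pos y y1 y2).1 (pos y y1 y2).2 cx cy
  have sp : ∀ i, Split (K ⊓ MulAction.stabilizer _ L0) L0 fun y => c12 y L0 = i := by
    intro i
    refine ⟨d0, fun g hg => hg.2, fun g hg y a b => ?_, fun y z a b c d e => ?_⟩
    · have := i12 g hg.1 y L0 b a d0
      rw [show g • L0 = L0 from hg.2] at this
      rw [this]
    · have e' : c12 y L0 = c12 z L0 := by
        revert e
        generalize c12 y L0 = j
        generalize c12 z L0 = k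
        revert i j k
        decide
      obtain ⟨g, hg, g1, g2⟩ := (o12 _ _ _ _ b a d0 d c d0).1 e'
      exact ⟨g, ⟨hg, g2⟩, g1⟩
  rcases d3 with e | e
  · refine ⟨_, L0, _, d, sp 0, d1, d2, ?_⟩
    rw [← e]
    exact cnt_congr fun P _ => by
      generalize c12 P L0 = j
      revert j
      decide
  · refine ⟨_, L0, _, d, sp 1, d1, d2, ?_⟩
    rw [← e]
    exact cnt_congr fun P _ => by
      generalize c12 P L0 = j
      revert j
      decide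

end Cfsg.Agent.H38.R3Cc2
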