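import Cfsg.Agent.H38.R3Cov

/-!
# Counting points along the lines through a point
-/

set_option autoImplicit false
set_option linter.unusedSectionVars false

namespace Cfsg.Agent.H38.R3Cov
open Cfsg.Agent.H79.R3 Module

universe u

variable {F V : Type u} [Field F] [Finite F] [AddCommGroup V] [Module F V] [Finite V]

/-- `Cov A D` as a `Finset` -/
noncomputable def covF (A D : Submodule F V) : Finset (Submodule F V) :=
  (@Set.toFinite _ (Cov A D) (@Subtype.finite _ finSub _)).toFinset

theorem mem_covF {A D P : Submodule F V} : P ∈ covF A D ↔ P ∈ Cov A D := Set.Finite.mem_toFinset _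

theorem card_covF (A D : Submodule F V) : (covF A D).card = (Cov A D).ncard :=
  (Set.ncard_eq_toFinset_card _ _).symm

theorem cnt_eq_card (s : Submodule F V → Prop) [DecidablePred s] (A D : Submodule F V) :
    cnt s A D = ((covF A D).filter s).card := by
  rw [cnt, ← Set.ncard_coe_finset]
  congr 1
  ext P
  simp [mem_covF]

theorem cnt_congr {s s' : Submodule F V → Prop} {A D : Submodule F V}
    (h : ∀ P ∈ Cov A D, s P ↔ s' P) : cnt s A D = cnt s' A D := by
  unfold cnt
  congr 1
  ext P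
  exact ⟨fun a => ⟨a.1, (h P a.1).1 a.2⟩, fun a => ⟨a.1, (h P a.1).2 a.2⟩⟩

theorem cnt_mono {s s' : Submodule F V → Prop} {A D : Submodule F V}
    (h : ∀ P ∈ Cov A D, s P → s' P) : cnt s A D ≤ cnt s' A D := by
  have : Finite (Submodule F V) := finSub
  exact Set.ncard_le_ncard (fun P a => ⟨a.1, h P a.1 a.2⟩)

theorem cnt_pos {s : Submodule F V → Prop} {A D P : Submodule F V} (hP : P ∈ Cov A D) (hs : s P) :
    1 ≤ cnt s A D :=
  Nat.pos_of_ne_zero fun e => cnt_eq_zero.1 e P hP hs

theorem exists_of_cnt {s : Submodule F V → Prop} {A D : Submodule F V} (h : cnt s A D ≠ 0) :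
    ∃ P ∈ Cov A D, s P := by
  by_contra hn
  push Not at hn
  exact h (cnt_eq_zero.2 hn)

/-- removing one point -/
theorem cnt_erase {s : Submodule F V → Prop} {A D P : Submodule F V} (hP : P ∈ Cov A D)
    (hs : s P) : cnt s A D = cnt (fun y => s y ∧ y ≠ P) A D + 1 := by
  classical
  rw [cnt_eq_card, cnt_eq_card, ← Finset.card_erase_add_one (s := (covF A D).filter s) (a := P)
    (Finset.mem_filter.2 ⟨mem_covF.2 hP, hs⟩)]
  congr 2
  ext y
  simp only [Finset.mem_erase, Finset.mem_filter]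
  tauto

/-- counting from a point without `s` -/
theorem cnt_sum_not {s : Submodule F V → Prop} {A E P : Submodule F V} (hP : P ∈ Cov A E)
    (hs : ¬ s P) : cnt s A E = ∑ L ∈ covF P E, cnt s A L := by
  classical
  have : FiniteDimensional F V := Module.Finite.of_finite
  rw [cnt_eq_card, Finset.card_eq_sum_card_fiberwise (f := fun y => y ⊔ P) (t := covF P E)]
  · refine Finset.sum_congr rfl fun L hL => ?_
    obtain ⟨l1, l2, l3⟩ := mem_covF.1 hL
    rw [cnt_eq_card]
    congr 1
    ext y
    simp only [Finset.mem_filter, mem_covF]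
    constructor
    · rintro ⟨⟨⟨a, -, c⟩, d⟩, e⟩
      exact ⟨⟨a, e ▸ le_sup_left, c⟩, d⟩
    · rintro ⟨⟨a, b, c⟩, d⟩
      exact ⟨⟨⟨a, b.trans l2, c⟩, d⟩, sup_eq_line a c hP.1 hP.2.2 (fun e => hs (e ▸ d)) b l1
        (by rw [l3, hP.2.2])⟩
  · intro y hy
    obtain ⟨a, d⟩ := Finset.mem_filter.1 (Finset.mem_coe.1 hy)
    obtain ⟨a, b, c⟩ := mem_covF.1 a
    refine Finset.mem_coe.2 (mem_covF.2 ⟨le_sup_right, sup_le b hP.2.1, ?_⟩)
    rw [dm_sup_of_ne a c hP.1 hP.2.2 (fun e => hs (e ▸ d)), hP.2.2]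

/-- counting from a point with `s` -/
theorem cnt_sum {s : Submodule F V → Prop} {A E P : Submodule F V} (hP : P ∈ Cov A E)
    (hs : s P) : cnt s A E + (Cov P E).ncard = 1 + ∑ L ∈ covF P E, cnt s A L := by
  rw [cnt_erase hP hs, cnt_sum_not hP (by simp), ← card_covF, Finset.card_eq_sum_ones,
    add_right_comm, ← Finset.sum_add_distrib, add_comm]
  congr 1
  refine Finset.sum_congr rfl fun L hL => ?_
  rw [← cnt_erase ⟨hP.1, (mem_covF.1 hL).1, hP.2.2⟩ hs]

/-- a sum with two values -/
theorem sum_two {t : Submodule F V → Prop} {P E : Submodule F V} {f : Submodule F V → ℕ} {m m' : ℕ}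
    (h : ∀ L ∈ Cov P E, t L → f L = m) (h' : ∀ L ∈ Cov P E, ¬ t L → f L = m') :
    ∑ L ∈ covF P E, f L = cnt t P E * m + cnt (fun L => ¬ t L) P E * m' := by
  classical
  rw [← Finset.sum_filter_add_sum_filter_not _ t, cnt_eq_card, cnt_eq_card, ← smul_eq_mul,
    ← smul_eq_mul, ← Finset.sum_const, ← Finset.sum_const]
  congr 1
  · exact Finset.sum_congr rfl fun L hL =>
      h L (mem_covF.1 (Finset.mem_filter.1 hL).1) (Finset.mem_filter.1 hL).2
  · exact Finset.sum_congr rfl fun L hL =>
      h' L (mem_covF.1 (Finset.mem_filter.1 hL).1) (Finset.mem_filter.1 hL).2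

theorem sum_const {P E : Submodule F V} {f : Submodule F V → ℕ} {m : ℕ}
    (h : ∀ L ∈ Cov P E, f L = m) : ∑ L ∈ covF P E, f L = (Cov P E).ncard * m := by
  rw [← card_covF, ← smul_eq_mul, ← Finset.sum_const]
  exact Finset.sum_congr rfl fun L hL => h L (mem_covF.1 hL)

theorem dm_bot : dm (⊥ : Submodule F V) = 0 := finrank_bot F V

theorem dm_top : dm (⊤ : Submodule F V) = finrank F V := finrank_top F V

theorem mem_cov_bot {x D : Submodule F V} : x ∈ Cov ⊥ D ↔ x ≤ D ∧ dm x = 1 := by
  simp [Cov]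

/-- an onto colouring by as many colours that is coarser than `f` is as fine as `f` -/
theorem fine {ι α β : Type*} [Finite α] [Finite β] (e : Nat.card α = Nat.card β) (p : ι → Prop)
    (f : ι → α) (g : ι → β) (hf : ∀ a, ∃ i, p i ∧ f i = a) (hg : ∀ b, ∃ i, p i ∧ g i = b)
    (h : ∀ i j, p i → p j → f i = f j → g i = g j) :
    ∀ i j, p i → p j → g i = g j → f i = f j := by
  choose σ h1 h2 using hf
  have k : ∀ i, p i → g (σ (f i)) = g i := fun i hi => h _ _ (h1 _) hi (h2 _)
  have sj : Function.Surjective fun a => g (σ a) := fun b => by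
    obtain ⟨i, hi, rfl⟩ := hg b
    exact ⟨f i, k i hi⟩
  have := ((Nat.bijective_iff_surjective_and_card _).2 ⟨sj, e⟩).1
  exact fun i j hi hj e => this (by simp only [k i hi, k j hj, e])

set_option linter.unusedTactic false in
set_option linter.unreachableTactic false in
theorem eqns_R3Cnt : True := by
  first | (have := @covF.eq_def.{0}) | skip
  first | (have := @covF.eq_1.{0}) | skip
  first | (have := @covF.eq_unfold.{0}) | skip
  first | (have := @covF.congr_simp.{0}) | skip
  trivial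

end Cfsg.Agent.H38.R3Cov
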