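import Cfsg.Agent.H14.RkDefs
import Cfsg.Agent.H8.SylowIn
import Cfsg.Agent.S0018

/-! Piece P2 for simple groups of conjugate type rank four and five. -/

set_option autoImplicit false

namespace Cfsg.Agent.H38.RkP2

open Subgroup H92 H14.Rk

universe u

variable {K : Type u} [Group K] [Finite K]

theorem card_le_fix [Group.IsSolvable K] (T : Sylow 2 K) (ab : IsMulCommutative (T : Subgroup K))
    {d : K} (hd : d ∈ normalizer ((T : Subgroup K) : Set K)) {U : Subgroup K} (hU : IsPGroup 2 U)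
    (hc : U ≤ Ce[d]) : Nat.card U ≤ Nat.card ↥((T : Subgroup K) ⊓ Ce[d]) := by
  have hn := S0018.result 2 T ab
  have := pPrimeCore_normal 2 K
  have dj : ∀ {A : Subgroup K}, IsPGroup 2 A → ∀ x ∈ A, x ∈ pPrimeCore 2 K → x = 1 := by
    intro A hA x hx ho
    obtain ⟨k, hk⟩ := IsPGroup.iff_orderOf.1 hA ⟨x, hx⟩
    rw [orderOf_mk] at hk
    exact orderOf_eq_one_iff.1 (Nat.Coprime.eq_one_of_dvd (hk ▸ Nat.Coprime.pow_left k
      (H3.pPrimeCore_coprime 2 K).symm) (orderOf_dvd_natCard _ ho))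
  have key : ∀ u : U, ∃ τ : ↥((T : Subgroup K) ⊓ Ce[d]), (τ : K)⁻¹ * u ∈ pPrimeCore 2 K := by
    rintro ⟨u, hu⟩
    obtain ⟨P, hP⟩ := hU.exists_le_sylow
    obtain ⟨g, rfl⟩ := MulAction.exists_smul_eq K T P
    have h1 : u ∈ (T : Subgroup K) ⊔ pPrimeCore 2 K := by
      have := hn.conj_mem _ (mem_sup_left (H8.mem_conj_smul.1 (hP hu))) g
      simpa [mul_assoc] using this
    obtain ⟨τ, hτ, o, ho, rfl⟩ := mem_sup_of_normal_right.1 h1
    refine ⟨⟨τ, hτ, mem_C'.2 ?_⟩, by simpa using ho⟩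
    have e : τ⁻¹ * (d * τ * d⁻¹) = o * (d * o * d⁻¹)⁻¹ := by
      have := (mem_C'.1 (hc hu)).eq
      calc τ⁻¹ * (d * τ * d⁻¹) = τ⁻¹ * (d * (τ * o)) * d⁻¹ * (d * o * d⁻¹)⁻¹ := by group
        _ = _ := by rw [this]; group
    have := dj T.isPGroup' _ (mul_mem (inv_mem hτ) ((mem_normalizer_iff.1 hd τ).1 hτ))
      (e ▸ mul_mem ho (inv_mem (this.conj_mem o ho d)))
    exact mul_inv_eq_iff_eq_mul.1 (inv_mul_eq_one.1 this).symm
  choose f hf using key
  refine Nat.card_le_card_of_injective f fun u v e => Subtype.ext (inv_mul_eq_one.1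
    (dj hU _ (mul_mem (inv_mem u.2) v.2) ?_))
  have := mul_mem (inv_mem (hf u)) (hf v)
  rw [e] at this
  simpa [mul_assoc] using this

theorem exists_odd [Group.IsSolvable K] (T : Sylow 2 K) (ab : IsMulCommutative (T : Subgroup K))
    (h : ¬ HasNormalPComplement 2 K) : ∃ d ∈ normalizer ((T : Subgroup K) : Set K),
      d ∉ centralizer ((T : Subgroup K) : Set K) ∧ ¬ 2 ∣ orderOf d ∧
      ∀ n, 2 ^ n ∣ Nat.card Ce[d] → 2 ^ n ≤ Nat.card ↥((T : Subgroup K) ⊓ Ce[d]) := by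
  have : ¬ normalizer ((T : Subgroup K) : Set K) ≤ centralizer ((T : Subgroup K) : Set K) :=
    fun k => h ⟨T, _, inferInstance, MonoidHom.ker_transferSylow_isComplement' T k⟩
  obtain ⟨g, hg, hg'⟩ := SetLike.not_le_iff_exists.1 this
  obtain ⟨a, d, ha, hd, rfl, ⟨k, hk⟩, od⟩ := exists_p_parts Nat.prime_two g
  have aT : a ∈ (T : Subgroup K) := ((IsPGroup.of_card (by rwa [Nat.card_zpowers]) :
    IsPGroup 2 (zpowers a)).inf_normalizer_sylow T).le
      ⟨mem_zpowers a, zpowers_le.2 hg ha⟩ |>.2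
  refine ⟨d, zpowers_le.2 hg hd, fun k => hg' (mul_mem (le_centralizer _ aT) k), od, fun n hn => ?_⟩
  obtain ⟨U, hU⟩ := Sylow.exists_subgroup_card_pow_prime 2 hn
  rw [← hU, ← card_map_of_injective (Ce[d]).subtype_injective]
  exact card_le_fix T ab (zpowers_le.2 hg hd) ((IsPGroup.of_card hU).map _) (map_subtype_le U)

theorem comm_of_compl (h : HasNormalPComplement 2 K) {d τ : K} (od : ¬ 2 ∣ orderOf d)
    (e : (τ * d * τ⁻¹ * d⁻¹) ^ 2 = 1) : τ * d * τ⁻¹ * d⁻¹ = 1 := by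
  obtain ⟨P, N, hN, c⟩ := h
  obtain ⟨k, hk⟩ := IsPGroup.iff_card.1 P.isPGroup'
  have dN : d ∈ N := by
    obtain ⟨m, hm⟩ := exists_pow_eq_self_of_coprime (x := d) (n := N.index) (by
      rw [c.symm.index_eq_card, hk]
      exact Nat.Coprime.pow_left _ ((Nat.Prime.coprime_iff_not_dvd Nat.prime_two).2 od))
    exact hm ▸ pow_mem (pow_index_mem N d) m
  have := orderOf_dvd_natCard N (mul_mem (hN.conj_mem d dN τ) (inv_mem dN))
  rw [← c.index_eq_card] at this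
  rcases (Nat.dvd_prime Nat.prime_two).1 (orderOf_dvd_of_pow_eq_one e) with k | k
  · exact orderOf_eq_one_iff.1 k
  · rw [k] at this
    exact absurd this P.not_dvd_index

omit [Finite K] in
theorem exists_sq_mem {T : Subgroup K} (k : ℕ) : ∀ g : K, g ∉ T → g ^ 2 ^ k ∈ T →
    ∃ s ∈ zpowers g, s ∉ T ∧ s * s ∈ T := by
  induction k with
  | zero => exact fun g h h' => absurd (by simpa using h') h
  | succ k ih =>
    intro g h h'
    by_cases e : g * g ∈ T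
    · exact ⟨g, mem_zpowers g, h, e⟩
    · obtain ⟨s, hs, h⟩ := ih (g * g) e (by rwa [← pow_two, ← pow_mul, ← pow_succ'])
      exact ⟨s, zpowers_le.2 (mul_mem (mem_zpowers g) (mem_zpowers g)) hs, h⟩

theorem p2 : P2Stmt.{u} := by
  intro G _ _ β star inv
  by_contra! hh
  obtain ⟨⟨t, ht, nc⟩, nS⟩ := hh
  obtain ⟨sol, h4⟩ := inv t ht
  replace h4 := h4.resolve_left nc
  obtain ⟨T'⟩ : Nonempty (Sylow 2 Ce[t]) := inferInstance
  have hT := H8.isSylowIn_map_subtype T'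
  set T := (T' : Subgroup Ce[t]).map Ce[t].subtype with eT
  have sq : ∀ x ∈ T, x * x = 1 := fun x hx => by
    by_contra n
    obtain ⟨k, hk⟩ := hT.isPGroup ⟨x, hx⟩
    obtain ⟨s, hs, s1, s2⟩ := exists_sq_mem (T := ⊥) k (x * x) n (by
      rw [← pow_two, ← pow_mul, mul_comm, pow_mul, show x ^ 2 ^ k = 1 from congrArg Subtype.val hk,
        one_pow]; exact one_mem _)
    obtain ⟨j, rfl⟩ := hs
    have e : (x * x) ^ j = (x ^ j) ^ 2 := by rw [(Commute.refl x).mul_zpow, pow_two]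
    refine h4 (x ^ j) (zpow_mem (hT.le hx) j) (orderOf_eq_prime_pow (p := 2) (n := 1) ?_ ?_)
    · simpa [← e] using s1
    · rw [show 2 ^ (1 + 1) = 2 * 2 from rfl, pow_mul, ← e, pow_two]; exact s2
  have cm : ∀ x ∈ T, ∀ y ∈ T, x * y = y * x := fun x hx y hy => by
    rw [← inv_eq_of_mul_eq_one_right (sq _ (mul_mem hx hy)), mul_inv_rev,
      inv_eq_of_mul_eq_one_right (sq x hx), inv_eq_of_mul_eq_one_right (sq y hy)]
  have ab : IsMulCommutative (T' : Subgroup Ce[t]) := ⟨⟨fun a b => Subtype.ext (Subtype.ext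
    (cm _ (mem_map_of_mem _ a.2) _ (mem_map_of_mem _ b.2)))⟩⟩
  have t1 : t ≠ 1 := by rintro rfl; simp at ht
  have tT : t ∈ T := hT.le_of_le_normalizer (IsPGroup.of_card (n := 1) (by
    rw [Nat.card_zpowers, ht, pow_one])) (zpowers_le_C t) (fun x hx =>
      centralizer_le_normalizer _ fun y hy =>
        (zpowers_le.2 (mem_C_comm.1 (hT.le hx)) hy : y ∈ Ce[x]) x rfl |>.symm) (mem_zpowers t)
  obtain ⟨S, hS⟩ := hT.isPGroup.exists_le_sylow
  have lt : T < S := lt_of_le_of_ne hS fun e => nS S (e ▸ ⟨⟨fun a b => Subtype.ext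
    (cm _ a.2 _ b.2)⟩⟩)
  obtain ⟨g, hg, gT⟩ := SetLike.exists_of_lt (H8.lt_inf_normalizer_of_lt S.isPGroup' lt)
  obtain ⟨k, hk⟩ := S.isPGroup' ⟨g, hg.1⟩
  obtain ⟨s₀, hs₀, s₀T, s₀2⟩ := exists_sq_mem k g gT (by
    rw [show g ^ 2 ^ k = 1 from congrArg Subtype.val hk]; exact one_mem _)
  replace hs₀ := zpowers_le.2 hg hs₀
  have nz : ∀ s ∈ (S : Subgroup G) ⊓ normalizer (T : Set G), s ∉ T → ∃ w ∈ T, s * w ≠ w * s := by
    intro s hs n
    by_contra! k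
    exact n (hT.le_of_le_normalizer' (S.isPGroup'.to_le (zpowers_le.2 hs.1))
      (zpowers_le.2 (mem_C.2 (k t tT))) (zpowers_le.2 hs.2) (mem_zpowers s))
  obtain ⟨s, hs, sT, s2, s1⟩ : ∃ s ∈ (S : Subgroup G) ⊓ normalizer (T : Set G),
      s ∉ T ∧ s * s ∈ T ∧ s * s ≠ 1 := by
    by_cases e : s₀ * s₀ = 1
    · obtain ⟨w, hw, n⟩ := nz s₀ hs₀ s₀T
      have e' : s₀ * w * (s₀ * w) = s₀ * w * s₀⁻¹ * w := by
        rw [inv_eq_of_mul_eq_one_right e, mul_assoc (s₀ * w)]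
      refine ⟨s₀ * w, mul_mem hs₀ ⟨hS hw, le_normalizer hw⟩,
        fun k => s₀T ((mul_mem_cancel_right hw).1 k),
        e' ▸ mul_mem ((mem_normalizer_iff.1 hs₀.2 w).1 hw) hw, fun k => n ?_⟩
      rw [e', mul_eq_one_iff_eq_inv, inv_eq_of_mul_eq_one_right (sq w hw)] at k
      exact mul_inv_eq_iff_eq_mul.1 k
    · exact ⟨s₀, hs₀, s₀T, s₀2, e⟩
  have o4 : orderOf s = 4 := orderOf_eq_prime_pow (p := 2) (n := 1) (by rwa [pow_one, pow_two])
    (by rw [show 2 ^ (1 + 1) = 2 * 2 from rfl, pow_mul, pow_two, pow_two, sq _ s2])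
  have b1 : Nat.card Ce[s] = β := by
    obtain ⟨w, hw, n⟩ := nz s hs sT
    refine star s (s * s) s1 (lt_of_le_of_ne (pow_two s ▸ C_le_C_pow s 2) fun e => n ?_)
      (even_iff_two_dvd.2 (dvd_trans (by rw [o4]; norm_num) (orderOf_dvd_natCard _ (self_mem_C s))))
    exact mem_C'.1 (e ▸ mem_C.2 (cm w hw _ s2))
  obtain ⟨d, dN, dC, od, hd⟩ := exists_odd T' ab nc
  have dt : Commute (d : G) t := mem_C.1 d.2
  have nT : ∀ w ∈ T, d * w * (d : G)⁻¹ ∈ T := by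
    rintro _ ⟨w, hw, rfl⟩
    exact ⟨_, (mem_normalizer_iff.1 dN w).1 hw, rfl⟩
  have nd : ¬ ∀ w ∈ T, w * d = d * w := fun k =>
    dC fun w hw => Subtype.ext (k _ (mem_map_of_mem _ hw))
  rw [← orderOf_coe] at od
  have e1 : Ce[(d : G) * t] = Ce[(d : G)] ⊓ Ce[t] := C_mul_of_coprime dt (by
    rw [ht]; exact ((Nat.Prime.coprime_iff_not_dvd Nat.prime_two).2 od).symm)
  have b2 : Nat.card Ce[d] = β := by
    rw [← star (d * t) t t1 (e1 ▸ lt_of_le_of_ne inf_le_right fun e => nd fun w hw =>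
      mem_C.1 (e.ge (hT.le hw)).1) (even_iff_two_dvd.2 (ht ▸ orderOf_dvd_natCard _
        (e1 ▸ ⟨mem_C'.2 dt, self_mem_C t⟩))), e1, C_subgroup,
      ← card_map_of_injective (Ce[t]).subtype_injective, subgroupOf_map_subtype]
  obtain ⟨n, hn⟩ := IsPGroup.iff_card.1 (S.isPGroup'.to_inf_left (K := Ce[s]))
  have c1 := hd n (by rw [b2, ← b1, ← hn]; exact card_dvd_of_le inf_le_right)
  have c2 : Nat.card ↥(T ⊓ Ce[s]) < 2 ^ n := hn ▸ H1.card_lt_of_lt (lt_of_le_of_ne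
    (inf_le_inf_right _ hS) fun e => sT (e.ge ⟨hs.1, self_mem_C s⟩).1)
  have ns := fun w hw => (mem_normalizer_iff.1 hs.2 w).1 hw
  obtain ⟨x, y, n, e⟩ := Function.not_injective_iff.1 fun k => (c2.trans_le c1).not_ge
    (Nat.card_le_card_of_injective (α := ↥((T' : Subgroup Ce[t]) ⊓ Ce[d])) (β := ↥(T ⊓ Ce[s]))
      (fun w => have hw : (w.1 : G) ∈ T := mem_map_of_mem _ w.2.1
        ⟨w.1 * (s * w.1 * s⁻¹), mul_mem hw (ns _ hw), mem_C'.2 (by
          calc s * (w.1 * (s * w.1 * s⁻¹)) = s * w.1 * s⁻¹ * (s * s * w.1) * s⁻¹ := by group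
            _ = s * w.1 * s⁻¹ * w.1 * s := by rw [cm _ s2 _ hw]; group
            _ = _ := by rw [cm _ (ns _ hw) _ hw])⟩) k)
  have hx : (x.1 : G) ∈ T := mem_map_of_mem _ x.2.1
  have hy : (y.1 : G) ∈ T := mem_map_of_mem _ y.2.1
  have cx : Commute (x.1 : G) d := congrArg Subtype.val (mem_C.1 x.2.2).eq
  have cy : Commute (y.1 : G) d := congrArg Subtype.val (mem_C.1 y.2.2).eq
  replace n : (x.1 : G) * (s * x.1 * s⁻¹) = y.1 * (s * y.1 * s⁻¹) := congrArg Subtype.val n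
  replace e : (x.1 : G) * y.1 ≠ 1 := fun k => e (Subtype.ext (Subtype.ext
    (mul_right_cancel (k.trans (sq _ hy).symm))))
  generalize (x.1 : G) = a, (y.1 : G) = b at *
  have cs' : Commute s (a * b) := by
    rw [Commute, SemiconjBy, ← mul_inv_eq_iff_eq_mul]
    calc s * (a * b) * s⁻¹ = a * (a * (s * a * s⁻¹)) * (s * b * s⁻¹) := by
          rw [← mul_assoc a a, sq a hx]; group
      _ = a * b * (s * (b * b) * s⁻¹) := by rw [n]; group
      _ = _ := by rw [sq b hy]; group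
  have he := mul_mem hx hy
  have hc := (inv _ (orderOf_eq_prime (by rw [pow_two, sq _ he]) e)).2.resolve_right
    fun k => k s (mem_C.2 cs') o4
  refine nd fun w hw => mul_inv_eq_iff_eq_mul.1 (mul_inv_eq_one.1 (congrArg Subtype.val
    (comm_of_compl hc (d := ⟨d, mem_C'.2 (cx.mul_left cy)⟩) (τ := ⟨w, mem_C.2 (cm _ hw _ he)⟩)
      (by rwa [orderOf_mk]) (Subtype.ext ?_))))
  change (w * d * w⁻¹ * (d : G)⁻¹) ^ 2 = 1
  rw [pow_two]
  exact sq _ (by simpa only [mul_assoc] using mul_mem hw (nT _ (inv_mem hw)))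

end Cfsg.Agent.H38.RkP2
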