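import Cfsg.Agent.H58.SWDefs

/-! Project SW (S3694): small stabilisers. -/

set_option autoImplicit false
open Matrix Cfsg
open scoped commutatorElement

namespace Cfsg.Agent.H38.SwTwo

open Cfsg.Agent.H58.SW

theorem small (hKT : KTStmt) (hKW : KWStmt) (hO : OrdStmt) (hB : BlkOrdStmt) (hG : GordStmt) :
    SmallStmt := by
  intro F _ _ _ n c r H Q L
  have kt := hKT F n c
  have kw := hKW F n c
  have o5 := (hO F n c).2.2.2.2 H L.std
  obtain ⟨g1, g2, g3, -⟩ := hG F n c
  have hle : c.hat H ≤ c.St := inf_le_left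
  have blk : ∀ E, Blk c H E → ∀ m, (∀ e ∈ E, e.rank = m) → E.card * m = n ∧
      Nat.card (c.hat H) ≤ E.card.factorial * c.gord m ^ E.card := fun E hE m hm => by
    constructor
    · have := kw.rksum E hE.fam
      rwa [Finset.sum_congr rfl hm, Finset.sum_const, smul_eq_mul] at this
    · have := (hB F n c E hE.fam hE.sf _ hle).2 fun x hx e he => kt.hatM H _ hE.inv x hx e he
      rwa [Finset.prod_congr rfl fun e he => congrArg c.gord (hm e he), Finset.prod_const] at this
  refine ⟨fun h2 hq => o5 hq ?_, fun E hE h1 hc => ?_, fun E hE h1 h4 hq => ?_⟩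
  · subst h2
    have hu := (c.hn2 rfl).1
    have h4 := (c.hn2 rfl).2
    have hF : Fam ({1} : Finset (Mt 2 F)) := ⟨by simp, by simp, by simp, by simp⟩
    have := (hB F 2 c {1} hF (fun h => by simp [hu] at h) _ hle).1 (by simp)
    rw [Finset.prod_singleton, rank_one, Fintype.card_fin, g2 hu] at this
    refine this.trans ?_
    rw [Cl.zc, if_neg (by simp [hu])]
    generalize c.q = q at *
    interval_cases q <;> norm_num
  · obtain ⟨e1, e2⟩ := blk E hE 1 h1
    rw [mul_one] at e1
    rw [e1, g1] at e2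
    have hq : c.q ≤ 9 := by
      have : c.zc ≤ 8 := by omega
      unfold Cl.zc at this
      split_ifs at this <;> omega
    refine o5 hq (e2.trans ?_)
    have h2 := c.hn
    generalize c.zc = z at *
    rcases hc with ⟨a, b⟩ | ⟨a, b⟩
    · interval_cases n <;> interval_cases z <;> norm_num [Nat.factorial]
    · subst a
      interval_cases z <;> norm_num [Nat.factorial]
  · obtain ⟨e1, e2⟩ := blk E hE 2 h1
    have e3 : E.card = 2 := by omega
    rw [e3] at e2
    refine o5 (by omega) (e2.trans ?_)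
    cases hu : c.u
    · rw [g2 hu, Cl.zc, hu, hq]; norm_num
    · rw [g3 hu, Cl.zc, hu, hq]; norm_num

theorem two (hKA : KAStmt) (hKT : KTStmt) (hO : OrdStmt) (hL : BlkNLStmt)
    (hU : BlkNUStmt) (hB : BlkOrdStmt) (hG : GordStmt) (hS : SwapStmt) : TwoStmt := by
  intro F _ _ _ n c r H Q L hr e he hs hi h0 h1
  have ka := hKA F n c
  have kt := hKT F n c
  have o5 := (hO F n c).2.2.2.2 H L.std
  obtain ⟨g1, g2, g3, g4⟩ := hG F n c
  have hle : c.hat H ≤ c.St := inf_le_left
  have m1 : e * (1 - e) = 0 := by rw [mul_sub, mul_one, he, sub_self]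
  have m2 : (1 - e) * e = 0 := by rw [sub_mul, one_mul, he, sub_self]
  have hne : e ≠ 1 - e := fun h => h0 (by rw [← he, ← m1, ← h])
  have h1' : 1 - e ≠ 0 := fun h => h1 (sub_eq_zero.1 h).symm
  have hF : Fam ({e, 1 - e} : Finset (Mt n F)) := by
    refine ⟨?_, ?_, ?_, by rw [Finset.sum_pair hne, add_sub_cancel]⟩
    · simp only [Finset.mem_insert, Finset.mem_singleton]
      rintro x (rfl | rfl)
      · exact he
      · rw [mul_sub, mul_one, m2, sub_zero]
    · simp only [Finset.mem_insert, Finset.mem_singleton]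
      rintro x (rfl | rfl)
      exacts [h0, h1']
    · simp only [Finset.mem_insert, Finset.mem_singleton]
      rintro x (rfl | rfl) y (rfl | rfl) h
      exacts [absurd rfl h, m1, m2, absurd rfl h]
  have hE : Blk c H {e, 1 - e} := by
    refine ⟨hF, fun hu x hx => ?_, fun ψ hψ t ht x hx => ?_, (Finset.card_pair hne).ge⟩
    · simp only [Finset.mem_insert, Finset.mem_singleton] at hx
      rcases hx with rfl | rfl
      · exact hs hu
      · rw [ka.st_sub hu, ka.st_one, hs hu]
    · have h2 : t.ap e = e := hi ψ hψ t ht e rfl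
      simp only [Finset.coe_insert, Finset.coe_singleton, Set.mem_insert_iff,
        Set.mem_singleton_iff] at hx ⊢
      rcases hx with rfl | rfl
      · exact Or.inl h2
      · exact Or.inr (by rw [kt.sub, kt.one, h2])
  have hc : ∀ x ∈ c.hat H, Commute (x : Mt n F) e := fun x hx => by
    have h2 : cj x e = e := kt.hatM H _ hi x hx e rfl
    unfold cj at h2
    rw [Commute, SemiconjBy]
    calc (x : Mt n F) * e = x * e * ((x⁻¹ : Gl n F) : Mt n F) * x := by
          rw [Matrix.mul_assoc _ _ (x : Mt n F), Units.inv_mul, Matrix.mul_one]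
      _ = e * x := by rw [h2]
  have bd := (hB F n c _ hF hE.sf _ hle).1 fun x hx y hy => by
    simp only [Finset.mem_insert, Finset.mem_singleton] at hy
    rcases hy with rfl | rfl
    · exact hc x hx
    · exact (Commute.one_right _).sub_right (hc x hx)
  rw [Finset.prod_pair hne] at bd
  have sw := hS F n c r H Q L e he hs hi h0 h1
  have p0 : ∀ x : Mt n F, x ≠ 0 → 1 ≤ x.rank := fun x hx => by
    by_contra h
    have h2 : LinearMap.range x.mulVecLin = ⊥ := Submodule.finrank_eq_zero.1 (by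
      change x.rank = 0
      omega)
    exact hx (Matrix.toLin'.map_eq_zero_iff.1 (LinearMap.range_eq_bot.1 h2))
  have p1 := p0 e h0
  have p2 := p0 _ h1'
  have q2 := ka.two_le
  cases hu : c.u
  · have a1 := hL F n c r H Q L hr hu _ hE e (by simp)
    have a2 := hL F n c r H Q L hr hu _ hE (1 - e) (by simp)
    have g := g2 hu
    generalize e.rank = a at *
    generalize (1 - e).rank = b at *
    have hq : c.q ≤ 3 := by omega
    have g' : c.gord 2 ≤ 48 := by
      rw [g]
      generalize c.q = q at *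
      interval_cases q <;> norm_num
    refine o5 (by omega) (bd.trans ?_)
    have : (a = 1 ∧ b = 2) ∨ (a = 2 ∧ b = 1) := by omega
    rcases this with ⟨rfl, rfl⟩ | ⟨rfl, rfl⟩ <;> rw [g1] <;> nlinarith
  · have a1 := hU F n c r H Q L hr hu _ hE e (by simp)
    have a2 := hU F n c r H Q L hr hu _ hE (1 - e) (by simp)
    have g := g3 hu
    have g5 := g4 hu
    have hz : c.zc = c.q + 1 := by rw [Cl.zc, if_pos hu]
    generalize e.rank = a at *
    generalize (1 - e).rank = b at *
    have hq : c.q ≤ 3 := by omega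
    refine o5 (by omega) (bd.trans ?_)
    have : (a = 1 ∧ b = 2) ∨ (a = 2 ∧ b = 1) ∨ (c.q = 2 ∧
      ((a = 1 ∧ b = 3) ∨ (a = 3 ∧ b = 1) ∨ (a = 2 ∧ b = 3) ∨ (a = 3 ∧ b = 2))) := by omega
    rcases this with ⟨rfl, rfl⟩ | ⟨rfl, rfl⟩ | ⟨h, ⟨rfl, rfl⟩ | ⟨rfl, rfl⟩ | ⟨rfl, rfl⟩ | ⟨rfl, rfl⟩⟩
    · rw [g1, g, hz]
      generalize c.q = q at *
      interval_cases q <;> norm_num
    · rw [g1, g, hz]
      generalize c.q = q at *
      interval_cases q <;> norm_num
    all_goals simp only [g1, g, g5 h, hz, h]; norm_num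

theorem both (hKA : KAStmt) (hKT : KTStmt) (hKW : KWStmt) (hO : OrdStmt) (hL : BlkNLStmt)
    (hU : BlkNUStmt) (hB : BlkOrdStmt) (hG : GordStmt) (hS : SwapStmt) : SmallStmt ∧ TwoStmt :=
  ⟨small hKT hKW hO hB hG, two hKA hKT hO hL hU hB hG hS⟩

end Cfsg.Agent.H38.SwTwo
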