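import Cfsg.Agent.H6.TIDefs

/-! Project TI, piece QA: large axes of index two, small axes of index four. -/

set_option autoImplicit false
set_option linter.unusedSectionVars false

namespace Cfsg.Agent.H38.TiQa

open Cfsg Subgroup Cfsg.Agent.H6.TI
open Cfsg.Agent.H83 (cj)
open scoped Cfsg.Agent.H63 commutatorElement

universe u

variable {G : Type u} [Group G] {Ω : Set (Subgroup G)} {A B B' C H I J K : Subgroup G}

theorem cjN {g x : G} (hg : g ∈ N[H]) (hx : x ∈ H) : g * x * g⁻¹ ∈ H :=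
  (mem_normalizer_iff.1 hg x).1 hx

/-- `H` is a hyperplane of `A`. -/
structure Hp (A H : Subgroup G) : Prop where
  le : H ≤ A
  ex : ∃ a ∈ A, a ∉ H
  mul : ∀ a ∈ A, ∀ b ∈ A, a * b ∈ H ↔ (a ∈ H ↔ b ∈ H)

theorem hp_of (h1 : H ≤ A) (h2 : H.relIndex A = 2) : Hp A H :=
  ⟨h1, by
    by_contra! e
    rw [relIndex_eq_one.2 e] at h2
    omega, fun a ha b hb => mul_mem_iff_of_index_two h2 (a := ⟨a, ha⟩) (b := ⟨b, hb⟩)⟩

theorem Hp.eq (h : Hp A H) (h' : Hp A I) (l : H ≤ I) : H = I := by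
  obtain ⟨a, ha, ha'⟩ := h'.ex
  refine le_antisymm l fun x hx => ?_
  have h1 := h.mul x (h'.le hx) a ha
  have h2 := h'.mul x (h'.le hx) a ha
  have h3 := @l (x * a)
  have h4 := @l a
  tauto

theorem Hp.exm (h : Hp A H) (h' : Hp A I) (ne : H ≠ I) : ∃ x ∈ H, x ∉ I := by
  by_contra! e
  exact ne (h.eq h' e)

theorem Hp.out (h : Hp A H) (h' : Hp A I) (h'' : Hp A J) (l : H ⊓ I ≤ J) (n : H ≠ J) {a : G}
    (h1 : a ∈ H) (h2 : a ∉ I) : a ∉ J := fun e => n (h.eq h'' fun x hx => by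
  have h3 := h'.mul x (h.le hx) a (h.le h1)
  have h4 := h''.mul x (h.le hx) a (h.le h1)
  have h5 : x ∈ I → x ∈ J := fun e => l ⟨hx, e⟩
  have h6 : x * a ∈ I → x * a ∈ J := fun e => l ⟨mul_mem hx h1, e⟩
  tauto)

theorem Hp.third (h : Hp A H) (h' : Hp A I) (h'' : Hp A J) (l : H ⊓ I ≤ J) (n0 : H ≠ I)
    (n : H ≠ J) (n' : I ≠ J) {a : G} (ha : a ∈ A) : a ∈ J ↔ (a ∈ H ↔ a ∈ I) := by
  obtain ⟨x, hx, hx'⟩ := h.exm h' n0
  have o1 := fun b => h.out h' h'' l n (a := b)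
  have o2 := fun b => h'.out h h'' (inf_comm H I ▸ l) n' (a := b)
  have h1 := h.mul a ha x (h.le hx)
  have h2 := h'.mul a ha x (h.le hx)
  have h3 := h''.mul a ha x (h.le hx)
  have h4 : a ∈ H → a ∈ I → a ∈ J := fun e e' => l ⟨e, e'⟩
  have h5 := o1 a
  have h6 := o2 a
  have h7 := o1 x hx hx'
  have h8 := o2 (a * x)
  by_cases e1 : a ∈ H <;> by_cases e2 : a ∈ I <;> by_cases e3 : a ∈ J <;> simp_all

/-- The third hyperplane. -/
def thd (h : Hp A H) (h' : Hp A I) : Subgroup G where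
  carrier := {a | a ∈ A ∧ (a ∈ H ↔ a ∈ I)}
  one_mem' := ⟨one_mem _, by simp⟩
  mul_mem' := fun {a b} ha hb => ⟨mul_mem ha.1 hb.1, by
    rw [h.mul a ha.1 b hb.1, h'.mul a ha.1 b hb.1, ha.2, hb.2]⟩
  inv_mem' := fun {a} ha => ⟨inv_mem ha.1, by simpa using ha.2⟩

theorem thd_hp (h : Hp A H) (h' : Hp A I) (n : H ≠ I) : Hp A (thd h h') := by
  refine ⟨fun _ e => e.1, ?_, fun a ha b hb => ?_⟩
  · obtain ⟨x, hx, hx'⟩ := h.exm h' n
    exact ⟨x, h.le hx, fun e => hx' (e.2.1 hx)⟩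
  · change (_ ∧ _) ↔ ((_ ∧ _) ↔ (_ ∧ _))
    rw [h.mul a ha b hb, h'.mul a ha b hb]
    have := mul_mem ha hb
    tauto

/-- A subgroup of index four lies in a hyperplane through any outside element. -/
theorem exH (hc : ∀ a ∈ A, ∀ b ∈ A, a * b = b * a) (hs : ∀ a ∈ A, a * a = 1) (hK : K ≤ A)
    (h4 : K.relIndex A = 4) {a : G} (ha : a ∈ A) (ha' : a ∉ K) :
    ∃ H : Subgroup G, H ≤ A ∧ H.relIndex A = 2 ∧ ∀ x, x ∈ H ↔ x ∈ K ∨ x * a ∈ K := by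
  have hm : ∀ x, x * a ∈ K → x ∈ A := fun x e => (mul_mem_cancel_right ha).1 (hK e)
  let H : Subgroup G :=
    { carrier := {x | x ∈ K ∨ x * a ∈ K}
      one_mem' := Or.inl (one_mem _)
      mul_mem' := by
        rintro x y (hx | hx) (hy | hy)
        · exact Or.inl (mul_mem hx hy)
        · exact Or.inr (mul_assoc x y a ▸ mul_mem hx hy)
        · refine Or.inr ?_
          rw [mul_assoc, hc y (hK hy) a ha, ← mul_assoc]
          exact mul_mem hx hy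
        · refine Or.inl ?_
          have := mul_mem hx hy
          rwa [← hc a ha y (hm y hy), mul_assoc, ← mul_assoc a, hs a ha, one_mul] at this
      inv_mem' := by
        rintro x (hx | hx)
        · exact Or.inl (inv_mem hx)
        · rw [inv_eq_of_mul_eq_one_right (hs x (hm x hx))]
          exact Or.inr hx }
  have hA : H ≤ A := fun x e => e.elim (fun e => hK e) (hm x)
  have h2 : K.relIndex H = 2 := relIndex_eq_two_iff.2 ⟨a, Or.inr (by rw [hs a ha]; exact one_mem _),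
    fun b hb => by
      have : b ∈ K → b * a ∉ K := fun e e' => ha' ((mul_mem_cancel_left e).1 e')
      have hb' : b ∈ K ∨ b * a ∈ K := hb
      unfold Xor
      tauto⟩
  have := relIndex_mul_relIndex K H A (fun x e => Or.inl e) hA
  rw [h2, h4] at this
  exact ⟨H, hA, by omega, fun _ => Iff.rfl⟩

theorem comm_of_br {a b c : G} (e : ⁅a, b⁆ = ⁅a, c⁆) : a * (c⁻¹ * b) = c⁻¹ * b * a := by
  calc a * (c⁻¹ * b) = c⁻¹ * (a * c * a⁻¹ * c⁻¹)⁻¹ * a * b := by group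
    _ = c⁻¹ * (a * b * a⁻¹ * b⁻¹)⁻¹ * a * b := by
      rw [← commutatorElement_def, ← commutatorElement_def, e]
    _ = _ := by group

variable [Finite G] {M : Subgroup G} (h : C3 Ω M)
include h

theorem hpM (e : Mn Ω A B) : Hp A (ax A B) := hp_of ax_le (h.q2 A B e)

theorem thd_ax (e : Mn Ω A B) (e' : Mn Ω A B') (n : ax A B ≠ ax A B') :
    ∃ B'', Mn Ω A B'' ∧ ∀ a ∈ A, a ∈ ax A B'' ↔ (a ∈ ax A B ↔ a ∈ ax A B') := by
  obtain ⟨y, hy, hy'⟩ : ∃ y ∈ ax B' A, y ∉ N[ax A B] := by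
    by_contra! l
    have h1 := (h.yy.ycard h.sp e e' n).1
    have h2 : hh A B = Nat.card (ax B' A) := (h.ba.mnq e (h.ba.msymm e')).1
    have h3 : 0 < Nat.card (ax B' A) := Nat.card_pos
    rw [inf_eq_left.2 l, h.q2 A B e] at h1
    omega
  have e1 := e.cjN h.toTI hy.2
  have h1 := (ax_cjN hy.2 B).1
  have hc : ∀ x ∈ ax A B', y⁻¹ * x * y = x := fun x hx => by
    rw [mul_assoc, h.ba.comm A e'.l B' e'.r e'.ne x hx y hy, inv_mul_cancel_left]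
  refine ⟨_, e1, fun a ha => (hpM h e).third (hpM h e') (hpM h e1) (fun x hx => ?_) n
    (fun x => hy' (H83.cj_eq_self_iff.1 (h1 ▸ x.symm))) (fun x => n ?_) ha⟩
  · rw [h1, H83.mem_cj, hc x hx.2]
    exact hx.1
  · refine ((hpM h e').eq (hpM h e) fun z hz => ?_).symm
    have := x ▸ hz
    rwa [h1, H83.mem_cj, hc z hz] at this

theorem hyp_fin (S : Set (Subgroup G)) (hS : S.Finite) : (∀ B ∈ S, Mn Ω A B) → ∀ H, Hp A H →
    (∀ a ∈ A, (∀ B ∈ S, a ∈ ax A B) → a ∈ H) → ∃ B, Mn Ω A B ∧ ax A B = H := by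
  induction S, hS using Set.Finite.induction_on with
  | empty =>
    intro _ H hH l
    obtain ⟨a, ha, ha'⟩ := hH.ex
    exact (ha' (l a ha fun _ e => e.elim)).elim
  | @insert B S _ _ ih =>
    intro hm H hH l
    have e := hm B (Set.mem_insert _ _)
    have ih' := ih fun B e => hm B (Set.mem_insert_of_mem _ e)
    by_cases h1 : ∀ a ∈ A, (∀ B ∈ S, a ∈ ax A B) → a ∈ H
    · exact ih' H hH h1
    by_cases h2 : ax A B = H
    · exact ⟨B, e, h2⟩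
    push Not at h1
    obtain ⟨u, hu, hu1, hu2⟩ := h1
    have l' : ∀ a ∈ A, (∀ B ∈ S, a ∈ ax A B) → a ∈ ax A B → a ∈ H := fun a ha e1 e2 =>
      l a ha fun B' hB' => by
        rcases hB' with rfl | hB'
        exacts [e2, e1 _ hB']
    have hI := hpM h e
    obtain ⟨B', e', h3⟩ := ih' _ (thd_hp hI hH h2) fun a ha e1 => ⟨ha, by
      have h3 := l' a ha e1
      have h4 := l' u hu hu1
      have h5 := l' _ (mul_mem ha hu) fun B hB => mul_mem (e1 B hB) (hu1 B hB)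
      rw [hI.mul a ha u hu, hH.mul a ha u hu] at h5
      tauto⟩
    have h4 : ∀ a ∈ A, a ∈ ax A B' ↔ (a ∈ ax A B ↔ a ∈ H) := fun a ha => by
      rw [h3]
      exact ⟨fun e => e.2, fun e => ⟨ha, e⟩⟩
    obtain ⟨B'', e'', h5⟩ := thd_ax h e e' fun x => by
      have := h4 u hu
      rw [← x] at this
      tauto
    refine ⟨B'', e'', ((hpM h e'').eq hH fun a ha => ?_)⟩
    have h6 := h5 a ha.1
    have h7 := h4 a ha.1
    tauto

theorem hyp (A : Subgroup G) (H : Subgroup G) (h1 : H ≤ A) (h2 : H.relIndex A = 2)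
    (h3 : zc Ω A ≤ H) : ∃ B, Mn Ω A B ∧ ax A B = H :=
  hyp_fin h {B | Mn Ω A B} (Set.toFinite _) (fun _ e => e) H (hp_of h1 h2) fun _ ha l =>
    h3 (mem_zc.2 ⟨ha, fun B e => (l B e).2⟩)

theorem zle (e : Ed Ω A C) : zc Ω A ≤ ax A C := by
  refine (h.bb.l5 e (zc Ω A) inf_le_left fun g hg => ?_).resolve_right fun x => ?_
  · rw [← H83.cj_eq_self_iff, ← zc_cj h.toTI, H83.cj_eq_self hg.2]
  · obtain ⟨B, e'⟩ := h.ba.exMn h.ed A e.l
    obtain ⟨a, ha, ha'⟩ := (hpM h e').ex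
    exact ha' ⟨ha, (mem_zc.1 (x.symm ▸ ha)).2 B e'⟩

theorem jfix (e : Mn Ω A B) (e' : Ed Ω A C) (n : ¬ Mn Ω A C) (l : ax A C ≤ ax A B) :
    ax C A ≤ N[B] := by
  have hI := hpM h e
  have orb : ∀ c ∈ ax C A, ∃ a ∈ A, cj c B = cj a B := fun c hc => by
    refine h.ln.line e (e.cjN h.toTI hc.2) ?_
    rw [(ax_cjN hc.2 B).1]
    refine hI.eq ((ax_cjN hc.2 B).1 ▸ hpM h (e.cjN h.toTI hc.2)) fun x hx => ?_
    have := l (h.ba.brk e' x hx.1 c⁻¹ (mem_sup_right (inv_mem hc)))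
    rw [H83.mem_cj]
    convert mul_mem (inv_mem this) hx using 1
    group
  have c4 := h.ba.hq (h.ba.symm e')
  have q4 : qq C A = 4 := (h.ba.card e').2 ▸ h.q4 A C e' n
  obtain ⟨c, hc, c1, hcB⟩ : ∃ c ∈ ax C A, c ≠ 1 ∧ c ∈ N[B] := by
    have := Fintype.ofFinite (ax C A)
    obtain ⟨x, y, z, xy, xz, yz⟩ := (Fintype.two_lt_card_iff (α := ax C A)).1 (by
      have : hh C A = Fintype.card (ax C A) := Nat.card_eq_fintype_card
      omega)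
    have key : ∀ x y : ax C A, x ≠ y → ∀ a ∈ A, ∀ b ∈ A, cj (x : G) B = cj a B →
        cj (y : G) B = cj b B → (a ∈ ax A B ↔ b ∈ ax A B) → ∃ c ∈ ax C A, c ≠ 1 ∧ c ∈ N[B] := by
      intro x y xy a ha b hb ex ey e2
      refine ⟨(x : G)⁻¹ * y, mul_mem (inv_mem x.2) y.2, fun e3 => xy (Subtype.ext
        (inv_mul_eq_one.1 e3)), ?_⟩
      have h3 : a⁻¹ * b ∈ ax A B := (hI.mul _ (inv_mem ha) b hb).2 (by rwa [inv_mem_iff])
      rw [← H83.cj_eq_self_iff, H83.cj_mul, ey, ← mul_inv_cancel_left a b, H83.cj_mul,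
        H83.cj_eq_self h3.2, ← ex, H83.cj_inv_cj]
    obtain ⟨a, ha, ea⟩ := orb x x.2
    obtain ⟨b, hb, eb⟩ := orb y y.2
    obtain ⟨c, hc, ec⟩ := orb z z.2
    by_cases h1 : a ∈ ax A B ↔ b ∈ ax A B
    · exact key x y xy a ha b hb ea eb h1
    by_cases h2 : a ∈ ax A B ↔ c ∈ ax A B
    · exact key x z xz a ha c hc ea ec h2
    exact key y z yz b hb c hc eb ec (by tauto)
  have e2 : Ed Ω C B := ⟨e'.r, e.r, fun x => n (x ▸ e), fun x => c1 (mem_bot.1 (x ▸ ⟨hc.1, hcB⟩))⟩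
  rcases h.ba.l4 (h.ba.symm e') e2 (ax A C ⊔ ax B C)
    (H83.isPGroup_sup ((h.ba.two A e.l).to_le ax_le) ((h.ba.two B e.r).to_le ax_le)
      (H83.le_norm_inf (l.trans ax_le_norm) (H83.le_norm_norm ax_le_norm)))
    (sup_le ax_le_norm ax_le_norm) le_sup_left le_sup_right with l1 | l1
  · exact l1.trans ax_le_norm
  refine (eq_of_le_of_card_ge l1 ?_).ge.trans ax_le_norm
  change hh C A ≤ hh C B
  by_cases m : Mn Ω C B
  · exact m.max _ _ (h.ba.symm e')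
  · have h1 := (h.ba.hq e2).1
    rw [h.q4 C B e2 m] at h1
    have h2 := c4.1
    rw [q4] at h2
    omega

theorem jcent (e : Mn Ω A B) (e' : Ed Ω A C) (n : ¬ Mn Ω A C) (l : ax A C ≤ ax A B) {b c : G}
    (hb : b ∈ ax B A) (hb' : ∀ a ∈ A, ⁅a, b⁆ ∈ ax A C) (hc : c ∈ ax C A) : c * b = b * c := by
  obtain ⟨a, ha, ha'⟩ := (hpM h e).ex
  have hcB := jfix h e e' n l hc
  have h1 := (h.bb.eqv e.toEd c hc.2 hcB fun a ha =>
    l (h.ba.brk e' a ha c (mem_sup_right hc))).1 a ha b hb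
  rw [← h.ba.comm A e'.l C e'.r e'.ne _ (hb' a ha) c hc, mul_inv_cancel_right] at h1
  rw [← mul_inv_eq_iff_eq_mul]
  exact (h.ba.phi e.toEd a ha ha' _ (l (hb' a ha))).unique
    ⟨⟨cjN hcB hb.1, mul_mem (mul_mem hc.2 hb.2) (N[A].inv_mem hc.2)⟩, h1⟩ ⟨hb, rfl⟩

theorem exb (e : Mn Ω A B) (l : K ≤ ax A B) {a k : G} (ha : a ∈ A) (ha' : a ∉ ax A B)
    (hk : k ∈ K) : ∃ b ∈ ax B A, ⁅a, b⁆ = k ∧ ∀ x ∈ A, ⁅x, b⁆ ∈ K := by
  obtain ⟨b, hb, eb⟩ := (h.ba.phi e.toEd a ha ha' k (l hk)).exists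
  have h1 : ∀ x ∈ ax A B, ⁅x, b⁆ = 1 := fun x hx =>
    commutatorElement_eq_one_iff_mul_comm.2 (h.ba.comm A e.l B e.r e.ne x hx b hb)
  refine ⟨b, hb, eb, fun x hx => ?_⟩
  by_cases h2 : x ∈ ax A B
  · rw [h1 x h2]
    exact one_mem _
  have h3 : x * a⁻¹ ∈ ax A B := ((hpM h e).mul x hx _ (inv_mem ha)).2 (by rw [inv_mem_iff]; tauto)
  have h4 : ⁅x, b⁆ = x * a⁻¹ * ⁅a, b⁆ * (x * a⁻¹)⁻¹ * ⁅x * a⁻¹, b⁆ := by group
  rw [h4, h1 _ h3, eb, h.ba.mul_comm A e.l _ h3.1 k (l hk).1, mul_inv_cancel_right, mul_one]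
  exact hk

theorem jw (e : Ed Ω A C) (n : ¬ Mn Ω A C) : ax C A ≤ wk Ω A (ax A C) := by
  have q4 : (ax A C).relIndex A = 4 := h.q4 A C e n
  have hc := h.ba.mul_comm A e.l
  obtain ⟨a1, ha1, n1⟩ : ∃ a ∈ A, a ∉ ax A C := by
    by_contra! x
    rw [relIndex_eq_one.2 x] at q4
    omega
  obtain ⟨H2, l2, i2, m2⟩ := exH hc (h.sq A e.l) ax_le q4 ha1 n1
  obtain ⟨a2, ha2, n2⟩ := (hp_of l2 i2).ex
  have n2' := mt (m2 a2).2 n2
  push Not at n2'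
  obtain ⟨H1, l1, i1, m1⟩ := exH hc (h.sq A e.l) ax_le q4 ha2 n2'.1
  have k1 : ax A C ≤ H1 := fun x hx => (m1 x).2 (Or.inl hx)
  have k2 : ax A C ≤ H2 := fun x hx => (m2 x).2 (Or.inl hx)
  obtain ⟨B1, e1, rfl⟩ := hyp h A H1 l1 i1 ((zle h e).trans k1)
  obtain ⟨B2, e2, rfl⟩ := hyp h A H2 l2 i2 ((zle h e).trans k2)
  have n12 : a1 * a2 ∉ ax A C := hc _ ha2 _ ha1 ▸ n2'.2
  have n1' : a1 ∉ ax A B1 := fun x => ((m1 a1).1 x).elim n1 n12
  have p1 : a1 ∈ ax A B2 := (m2 a1).2 (Or.inr (by rw [h.sq A e.l a1 ha1]; exact one_mem _))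
  have p2 : a2 ∈ ax A B1 := (m1 a2).2 (Or.inr (by rw [h.sq A e.l a2 ha2]; exact one_mem _))
  obtain ⟨ρ, hρ, ρA, ρC, -, hf⟩ := h.bb.tor e a1 ha1 n1 a2 ha2 n2'.1
  have hf' := (hf n12).2
  have ρK : ρ ∈ N[ax A C] := by
    rw [← H83.cj_eq_self_iff, ← (ax_cjN ρA C).1, H83.cj_eq_self ρC]
  have ρJ : ρ ∈ N[ax C A] := by
    rw [← H83.cj_eq_self_iff, ← (ax_cjN ρA C).2, H83.cj_eq_self ρC]
  have gen : ∀ {B b}, Mn Ω A B → ax A C ≤ ax A B → b ∈ ax B A → (∀ a ∈ A, ⁅a, b⁆ ∈ ax A C) →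
      b ∈ wk Ω A (ax A C) ∧ ρ * b * ρ⁻¹ ∈ wk Ω A (ax A C) := fun {B b} e l hb hb' =>
    ⟨mem_sup_right (subset_closure ⟨B, e, l, hb, hb'⟩), mem_sup_right (subset_closure
      ⟨cj ρ B, e.cjN h.toTI ρA, by
        rw [(ax_cjN ρA B).1, ← H83.cj_eq_self ρK]
        exact H83.cj_mono ρ l, (ax_cjN ρA B).2 ▸ H83.conj_mem_cj hb, fun a ha => by
        convert cjN ρK (hb' _ (cjN (inv_mem ρA) ha)) using 1
        group⟩)⟩
  have key : ∀ c ∈ ax C A, ρ * c * ρ⁻¹ * c⁻¹ ∈ wk Ω A (ax A C) := fun c hcJ => by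
    obtain ⟨b1, hb1, eb1, hb1'⟩ := exb h e1 k1 ha1 n1' (h.ba.brk e a1 ha1 c (mem_sup_right hcJ))
    obtain ⟨b2, hb2, eb2, hb2'⟩ := exb h e2 k2 ha2 n2 (h.ba.brk e a2 ha2 c (mem_sup_right hcJ))
    have cm : ∀ {P Q i j}, Ed Ω P Q → i ∈ ax P Q → j ∈ ax Q P → Commute i j :=
      fun {P Q i j} e hi hj => h.ba.comm P e.l Q e.r e.ne i hi j hj
    have hK : ∀ x ∈ ax A C, Commute x (c⁻¹ * b1 * b2) := fun x hx =>
      ((cm e hx hcJ).inv_right.mul_right (cm e1.toEd (k1 hx) hb1)).mul_right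
        (cm e2.toEd (k2 hx) hb2)
    have h1 : Commute a1 (c⁻¹ * b1 * b2) :=
      (show Commute a1 (c⁻¹ * b1) from comm_of_br eb1).mul_right (cm e2.toEd p1 hb2)
    have h2 : Commute a2 (c⁻¹ * b1 * b2) := by
      rw [jcent h e1 e n k1 hb1 hb1' (inv_mem hcJ), mul_assoc]
      exact (cm e1.toEd p2 hb1).mul_right (show Commute a2 (c⁻¹ * b2) from comm_of_br eb2)
    have h3 : ∀ x ∈ ax A B2, Commute x (c⁻¹ * b1 * b2) := fun x hx => by
      rcases (m2 x).1 hx with e3 | e3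
      · exact hK x e3
      · simpa using (hK _ e3).mul_left h1.inv_left
    have hA : c⁻¹ * b1 * b2 ∈ C[A] := mem_centralizer_iff.2 fun x hx => by
      by_cases e3 : x ∈ ax A B2
      · exact h3 x e3
      · have := (h3 _ (((hpM h e2).mul x hx a2 ha2).2 (by tauto))).mul_left h2.inv_left
        rwa [mul_inv_cancel_right] at this
    obtain ⟨d, hd, d1⟩ : ∃ d ∈ ax C A, d ≠ 1 := by
      by_contra! x
      exact (h.ba.symm e).nb (eq_bot_iff.2 fun d hd => mem_bot.2 (x d hd))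
    have hC : c⁻¹ * b1 * b2 ∈ N[C] := h.ba.cent C e.r d hd.1 d1 _
      (((show Commute d c⁻¹ from h.ba.mul_comm C e.r d hd.1 _ (inv_mem hcJ.1)).mul_right
        (jcent h e1 e n k1 hb1 hb1' hd)).mul_right (jcent h e2 e n k2 hb2 hb2' hd)).symm
    obtain ⟨i, hi, hiC⟩ := (h.bb.tl e _ hA hC).2
    have hiA : i ∈ C[A] := mem_centralizer_iff.2 fun x hx => hc x hx i hi.1
    have h4 : c⁻¹ * b1 * b2 * i ∈ C[A ⊔ C] := by
      rw [H83.centralizer_sup]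
      exact ⟨mul_mem hA hiA, hiC⟩
    have h5 := mem_centralizer_iff.1 h4 ρ hρ
    have g1 := gen e1 k1 hb1 hb1'
    have g2 := gen e2 k2 hb2 hb2'
    have h6 : ρ * c * ρ⁻¹ * c⁻¹ = ρ * b1 * ρ⁻¹ * (ρ * b2 * ρ⁻¹) * (ρ * i * ρ⁻¹) *
        (b1 * b2 * i)⁻¹ := by
      calc ρ * c * ρ⁻¹ * c⁻¹ = ρ * (b1 * b2 * i) * (ρ * (c⁻¹ * b1 * b2 * i))⁻¹ * c⁻¹ := by group
        _ = _ := by rw [h5]; group
    rw [h6]
    exact mul_mem (mul_mem (mul_mem g1.2 g2.2) (mem_sup_left (cjN ρK hi)))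
      (inv_mem (mul_mem (mul_mem g1.1 g2.1) (mem_sup_left hi)))
  let f : ax C A → ax C A := fun c => ⟨ρ * c * ρ⁻¹ * (c : G)⁻¹, mul_mem (cjN ρJ c.2) (inv_mem c.2)⟩
  have hinj : Function.Injective f := fun c d x => by
    have x' : ρ * c * ρ⁻¹ * (c : G)⁻¹ = ρ * d * ρ⁻¹ * (d : G)⁻¹ := congrArg Subtype.val x
    have := hf' ((d : G)⁻¹ * c) (mem_sup_right (mul_mem (inv_mem d.2) c.2)) (by
      calc ρ * ((d : G)⁻¹ * c) = ρ * (d : G)⁻¹ * ρ⁻¹ * (ρ * c * ρ⁻¹ * (c : G)⁻¹) * c * ρ := by group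
        _ = _ := by rw [x']; group)
    exact Subtype.ext (inv_mul_eq_one.1 this).symm
  intro c hcJ
  obtain ⟨d, hd⟩ := Finite.surjective_of_injective hinj ⟨c, hcJ⟩
  have := key d d.2
  rwa [show ρ * d * ρ⁻¹ * (d : G)⁻¹ = c from congrArg Subtype.val hd] at this

omit h in
theorem qa : QAStmt.{u} := fun _ _ h =>
  ⟨fun A _ => hyp h A, zle h, jfix h, jw h⟩

end Cfsg.Agent.H38.TiQa
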