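import Cfsg.Agent.H97.U4Defs

/-!
# U4F, piece RIG (an adapted copy of `H1.U5RigQ` and of `ker` in `H49.U5AQ1`)
-/

set_option autoImplicit false
set_option linter.unusedSectionVars false

namespace Cfsg.Agent.H38.U4Rig

open Cfsg.Agent.H97 Cfsg.Agent.H97.U4 Subgroup
open Cfsg.Agent.H97.U5 (Hm Cp zp)
open Cfsg.Agent.H96.VB hiding LA LB
open scoped commutatorElement

universe u

variable {K : Type u} [Field K] [Finite K] {T : Hm K} {p : ℕ} [Fact p.Prime] [CharP K p]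

theorem ker (α : MulAut (Q T)) (h0 : rhoW T α = 1) : (∀ z ∈ Z T, ext α z = z) ∧ α ^ p = 1 := by
  have h : ∀ x ∈ Q T, wv (ext α x) = wv x := rhoW_eq.1 h0
  have hZ : ∀ z ∈ Z T, ext α z = z := fun z hz => by
    obtain ⟨m, hm⟩ := exists_cm_xm (k := xt T 1) hz one_ne_zero
    have h1 : xt T 1 ∈ Q T := rfl
    have h2 : xm T m ∈ Q T := rfl
    obtain ⟨c1, c2⟩ := cm_QQ h1 h2
    obtain ⟨d1, d2⟩ := cm_QQ (ext_mem α h1) (ext_mem α h2)
    have k1 := h _ h1
    have k2 := h _ h2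
    simp only [wv, Prod.mk.injEq] at k1 k2
    rw [k1.1, k1.2, k2.1, k2.2, ← c2] at d2
    rw [← hm, ext_map_comm α h1 h2, eq_of_Z d1 c1 d2]
  refine ⟨hZ, MulEquiv.ext fun x => Subtype.ext ?_⟩
  have z := div_mem_Z x.2 (ext_mem α x.2) (h x x.2)
  have k : ∀ n : ℕ, ext (α ^ n) (x : U T) = x * ((x : U T)⁻¹ * ext α x) ^ n := fun n => by
    induction n with
    | zero => simp
    | succ n ih =>
      rw [pow_succ', ext_mul, ih, ext_map_mul α x.2 (Z_le_Q (pow_mem z n)), hZ _ (pow_mem z n),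
        pow_succ', ← mul_assoc, mul_inv_cancel_left]
  rw [← ext_coe, k, pow_J_eq_one p (Z2_le_J (Z_le_Z2 z)), mul_one]
  rfl

/-- additive maps into the skew elements, over the prime field -/
theorem lin (hP : Pri T) (f : K → K) (hf : ∀ x y, f (x + y) = f x + f y)
    (hs : ∀ x, f x + T.σ (f x) = 0) : ∃ x, ∀ t, f t = x * t - T.σ (x * t) := by
  have f0 : f 0 = 0 := by
    have := hf 0 0
    rw [add_zero] at this
    linear_combination -this
  have fn : ∀ (n : ℕ) x, f (n * x) = n * f x := fun n x => by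
    induction n with
    | zero => simp [f0]
    | succ n ih => push_cast; rw [add_mul, hf, ih, one_mul]; ring
  have fc : ∀ c, T.σ c = c → ∀ x, f (c * x) = c * f x := fun c hc x => by
    obtain ⟨n, rfl⟩ := hP c hc
    exact fn n x
  obtain ⟨x, h1, h2⟩ := exists_sk2 T (hs 1) (hs T.om)
  refine ⟨x, fun t => ?_⟩
  have e0 := T.ep_ne
  have e : T.om = T.ep + T.σ T.om := by simp [Hm.ep]
  obtain ⟨c, hc⟩ : ∃ c, c = (t - T.σ t) / T.ep := ⟨_, rfl⟩
  have c1 : T.σ c = c := by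
    rw [hc, map_div₀, map_sub, T.inv, T.σ_ep]; field_simp; ring
  have c2 : c * T.ep = t - T.σ t := by rw [hc]; field_simp
  have c0 : T.σ (t - c * T.om) = t - c * T.om := by
    rw [map_sub, map_mul, c1]; linear_combination c2 + c * e
  have ht : t = (t - c * T.om) * 1 + c * T.om := by ring
  generalize t - c * T.om = b at ht c0
  rw [ht, hf, fc _ c0, fc _ c1, ← h1, ← h2]
  simp only [map_mul, map_add, map_one, c0, c1]
  ring

theorem innQ : InnQStmt T p := by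
  refine ⟨ker, fun hP α _ h0 => ?_⟩
  have h : ∀ x ∈ Q T, wv (ext α x) = wv x := rhoW_eq.1 h0
  have hZ := (ker (p := p) α h0).1
  have ht : ∀ x ∈ Q T, (ext α x).t = x.t := fun x hx => congrArg Prod.fst (h x hx)
  have hm : ∀ x ∈ Q T, (ext α x).m = x.m := fun x hx => congrArg Prod.snd (h x hx)
  have hd : ∀ x ∈ Q T, (ext α x).d = 0 := fun x hx => ext_mem α hx
  have qt : ∀ t, xt T t ∈ Q T := fun _ => rfl
  have qm : ∀ t, xm T t ∈ Q T := fun _ => rfl
  obtain ⟨x, hx⟩ := lin hP (fun t => (ext α (xt T t)).a) (fun s t => by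
    have : xt T (s + t) = xt T s * xt T t := by ext <;> simp
    simp [this, ext_map_mul α (qt s) (qt t), hm _ (qt _), hd _ (qt _)]) fun _ => U.ha _
  obtain ⟨y, hy⟩ := lin hP (fun t => (ext α (xm T t)).a) (fun s t => by
    have : xm T (s + t) = xm T s * xm T t := by ext <;> simp
    simp [this, ext_map_mul α (qm s) (qm t), ht _ (qm _)]) fun _ => U.ha _
  refine ⟨⟨T.σ y, 0, T.σ x, 0, by simp, by simp⟩, rfl, fun g hg => ?_⟩
  have gd : g.d = 0 := hg
  have za : xa T g.a g.ha ∈ Z T := ⟨rfl, rfl, rfl⟩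
  have e : g = xa T g.a g.ha * xm T g.m * xt T g.t := by ext <;> simp [gd]
  have ea : (ext α g).a = g.a + (ext α (xm T g.m)).a + (ext α (xt T g.t)).a := by
    nth_rewrite 1 [e]
    rw [ext_map_mul α (mul_mem (Z_le_Q za) (qm _)) (qt _), ext_map_mul α (Z_le_Q za) (qm _),
      hZ _ za]
    simp [ht _ (qm _)]
  ext
  · rw [ht g hg]; u4r []
  · rw [ea, hx, hy]; u4r [gd]
  · rw [hm g hg]; u4r [gd]
  · rw [hd g hg]; u4r [gd]

theorem lam_ext {c c' : Kˣ × Kˣ} {φ : RingAut K}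
    (h1 : (c.1 : K) * (c.2 : K)⁻¹ = c'.1 * (c'.2 : K)⁻¹) (h2 : c.1 * T.σ c.2 = c'.1 * T.σ c'.2) :
    tor T c * fld T φ = tor T c' * fld T φ := by
  have a1 := c.1.ne_zero
  have a2 := c.2.ne_zero
  have a3 := c'.1.ne_zero
  have a4 := c'.2.ne_zero
  have b1 := T.σ_ne_zero a1
  have b2 := T.σ_ne_zero a2
  have b3 := T.σ_ne_zero a3
  have b4 := T.σ_ne_zero a4
  have h3 := congrArg T.σ h2
  have h4 := congrArg T.σ h1
  simp only [map_mul, map_inv₀, T.inv] at h3 h4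
  have n1 : (c.1 : K) * T.σ c.1 = c'.1 * T.σ c'.1 := by
    calc (c.1 : K) * T.σ c.1 = (c.1 * (c.2 : K)⁻¹) * (T.σ c.1 * c.2) := by field_simp
      _ = _ := by rw [h1, h3]; field_simp
  have n2 : (c.2 : K) * T.σ c.2 = c'.2 * T.σ c'.2 := by
    calc (c.2 : K) * T.σ c.2 = (T.σ c.1 * (T.σ c.2)⁻¹)⁻¹ * (T.σ c.1 * c.2) := by field_simp
      _ = _ := by rw [h4, h3]; field_simp
  refine MulEquiv.ext fun g => ?_
  ext <;> simp [h1, h2, n1, n2]

theorem lam : LamStmt T := by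
  rintro _ ⟨c, φ, rfl⟩ _ ⟨c', φ', rfl⟩ s
  have fin : (∀ m, c.1 * T.σ c.2 * φ m = c'.1 * T.σ c'.2 * φ' m) →
      c.1 * T.σ c.2 = c'.1 * T.σ c'.2 ∧ φ = φ' := fun k => by
    have k1 : c.1 * T.σ c.2 = c'.1 * T.σ c'.2 := by simpa using k 1
    exact ⟨k1, RingEquiv.ext fun m => mul_left_cancel₀
      (mul_ne_zero c.1.ne_zero (T.σ_ne_zero c.2.ne_zero)) ((k m).trans (by rw [k1]))⟩
  refine ⟨fun h => ?_, fun h => ?_⟩
  · have k : ∀ x ∈ Q T, uW s.d (lamW T c φ (wv x)) = lamW T c' φ' (wv x) := fun x hx => by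
      have hy : (tor T c * fld T φ) x ∈ Q T := by simp [mem_Q, show x.d = 0 from hx]
      rw [← wv_lam, ← wv_lam, ← wv_conj s hy, h x hx]
    obtain ⟨k1, rfl⟩ := fin fun m => by
      simpa [uW_apply, lamW_apply, wv] using congrArg Prod.snd (k (xm T m) rfl)
    exact lam_ext (by simpa [uW_apply, lamW_apply, wv] using congrArg Prod.fst (k (xt T 1) rfl)) k1
  · have hy : ∀ x ∈ J T, (tor T c * fld T φ) x ∈ J T := fun x hx => by
      simp [mem_J, show x.t = 0 from hx]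
    have e0 : φ T.ep ≠ 0 := (map_ne_zero_iff _ φ.injective).2 T.ep_ne
    have b2 := T.σ_ne_zero c.2.ne_zero
    have b4 := T.σ_ne_zero c'.2.ne_zero
    have st : s.t = 0 := by
      have := (conj_J s (hy (xd T T.ep (by simp)) rfl)).2.1
      rw [h _ rfl] at this
      simpa [e0, b2] using this
    have k : ∀ x ∈ J T, (tor T c * fld T φ) x = (tor T c' * fld T φ') x := fun x hx => by
      rw [← h x hx, comm_J (show s ∈ J T from st) (hy x hx), mul_inv_cancel_right]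
    obtain ⟨k1, rfl⟩ := fin fun m => by simpa using congrArg U.m (k (xm T m) rfl)
    have k2 : (c.2 : K) * T.σ c.2 = c'.2 * T.σ c'.2 := by
      simpa [e0] using congrArg U.d (k (xd T T.ep (by simp)) rfl)
    refine lam_ext ?_ k1
    calc (c.1 : K) * (c.2 : K)⁻¹ = c.1 * T.σ c.2 * (c.2 * T.σ c.2)⁻¹ := by field_simp
      _ = _ := by rw [k1, k2]; field_simp

theorem exists_c : ∃ c : Kˣ, T.σ c = (c : K)⁻¹ ∧ (c : K) ^ 2 ≠ 1 := by
  obtain ⟨x, hx⟩ : ∃ x, x ^ 2 ≠ T.σ x ^ 2 := by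
    by_contra! h
    have h1 := h T.om
    have h2 := h (1 + T.om)
    rw [map_add, map_one] at h2
    have h3 : (T.σ T.om - T.om) ^ 2 = 0 := by linear_combination T.om * h2 - (1 + T.om) * h1
    exact T.om_ne (sub_eq_zero.1 (pow_eq_zero_iff two_ne_zero |>.1 h3))
  have h0 : x ≠ 0 := fun e => hx (by simp [e])
  have h1 := T.σ_ne_zero h0
  refine ⟨Units.mk0 (x / T.σ x) (div_ne_zero h0 h1), by simp, fun e => hx ?_⟩
  rwa [Units.val_mk0, div_pow, div_eq_one_iff_eq (pow_ne_zero _ h1)] at e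

theorem wv_inv {g : U T} (hg : g ∈ Q T) : wv g⁻¹ = -wv g := by
  simp [wv, show g.d = 0 from hg]

theorem modZ {g k : U T} (hg : g ∈ Q T) (hk : k ∈ Q T) (e : wv g = wv k) : g * k⁻¹ ∈ Z T :=
  (wv_eq_zero (mul_mem hg (inv_mem hk))).1 (by rw [wv_mul (inv_mem hk), wv_inv hk, e, add_neg_cancel])

/-- the reflection as an automorphism of `Q` -/
noncomputable def om : MulAut (Q T) where
  toFun x := ⟨wQ x, wQ_mem _⟩
  invFun x := ⟨wQ (tor T (1, -1) x), wQ_mem _⟩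
  left_inv x := Subtype.ext (by
    have e : x.1.d = 0 := x.2
    have := T.ep_ne
    ext <;> simp [wQ, e] <;> field_simp <;> ring)
  right_inv x := Subtype.ext (by
    have e : x.1.d = 0 := x.2
    have := T.ep_ne
    ext <;> simp [wQ, e] <;> field_simp <;> ring)
  map_mul' x y := Subtype.ext (wQ_mul y.2)

theorem tor_mem (c : Kˣ × Kˣ) {g : U T} (hg : g ∈ Q T) : tor T c g ∈ Q T := by
  simp [mem_Q, show g.d = 0 from hg]

/-- the torus as a group of automorphisms of `Q` -/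
def tq (c : Kˣ × Kˣ) : MulAut (Q T) where
  toFun x := ⟨tor T c x, tor_mem c x.2⟩
  invFun x := ⟨tor T c⁻¹ x, tor_mem _ x.2⟩
  left_inv x := Subtype.ext (by
    change tor T c⁻¹ (tor T c x) = x
    rw [map_inv]; exact (tor T c).symm_apply_apply _)
  right_inv x := Subtype.ext (by
    change tor T c (tor T c⁻¹ x) = x
    rw [map_inv]; exact (tor T c).apply_symm_apply _)
  map_mul' x y := Subtype.ext (map_mul (tor T c) x.1 y.1)

theorem rigQ (h : InnQStmt T p) : RigQStmt T p := by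
  rintro C A hA hK hT ⟨n, hn, sw0⟩
  have sw := rhoW_eq.1 sw0
  obtain ⟨c, hc, hc2⟩ := exists_c (T := T)
  have c0 := c.ne_zero
  set δ : MulAut (Q T) := tq (c, c⁻¹) with hδ
  have δA : δ ∈ A := hA.res _ (hT c) δ fun x hx => ext_apply δ hx
  have wδ : ∀ x : Q T, wv (δ x : U T) = ((c : K) ^ 2 * x.1.t, (c : K) ^ 2 * x.1.m) :=
    fun x => by
      change wv (tor T (c, c⁻¹) x) = _
      simp [wv, hc, pow_two]
  have δZ : ∀ z : Q T, z.1 ∈ Z T → δ z = z := fun z hz => Subtype.ext (by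
    change tor T (c, c⁻¹) z = z
    ext <;> simp [hc, hz.1, hz.2.1, hz.2.2])
  have δω : δ * om = om * δ := MulEquiv.ext fun x => Subtype.ext (by
    change tor T (c, c⁻¹) (wQ x) = wQ (tor T (c, c⁻¹) x)
    ext <;> simp [wQ, hc] <;> field_simp)
  have sj : ∀ w : W K, ∃ x : Q T, wv (δ x : U T) = wv x.1 + w := fun w => by
    obtain ⟨x, hx, e⟩ := wv_surj (T := T)
      (w.1 / ((c : K) ^ 2 - 1), w.2 / ((c : K) ^ 2 - 1))
    refine ⟨⟨x, hx⟩, ?_⟩
    have h2 := sub_ne_zero.2 hc2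
    simp only [wv, Prod.mk.injEq] at e
    rw [wδ]
    simp only [wv, e.1, e.2]
    ext <;> simp only [Prod.fst_add, Prod.snd_add] <;> field_simp <;> ring
  set γ : MulAut (Q T) := om⁻¹ * n with hγ
  have wγ : ∀ x : Q T, wv (γ x : U T) = wv x.1 := fun x => by
    refine (nW (epu T)).injective ?_
    rw [← wv_wQ, ← sw x x.2, ext_coe]
    exact congrArg (fun y : Q T => wv y.1) (MulAut.apply_inv_self _ om (n x))
  have wγ' : ∀ x : Q T, wv (γ⁻¹ x : U T) = wv x.1 := fun x => by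
    rw [← wγ (γ⁻¹ x), MulAut.apply_inv_self]
  have γZ : ∀ z : Q T, z.1 ∈ Z T → γ z = z := fun z hz => Subtype.ext (by
    rw [← ext_coe]
    exact (h.1 γ (rhoW_eq.2 fun x hx => by rw [ext_apply γ hx, wγ]; rfl)).1 z hz)
  have wδ' : ∀ x y : Q T, wv x.1 = wv y.1 → wv (δ⁻¹ x : U T) = wv (δ⁻¹ y : U T) := fun x y e => by
    have e1 := wδ (δ⁻¹ x)
    have e2 := wδ (δ⁻¹ y)
    rw [MulAut.apply_inv_self] at e1 e2
    rw [e1, e2] at e
    simp only [Prod.mk.injEq] at e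
    exact Prod.ext (mul_left_cancel₀ (pow_ne_zero 2 c0) e.1)
      (mul_left_cancel₀ (pow_ne_zero 2 c0) e.2)
  have hκ : δ⁻¹ * n⁻¹ * δ * n = δ⁻¹ * γ⁻¹ * δ * γ := by
    rw [hγ, mul_inv_rev, inv_inv]
    simp only [mul_assoc]
    rw [← mul_assoc om δ, ← δω, mul_assoc, mul_inv_cancel_left]
  obtain ⟨e, he, he'⟩ := hK (δ⁻¹ * γ⁻¹ * δ * γ)
    (hκ ▸ mul_mem (mul_mem (mul_mem (inv_mem δA) (inv_mem hn)) δA) hn) (rhoW_eq.2 fun x hx => by
      rw [ext_apply _ hx]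
      change wv (δ⁻¹ (γ⁻¹ (δ (γ ⟨x, hx⟩))) : U T) = _
      rw [wδ' _ _ (wγ' _), MulAut.inv_apply_self, wγ]
      rfl)
  have e1 : δ⁻¹ * γ⁻¹ * δ * γ = MulAut.conj (⟨e, he⟩ : Q T) := MulEquiv.ext fun x =>
    Subtype.ext (by rw [← ext_coe, he' x x.2]; rfl)
  obtain ⟨f, hf⟩ := sj (-wv (δ ⟨e, he⟩ : U T))
  have e2 : MulAut.conj (δ (⟨e, he⟩ * f)) = MulAut.conj f := by
    have hz := modZ (δ (⟨e, he⟩ * f)).2 f.2 (by
      rw [map_mul, coe_mul, wv_mul (δ f).2, hf]; abel)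
    refine MulEquiv.ext fun x => Subtype.ext ?_
    have e3 : (δ (⟨e, he⟩ * f) : U T) = δ (⟨e, he⟩ * f) * (f : U T)⁻¹ * f := by group
    change (δ (⟨e, he⟩ * f) : U T) * x * (δ (⟨e, he⟩ * f) : U T)⁻¹ = f * x * (f : U T)⁻¹
    rw [e3]
    generalize (δ (⟨e, he⟩ * f) : U T) * (f : U T)⁻¹ = z at hz
    calc z * f * x * (z * f)⁻¹ = z * (f * x * (f : U T)⁻¹) * z⁻¹ := by group
      _ = _ := by rw [comm_Z hz, mul_inv_cancel_right]
  set γ' := γ * MulAut.conj f with hγ'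
  have e4 : δ * γ' = γ' * δ := by
    have e5 : δ * γ = γ * δ * MulAut.conj (⟨e, he⟩ : Q T) := by rw [← e1]; group
    have e6 : δ * MulAut.conj (⟨e, he⟩ * f : Q T) = MulAut.conj (δ (⟨e, he⟩ * f)) * δ :=
      MulEquiv.ext fun x => by simp
    calc δ * (γ * MulAut.conj f)
        = γ * (δ * (MulAut.conj (⟨e, he⟩ : Q T) * MulAut.conj f)) := by
          rw [← mul_assoc δ, e5]; simp only [mul_assoc]
      _ = γ * MulAut.conj f * δ := by rw [← map_mul, e6, e2, mul_assoc γ]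
  have w' : ∀ x : Q T, wv (γ' x : U T) = wv x.1 := fun x => by
    change wv (γ (f * x * f⁻¹) : U T) = _
    rw [wγ, coe_mul, coe_mul, wv_mul (f⁻¹).2, wv_mul x.2, coe_inv, wv_inv f.2]
    abel
  have z' : ∀ z : Q T, z.1 ∈ Z T → γ' z = z := fun z hz => by
    change γ (f * z * f⁻¹) = z
    rw [show f * z = z * f from Subtype.ext (comm_Z hz f).symm, mul_inv_cancel_right, γZ z hz]
  have e7 : γ' = 1 := MulEquiv.ext fun y => by
    obtain ⟨x, hx⟩ := sj (wv y.1)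
    have h1 : (γ' x * x⁻¹).1 ∈ Z T := modZ (γ' x).2 x.2 (w' x)
    have h2 : γ' (δ x) = γ' x * x⁻¹ * δ x := by
      have : δ (γ' x) = γ' (δ x) := MulEquiv.congr_fun e4 x
      rw [← this, ← δZ _ h1, ← map_mul, inv_mul_cancel_right]
    have h3 : γ' (x⁻¹ * δ x) = x⁻¹ * δ x := by
      have h4 : γ' x * x⁻¹ * x = x * (γ' x * x⁻¹) := Subtype.ext (comm_Z h1 x)
      rw [inv_mul_cancel_right] at h4
      rw [map_mul, map_inv, h2]
      nth_rewrite 1 [h4]
      have h5 : (γ' x * x⁻¹)⁻¹ * x⁻¹ = x⁻¹ * (γ' x * x⁻¹)⁻¹ :=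
        Subtype.ext (comm_Z (inv_mem h1) _)
      rw [mul_inv_rev, h5]
      group
    have h6 : (y * (x⁻¹ * δ x)⁻¹).1 ∈ Z T := modZ y.2 (x⁻¹ * δ x).2 (by
      rw [coe_mul, wv_mul (δ x).2, coe_inv, wv_inv x.2, hx]; abel)
    have h7 := z' _ h6
    rw [map_mul, map_inv, h3] at h7
    exact mul_right_cancel h7
  have e8 : om = n * MulAut.conj f := by
    rw [← inv_mul_eq_one, ← mul_assoc]
    exact e7
  refine ⟨om, e8 ▸ mul_mem hn (hA.cj f _ fun x hx => ext_apply _ hx),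
    fun x hx => ext_apply _ hx⟩

end Cfsg.Agent.H38.U4Rig
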