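import Mathlib
import Cfsg.Agent.H42.VpDefs

/-! A `p`-element fixing every class of a normal `p'`-subgroup centralizes it. -/

set_option autoImplicit false

namespace Cfsg.Agent.H38.VpI2

open Subgroup Cfsg Cfsg.Agent.H42.Vp

universe u

theorem jordan {K : Type u} [Group K] [Finite K] (C : Subgroup K)
    (h : ∀ k : K, ∃ g : K, g * k * g⁻¹ ∈ C) : C = ⊤ := by
  classical
  letI := Fintype.ofFinite K
  letI : Fintype (K ⧸ C) := Fintype.ofFinite _
  letI : ∀ a : K, Fintype (MulAction.fixedBy (K ⧸ C) a) := fun a => Fintype.ofFinite _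
  letI : Fintype (MulAction.orbitRel.Quotient K (K ⧸ C)) := Fintype.ofFinite _
  have hB := MulAction.sum_card_fixedBy_eq_card_orbits_mul_card_group K (K ⧸ C)
  have h1 : Fintype.card (MulAction.orbitRel.Quotient K (K ⧸ C)) ≤ 1 := by
    rw [Fintype.card_le_one_iff_subsingleton]
    exact (MulAction.pretransitive_iff_subsingleton_quotient K (K ⧸ C)).1 inferInstance
  have hpos : ∀ a : K, 1 ≤ Fintype.card (MulAction.fixedBy (K ⧸ C) a) := by
    intro a
    obtain ⟨g, hg⟩ := h a
    refine Fintype.card_pos_iff.2 ⟨⟨((g⁻¹ : K) : K ⧸ C), ?_⟩⟩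
    rw [MulAction.mem_fixedBy, MulAction.Quotient.smul_mk, QuotientGroup.eq]
    have := C.inv_mem hg
    simpa [mul_assoc] using this
  by_contra hne
  have hidx : 1 < Fintype.card (MulAction.fixedBy (K ⧸ C) (1 : K)) := by
    have e : Fintype.card (MulAction.fixedBy (K ⧸ C) (1 : K)) = Fintype.card (K ⧸ C) := by
      refine Fintype.card_congr (Equiv.subtypeUnivEquiv ?_)
      intro y
      simp [MulAction.mem_fixedBy]
    rw [e, ← Nat.card_eq_fintype_card, ← Subgroup.index_eq_card]
    exact Subgroup.one_lt_index_of_ne_top hne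
  have hlt : ∑ _a : K, 1 < ∑ a : K, Fintype.card (MulAction.fixedBy (K ⧸ C) a) :=
    Finset.sum_lt_sum (fun a _ => hpos a) ⟨1, Finset.mem_univ _, hidx⟩
  rw [hB] at hlt
  simp only [Finset.sum_const, Finset.card_univ, smul_eq_mul, mul_one] at hlt
  have := Nat.mul_le_mul_right (Fintype.card K) h1
  rw [one_mul] at this
  exact absurd (lt_of_lt_of_le hlt this) (lt_irrefl _)

theorem i2 : I2Stmt.{u} := by
  intro G _ _ p hp K _ x hcop hx hfix
  classical
  haveI : Fact p.Prime := ⟨hp⟩
  obtain ⟨m, hm⟩ := hx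
  have hP : IsPGroup p (zpowers x) := by
    intro a
    obtain ⟨a, n, rfl⟩ := a
    refine ⟨m, Subtype.ext ?_⟩
    simp only [SubgroupClass.coe_pow, OneMemClass.coe_one]
    rw [← zpow_natCast, ← zpow_mul, mul_comm, zpow_mul, zpow_natCast, hm, one_zpow]
  have key : ∀ k : K, ∃ g : K, g * k * g⁻¹ ∈ (centralizer {x}).subgroupOf K := by
    intro k
    let S : Set G := {y | ∃ h ∈ K, y = h * k * h⁻¹}
    have hstep : ∀ y ∈ S, x * y * x⁻¹ ∈ S := by
      rintro y ⟨h, hh, rfl⟩
      obtain ⟨h', hh', e⟩ := hfix (h * k * h⁻¹) (K.mul_mem (K.mul_mem hh k.2) (K.inv_mem hh))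
      exact ⟨h' * h, K.mul_mem hh' hh, by rw [e]; group⟩
    have hpow : ∀ n : ℕ, ∀ y ∈ S, x ^ n * y * (x ^ n)⁻¹ ∈ S := by
      intro n
      induction n with
      | zero => intro y hy; simpa using hy
      | succ n ih =>
        intro y hy
        have := hstep _ (ih y hy)
        convert this using 1
        rw [pow_succ']; group
    have hall : ∀ a : zpowers x, ∀ y ∈ S, (a : G) * y * (a : G)⁻¹ ∈ S := by
      rintro ⟨a, ha⟩ y hy
      obtain ⟨n, rfl⟩ := (mem_powers_iff_mem_zpowers.2 ha)
      exact hpow n y hy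
    letI act : MulAction (zpowers x) S :=
      { smul := fun a y => ⟨(a : G) * y * (a : G)⁻¹, hall a y y.2⟩
        one_smul := fun y => Subtype.ext (by
          show ((1 : zpowers x) : G) * y * ((1 : zpowers x) : G)⁻¹ = y
          simp)
        mul_smul := fun a b y => Subtype.ext (by
          show ((a * b : zpowers x) : G) * y * ((a * b : zpowers x) : G)⁻¹ =
            (a : G) * ((b : G) * y * (b : G)⁻¹) * (a : G)⁻¹
          simp [mul_assoc]) }
    have hcard : Nat.card S ∣ Nat.card K := by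
      have e : Nat.card S = Nat.card (MulAction.orbit (ConjAct K) k) := by
        have : S = Subtype.val '' (MulAction.orbit (ConjAct K) k) := by
          ext y
          constructor
          · rintro ⟨h, hh, rfl⟩
            exact ⟨_, ⟨ConjAct.toConjAct (⟨h, hh⟩ : K), rfl⟩, by simp [ConjAct.smul_def]⟩
          · rintro ⟨_, ⟨h, rfl⟩, rfl⟩
            exact ⟨(ConjAct.ofConjAct h : K), (ConjAct.ofConjAct h : K).2, by
              simp [ConjAct.smul_def]⟩
        rw [this]
        exact Nat.card_image_of_injective Subtype.val_injective _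
      rw [e, Nat.card_coe_set_eq, ← MulAction.index_stabilizer]
      exact Subgroup.index_dvd_card (G := ConjAct K) _
    have hnd : ¬ p ∣ Nat.card S := fun hd =>
      (hp.coprime_iff_not_dvd.1 hcop.symm) (hd.trans hcard)
    obtain ⟨⟨y, hy⟩, hfx⟩ := hP.nonempty_fixed_point_of_prime_not_dvd_card S hnd
    have e := congrArg Subtype.val (hfx ⟨x, mem_zpowers x⟩)
    change x * y * x⁻¹ = y at e
    obtain ⟨h, hh, rfl⟩ := hy
    refine ⟨⟨h, hh⟩, ?_⟩
    rw [mem_subgroupOf, mem_centralizer_singleton_iff]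
    show h * k * h⁻¹ * x = x * (h * k * h⁻¹)
    rw [← e]
    rw [e]
    exact (mul_inv_eq_iff_eq_mul.1 e).symm
  have htop := jordan _ key
  rw [mem_centralizer_iff]
  intro k hk
  have : (⟨k, hk⟩ : K) ∈ (centralizer {x}).subgroupOf K := by rw [htop]; trivial
  rw [mem_subgroupOf, mem_centralizer_singleton_iff] at this
  exact this

end Cfsg.Agent.H38.VpI2
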